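import Mathlib

/-!
Data for the `3`-local characterization of `A₈`.
-/

set_option autoImplicit false
set_option linter.unusedVariables false

namespace Cfsg.Agent.H12.Ae

open Subgroup Equiv

/-- `(S₃ × S₅) ∩ A₈` -/
abbrev E35 : Subgroup (Perm (Fin 3) × Perm (Fin 5)) :=
  (((Equiv.Perm.sign).comp (MonoidHom.fst (Equiv.Perm (Fin 3)) (Equiv.Perm (Fin 5)))) *
    ((Equiv.Perm.sign).comp (MonoidHom.snd (Equiv.Perm (Fin 3)) (Equiv.Perm (Fin 5))))).ker

theorem mem_E35 {x : Perm (Fin 3) × Perm (Fin 5)} :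
    x ∈ E35 ↔ Perm.sign x.1 * Perm.sign x.2 = 1 := Iff.rfl

/-- an element of `E35` -/
def el (a : Perm (Fin 3)) (b : Perm (Fin 5)) (h : Perm.sign a * Perm.sign b = 1 := by decide) :
    E35 := ⟨(a, b), h⟩

/-- an element of `A₈` -/
def a8 (a : Perm (Fin 8)) (h : Perm.sign a = 1 := by decide) : alternatingGroup (Fin 8) :=
  ⟨a, Perm.mem_alternatingGroup.2 h⟩

def zE : E35 := el (swap 0 1 * swap 1 2) 1
def zE' : E35 := el 1 (swap 0 1 * swap 1 2)
def eE : E35 := el 1 (swap 0 1 * swap 3 4)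
def eE' : E35 := el (swap 0 1) (swap 3 4)
def u1E : E35 := el 1 (swap 0 1 * swap 2 3)
def u2E : E35 := el 1 (swap 0 2 * swap 1 3)

def z0 : alternatingGroup (Fin 8) := a8 (swap 0 1 * swap 1 2)
def z0' : alternatingGroup (Fin 8) := a8 (swap 3 4 * swap 4 5)
def u1 : alternatingGroup (Fin 8) := a8 (swap 3 4 * swap 5 6)
def u2 : alternatingGroup (Fin 8) := a8 (swap 3 5 * swap 4 6)
def w1 : alternatingGroup (Fin 8) := a8 (swap 0 1 * swap 2 7)
def w2 : alternatingGroup (Fin 8) := a8 (swap 0 2 * swap 1 7)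
def s0 : alternatingGroup (Fin 8) := a8 (swap 0 3 * swap 1 4 * swap 2 5 * swap 6 7)
def r0 : alternatingGroup (Fin 8) := a8 (swap 0 1 * swap 3 4)

variable {G : Type*} [Group G]

/-- the normalizer of `⟨z⟩` together with an involution swapping `z` and `z'` -/
structure SA (ε : E35 →* G) (σ : G) : Prop where
  inj : Function.Injective ε
  rng : ∀ g, g ∈ ε.range ↔ g ∈ normalizer (zpowers (ε zE) : Set G)
  ss : σ * σ = 1
  sz : σ * ε zE * σ⁻¹ = ε zE'
  se : σ * ε eE * σ⁻¹ = ε eE'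
  cy : Nat.card (centralizer ({ε zE * ε zE'} : Set G)) = 18
  cz : Nat.card (centralizer ({ε zE} : Set G)) = 180
  syl : ∃ P : Sylow 3 G, Nat.card P = 9

/-- the amalgam of the normalizers of `⟨z⟩`, `⟨z'⟩` and of the four-group `U` -/
structure SB (ε ε' : E35 →* G) : Prop where
  inj : Function.Injective ε
  c1 : ε' zE = ε zE'
  c2 : ε' zE' = ε zE
  c3 : ε' eE = ε eE'
  c4 : ε' eE' = ε eE
  m11 : Commute (ε u1E) (ε' u1E)
  m12 : Commute (ε u1E) (ε' u2E)
  m21 : Commute (ε u2E) (ε' u1E)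
  m22 : Commute (ε u2E) (ε' u2E)

/-- a copy of `A₈` containing the relevant centralizers -/
structure SD (f : alternatingGroup (Fin 8) →* G) : Prop where
  inj : Function.Injective f
  cU : ∀ g, Commute g (f u1) → Commute g (f u2) → g ∈ (closure {u1, u2, w1, w2, z0}).map f
  cy : Nat.card (centralizer ({f z0 * f z0'} : Set G)) = 18
  cz : Nat.card (centralizer ({f z0} : Set G)) = 180
  syl : ∃ P : Sylow 3 G, Nat.card P = 9

theorem card_cen_conj [Finite G] (g x : G) : Nat.card (centralizer ({g * x * g⁻¹} : Set G)) =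
    Nat.card (centralizer ({x} : Set G)) := by
  refine Nat.card_congr ⟨fun w => ⟨g⁻¹ * w * g, ?_⟩, fun w => ⟨g * w * g⁻¹, ?_⟩,
    fun w => by ext; simp [mul_assoc], fun w => by ext; simp [mul_assoc]⟩
  · have h := mem_centralizer_singleton_iff.1 w.2
    rw [mem_centralizer_singleton_iff]
    calc g⁻¹ * w * g * x = g⁻¹ * (w * (g * x * g⁻¹)) * g := by group
      _ = _ := by rw [h]; group
  · have h := mem_centralizer_singleton_iff.1 w.2
    rw [mem_centralizer_singleton_iff]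
    calc g * w * g⁻¹ * (g * x * g⁻¹) = g * (w * x) * g⁻¹ := by group
      _ = _ := by rw [h]; group

/-- the centralizer of `z z'` is `⟨z, z'⟩⟨s⟩` -/
theorem cen_y [Finite G] {z z' s : G} (hz : orderOf z = 3) (hc : Commute z z')
    (hi : z' ∉ zpowers z) (ss : s * s = 1) (sz : s * z * s⁻¹ = z')
    (cy : Nat.card (centralizer ({z * z'} : Set G)) = 18) {g : G} (hg : Commute g (z * z')) :
    ∃ i j : ℕ, g = z ^ i * z' ^ j ∨ g = z ^ i * z' ^ j * s := by
  have hs : s⁻¹ = s := inv_eq_of_mul_eq_one_right ss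
  have sz' : s * z' * s⁻¹ = z := by
    rw [← sz, hs]
    calc _ = (s * s) * z * (s * s) := by group
      _ = z := by rw [ss]; group
  have z3 : z ^ 3 = 1 := hz ▸ pow_orderOf_eq_one z
  have z3' : z' ^ 3 = 1 := by rw [← sz, conj_pow, z3]; group
  have csy : Commute s (z * z') := by
    rw [Commute, SemiconjBy, ← mul_inv_eq_iff_eq_mul]
    calc _ = (s * z * s⁻¹) * (s * z' * s⁻¹) := by group
      _ = _ := by rw [sz, sz', hc.eq]
  have c1 : ∀ i j : ℕ, Commute (z ^ i * z' ^ j) (z * z') := fun i j =>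
    (((Commute.refl z).mul_right hc).pow_left i).mul_left
      ((hc.symm.mul_right (Commute.refl z')).pow_left j)
  let φ : Fin 3 × Fin 3 × Fin 2 → centralizer ({z * z'} : Set G) := fun x =>
    ⟨z ^ x.1.val * z' ^ x.2.1.val * s ^ x.2.2.val, mem_centralizer_singleton_iff.2
      ((c1 _ _).mul_left (csy.pow_left _))⟩
  have k1 : ∀ i j i' j' : Fin 3, z ^ i.val * z' ^ j.val = z ^ i'.val * z' ^ j'.val →
      i = i' ∧ j = j' := fun i j i' j' e => by
    have e1 : j = j' := by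
      by_contra hne
      apply hi
      have e2 : z' ^ j.val * (z' ^ j'.val)⁻¹ ∈ zpowers z := by
        rw [show z' ^ j.val * (z' ^ j'.val)⁻¹ = (z ^ i.val)⁻¹ * z ^ i'.val by
          rw [mul_inv_eq_iff_eq_mul, mul_assoc, ← e]; group]
        exact mul_mem (inv_mem (pow_mem (mem_zpowers z) _)) (pow_mem (mem_zpowers z) _)
      have q : ∀ x : G, x = z' ∨ x = z'⁻¹ ∨ x = z' ^ 2 ∨ x = (z' ^ 2)⁻¹ → x ∈ zpowers z →
          z' ∈ zpowers z := by
        have e4 : z' = (z' ^ 2) ^ 2 := by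
          rw [← pow_mul, show 2 * 2 = 3 + 1 from rfl, pow_succ, z3', one_mul]
        rintro x (rfl | rfl | rfl | rfl) hx
        · exact hx
        · exact inv_mem_iff.1 hx
        · rw [e4]; exact pow_mem hx 2
        · rw [e4]; exact pow_mem (inv_mem_iff.1 hx) 2
      refine q _ ?_ e2
      fin_cases j <;> fin_cases j' <;> simp [pow_two] at hne ⊢
    subst e1
    refine ⟨Fin.ext ?_, rfl⟩
    exact pow_injOn_Iio_orderOf (by simp [hz]) (by simp [hz]) (mul_right_cancel e)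
  have k2 : ∀ i j i' j' : ℕ, z ^ i * z' ^ j * s ≠ z ^ i' * z' ^ j' := fun i j i' j' e => by
    have e1 : Commute s z := by
      rw [show s = (z ^ i * z' ^ j)⁻¹ * (z ^ i' * z' ^ j') by rw [← e]; group]
      exact (((Commute.refl z).pow_left _).mul_left (hc.symm.pow_left _)).inv_left.mul_left
        (((Commute.refl z).pow_left _).mul_left (hc.symm.pow_left _))
    rw [e1.eq, mul_inv_cancel_right] at sz
    exact hi (sz ▸ mem_zpowers z)
  have hb : Function.Bijective φ := by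
    refine (Nat.bijective_iff_injective_and_card _).2 ⟨?_, by simp [cy]⟩
    rintro ⟨i, j, k⟩ ⟨i', j', k'⟩ e
    have e1 : z ^ i.val * z' ^ j.val * s ^ k.val = z ^ i'.val * z' ^ j'.val * s ^ k'.val :=
      congrArg Subtype.val e
    fin_cases k <;> fin_cases k' <;> simp at e1
    · obtain ⟨rfl, rfl⟩ := k1 _ _ _ _ e1; rfl
    · exact absurd e1.symm (k2 _ _ _ _)
    · exact absurd e1 (k2 _ _ _ _)
    · obtain ⟨rfl, rfl⟩ := k1 _ _ _ _ e1; rfl
  obtain ⟨⟨i, j, k⟩, e⟩ := hb.2 ⟨g, mem_centralizer_singleton_iff.2 hg⟩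
  have e1 : z ^ i.val * z' ^ j.val * s ^ k.val = g := congrArg Subtype.val e
  refine ⟨i, j, ?_⟩
  fin_cases k <;> simp at e1
  · exact Or.inl e1.symm
  · exact Or.inr e1.symm

/-- the common centralizer of `z z'` and `s` is `⟨z z'⟩⟨s⟩` -/
theorem cen_ys [Finite G] {z z' s : G} (hz : orderOf z = 3) (hc : Commute z z')
    (hi : z' ∉ zpowers z) (ss : s * s = 1) (sz : s * z * s⁻¹ = z')
    (cy : Nat.card (centralizer ({z * z'} : Set G)) = 18) {g : G} (hg : Commute g (z * z'))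
    (hs : Commute g s) : g ∈ zpowers (z * z') ∨ g * s ∈ zpowers (z * z') := by
  have hs' : s⁻¹ = s := inv_eq_of_mul_eq_one_right ss
  have sz' : s * z' * s⁻¹ = z := by
    rw [← sz, hs']
    calc _ = (s * s) * z * (s * s) := by group
      _ = z := by rw [ss]; group
  have z3 : z ^ 3 = 1 := hz ▸ pow_orderOf_eq_one z
  have z3' : z' ^ 3 = 1 := by rw [← sz, conj_pow, z3]; group
  have key : ∀ i j : ℕ, Commute (z ^ i * z' ^ j) s → z ^ i * z' ^ j ∈ zpowers (z * z') := by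
    intro i j h
    have e : z' ^ i * z ^ j = z ^ i * z' ^ j := by
      rw [← mul_inv_eq_iff_eq_mul.2 h.symm.eq]
      conv_lhs => rw [← sz', ← sz]
      rw [sz, ← sz, conj_pow, conj_pow, sz]; group
    rw [pow_eq_pow_mod i z3, pow_eq_pow_mod j z3', pow_eq_pow_mod i z3', pow_eq_pow_mod j z3] at e
    rw [pow_eq_pow_mod i z3, pow_eq_pow_mod j z3']
    have hi3 : i % 3 < 3 := Nat.mod_lt _ (by norm_num)
    have hj3 : j % 3 < 3 := Nat.mod_lt _ (by norm_num)
    generalize i % 3 = a at *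
    generalize j % 3 = b at *
    by_cases hab : a = b
    · subst hab
      rw [← hc.mul_pow]; exact pow_mem (mem_zpowers _) _
    · exfalso
      apply hi
      have e2 : z' ^ a * (z' ^ b)⁻¹ ∈ zpowers z := by
        rw [show z' ^ a * (z' ^ b)⁻¹ = z ^ a * (z ^ b)⁻¹ by
          rw [(hc.pow_pow a b).eq, (hc.symm.pow_pow a b).eq] at e
          calc _ = (z ^ b)⁻¹ * (z ^ b * z' ^ a) * (z' ^ b)⁻¹ := by group
            _ = (z ^ b)⁻¹ * (z ^ a * z' ^ b) * (z' ^ b)⁻¹ := by rw [e, (hc.pow_pow a b).eq]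
            _ = _ := by group]
        exact mul_mem (pow_mem (mem_zpowers z) _) (inv_mem (pow_mem (mem_zpowers z) _))
      have q : ∀ x : G, x = z' ∨ x = z'⁻¹ ∨ x = z' ^ 2 ∨ x = (z' ^ 2)⁻¹ → x ∈ zpowers z →
          z' ∈ zpowers z := by
        have e4 : z' = (z' ^ 2) ^ 2 := by
          rw [← pow_mul, show 2 * 2 = 3 + 1 from rfl, pow_succ, z3', one_mul]
        rintro x (rfl | rfl | rfl | rfl) hx
        · exact hx
        · exact inv_mem_iff.1 hx
        · rw [e4]; exact pow_mem hx 2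
        · rw [e4]; exact pow_mem (inv_mem_iff.1 hx) 2
      refine q _ ?_ e2
      interval_cases a <;> interval_cases b <;> simp [pow_two] at hab ⊢
  obtain ⟨i, j, rfl | rfl⟩ := cen_y hz hc hi ss sz cy hg
  · exact Or.inl (key i j hs)
  · refine Or.inr ?_
    rw [mul_assoc, ss, mul_one]
    refine key i j ?_
    have := hs.mul_left (Commute.refl s)
    rwa [mul_assoc, ss, mul_one] at this

/-- Sylow's theorem for abelian Sylow `3`-subgroups -/
theorem syl_comm [Finite G] (syl : ∃ P : Sylow 3 G, Nat.card P = 9) (C : Subgroup G) {a b : G}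
    (ha : a ∈ C) (hb : b ∈ C) (a3 : a ^ 3 = 1) (b3 : b ^ 3 = 1) :
    ∃ h ∈ C, Commute (h * a * h⁻¹) b := by
  haveI : Fact (Nat.Prime 3) := ⟨Nat.prime_three⟩
  obtain ⟨P0, hP0⟩ := syl
  have k : ∀ x : C, x ^ 3 = 1 → ∃ P : Sylow 3 C, x ∈ P := fun x hx => by
    have : IsPGroup 3 (zpowers x) := fun y => ⟨1, by
      obtain ⟨_, n, rfl⟩ := y
      ext1
      show (x ^ n) ^ (3 ^ 1) = 1
      rw [pow_one, ← zpow_natCast, ← zpow_mul, mul_comm, zpow_mul, zpow_natCast, hx, one_zpow]⟩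
    obtain ⟨P, hP⟩ := this.exists_le_sylow
    exact ⟨P, hP (mem_zpowers x)⟩
  obtain ⟨P, hP⟩ := k ⟨a, ha⟩ (Subtype.ext a3)
  obtain ⟨Q, hQ⟩ := k ⟨b, hb⟩ (Subtype.ext b3)
  obtain ⟨h, rfl⟩ := MulAction.exists_smul_eq C P Q
  obtain ⟨R, hR⟩ := ((h • P).isPGroup'.map C.subtype).exists_le_sylow
  have hc : Nat.card R = 3 ^ 2 := by rw [Nat.card_congr (Sylow.equiv R P0).toEquiv, hP0]; rfl
  have h1 : (h : G) * a * (h : G)⁻¹ ∈ R := hR ⟨h * ⟨a, ha⟩ * h⁻¹, by
    have : (h * ⟨a, ha⟩ * h⁻¹ : C) ∈ (h • P : Sylow 3 C) := by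
      rw [← SetLike.mem_coe, Sylow.coe_smul]
      exact ⟨_, hP, rfl⟩
    exact this, rfl⟩
  have h2 : b ∈ R := hR ⟨_, hQ, rfl⟩
  exact ⟨h, h.2, congrArg Subtype.val
    (IsPGroup.commutative_of_card_eq_prime_sq hc ⟨_, h1⟩ ⟨_, h2⟩)⟩

/-- `s` commutes with no conjugate of `z` -/
theorem not_comm [Finite G] {z z' s : G} (hz : orderOf z = 3) (hc : Commute z z')
    (hi : z' ∉ zpowers z) (ss : s * s = 1) (sz : s * z * s⁻¹ = z')
    (cy : Nat.card (centralizer ({z * z'} : Set G)) = 18)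
    (cz : Nat.card (centralizer ({z} : Set G)) = 180) (syl : ∃ P : Sylow 3 G, Nat.card P = 9)
    (g : G) : ¬ Commute (g * z * g⁻¹) s := by
  intro hg
  have hs : s⁻¹ = s := inv_eq_of_mul_eq_one_right ss
  have sz' : s * z' * s⁻¹ = z := by
    rw [← sz, hs]
    calc _ = (s * s) * z * (s * s) := by group
      _ = z := by rw [ss]; group
  have z3 : z ^ 3 = 1 := hz ▸ pow_orderOf_eq_one z
  have z3' : z' ^ 3 = 1 := by rw [← sz, conj_pow, z3]; group
  have y3 : (z * z') ^ 3 = 1 := by rw [hc.mul_pow, z3, z3', one_mul]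
  have csy : Commute (z * z') s := by
    symm
    rw [Commute, SemiconjBy, ← mul_inv_eq_iff_eq_mul]
    calc _ = (s * z * s⁻¹) * (s * z' * s⁻¹) := by group
      _ = _ := by rw [sz, sz', hc.eq]
  obtain ⟨h, hh, e⟩ := syl_comm syl (centralizer {s}) (mem_centralizer_singleton_iff.2 hg)
    (mem_centralizer_singleton_iff.2 csy) (by rw [conj_pow, z3]; group) y3
  have hx : h * (g * z * g⁻¹) * h⁻¹ = (h * g) * z * (h * g)⁻¹ := by group
  have hh' : Commute h s := mem_centralizer_singleton_iff.1 hh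
  have hxs : Commute (h * (g * z * g⁻¹) * h⁻¹) s := (hh'.mul_left hg).mul_left hh'.inv_left
  have x3 : (h * (g * z * g⁻¹) * h⁻¹) ^ 3 = 1 := by rw [hx, conj_pow, z3]; group
  have xo : orderOf (h * (g * z * g⁻¹) * h⁻¹) = 3 := by
    rw [hx, ← hz]; exact (MulAut.conj (h * g)).orderOf_eq z
  have xc := card_cen_conj (h * g) z
  rw [← hx, cz] at xc
  generalize h * (g * z * g⁻¹) * h⁻¹ = x at *
  have p3 : ∀ t ∈ zpowers (z * z'), t ^ 3 = 1 := by
    rintro _ ⟨n, rfl⟩
    rw [← zpow_natCast, ← zpow_mul, mul_comm, zpow_mul, zpow_natCast, y3, one_zpow]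
  rcases cen_ys hz hc hi ss sz cy e hxs with h1 | h1
  · haveI : Fact (Nat.Prime 3) := ⟨Nat.prime_three⟩
    have h2 : zpowers x = zpowers (z * z') := by
      refine Subgroup.eq_of_le_of_card_ge (zpowers_le.2 h1) ?_
      rw [Nat.card_zpowers, Nat.card_zpowers, xo]
      exact Nat.le_of_dvd (by norm_num) (orderOf_dvd_of_pow_eq_one y3)
    obtain ⟨n, hn⟩ : z * z' ∈ zpowers x := h2 ▸ mem_zpowers _
    have h3 : centralizer ({x} : Set G) ≤ centralizer {z * z'} := fun t ht => by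
      rw [mem_centralizer_singleton_iff] at ht ⊢
      rw [← hn]
      exact (Commute.zpow_right ht n).eq
    have := card_le_of_le h3
    omega
  · have h2 := p3 _ h1
    rw [hxs.mul_pow, x3, one_mul, pow_succ, pow_two, ss, one_mul] at h2
    rw [h2, one_mul, inv_one, mul_one] at sz
    exact hi (sz ▸ mem_zpowers z)

end Cfsg.Agent.H12.Ae
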