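import Mathlib

/-!
Involution centralizers with a self-centralizing element of order three modulo the involution.
-/

set_option autoImplicit false
set_option linter.unusedVariables false

namespace Cfsg.Agent.H12.Ae

open Subgroup Equiv

universe u

/-- the Feit–Thompson theorem on self-centralizing subgroups of order three -/
def FT3 : Prop := ∀ (G : Type u) [Group G] [Finite G] (X : Subgroup G), Nat.card X = 3 →
    Subgroup.centralizer (X : Set G) = X →
    (∃ (N : Subgroup G) (hN : N.Normal), Group.IsNilpotent N ∧ (Nat.card N).Coprime 3 ∧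
        (Nat.card (G ⧸ N) = 3 ∨ Nonempty (G ⧸ N ≃* Equiv.Perm (Fin 3)))) ∨
    (∃ (N : Subgroup G) (hN : N.Normal), IsMulCommutative N ∧ (∀ n ∈ N, n ^ 2 = 1) ∧
        Nonempty (G ⧸ N ≃* alternatingGroup (Fin 5))) ∨
    Nat.card G = 168

theorem d2_nil {N : Type*} [Group N] [Finite N] [Group.IsNilpotent N] {p : ℕ} (hp : p.Prime)
    (h2 : p ≠ 2) {x q : N} (hx : x ^ p = 1) {k : ℕ} (hq : q ^ 2 ^ k = 1) : Commute x q := by
  haveI : Fact p.Prime := ⟨hp⟩
  haveI : Fact (Nat.Prime 2) := ⟨Nat.prime_two⟩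
  have key : ∀ (r n : ℕ) (a : N), a ^ r ^ n = 1 → IsPGroup r (zpowers a) := fun r n a ha y => ⟨n, by
    obtain ⟨_, m, rfl⟩ := y
    ext1
    show (a ^ m) ^ (r ^ n) = 1
    rw [← zpow_natCast, ← zpow_mul, mul_comm, zpow_mul, zpow_natCast, ha, one_zpow]⟩
  obtain ⟨P, hP⟩ := (key p 1 x (by rwa [pow_one])).exists_le_sylow
  obtain ⟨T, hT⟩ := (key 2 k q hq).exists_le_sylow
  exact commute_of_normal_of_disjoint P T inferInstance inferInstance
    (IsPGroup.disjoint_of_ne p 2 h2 _ _ P.isPGroup' T.isPGroup') x q (hP (mem_zpowers x))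
    (hT (mem_zpowers q))

theorem d2_core (ft : FT3.{u}) {L : Type u} [Group L] [Finite L] {ζ y r : L} (hζ : orderOf ζ = 2)
    (cen : ∀ g, g * ζ = ζ * g) (hy : orderOf y = 3)
    (hC : ∀ g, Commute g y → g ∈ zpowers y ∨ g * ζ ∈ zpowers y) (h64 : 64 ∣ Nat.card L)
    (h128 : ¬ 128 ∣ Nat.card L) (rr : r * r = 1) (ry : r * y * r⁻¹ = y⁻¹) :
    ∃ π : L →* Perm (Fin 3), Function.Surjective π ∧ π ζ = 1 ∧ (Nat.card π.ker).Coprime 3 ∧
      ∀ (p k : ℕ) (x q : L), p.Prime → p ≠ 2 → x ^ p = 1 → q ^ 2 ^ k = 1 → π x = 1 → π q = 1 →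
        Commute x q := by
  haveI : Fact (Nat.Prime 2) := ⟨Nat.prime_two⟩
  haveI : Fact (Nat.Prime 3) := ⟨Nat.prime_three⟩
  have ζζ : ζ * ζ = 1 := by rw [← pow_two, ← hζ, pow_orderOf_eq_one]
  have ζ1 : ζ ≠ 1 := fun e => by simp [e] at hζ
  have y3 : y ^ 3 = 1 := hy ▸ pow_orderOf_eq_one y
  have mz : ∀ x ∈ zpowers ζ, x = 1 ∨ x = ζ := by
    rintro _ ⟨n, rfl⟩
    have e2 : ζ ^ (2 : ℤ) = 1 := by rw [zpow_two, ζζ]
    rcases Int.even_or_odd' n with ⟨k, rfl | rfl⟩
    · left; simp only; rw [zpow_mul, e2, one_zpow]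
    · right; simp only; rw [zpow_add, zpow_mul, e2, one_zpow, one_mul, zpow_one]
  haveI hZ : (zpowers ζ).Normal := ⟨fun x hx g => by
    rcases mz x hx with rfl | rfl
    · simp
    · rw [cen, mul_inv_cancel_right]; exact mem_zpowers _⟩
  have lift : ∀ (n : ℕ) (a b : L), Odd n → a ^ n = 1 →
      Commute (QuotientGroup.mk' (zpowers ζ) a) (QuotientGroup.mk' (zpowers ζ) b) →
      Commute a b := fun n a b hn ha h => by
    have h1 : a⁻¹ * (b * a * b⁻¹) ∈ zpowers ζ := by
      rw [← QuotientGroup.eq_one_iff]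
      change QuotientGroup.mk' (zpowers ζ) _ = 1
      rw [map_mul, map_mul, map_mul, map_inv, map_inv, ← h.eq]; group
    rcases mz _ h1 with e | e
    · rw [inv_mul_eq_one, eq_mul_inv_iff_mul_eq] at e
      exact e
    · exfalso
      rw [inv_mul_eq_iff_eq_mul] at e
      have e2 : (a * ζ) ^ n = 1 := by rw [← e, conj_pow, ha]; group
      obtain ⟨m, rfl⟩ := hn
      rw [(show Commute a ζ from cen a).mul_pow, ha, one_mul, pow_succ, pow_mul, pow_two, ζζ,
        one_pow, one_mul] at e2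
      exact ζ1 e2
  have cL : Nat.card L = Nat.card (L ⧸ zpowers ζ) * 2 := by
    rw [card_eq_card_quotient_mul_card_subgroup (zpowers ζ), Nat.card_zpowers, hζ]
  set m := QuotientGroup.mk' (zpowers ζ) with hm
  have mζ : m ζ = 1 := (QuotientGroup.eq_one_iff _).2 (mem_zpowers ζ)
  have my : orderOf (m y) = 3 := orderOf_eq_prime (by rw [← map_pow, y3, map_one]) fun e => by
    rcases mz y ((QuotientGroup.eq_one_iff _).1 e) with e | e
    · simp [e] at hy
    · rw [e, hζ] at hy; omega
  have hX : centralizer (zpowers (m y) : Set (L ⧸ zpowers ζ)) = zpowers (m y) := by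
    refine le_antisymm (fun g hg => ?_) (fun g hg x hx => ?_)
    · obtain ⟨g, rfl⟩ := QuotientGroup.mk'_surjective _ g
      have h1 := lift 3 y g (by decide) y3 (hg _ (mem_zpowers _))
      rw [← MonoidHom.map_zpowers]
      rcases hC g h1.symm with h2 | h2
      · exact ⟨g, h2, rfl⟩
      · exact ⟨_, h2, by rw [map_mul, mζ, mul_one]⟩
    · obtain ⟨a, rfl⟩ := hg
      obtain ⟨b, rfl⟩ := hx
      exact zpow_mul_comm _ _ _
  have hnd : ∀ N : Subgroup (L ⧸ zpowers ζ), (Nat.card N).Coprime 3 → ∀ x ∈ N,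
      x ∈ zpowers (m y) → x = 1 := fun N hN x hx hx' => by
    have h1 := N.orderOf_dvd_natCard hx
    have h2 := (zpowers (m y)).orderOf_dvd_natCard hx'
    rw [Nat.card_zpowers, my] at h2
    exact orderOf_eq_one_iff.1 (Nat.eq_one_of_dvd_coprimes hN h1 h2)
  rcases ft _ (zpowers (m y)) (by rw [Nat.card_zpowers, my]) hX with
    ⟨N, hN, nil, cop, h3 | ⟨⟨e⟩⟩⟩ | ⟨N, hN, ab, sq, ⟨e⟩⟩ | h168
  · exfalso
    have h1 : QuotientGroup.mk' N (m r) = 1 := by
      have a1 : QuotientGroup.mk' N (m r) ^ 3 = 1 := h3 ▸ pow_card_eq_one'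
      have a2 : QuotientGroup.mk' N (m r) * QuotientGroup.mk' N (m r) = 1 := by
        rw [← map_mul, ← map_mul, rr, map_one, map_one]
      rwa [pow_succ, pow_two, a2, one_mul] at a1
    have h2 : m y * m y ∈ N := by
      rw [← QuotientGroup.eq_one_iff]
      change QuotientGroup.mk' N _ = 1
      have := congrArg (fun t => QuotientGroup.mk' N (m t)) ry
      simp only [map_mul, map_inv, h1, one_mul, inv_one, mul_one] at this
      rw [map_mul]
      exact mul_eq_one_iff_eq_inv.2 this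
    have h4 := hnd N cop _ h2 (mul_mem (mem_zpowers _) (mem_zpowers _))
    have := orderOf_dvd_of_pow_eq_one (x := m y) (n := 2) (by rw [pow_two]; exact h4)
    rw [my] at this
    omega
  · let π : L →* Perm (Fin 3) := e.toMonoidHom.comp ((QuotientGroup.mk' N).comp m)
    have hπ : ∀ x, π x = 1 ↔ m x ∈ N := fun x => by
      simp only [π, MonoidHom.comp_apply, MulEquiv.coe_toMonoidHom, EmbeddingLike.map_eq_one_iff]
      exact QuotientGroup.eq_one_iff _
    have hs : Function.Surjective π := e.surjective.comp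
      ((QuotientGroup.mk'_surjective N).comp (QuotientGroup.mk'_surjective _))
    refine ⟨π, hs, (hπ _).2 (mζ ▸ one_mem N), ?_, fun p k x q hp h2 hx hq a b => ?_⟩
    · have c1 := π.ker.card_mul_index
      rw [index_ker, MonoidHom.range_eq_top.2 hs, card_top, cL,
        card_eq_card_quotient_mul_card_subgroup N, Nat.card_congr e.toEquiv] at c1
      have c2 : Nat.card π.ker = Nat.card N * 2 := by
        refine Nat.eq_of_mul_eq_mul_right (Nat.card_pos (α := Perm (Fin 3))) ?_
        rw [c1]; ring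
      rw [c2]
      exact Nat.Coprime.mul_left cop (by norm_num)
    · refine lift p x q (hp.odd_of_ne_two h2) hx ?_
      have := d2_nil (N := N) hp h2 (x := ⟨m x, (hπ x).1 a⟩) (q := ⟨m q, (hπ q).1 b⟩) (k := k)
        (by ext1; show m x ^ p = 1; rw [← map_pow, hx, map_one])
        (by ext1; show m q ^ 2 ^ k = 1; rw [← map_pow, hq, map_one])
      exact congrArg Subtype.val this
  · exfalso
    have pN : IsPGroup 2 N := fun x => ⟨1, by ext1; simpa using sq x x.2⟩
    obtain ⟨n, hn⟩ := IsPGroup.iff_card.1 pN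
    have c5 : Nat.card (alternatingGroup (Fin 5)) = 60 := by
      have := two_mul_nat_card_alternatingGroup (α := Fin 5)
      rw [Nat.card_perm, Nat.card_fin] at this
      simp [Nat.factorial] at this ⊢
      omega
    rw [card_eq_card_quotient_mul_card_subgroup N, Nat.card_congr e.toEquiv, c5, hn] at cL
    have n3 : n = 3 := by
      rw [cL] at h64 h128
      by_contra hne
      rcases Nat.lt_or_gt_of_ne hne with h | h
      · interval_cases n <;> omega
      · obtain ⟨j, rfl⟩ : ∃ j, n = j + 4 := ⟨n - 4, by omega⟩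
        exact h128 ⟨15 * 2 ^ j, by ring⟩
    subst n3
    letI : MulAction (zpowers (m y)) N := MulAction.compHom N
      ((MulAut.conjNormal : (L ⧸ zpowers ζ) →* MulAut N).comp (zpowers (m y)).subtype)
    have p3 : IsPGroup 3 (zpowers (m y)) := IsPGroup.of_card (n := 1) (by rw [Nat.card_zpowers, my]; rfl)
    have h1 := p3.card_modEq_card_fixedPoints N
    have h2 : Nat.card (MulAction.fixedPoints (zpowers (m y)) N) = 1 := by
      rw [Nat.card_eq_one_iff_exists]
      refine ⟨⟨1, fun g => map_one (MulAut.conjNormal (g : L ⧸ zpowers ζ) : MulAut N)⟩, ?_⟩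
      rintro ⟨x, hx⟩
      refine Subtype.ext (Subtype.ext (hnd N (by rw [hn]; norm_num) _ x.2 ?_))
      refine hX.le fun g hg => ?_
      have := congrArg Subtype.val (hx ⟨g, hg⟩)
      exact mul_inv_eq_iff_eq_mul.1 this
    rw [h2, hn] at h1
    exact absurd h1 (by decide)
  · rw [cL, h168] at h64
    omega

end Cfsg.Agent.H12.Ae
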