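import Mathlib
import Cfsg.Agent.H12.Ae0
import Cfsg.Agent.H12.AeD2a
import Cfsg.Agent.H29.ES
import Cfsg.Agent.H2.Cores
import Cfsg.Prelude.Def_CaseTheorems

/-!
The centralizer of a 2-central involution in the `3`-local characterization of `A₈`.
-/

set_option autoImplicit false
set_option linter.unusedVariables false

namespace Cfsg.Agent.H12.Ae

open Subgroup Equiv

universe u

/-- the recognition theorem for involution centralizers `2^{1+4}.S₃` -/
def H44 (G : Type*) [Group G] : Prop := ∀ (s : G) (hs : orderOf s = 2) (L : Subgroup G)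
    (hL : L = Subgroup.centralizer ({s} : Set G))
    (Q : Subgroup G) (hQ : Q = (Cfsg.pCore 2 L).map L.subtype)
    (hQex : Cfsg.IsExtraspecial 2 Q) (hQcard : Nat.card Q = 32)
    (e : L ⧸ Cfsg.pCore 2 L ≃* Equiv.Perm (Fin 3))
    (X : Sylow 3 L) (hCQX : Q ⊓ Subgroup.centralizer (((X : Subgroup L).map L.subtype :
      Subgroup G) : Set G) = Subgroup.zpowers s)
    (hnwc : ∃ g : G, g * s * g⁻¹ ∈ Q ∧ g * s * g⁻¹ ≠ s),
    Nat.card G = 1344 ∨ Nonempty (G ≃* alternatingGroup (Fin 8)) ∨ Nat.card G = 181440 ∨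
      Nat.card G = 95040

def d2k : alternatingGroup (Fin 8) :=
  a8 (swap 0 2 * swap 0 7 * swap 0 6 * swap 0 4 * swap 0 3 * swap 1 5)
def d2j : alternatingGroup (Fin 8) := a8 (swap 4 5 * swap 1 2)

theorem d2_six : ∀ a : Perm (Fin 3), a ^ (2 * 3) = 1 := by decide +kernel
theorem d2_sg : ∀ a : Perm (Fin 3), Perm.sign a = 1 → a * a = 1 → a = 1 := by decide
theorem d2_ab : ∀ a b : Perm (Fin 3), a * (b * (a⁻¹ * b⁻¹)) = 1 → a * a = 1 → b ^ 3 = 1 →
    b ≠ 1 → a = 1 := by decide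

theorem d2f1 : (u1 * w1) ^ 2 = 1 ∧ u1 * w1 ≠ 1 ∧ z0 ^ 3 = 1 ∧ z0 ≠ 1 ∧ z0 * z0' = z0' * z0 ∧
    z0 * u1 = u1 * z0 ∧ z0' * u1 ≠ u1 * z0' ∧ s0 * s0 = 1 ∧ s0 * z0 * s0⁻¹ = z0' ∧
    d2j * d2j = 1 ∧ d2j * (u2 * w2) * d2j⁻¹ = u1 * w1 ∧ d2j * u1 * d2j⁻¹ = u2 ∧
    s0 ≠ u1 * w1 := by decide +kernel

theorem d2f2 : d2k * (z0 * z0') * d2k⁻¹ * (u1 * w1) = (u1 * w1) * (d2k * (z0 * z0') * d2k⁻¹) ∧
    d2k * r0 * d2k⁻¹ * (u1 * w1) = (u1 * w1) * (d2k * r0 * d2k⁻¹) ∧
    (d2k * (z0 * z0') * d2k⁻¹) ^ 3 = 1 ∧ d2k * (z0 * z0') * d2k⁻¹ ≠ 1 ∧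
    d2k * s0 * d2k⁻¹ = u1 * w1 ∧ d2k * r0 * d2k⁻¹ * (d2k * r0 * d2k⁻¹) = 1 ∧
    d2k * r0 * d2k⁻¹ * (d2k * (z0 * z0') * d2k⁻¹) * (d2k * r0 * d2k⁻¹)⁻¹ =
      (d2k * (z0 * z0') * d2k⁻¹)⁻¹ := by decide +kernel

theorem d2_s3 (a : Perm (Fin 3)) {k : ℕ} (h : a ^ 2 ^ k = 1) : a * a = 1 := by
  have h1 := orderOf_dvd_of_pow_eq_one h
  have h2 : orderOf a ∣ 2 * 3 := orderOf_dvd_of_pow_eq_one (d2_six a)
  have h3 : Nat.Coprime (orderOf a) 3 :=
    Nat.Coprime.coprime_dvd_left h1 (Nat.Coprime.pow_left _ (by norm_num))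
  rw [← pow_two]
  exact orderOf_dvd_iff_pow_eq_one.1 (h3.dvd_of_dvd_mul_right h2)

theorem d2_comm {L : Type*} [Group L] (π : L →* Perm (Fin 3)) {q : L} (hq : q ∈ commutator L)
    {k : ℕ} (h : q ^ 2 ^ k = 1) : π q = 1 := by
  have h1 : Perm.sign (π q) = 1 :=
    (MonoidHom.mem_ker (f := Perm.sign.comp π)).1 (Abelianization.commutator_subset_ker (Perm.sign.comp π) hq)
  exact d2_sg _ h1 (d2_s3 (π q) (k := k) (by rw [← map_pow, h, map_one]))

theorem d2_main {G : Type u} [Group G] [Finite G] {f : alternatingGroup (Fin 8) →* G}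
    (ft : FT3.{u}) (h44 : H44 G) (h : SD f) (h128 : ¬ 128 ∣ Nat.card G)
    (hQ : ∃ Q0 : Subgroup (alternatingGroup (Fin 8)), Nat.card Q0 = 32 ∧ Cfsg.IsExtraspecial 2 Q0 ∧ u1 ∈ Q0 ∧ u2 * w2 ∈ Q0 ∧ s0 ∈ Q0 ∧ u1 * w1 ∈ Q0 ∧ Q0 ≤ ⁅centralizer {u1 * w1}, centralizer {u1 * w1}⁆ ∧ 64 ∣ Nat.card (centralizer ({u1 * w1} : Set (alternatingGroup (Fin 8)))) ∧ ∀ g ∈ closure {u1, u2, w1, w2, z0}, g ^ 6 = 1) :
    Nonempty (G ≃* alternatingGroup (Fin 8)) := by
  haveI : Fact (Nat.Prime 2) := ⟨Nat.prime_two⟩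
  haveI : Fact (Nat.Prime 3) := ⟨Nat.prime_three⟩
  obtain ⟨Q0, c32, es, m1, m2, m3, m4, hle, c64, h6⟩ := hQ
  obtain ⟨f1, f2, f3, f4, f5, f6, f7, f8, f9, f10, f11, f12, f13⟩ := d2f1
  obtain ⟨g1, g2, g3, g4, ks, g6, g7⟩ := d2f2
  have ord : ∀ (p : ℕ) [Fact p.Prime] (a : alternatingGroup (Fin 8)), a ^ p = 1 → a ≠ 1 →
      orderOf (f a) = p := fun p _ a h1 h2 => by
    rw [orderOf_injective f h.inj]; exact orderOf_eq_prime h1 h2
  have hζ : orderOf (f (u1 * w1)) = 2 := ord 2 _ f1 f2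
  set L := centralizer ({f (u1 * w1)} : Set G) with hL
  have mL : ∀ a, a * (u1 * w1) = (u1 * w1) * a → f a ∈ L := fun a e =>
    mem_centralizer_singleton_iff.2 (by rw [← map_mul, e, map_mul])
  have hmap : (centralizer {u1 * w1}).map f ≤ L := by
    rintro _ ⟨a, ha, rfl⟩
    exact mL a (mem_centralizer_singleton_iff.1 ha)
  let ζ : L := ⟨f (u1 * w1), mL _ rfl⟩
  let y : L := ⟨f (d2k * (z0 * z0') * d2k⁻¹), mL _ g1⟩
  let r : L := ⟨f (d2k * r0 * d2k⁻¹), mL _ g2⟩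
  have hy : orderOf y = 3 := by
    rw [← Subgroup.orderOf_coe]; exact ord 3 _ g3 g4
  have hC : ∀ g : L, Commute g y → g ∈ zpowers y ∨ g * ζ ∈ zpowers y := fun g hg => by
    have e1 : Commute (g : G) (f (d2k * (z0 * z0') * d2k⁻¹)) := congrArg Subtype.val hg
    have e2 : Commute (g : G) (f (u1 * w1)) := mem_centralizer_singleton_iff.1 g.2
    have cj : ∀ t : G, Commute (g : G) (f d2k * t * (f d2k)⁻¹) →
        Commute ((f d2k)⁻¹ * g * f d2k) t := fun t e => by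
      calc (f d2k)⁻¹ * g * f d2k * t = (f d2k)⁻¹ * (g * (f d2k * t * (f d2k)⁻¹)) * f d2k := by group
        _ = _ := by rw [e.eq]; group
    have key := cen_ys (z := f z0) (z' := f z0') (s := f s0) (ord 3 _ f3 f4)
      ((show Commute z0 z0' from f5).map f)
      (by
        rw [← MonoidHom.map_zpowers]
        rintro ⟨a, ⟨n, rfl⟩, e⟩
        have e' : z0 ^ n = z0' := h.inj e
        exact f7 (e' ▸ ((show Commute z0 u1 from f6).zpow_left n).eq))
      (by rw [← map_mul, f8, map_one])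
      (by rw [← map_inv, ← map_mul, ← map_mul, f9]) h.cy
      (cj _ (by simpa only [map_mul, map_inv] using e1))
      (cj _ (by rw [← ks] at e2; simpa only [map_mul, map_inv] using e2))
    have back : ∀ t : L, (f d2k)⁻¹ * t * f d2k ∈ zpowers (f z0 * f z0') → t ∈ zpowers y := by
      rintro t ⟨n, hn⟩
      refine ⟨n, Subtype.ext ?_⟩
      simp only [y, SubgroupClass.coe_zpow, map_mul, map_inv, conj_zpow] at hn ⊢
      rw [hn]; group
    refine key.imp (back g) fun e => back _ ?_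
    convert e using 1
    simp only [ζ, coe_mul, ← ks, map_mul, map_inv]
    group
  obtain ⟨π, hs, πζ, cop, cm⟩ := d2_core ft (ζ := ζ) (y := y) (r := r)
    (by rw [← Subgroup.orderOf_coe]; exact hζ)
    (fun g => Subtype.ext (mem_centralizer_singleton_iff.1 g.2)) hy hC
    (c64.trans (by rw [← card_map_of_injective h.inj]; exact card_dvd_of_le hmap))
    (fun e => h128 (e.trans (card_subgroup_dvd_card L)))
    (Subtype.ext (by
      simp only [r, coe_mul, ← map_mul, coe_one]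
      rw [g6, map_one]))
    (Subtype.ext (by
      simp only [r, y, coe_mul, coe_inv, ← map_mul, ← map_inv]
      rw [g7]))
  have hq : ∀ q ∈ Q0, ∃ hq : f q ∈ L, π ⟨f q, hq⟩ = 1 ∧ (⟨f q, hq⟩ : L) ^ 2 ^ 5 = 1 := by
    intro q hq
    have h1 : f q ∈ ⁅L, L⁆ := commutator_mono hmap hmap (by
      rw [← map_commutator]; exact ⟨q, hle hq, rfl⟩)
    rw [← map_subtype_commutator] at h1
    obtain ⟨t, ht, e⟩ := h1
    have h2 : t ^ 2 ^ 5 = 1 := by
      ext1
      rw [coe_pow, show (t : G) = f q from e, ← map_pow]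
      have := congrArg Subtype.val (pow_card_eq_one' (x := (⟨q, hq⟩ : Q0)))
      rw [c32] at this
      rw [show q ^ 2 ^ 5 = 1 from this, map_one, coe_one]
    have e' : (⟨f q, e ▸ t.2⟩ : L) = t := Subtype.ext e.symm
    exact ⟨e ▸ t.2, by rw [e']; exact d2_comm π ht h2, by rw [e']; exact h2⟩
  have star : ∀ (p : ℕ) (x : G), p.Prime → p ≠ 2 → p ≠ 3 → x ^ p = 1 →
      Commute x (f (u1 * w1)) → ∀ q ∈ Q0, Commute x (f q) := fun p x hp h2 h3 hx hc q hq' => by
    obtain ⟨a, b, c⟩ := hq q hq'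
    have hx' : (⟨x, mem_centralizer_singleton_iff.2 hc⟩ : L) ^ p = 1 := Subtype.ext hx
    refine congrArg Subtype.val (cm p 5 _ _ hp h2 hx' c ?_ b)
    have a1 := orderOf_dvd_of_pow_eq_one (x := π ⟨x, mem_centralizer_singleton_iff.2 hc⟩) (n := p)
      (by rw [← map_pow, hx', map_one])
    have a2 : orderOf (π ⟨x, mem_centralizer_singleton_iff.2 hc⟩) ∣ 2 * 3 :=
      orderOf_dvd_of_pow_eq_one (d2_six _)
    refine orderOf_eq_one_iff.1 (Nat.eq_one_of_dvd_coprimes ?_ a1 a2)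
    exact Nat.Coprime.mul_right ((Nat.coprime_primes hp Nat.prime_two).2 h2)
      ((Nat.coprime_primes hp Nat.prime_three).2 h3)
  have pk : IsPGroup 2 π.ker := by
    refine IsPGroup.iff_card.2 ⟨_, Nat.eq_prime_pow_of_unique_prime_dvd Nat.card_pos.ne' ?_⟩
    intro p hp hd
    by_contra h2
    have h3 : p ≠ 3 := by
      rintro rfl
      exact absurd (Nat.eq_one_of_dvd_coprimes cop hd dvd_rfl) (by norm_num)
    haveI : Fact p.Prime := ⟨hp⟩
    obtain ⟨x, hx⟩ := exists_prime_orderOf_dvd_card' (G := π.ker) p hd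
    rw [← Subgroup.orderOf_coe, ← Subgroup.orderOf_coe] at hx
    have xp : ((x : L) : G) ^ p = 1 := hx ▸ pow_orderOf_eq_one _
    have xc : Commute ((x : L) : G) (f (u1 * w1)) := mem_centralizer_singleton_iff.1 x.1.2
    generalize ((x : L) : G) = t at hx xp xc
    have a1 := star p t hp h2 h3 xp xc _ m1
    have a2 := star p t hp h2 h3 xp xc _ m2
    have jj : f d2j * f d2j = 1 := by rw [← map_mul, f10, map_one]
    have ji : (f d2j)⁻¹ = f d2j := inv_eq_of_mul_eq_one_right jj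
    have cj : ∀ (a b : G), Commute a b → Commute (f d2j * a * (f d2j)⁻¹) (f d2j * b * (f d2j)⁻¹) :=
      fun a b e => e.map (MulAut.conj (f d2j))
    have a3 := star p (f d2j * t * (f d2j)⁻¹) hp h2 h3 (by rw [conj_pow, xp]; group) (by
      have := cj _ _ a2
      rwa [← map_inv, ← map_mul, ← map_mul f, f11,
        map_inv] at this) _ m1
    have a4 := cj _ _ a3
    rw [← map_inv, ← map_mul, ← map_mul f, f12, map_inv,
      show f d2j * (f d2j * t * (f d2j)⁻¹) * (f d2j)⁻¹ = (f d2j * f d2j) * t * (f d2j * f d2j)⁻¹ by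
        group, jj, one_mul, inv_one, mul_one] at a4
    obtain ⟨c, hc, rfl⟩ := h.cU t a1 a4
    have a5 : p ∣ 2 * 3 := hx ▸ orderOf_dvd_of_pow_eq_one (by rw [← map_pow, h6 c hc, map_one])
    rcases (Nat.Prime.dvd_mul hp).1 a5 with e | e
    · exact h2 ((Nat.prime_dvd_prime_iff_eq hp Nat.prime_two).1 e)
    · exact h3 ((Nat.prime_dvd_prime_iff_eq hp Nat.prime_three).1 e)
  have πy : π y ≠ 1 := fun e => by
    have := π.ker.orderOf_dvd_natCard (show y ∈ π.ker from e)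
    rw [hy] at this
    exact absurd (Nat.eq_one_of_dvd_coprimes cop this dvd_rfl) (by norm_num)
  have hO : Cfsg.pCore 2 L = π.ker := by
    refine le_antisymm (fun q hq => ?_) (H2.le_pCore pk)
    obtain ⟨k, hk⟩ := H2.pCore_isPGroup (p := 2) (G := L) ⟨q, hq⟩
    have h1 : q * (y * q⁻¹ * y⁻¹) ∈ Cfsg.pCore 2 L :=
      mul_mem hq ((Cfsg.pCore_normal 2 L).conj_mem _ (inv_mem hq) y)
    obtain ⟨k', hk'⟩ := H2.pCore_isPGroup (p := 2) (G := L) ⟨_, h1⟩
    have h2 := d2_comm π (q := q * (y * q⁻¹ * y⁻¹)) (by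
      have := commutator_mem_commutator (mem_top q) (mem_top y)
      rwa [commutatorElement_def, mul_assoc, mul_assoc, ← mul_assoc y] at this)
      (congrArg Subtype.val hk')
    have h3 := d2_s3 (π q) (k := k) (by
      rw [← map_pow, show q ^ 2 ^ k = 1 from congrArg Subtype.val hk, map_one])
    have h4 : π y ^ 3 = 1 := by
      rw [← map_pow, show y ^ 3 = 1 from orderOf_dvd_iff_pow_eq_one.1 (by rw [hy]), map_one]
    simp only [map_mul, map_inv] at h2
    exact d2_ab _ _ (by rw [← mul_assoc (π y)]; exact h2) h3 h4 πy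
  have cK : Nat.card π.ker = 32 := by
    obtain ⟨n, hn⟩ := IsPGroup.iff_card.1 pk
    have c1 := π.ker.card_mul_index
    rw [index_ker, MonoidHom.range_eq_top.2 hs, card_top, Nat.card_perm, Nat.card_fin, hn] at c1
    have a : 64 ∣ Nat.card L :=
      c64.trans (by rw [← card_map_of_injective h.inj]; exact card_dvd_of_le hmap)
    have b : ¬ 128 ∣ Nat.card L := fun e => h128 (e.trans (card_subgroup_dvd_card L))
    rw [← c1] at a b
    rw [hn]
    have n5 : n = 5 := by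
      by_contra hne
      rcases Nat.lt_or_gt_of_ne hne with h | h
      · interval_cases n <;> simp [Nat.factorial] at a
      · obtain ⟨j, rfl⟩ : ∃ j, n = j + 6 := ⟨n - 6, by omega⟩
        exact b ⟨3 * 2 ^ j, by simp [Nat.factorial]; ring⟩
    rw [n5]; rfl
  have hQ : Q0.map f = (Cfsg.pCore 2 L).map L.subtype := by
    refine Subgroup.eq_of_le_of_card_ge ?_ ?_
    · rintro _ ⟨q, hq', rfl⟩
      obtain ⟨a, b, -⟩ := hq q hq'
      exact ⟨⟨_, a⟩, hO ▸ b, rfl⟩
    · rw [card_map_of_injective h.inj, card_map_of_injective L.subtype_injective, hO, cK, c32]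
  obtain ⟨X, hX⟩ := (IsPGroup.of_card (p := 3) (G := zpowers y) (n := 1)
    (by rw [Nat.card_zpowers, hy]; rfl)).exists_le_sylow
  obtain ⟨z, hz⟩ := H29.es_of_isExtraspecial es
  obtain ⟨P, hP⟩ := h.syl
  have c9 := (P : Subgroup G).card_mul_index
  have c3 : ¬ 3 ∣ (P : Subgroup G).index := P.not_dvd_index
  rw [hP] at c9
  rcases h44 _ hζ L hL _ hQ (hz.map f fun x _ e => h.inj (e.trans (map_one f).symm)).isExtraspecial
    (by rw [card_map_of_injective h.inj, c32])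
    ((QuotientGroup.quotientMulEquivOfEq hO).trans (QuotientGroup.quotientKerEquivOfSurjective π hs))
    X (by
      refine le_antisymm (fun t ht => ?_) (zpowers_le.2 ⟨⟨_, m4, rfl⟩, ?_⟩)
      · obtain ⟨⟨q, hq', rfl⟩, ht2⟩ := ht
        obtain ⟨a, b, c⟩ := hq q hq'
        have e : Commute (⟨f q, a⟩ : L) y :=
          Subtype.ext (ht2 y ⟨y, hX (mem_zpowers y), rfl⟩).symm
        have tr : ∀ t ∈ zpowers y, t ^ 2 ^ 5 = 1 → t = 1 := fun t h1 h2 => by
          have b1 := (zpowers y).orderOf_dvd_natCard h1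
          rw [Nat.card_zpowers, hy] at b1
          exact orderOf_eq_one_iff.1 (Nat.eq_one_of_dvd_coprimes (by norm_num)
            (orderOf_dvd_of_pow_eq_one h2) b1)
        have ζ2 : ζ * ζ = 1 := Subtype.ext (by
          rw [coe_mul, ← pow_two, ← hζ, pow_orderOf_eq_one, coe_one])
        rcases hC _ e with h1 | h1
        · rw [show f q = 1 from congrArg Subtype.val (tr _ h1 c)]; exact one_mem _
        · have h2 := tr _ h1 (by
            rw [(show Commute (⟨f q, a⟩ : L) ζ from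
              Subtype.ext (mem_centralizer_singleton_iff.1 a)).mul_pow, c, one_mul,
              show 2 ^ 5 = 2 * 16 from rfl, pow_mul, pow_two, ζ2, one_pow])
          rw [show f q = (f (u1 * w1))⁻¹ from
            congrArg Subtype.val (eq_inv_of_mul_eq_one_left h2)]
          exact inv_mem (mem_zpowers _)
      · rintro _ ⟨t, -, rfl⟩
        exact mem_centralizer_singleton_iff.1 t.2)
    ⟨(f d2k)⁻¹, by
      have : (f d2k)⁻¹ * f (u1 * w1) * (f d2k)⁻¹⁻¹ = f s0 := by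
        rw [← ks, map_mul, map_mul, map_inv]; group
      rw [this]
      exact ⟨⟨_, m3, rfl⟩, fun e => f13 (h.inj e)⟩⟩ with e | e | e | e
  · omega
  · exact e
  · omega
  · omega

end Cfsg.Agent.H12.Ae
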