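import Mathlib
import Cfsg.Agent.H12.AeD2b
import Cfsg.Agent.H23.AepQ

/-!
The Sylow `2`-subgroup in the `3`-local characterization of `A₈`.
-/

set_option autoImplicit false
set_option linter.unusedVariables false

namespace Cfsg.Agent.H12.Ae

open Subgroup Equiv

def d1g : Fin 6 → alternatingGroup (Fin 8) := ![u1, u2, u1 * u2, w1, w2, w1 * w2]

theorem d1f0 : ∀ i : Fin 64, u1 * (pQf6 i * pQf6 i) = (pQf6 i * pQf6 i) * u1 ∧
    u2 * (pQf6 i * pQf6 i) = (pQf6 i * pQf6 i) * u2 := by decide +kernel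

theorem d1f1 : ∀ i : Fin 64, pQf6 i * (r0 * u2 * (r0 * u2)) = (r0 * u2 * (r0 * u2)) * pQf6 i →
    pQf6 i * (s0 * u2 * (s0 * u2)) = (s0 * u2 * (s0 * u2)) * pQf6 i →
    pQf6 i = 1 ∨ (∃ a, pQf6 i = d1g a) ∨ ∃ a b : Fin 3,
      pQf6 i = z0 ^ a.val * z0' ^ b.val * d2k * s0 * (z0 ^ a.val * z0' ^ b.val * d2k)⁻¹ := by
  decide +kernel

theorem d1f2 : ∀ a b c : Fin 6, d1g a * d1g b = d1g c → ∃ (i j : Fin 2) (k : Fin 3),
    s0 ^ i.val * r0 ^ j.val * z0' ^ k.val * u1 * (s0 ^ i.val * r0 ^ j.val * z0' ^ k.val)⁻¹ = d1g a ∧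
    s0 ^ i.val * r0 ^ j.val * z0' ^ k.val * u2 * (s0 ^ i.val * r0 ^ j.val * z0' ^ k.val)⁻¹ =
      d1g b := by
  decide +kernel

theorem d1f3 : z0 * u2 = u2 * z0 ∧ u1 ≠ 1 ∧ u2 ≠ 1 ∧ u1 * u2 ≠ 1 := by decide +kernel

theorem d1_main {G : Type*} [Group G] [Finite G] {f : alternatingGroup (Fin 8) →* G} (h : SD f) :
    ¬ 128 ∣ Nat.card G := by
  intro hd
  haveI : Fact (Nat.Prime 2) := ⟨Nat.prime_two⟩
  haveI : Fact (Nat.Prime 3) := ⟨Nat.prime_three⟩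
  obtain ⟨f1, f2, f3, f4, f5, f6, f7, f8, f9, -⟩ := d2f1
  obtain ⟨g1, g2, g3, g4⟩ := d1f3
  have m : ∀ a, pQg6 a ∈ closure (Set.range pQg6) := fun a => subset_closure ⟨a, rfl⟩
  set T0 := closure (Set.range pQg6) with hT0
  have cT : Nat.card (T0.map f) = 2 ^ 6 := by rw [card_map_of_injective h.inj, pQ_c6]; rfl
  obtain ⟨S, cS, hS⟩ := Sylow.exists_subgroup_card_pow_succ (p := 2) (n := 6) hd cT
  have hi : ((T0.map f).subgroupOf S).index = 2 := by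
    have := ((T0.map f).subgroupOf S).card_mul_index
    rw [Nat.card_congr (subgroupOfEquivOfLe hS).toEquiv, cT, cS] at this
    omega
  have hN : ∀ g ∈ S, ∀ t ∈ T0, ∃ i : Fin 64, f (pQf6 i) = g * f t * g⁻¹ := fun g hg t ht => by
    obtain ⟨a, ha, e⟩ : g * f t * g⁻¹ ∈ T0.map f :=
      (normal_of_index_eq_two hi).conj_mem ⟨f t, hS ⟨t, ht, rfl⟩⟩ ⟨t, ht, rfl⟩ ⟨g, hg⟩
    obtain ⟨i, rfl⟩ := pQ_s6 a ha
    exact ⟨i, e⟩
  have nc := not_comm (z := f z0) (z' := f z0') (s := f s0)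
    (by rw [orderOf_injective f h.inj]; exact orderOf_eq_prime f3 f4)
    ((show Commute z0 z0' from f5).map f)
    (by
      rw [← MonoidHom.map_zpowers]
      rintro ⟨a, ⟨n, rfl⟩, e⟩
      have e' : z0 ^ n = z0' := h.inj e
      exact f7 (e' ▸ ((show Commute z0 u1 from f6).zpow_left n).eq))
    (by rw [← map_mul, f8, map_one])
    (by rw [← map_inv, ← map_mul, ← map_mul, f9]) h.cy h.cz h.syl
  have hle : S ≤ f.range := fun g hg => by
    have key : ∀ v ∈ T0, v ≠ 1 → Commute z0 v → (∀ i : Fin 64, Commute v (pQf6 i * pQf6 i)) →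
        ∃ a, f (d1g a) = g * f v * g⁻¹ := fun v hv v1 vz vc => by
      obtain ⟨i, e⟩ := hN g hg v hv
      have sq : ∀ t ∈ T0, pQf6 i * (t * t) = t * t * pQf6 i := fun t ht => by
        obtain ⟨j, e'⟩ := hN g⁻¹ (inv_mem hg) t ht
        have c := ((vc j).map f).eq
        apply h.inj
        simp only [map_mul, e, e'] at c ⊢
        calc _ = g * (f v * (g⁻¹ * f t * g⁻¹⁻¹ * (g⁻¹ * f t * g⁻¹⁻¹))) * g⁻¹ := by group
          _ = _ := by rw [c]; group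
      rcases d1f1 i (sq _ (mul_mem (m 2) (m 5))) (sq _ (mul_mem (m 4) (m 5))) with
        e1 | ⟨a, e1⟩ | ⟨a, b, e1⟩
      · rw [e1, map_one, eq_comm, conj_eq_one_iff] at e
        exact (v1 (h.inj (e.trans (map_one f).symm))).elim
      · exact ⟨a, e1 ▸ e⟩
      · generalize z0 ^ a.val * z0' ^ b.val * d2k = k at e1
        rw [e1, map_mul, map_mul, map_inv] at e
        refine (nc ((f k)⁻¹ * g) ?_).elim
        rw [show f s0 = ((f k)⁻¹ * g) * f v * ((f k)⁻¹ * g)⁻¹ by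
          calc _ = (f k)⁻¹ * (f k * f s0 * (f k)⁻¹) * f k := by group
            _ = _ := by rw [e]; group]
        exact (vz.map f).map (MulAut.conj ((f k)⁻¹ * g))
    obtain ⟨a, ea⟩ := key u1 (m 0) g2 f6 fun i => (d1f0 i).1
    obtain ⟨b, eb⟩ := key u2 (m 5) g3 g1 fun i => (d1f0 i).2
    obtain ⟨c, ec⟩ := key (u1 * u2) (mul_mem (m 0) (m 5)) g4 (Commute.mul_right f6 g1)
      fun i => Commute.mul_left (d1f0 i).1 (d1f0 i).2
    obtain ⟨i, j, k, e1, e2⟩ := d1f2 a b c (h.inj (by rw [map_mul, ea, eb, ec, map_mul]; group))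
    generalize s0 ^ i.val * r0 ^ j.val * z0' ^ k.val = t at e1 e2
    have cm : ∀ v x, t * v * t⁻¹ = x → f x = g * f v * g⁻¹ → Commute ((f t)⁻¹ * g) (f v) := by
      rintro v _ rfl e
      rw [map_mul, map_mul, map_inv] at e
      calc (f t)⁻¹ * g * f v = (f t)⁻¹ * (g * f v * g⁻¹) * g := by group
        _ = _ := by rw [← e]; group
    obtain ⟨x, -, e⟩ := h.cU _ (cm _ _ e1 ea) (cm _ _ e2 eb)
    exact ⟨t * x, by rw [map_mul, e]; group⟩
  have c1 := card_dvd_of_le hle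
  have c2 := two_mul_nat_card_alternatingGroup (α := Fin 8)
  rw [cS, ← Nat.card_congr (MonoidHom.ofInjective h.inj).toEquiv] at c1
  rw [Nat.card_perm, Nat.card_fin] at c2
  simp only [Nat.factorial] at c2
  omega

end Cfsg.Agent.H12.Ae
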