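import Mathlib
import Cfsg.Agent.H12.PrCT
import Cfsg.Agent.H7.Pr10

/-!
Steinberg's theorem for symplectic groups over arbitrary fields, from a cover by subgroups on which
the projection is injective.
-/

set_option autoImplicit false
set_option linter.unusedSectionVars false

namespace Cfsg.Agent.H12

open H10 H11 H17 H17.CT H17.Frame H19.St RGD H7.Pr
open scoped MatrixGroups

universe u

/-- the homomorphism is injective on the subgroup -/
def InjS {E G : Type*} [Group E] [Group G] (f : E →* G) (K : Subgroup E) : Prop :=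
  ∀ g ∈ K, f g = 1 → g = 1

section InjS
variable {E G : Type*} [Group E] [Group G] {f : E →* G} {K K' : Subgroup E}

theorem InjS.mono (h : InjS f K) (e : K' ≤ K) : InjS f K' := fun g hg => h g (e hg)

theorem InjS.eq (h : InjS f K) {a b : E} (ha : a ∈ K) (hb : b ∈ K) (e : f a = f b) : a = b :=
  mul_inv_eq_one.1 (h _ (mul_mem ha (inv_mem hb)) (by simp [e]))

theorem InjS.mem (h : InjS f K) (e : K' ≤ K) {a : E} (ha : a ∈ K) (h1 : f a ∈ K'.map f) : a ∈ K' := by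
  obtain ⟨b, hb, e1⟩ := h1
  rwa [h.eq ha (e hb) e1.symm]

theorem InjS.comm (h : InjS f K) {a b : E} (ha : a ∈ K) (hb : b ∈ K) (e : f a * f b = f b * f a) :
    a * b = b * a := h.eq (mul_mem ha hb) (mul_mem hb ha) (by simp [e])

theorem InjS.cmIn (h : InjS f K) {A A' D : Subgroup E} (h1 : A ≤ K) (h2 : A' ≤ K) (h3 : D ≤ K)
    (e : CmIn (A.map f) (A'.map f) (D.map f)) : CmIn A A' D := fun a ha b hb =>
  h.mem h3 (mul_mem (mul_mem (mul_mem (h1 ha) (h2 hb)) (inv_mem (h1 ha))) (inv_mem (h2 hb)))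
    (by simpa using e _ ⟨a, ha, rfl⟩ _ ⟨b, hb, rfl⟩)

theorem InjS.conj (h : InjS f K) (g : E) : InjS f (K.map (MulAut.conj g).toMonoidHom) := by
  rintro _ ⟨a, ha, rfl⟩ e
  rw [h a ha (by simpa using e), map_one]

end InjS

theorem RGD.Pre.rel_of {Φ I : Type*} [DecidableEq I] {R : RS Φ I ℤ} {G : Type*} [Group G]
    {X : RGD R G} [Fintype I] [Finite Φ] {E : Type*} [Group E] {f : E →* G} (Y : Pre X f)
    {K : Type*} [Field K] {i : I} {x y : K → E} (hx : ∀ t, x t ∈ Y.V (R.simple i))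
    (hy : ∀ t, y t ∈ Y.V (R.neg (R.simple i))) (h : Rel (fun t => f (x t)) fun t => f (y t))
    (hw : ∀ t, t ≠ 0 → X.Rep (f (ww x y t)) (R.s i)) : Rel x y := by
  refine ⟨fun s t => Y.eq_of_V (hx _) (mul_mem (hx _) (hx _))
    (by simpa using h.x_add s t), fun s t => Y.eq_of_V (hy _) (mul_mem (hy _) (hy _))
    (by simpa using h.y_add s t), fun t ht u => ?_⟩
  have h1 := Y.conj_L (g := ww x y t) (mul_mem (mul_mem (Subgroup.mem_sup_left (hx _))
    (Subgroup.mem_sup_right (hy _))) (Subgroup.mem_sup_left (hx _))) (R.s_mem_WJ rfl) (hw t ht)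
    (hx u)
  rw [R.s_smul, R.sref_simple] at h1
  exact mul_inv_eq_iff_eq_mul.1 (Y.eq_of_V h1 (hy _) (by
    rw [map_mul, map_inv, mul_inv_eq_iff_eq_mul]
    simpa [ww] using h.conj t ht u))

section General
variable {F : Type*} [Field F] {V : Type*} [AddCommGroup V] [Module F V] {σ : F →+* F}
  {C : H17.CT} {ε κ : F} {τ : F →+ F} {B : V →ₛₗ[σ] V →ₗ[F] F} {Q : V → F}
  [FiniteDimensional F V] {P : Frame C ℤ ε κ τ B Q} {E : Type*} [Group E] {f : E →* P.cl.Om}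

theorem rep_mo {i : Fin C.n} (h : idx (C.sa i) ≠ idx (C.sb i)) {t : F} (ht : t ≠ 0) :
    P.rgdO.Rep (P.mo (C.sa i) (C.sb i) t) ((C.rs ℤ).s i) := by
  simpa using (rep_m (X := P.rgdO) i).T_mul (P.mem_T_of_mon (g' := P.rgdO.m i) (P.mon_mo h ht)
    (P.mon_m i))

theorem FS.mem_L' (S : FS P f) {i : Fin C.n} (h : idx (C.sa i) ≠ idx (C.sb i))
    (hm : ∀ t u, t ≠ 0 → u ≠ 0 → S.m (C.sa i) (C.sb i) (t * u) * (S.m (C.sa i) (C.sb i) 1)⁻¹ =
      S.m (C.sa i) (C.sb i) t * (S.m (C.sa i) (C.sb i) 1)⁻¹ *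
        (S.m (C.sa i) (C.sb i) u * (S.m (C.sa i) (C.sb i) 1)⁻¹)) {g : E}
    (hg : g ∈ S.pre.L i) (ht : f g ∈ P.rgdO.T) :
    ∃ t, t ≠ 0 ∧ g = S.m (C.sa i) (C.sb i) t * (S.m (C.sa i) (C.sb i) 1)⁻¹ := by
  have e1 : S.pre.V ((C.rs ℤ).simple i) = S.X (C.sa i) (C.sb i) := S.V_rx h
  have e3 : ∀ t, t ≠ 0 → P.rgdO.Rep (P.mo (C.sa i) (C.sb i) t) ((C.rs ℤ).s i) := fun t ht =>
    rep_mo h ht
  have e2 : S.pre.V ((C.rs ℤ).neg ((C.rs ℤ).simple i)) = S.X (C.sa i).swap (C.sb i).swap := by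
    rw [CT.rs_simple, neg_rt]; exact S.V_rx ix
  generalize C.sa i = a at *
  generalize C.sb i = b at *
  have h' : idx a.swap ≠ idx b.swap := ix
  have e4 : ∀ t, ww (S.x a b) (fun s => S.x a.swap b.swap (-(P.β a * P.β b) * σ s)) t = S.m a b t :=
    fun t => by simp [ww, FS.m]
  obtain ⟨φ, h1, h2⟩ := exists_hom (S.pre.rel_of (i := i) (x := S.x a b)
    (y := fun s => S.x a.swap b.swap (-(P.β a * P.β b) * σ s)) (fun t => e1 ▸ (S.x_spec h t).1)
    (fun t => e2 ▸ (S.x_spec h' _).1) ⟨fun s t => by simp only [(S.x_spec h _).2, P.xo_add h],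
      fun s t => by simp only [(S.x_spec h' _).2, map_add, mul_add, P.xo_add h'], fun t ht u => by
        have := e4 t
        simp only [ww] at this
        rw [← map_mul, ← map_mul, this, S.map_m h, (S.x_spec h _).2, (S.x_spec h' _).2,
          ← mul_inv_eq_iff_eq_mul, conj_xo (c := b.swap) (d := a.swap) h h'.symm
          (by rw [P.mo_val h]; exact P.mX_left nx nx ht)
          (by rw [P.mo_val h]; exact P.mX_right nx nx ht), P.xo_comm h']
        congr 1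
        simp only [map_mul, map_neg, map_inv₀, P.cl.invol, P.sigma_β, P.cl.sigma_eps, map_div₀,
          map_pow]
        field_simp
        linear_combination (P.β a * P.β b * σ u * (σ t)⁻¹ ^ 2) * P.cl.eps_mul⟩
    fun t ht => by rw [e4, S.map_m h]; exact e3 t ht) fun t u ht hu => by
      simp only [hh, e4]; exact hm t u ht hu
  have e5 : ∀ t, φ (ww xx yy t) = S.m a b t := fun t => by
    rw [← e4]; simp only [ww, map_mul, h1, h2]
  have e6 : ∀ t, φ (hh xx yy t) = S.m a b t * (S.m a b 1)⁻¹ := fun t => by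
    rw [hh, map_mul, map_inv, e5, e5]
  simpa only [e6] using S.pre.mem_of_sl2 φ (fun v => by
      rw [e1]; simp only [h1]
      exact ⟨S.exists_x h, by rintro ⟨t, rfl⟩; exact (S.x_spec h t).1⟩)
    (fun v hv => by
      obtain ⟨t, rfl⟩ := S.exists_x h' (e2 ▸ hv)
      refine ⟨σ (-(P.β a * P.β b) * t), ?_⟩
      rw [h2, P.cl.invol]
      congr 1
      linear_combination (-t * P.β b * P.β b) * P.β_mul a - t * P.β_mul b)
    (fun t ht => by rw [e6, map_mul, map_inv, S.map_m h, S.map_m h]; exact P.ho_mem h ht)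
    (fun t ht => by rw [e5, S.map_m h]; exact e3 t ht) hg ht

end General

theorem exists_end {n : ℕ} {i₀ i₁ : Fin n} (h : i₀ ≠ i₁) {a b c d : Fin n ⊕ Fin n}
    (h1 : b ≠ a.swap) (h2 : d ≠ c.swap) (h3 : c ≠ a.swap ∨ d ≠ b.swap) (h4 : c ≠ b.swap ∨ d ≠ a.swap) :
    ∃ e, (jx e = i₀ ∨ jx e = i₁) ∧ a ≠ e.swap ∧ b ≠ e.swap ∧ c ≠ e.swap ∧ d ≠ e.swap := by
  by_contra hc
  push Not at hc
  have a1 := hc (.inl i₀) (.inl rfl)
  have a2 := hc (.inr i₀) (.inl rfl)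
  have a3 := hc (.inl i₁) (.inr rfl)
  have a4 := hc (.inr i₁) (.inr rfl)
  clear hc
  rcases a with a | a <;> rcases b with b | b <;> rcases c with c | c <;> rcases d with d | d <;>
    simp only [Sum.swap_inl, Sum.swap_inr, ne_eq, Sum.inl.injEq, Sum.inr.injEq, reduceCtorEq,
      not_false_eq_true, forall_const, imp_false, not_not] at * <;> grind

variable {F : Type u} [Field F] {V : Type u} [AddCommGroup V] [Module F V]
  {C : H17.CT} {B : V →ₗ[F] V →ₗ[F] F} {Q : V → F} [FiniteDimensional F V]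
  {P : Frame (σ := RingHom.id F) C ℤ (-1) 0 0 B Q} {E : Type*} [Group E] {f : E →* P.cl.Om}

variable (P f) in
/-- lifts of the root groups covered by subgroups on which the projection is injective -/
structure Cover where
  W : C.ι → C.ι → Subgroup E
  K : C.ι → Subgroup E
  i₀ : Fin C.n
  i₁ : Fin C.n
  ne : i₀ ≠ i₁
  sym : ∀ a b, W b a = W a b
  map : ∀ a b, b ≠ a.swap → ∀ g, g ∈ (W a b).map f ↔ ∃ t, g = ym P a b t
  inj : ∀ e, jx e = i₀ ∨ jx e = i₁ → InjS f (K e)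
  le : ∀ e, jx e = i₀ ∨ jx e = i₁ → ∀ a b, b ≠ a.swap → a ≠ e.swap → b ≠ e.swap → W a b ≤ K e

namespace Cover
variable (Y : Cover P f)

theorem exK {a b c d : C.ι} (h1 : b ≠ a.swap) (h2 : d ≠ c.swap) (h3 : c ≠ a.swap ∨ d ≠ b.swap)
    (h4 : c ≠ b.swap ∨ d ≠ a.swap) : ∃ K, InjS f K ∧ ∀ p ∈ [a, b, c, d], ∀ q ∈ [a, b, c, d],
      q ≠ p.swap → Y.W p q ≤ K := by
  obtain ⟨e, he, a1, a2, a3, a4⟩ := exists_end Y.ne h1 h2 h3 h4
  have : ∀ p ∈ [a, b, c, d], p ≠ e.swap := by simp [a1, a2, a3, a4]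
  exact ⟨_, Y.inj e he, fun p hp q hq h => Y.le e he p q h (this p hp) (this q hq)⟩

theorem mapX {a b : C.ι} (h : idx a ≠ idx b) : (Y.W a b).map f = P.rgdO.U (rx ℤ h) := by
  ext g; rw [Y.map a b nx, ym_mem]

theorem mapY (a : C.ι) : (Y.W a a).map f = P.rgdO.U (ry ℤ P.isD_sp a) := by
  ext g; rw [Y.map a a (swap_ne_self a).symm, ym_mem]

theorem injW {a b : C.ι} (h : b ≠ a.swap) : InjS f (Y.W a b) := by
  obtain ⟨K, h1, h2⟩ := Y.exK h h (.inl (swap_ne_self a).symm) (.inr h)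
  exact h1.mono (h2 a (by simp) b (by simp) h)

theorem cm {a b c d : C.ι} (h1 : b ≠ a.swap) (h2 : d ≠ c.swap) (h3 : c ≠ a.swap ∨ d ≠ b.swap)
    (h4 : c ≠ b.swap ∨ d ≠ a.swap) {D : Subgroup E}
    (hD : ∀ K, (∀ p ∈ [a, b, c, d], ∀ q ∈ [a, b, c, d], q ≠ p.swap → Y.W p q ≤ K) → D ≤ K)
    (e : CmIn ((Y.W a b).map f) ((Y.W c d).map f) (D.map f)) : CmIn (Y.W a b) (Y.W c d) D := by
  obtain ⟨K, k1, k2⟩ := Y.exK h1 h2 h3 h4
  exact k1.cmIn (k2 a (by simp) b (by simp) h1) (k2 c (by simp) d (by simp) h2) (hD K k2) e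

include Y in
theorem two_le : 2 ≤ C.n := by
  have := Y.ne
  have h1 := Y.i₀.2
  have h2 := Y.i₁.2
  rw [ne_eq, Fin.ext_iff] at this
  omega

/-- the system of lifted root groups -/
def fs : FS P f :=
  have xx : ∀ {a b c d : C.ι} (h : idx a ≠ idx b) (h' : idx c ≠ idx d), a ≠ c.swap → a ≠ d.swap →
      b ≠ c.swap → b ≠ d.swap → CmIn (Y.W a b) (Y.W c d) ⊥ := fun h h' a1 a2 a3 a4 =>
    Y.cm nx nx (.inl fun e => a1 (by simp [e])) (.inl fun e => a3 (by simp [e]))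
      (fun _ _ => bot_le) (cmIn_of_comm fun u hu v hv => by
      rw [Y.mapX h] at hu
      rw [Y.mapX h'] at hv
      obtain ⟨s, rfl⟩ := (P.mem_rx h).1 hu
      obtain ⟨t, rfl⟩ := (P.mem_rx h').1 hv
      exact P.xx_comm h h' a1 a2 a3 a4 s t)
  have xy : ∀ {a b c : C.ι} (h : idx a ≠ idx b), a ≠ c.swap → b ≠ c.swap →
      CmIn (Y.W a b) (Y.W c c) ⊥ := fun h a1 a2 =>
    Y.cm nx (swap_ne_self _).symm (.inl fun e => a1 (by simp [e])) (.inl fun e => a2 (by simp [e]))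
      (fun _ _ => bot_le) (cmIn_of_comm fun u hu v hv => by
      rw [Y.mapX h] at hu
      rw [Y.mapY] at hv
      obtain ⟨s, rfl⟩ := (P.mem_rx h).1 hu
      obtain ⟨w, x, hw, rfl⟩ := (P.mem_ry P.isD_sp).1 hv
      exact P.xy_comm h a1 a2 s hw)
  { X := Y.W
    Y := fun a => Y.W a a
    h0 := fun _ => V0_sp
    hn := Y.two_le
    hn' := fun h => by simp [P.isD_sp] at h
    sym := fun a b _ => Y.sym a b
    mapX := fun _ _ h => Y.mapX h
    injX := fun _ _ h => Y.injW nx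
    mapY := fun _ a => Y.mapY a
    injY := fun a => Y.injW (swap_ne_self a).symm
    hD := fun h => by simp [P.isD_sp] at h
    c1 := fun a b c d h h' a1 a2 a3 a4 => xx h h' nx nx nx nx
    c2 := fun a b c h h' a1 => xx h h' (swap_ne_self _).symm nx nx nx
    c3 := fun a b c h h' a1 => by
      have h2 : idx a.swap ≠ idx c := ix
      refine Y.cm nx nx (.inr nx) (.inl nx) (fun K hK => hK b (by simp) c (by simp) nx)
        (CmIn.symm fun u hu v hv => ?_)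
      rw [Y.mapX h2] at hu
      rw [Y.mapX h] at hv
      obtain ⟨s, rfl⟩ := (P.mem_rx h2).1 hu
      obtain ⟨t, rfl⟩ := mem_rx' h hv
      rw [P.cm_xx h.symm a1 h', Y.mapX a1]
      exact P.xo_mem _ _
    c4 := fun a b h => by
      have h2 : idx a ≠ idx b.swap := ix
      refine Y.cm nx nx (.inl (swap_ne_self _).symm) (.inl nx)
        (fun K hK => hK a (by simp) a (by simp) (swap_ne_self _).symm)
        (CmIn.symm fun u hu v hv => ?_)
      rw [Y.mapX h2] at hu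
      rw [Y.mapX h] at hv
      obtain ⟨s, rfl⟩ := mem_rx' h2 hu
      obtain ⟨t, rfl⟩ := (P.mem_rx h).1 hv
      rw [P.cm_xx' h, Y.mapY]
      exact yo_mem _ a (vp_sp _)
    c5 := fun a b c h a1 a2 => xy h nx nx
    c6 := fun a b h => xy h (swap_ne_self _).symm nx
    c7 := fun a b h => by
      have h2 : idx b ≠ idx a.swap := ix
      refine Y.cm nx (swap_ne_self _).symm (.inr nx) (.inl nx)
        (fun K hK => sup_le (hK b (by simp) b (by simp) (swap_ne_self _).symm)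
          (hK b (by simp) _ (by simp) nx)) (CmIn.symm fun u hu v hv => ?_)
      rw [Y.mapY] at hu
      rw [Y.mapX h] at hv
      obtain ⟨w, x, hw, rfl⟩ := (P.mem_ry P.isD_sp).1 hu
      obtain ⟨t, rfl⟩ := mem_rx' h hv
      rw [P.cm_yx h.symm hw, Subgroup.map_sup, Y.mapY, Y.mapX h2]
      exact Subgroup.mul_mem_sup (yo_mem _ b (hw.cm a t)) (P.xo_mem _ _)
    c8 := fun a b h => by
      refine Y.cm (swap_ne_self _).symm (swap_ne_self _).symm (.inl nx) (.inl nx)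
        (fun _ _ => bot_le) (cmIn_of_comm fun u hu v hv => ?_)
      rw [Y.mapY] at hu hv
      obtain ⟨x, rfl⟩ := (mem_ry_sp P.isD_sp).1 hu
      obtain ⟨y, rfl⟩ := (mem_ry_sp P.isD_sp).1 hv
      exact zz_comm nx x y }

theorem conj_x {a b : C.ι} (h : idx a ≠ idx b) {d : E} (hd : d ∈ Y.W a a ⊔ Y.W a.swap a.swap)
    {s : F} (h1 : (f d).1 (P.f a) = s • P.f a) (h2 : (f d).1 (P.f b) = P.f b) (t : F) :
    d * Y.fs.x a b t * d⁻¹ = Y.fs.x a b (s * t) := by
  obtain ⟨K, k1, k2⟩ := Y.exK (a := a) (b := b) (c := a.swap) (d := a.swap) nx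
    (swap_ne_self _).symm (.inr nx) (.inl nx)
  have a1 : d ∈ K := sup_le (k2 a (by simp) a (by simp) (swap_ne_self _).symm)
    (k2 _ (by simp) _ (by simp) (swap_ne_self _).symm) hd
  have a2 : ∀ t, Y.fs.x a b t ∈ K := fun t => k2 a (by simp) b (by simp) nx (Y.fs.x_spec h t).1
  refine k1.eq (mul_mem (mul_mem a1 (a2 _)) (inv_mem a1)) (a2 _) ?_
  rw [map_mul, map_mul, map_inv, (Y.fs.x_spec h _).2, (Y.fs.x_spec h _).2,
    conj_xo h h h1 (y := 1) (by rw [h2, one_smul])]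
  simp

theorem h_mem {i : Fin C.n} (h : idx (C.sa i) ≠ idx (C.sb i)) {t : F} (ht : t ≠ 0) :
    Y.fs.m (C.sa i) (C.sb i) t * (Y.fs.m (C.sa i) (C.sb i) 1)⁻¹ ∈ ⨆ a, Y.W a a := by
  have e1 : Y.fs.pre.V ((C.rs ℤ).simple i) = Y.fs.X (C.sa i) (C.sb i) := Y.fs.V_rx h
  have e2 : Y.fs.pre.V ((C.rs ℤ).neg ((C.rs ℤ).simple i)) = Y.fs.X (C.sa i).swap (C.sb i).swap := by
    rw [CT.rs_simple, neg_rt]; exact Y.fs.V_rx ix
  have e3 : Y.fs.m (C.sa i) (C.sb i) 1 ∈ Y.fs.pre.L i :=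
    mul_mem (mul_mem (Subgroup.mem_sup_left (e1 ▸ (Y.fs.x_spec h _).1))
      (Subgroup.mem_sup_right (e2 ▸ (Y.fs.x_spec ix _).1)))
      (Subgroup.mem_sup_left (e1 ▸ (Y.fs.x_spec h _).1))
  have e4 : ∀ a, ∀ g ∈ Y.W a a, Y.fs.m (C.sa i) (C.sb i) 1 * g * (Y.fs.m (C.sa i) (C.sb i) 1)⁻¹ ∈
      ⨆ a, Y.W a a := fun a g hg => by
    have := Y.fs.pre.conj_L e3 ((C.rs ℤ).s_mem_WJ rfl)
      (by rw [Y.fs.map_m h]; exact rep_mo h one_ne_zero) (s := ry ℤ P.isD_sp a) (a := g)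
      ((Y.fs.V_ry _ a).ge hg)
    rw [RS.s_smul, sref_rt] at this
    exact le_iSup (fun a => Y.W a a) _ ((Y.fs.V_ry P.isD_sp _).le this)
  generalize C.sa i = a at *
  generalize C.sb i = b at *
  have le : Y.W a a ⊔ Y.W a.swap a.swap ≤ ⨆ a, Y.W a a :=
    sup_le (le_iSup (fun a => Y.W a a) _) (le_iSup (fun a => Y.W a a) _)
  obtain ⟨d, hd, e5⟩ : P.hz a t ∈ (Y.W a a ⊔ Y.W a.swap a.swap).map f := by
    have : ∀ t, P.my a 0 t ∈ (Y.W a a ⊔ Y.W a.swap a.swap).map f := fun t => by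
      rw [← ww_Z, Subgroup.map_sup, Y.mapY, Y.mapY]
      exact mul_mem (mul_mem (Subgroup.mem_sup_left (yo_mem _ _ (vp_sp _)))
        (Subgroup.mem_sup_right (yo_mem _ _ (vp_sp _)))) (Subgroup.mem_sup_left (yo_mem _ _ (vp_sp _)))
    exact mul_mem (this _) (inv_mem (this _))
  have e6 : Y.fs.m a b t = d * Y.fs.m a b 1 * d⁻¹ := by
    have a1 := Y.conj_x h hd (by rw [e5, hz_l a ht]) (by rw [e5, hz_f ht h]) 1
    have a2 := Y.conj_x (a := a.swap) (b := b.swap) ix (by rwa [Sum.swap_swap, sup_comm])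
      (by rw [e5, hz_l' P a ht]) (by rw [e5, hz_f ht ix]) (P.β a * P.β b)
    simp only [FS.m, RingHom.id_apply, inv_one, mul_one] at a1 ⊢
    rw [mul_comm _ t⁻¹, ← a1, ← a2]
    group
  have e7 := conj_mem_sup (e4 a) (e4 a.swap) (inv_mem hd)
  rw [e6]
  simpa only [mul_assoc] using mul_mem (le hd) e7

theorem inj_all (hD : InjS f (⨆ a, Y.W a a)) : InjS f (Y.fs.pre.VS Set.univ) := fun g hg e => by
  refine hD g ((iSup_le fun i => ?_ : Y.fs.pre.T ≤ _) (Y.fs.pre.ker_mem_T hg e)) e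
  by_cases h : idx (C.sa i) = idx (C.sb i)
  · rcases simple_cases i with ⟨_, e1, e2⟩ | ⟨_, _, e1, e2⟩ | ⟨_, e0, _, e1, e2⟩
    · simp [e1, e2, idx] at h
    · refine inf_le_left.trans ?_
      rw [Pre.L, CT.rs_simple, neg_rt]
      change Y.fs.VR _ ⊔ Y.fs.VR _ ≤ _
      rw [FS.V_rt, FS.V_rt, e1, e2, FS.VL, FS.VL, if_pos rfl, if_pos rfl]
      exact sup_le (le_iSup (fun a => Y.W a a) _) (le_iSup (fun a => Y.W a a) _)
    · simp [P.isD_sp] at e0
  · intro a ha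
    obtain ⟨t, ht, rfl⟩ := Y.fs.mem_L' h (fun t u ht hu => hD.eq (Y.h_mem h (mul_ne_zero ht hu))
      (mul_mem (Y.h_mem h ht) (Y.h_mem h hu)) (by
        rw [map_mul f (_ * _⁻¹), Y.fs.map_h h, Y.fs.map_h h, Y.fs.map_h h]
        refine om_ext P fun c => ?_
        have htu := mul_ne_zero ht hu
        by_cases c1 : idx (C.sa i) = idx c
        · rcases eq_of_ix c1 with rfl | rfl
          · simp [P.ho_l h, ht, hu, smul_smul, mul_comm]
          · simp [P.ho_l' h, ht, hu, smul_smul, mul_comm]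
        by_cases c2 : idx (C.sb i) = idx c
        · rcases eq_of_ix c2 with rfl | rfl
          · simp [P.ho_r h, ht, hu, smul_smul, mul_comm]
          · simp [P.ho_r' h, ht, hu, smul_smul, mul_comm]
        · simp [P.ho_f h c1 c2])) ha.1 ha.2
    exact Y.h_mem h ht

theorem W_le {a b : C.ι} (h : b ≠ a.swap) : Y.W a b ≤ Y.fs.pre.VS Set.univ := by
  by_cases e : b = a
  · subst e; exact Y.fs.Y_le b
  · exact Y.fs.X_le (ix_of_ne e h)

end Cover

end Cfsg.Agent.H12
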