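import Mathlib
import Cfsg.Agent.H12.Am1
import Cfsg.Agent.H17.ClF

/-!
Coordinate subspaces of a symplectic frame and their isometry groups.
-/

set_option autoImplicit false
set_option linter.unusedSectionVars false

namespace Cfsg.Agent.H12

open H10 H11 H17 H17.CT H17.Frame H19.St RGD H7.Pr

universe u

variable {F : Type u} [Field F] {V : Type u} [AddCommGroup V] [Module F V]
  {C : H17.CT} {B : V →ₗ[F] V →ₗ[F] F} {Q : V → F} [FiniteDimensional F V]
  (P : Frame (σ := RingHom.id F) C ℤ (-1) 0 0 B Q) {J J' : Set (Fin C.n)} {u v w v' w' : V}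

namespace Sp

/-- the elements moving only the coordinates in `J` -/
def Fx (J : Set (Fin C.n)) : Subgroup P.cl.Om where
  carrier := {g | ∀ c, jx c ∉ J → g.1 (P.f c) = P.f c}
  one_mem' _ _ := rfl
  mul_mem' ha hb c hc := by rw [Subgroup.coe_mul, LinearEquiv.mul_apply, hb c hc, ha c hc]
  inv_mem' ha c hc := by
    rw [Subgroup.coe_inv, LinearEquiv.coe_inv, LinearEquiv.symm_apply_eq, ha c hc]

/-- the coordinate subspace -/
def VJ (J : Set (Fin C.n)) : Submodule F V where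
  carrier := {v | ∀ c, jx c ∉ J → B (P.f c) v = 0}
  zero_mem' a _ := by simp
  add_mem' hx hy a h := by simp [hx a h, hy a h]
  smul_mem' c x hx a h := by simp [hx a h]

/-- the abelian subgroups of the amalgam -/
def Mg (i j : Fin C.n) : Subgroup P.cl.Om where
  carrier := {g | ∀ c, c ≠ .inr i → c ≠ .inr j → g.1 (P.f c) = P.f c}
  one_mem' _ _ _ := rfl
  mul_mem' ha hb c h h' := by rw [Subgroup.coe_mul, LinearEquiv.mul_apply, hb c h h', ha c h h']
  inv_mem' ha c h h' := by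
    rw [Subgroup.coe_inv, LinearEquiv.coe_inv, LinearEquiv.symm_apply_eq, ha c h h']

/-- Eichler elements -/
noncomputable def eo (u w : V) (c : F) : P.cl.Om := P.o (P.cl.eich u w c)

include P in
theorem Q0 (x : V) : Q x = 0 := by obtain ⟨t, ht⟩ := P.cl.exists_tau x; simpa using ht.symm

include P in
theorem B0 (x : V) : B x x = 0 := P.cl.diag0 (Q0 P x)

include P in
theorem Bs (x y : V) : B y x = -B x y := by simpa using P.cl.symm x y

variable {P}

theorem eo_val (h : B u w = 0) (c : F) : (eo P u w c).1 = P.cl.eich u w c :=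
  P.o_val (P.cl.eich_mem_om (Q0 P u) h (by simp [Q0 P]))

theorem eo_apply (h : B u w = 0) (c : F) (x : V) :
    (eo P u w c).1 x = x + B w x • u + B u x • w - (c * B u x) • u := by
  rw [eo_val h, P.cl.eich_apply (Q0 P u) h]; module

theorem eo_mul (h : B u w = 0) (h' : B u w' = 0) (c c' : F) :
    eo P u w c * eo P u w' c' = eo P u (w + w') (c + c' - B w w') := Subtype.ext (by
  rw [Subgroup.coe_mul, eo_val h, eo_val h', eo_val (by simp [h, h']), P.cl.eich_mul (Q0 P u) h h']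
  congr 1; ring)

theorem isom {h : Cl (σ := RingHom.id F) (-1) 0 0 B Q} (g : h.Om) (x y : V) :
    B (g.1 x) (g.1 y) = B x y := (h.om_le_isom g.2).1 x y

theorem conj_eo (g : P.cl.Om) (h : B u w = 0) (c : F) :
    g * eo P u w c * g⁻¹ = eo P (g.1 u) (g.1 w) c := Subtype.ext (by
  rw [Subgroup.coe_mul, Subgroup.coe_mul, Subgroup.coe_inv, eo_val h, eo_val (by rw [isom, h]),
    P.cl.conj_eich (P.cl.om_le_isom g.2)])

theorem xo_eq (a b : C.ι) (t : F) : P.xo a b t = eo P (P.f a) (t • P.f b) 0 := rfl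

theorem yo_eq' (a : C.ι) (t : F) : P.yo a 0 t = eo P (P.f a) 0 t := rfl

theorem vec_ext (h : ∀ c, B (P.f c) v = B (P.f c) w) : v = w :=
  sub_eq_zero.1 (V0_sp (P := P) fun c => by rw [map_sub, h, sub_self])

theorem Fx_mono (h : J ⊆ J') : Fx P J ≤ Fx P J' := fun _ hg c hc => hg c fun e => hc (h e)

theorem VJ_mono (h : J ⊆ J') : VJ P J ≤ VJ P J' := fun _ hg c hc => hg c fun e => hc (h e)

theorem map_VJ {g : P.cl.Om} (hg : g ∈ Fx P J) (hv : v ∈ VJ P J) : g.1 v ∈ VJ P J := fun c hc => by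
  rw [← hg c hc, isom, hv c hc]

theorem f_mem {a : C.ι} (h : jx a ∈ J) : P.f a ∈ VJ P J := fun c hc =>
  P.perp c a fun e => hc (by rwa [e, jx_swap] at h)

theorem eo_mem (hu : u ∈ VJ P J) (hw : w ∈ VJ P J) (h : B u w = 0) (c : F) : eo P u w c ∈ Fx P J :=
  fun a ha => by
    rw [eo_val h]; exact P.cl.eich_fix c (P.cl.refl (hu a ha)) (P.cl.refl (hw a ha))

theorem ym_fx {a b : C.ι} (ha : jx a ∈ J) (hb : jx b ∈ J) (h : b ≠ a.swap) (t : F) :
    ym P a b t ∈ Fx P J := by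
  unfold ym
  split_ifs
  · exact eo_mem (f_mem ha) (zero_mem _) (map_zero _) t
  · exact eo_mem (f_mem ha) (Submodule.smul_mem _ _ (f_mem hb)) (P.perp_smul h t) 0

theorem exists_f_ne (hv : v ∈ VJ P J) (h0 : v ≠ 0) : ∃ c, jx c ∈ J ∧ B (P.f c) v ≠ 0 := by
  by_contra hc
  push Not at hc
  exact h0 (vec_ext (P := P) fun c => by
    rw [map_zero]; exact (em _).elim (hc c) (hv c))

theorem eq_one_of_Fx {g : P.cl.Om} (h : g ∈ Fx P J) (h' : g ∈ Fx P J') (d : Disjoint J J') : g = 1 :=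
  om_ext P fun a => (em (jx a ∈ J)).elim (fun e => h' a (Set.disjoint_left.1 d e)) (h a)

theorem trans0 (hv : v ∈ VJ P J) (hw : w ∈ VJ P J) (h : B v w ≠ 0) : ∃ g ∈ Fx P J, g.1 v = w :=
  ⟨eo P (w - v) 0 (B v w)⁻¹, eo_mem (sub_mem hw hv) (zero_mem _) (map_zero _) _, by
    rw [eo_apply (map_zero _)]
    simp only [map_zero, LinearMap.zero_apply, map_sub, LinearMap.sub_apply, B0 P, Bs P v w]
    match_scalars <;> field_simp <;> ring⟩

theorem trans1 (hv : v ∈ VJ P J) (hw : w ∈ VJ P J) (h : v ≠ 0) (h' : w ≠ 0) :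
    ∃ g ∈ Fx P J, g.1 v = w := by
  obtain ⟨a, a1, a2⟩ := exists_f_ne hv h
  obtain ⟨b, b1, b2⟩ := exists_f_ne hw h'
  obtain ⟨y, hy, y1, y2⟩ := exists_mem_ne_ne (U := VJ P J) (B v) (B w)
    ⟨_, f_mem a1, P.cl.refl_ne a2⟩ ⟨_, f_mem b1, P.cl.refl_ne b2⟩
  obtain ⟨g, hg, rfl⟩ := trans0 hv hy y1
  obtain ⟨g', hg', rfl⟩ := trans0 hy hw (P.cl.refl_ne y2)
  exact ⟨g' * g, mul_mem hg' hg, rfl⟩

theorem trans2 (hv : v ∈ VJ P J) (hv' : v' ∈ VJ P J) (hw : w ∈ VJ P J) (hw' : w' ∈ VJ P J)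
    (h : B v v' = B w w') (h0 : B w w' ≠ 0) : ∃ g ∈ Fx P J, g.1 v = w ∧ g.1 v' = w' := by
  obtain ⟨g, hg, rfl⟩ := trans1 hv hw (by rintro rfl; simp [← h] at h0) (by rintro rfl; simp at h0)
  have h1 := map_VJ hg hv'
  have h2 : B (g.1 v) (g.1 v') = B (g.1 v) w' := by rw [isom, h]
  have h3 : B (g.1 v) ((B (g.1 v) w')⁻¹ • (w' - g.1 v')) = 0 := by simp [h2]
  refine ⟨eo P (g.1 v) _ (B ((B (g.1 v) w')⁻¹ • (w' - g.1 v')) (g.1 v') / B (g.1 v) w') * g,
    mul_mem (eo_mem hw (Submodule.smul_mem _ _ (sub_mem hw' h1)) h3 _) hg, ?_, ?_⟩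
  · rw [Subgroup.coe_mul, LinearEquiv.mul_apply, eo_apply h3, P.cl.refl h3, B0 P]; simp
  · rw [Subgroup.coe_mul, LinearEquiv.mul_apply, eo_apply h3, h2, div_mul_cancel₀ _ h0,
      smul_inv_smul₀ h0]
    abel

theorem stab_le {k : Fin C.n} (hk : k ∉ J) {N : Subgroup P.cl.Om} (h1 : Fx P J ≤ N)
    (h2 : ∀ s, P.yo (.inl k) 0 s ∈ N) (h3 : J.Nonempty → ∃ k' ∈ J, P.xo (.inl k) (.inl k') 1 ∈ N)
    {g : P.cl.Om} (hg : g ∈ Fx P (insert k J)) (e : g.1 (P.f (.inl k)) = P.f (.inl k)) : g ∈ N := by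
  have b1 : B (P.f (.inl k)) (P.f (.inr k)) = 1 := P.one k
  have b2 : B (P.f (.inr k)) (P.f (.inl k)) = -1 := by rw [Bs P, b1]
  set s := B (P.f (.inr k)) (g.1 (P.f (.inr k)))
  set w := g.1 (P.f (.inr k)) - P.f (.inr k) + s • P.f (.inl k) with hw
  have hv := map_VJ hg (f_mem (P := P) (a := .inr k) (Set.mem_insert _ _))
  have w1 : B (P.f (.inl k)) w = 0 := by
    rw [hw, map_add, map_sub, map_smul, B0 P]
    conv_lhs => rw [← e, isom, e]
    simp
  have w2 : B (P.f (.inr k)) w = 0 := by simp [hw, b2, B0 P, s]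
  have w3 : w ∈ VJ P J := fun c hc => by
    by_cases e : jx c = k
    · rcases c with c | c <;> obtain rfl : c = k := e
      exacts [w1, w2]
    · have : jx c ∉ insert k J := by simp [e, hc]
      rw [hw, map_add, map_sub, map_smul, hv c this, f_mem (Set.mem_insert _ _) c this,
        f_mem (Set.mem_insert _ _) c this]
      simp
  have w4 : eo P (P.f (.inl k)) w s ∈ N := by
    have : eo P (P.f (.inl k)) w s = eo P (P.f (.inl k)) w 0 * P.yo (.inl k) 0 s := by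
      rw [yo_eq', eo_mul w1 (map_zero _)]; simp
    rw [this]
    refine mul_mem ?_ (h2 s)
    by_cases w0 : w = 0
    · rw [w0]; exact h2 0
    obtain ⟨c, hc, -⟩ := exists_f_ne w3 w0
    obtain ⟨k', k1, k2⟩ := h3 ⟨_, hc⟩
    obtain ⟨a, ha, a1⟩ := trans1 (f_mem (P := P) (a := .inl k') k1) w3 (P.f_ne _) w0
    have := mul_mem (mul_mem (h1 ha) k2) (inv_mem (h1 ha))
    rwa [xo_eq, conj_eo _ (P.perp_smul (by simp) _), ha (.inl k) hk, one_smul, a1] at this
  have w5 : (eo P (P.f (.inl k)) w s)⁻¹ * g ∈ Fx P J := fun c hc => by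
    rw [Subgroup.coe_mul, LinearEquiv.mul_apply, Subgroup.coe_inv, LinearEquiv.coe_inv,
      LinearEquiv.symm_apply_eq]
    by_cases e1 : jx c = k
    · rcases c with c | c <;> obtain rfl : c = k := e1
      · rw [eo_apply w1, P.cl.refl w1, B0 P, e]; simp
      · rw [eo_apply w1, P.cl.refl w2, b1, hw]; module
    · have : jx c ∉ insert k J := by simp [e1, hc]
      rw [hg c this, eo_mem (f_mem (Set.mem_insert _ _)) (VJ_mono (Set.subset_insert _ _) w3) w1 s c
        this]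
  simpa using mul_mem w4 (h1 w5)

theorem Mg_symm (i j : Fin C.n) : Mg P j i = Mg P i j := by
  ext g; exact forall_congr' fun _ => imp.swap

theorem Mg_le {i j : Fin C.n} (hi : i ∈ J) (hj : j ∈ J) : Mg P i j ≤ Fx P J := fun _ hg c hc =>
  hg c (by rintro rfl; exact hc hi) (by rintro rfl; exact hc hj)

theorem yo_Mg (i j : Fin C.n) (s : F) : P.yo (.inl i) 0 s ∈ Mg P i j := fun c h _ => by
  rw [yo_val (vp_sp s), P.Y_f (zero_mem _) _ h]

theorem xo_Mg {i j : Fin C.n} (h : i ≠ j) (s : F) : P.xo (.inl i) (.inl j) s ∈ Mg P i j :=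
  fun c h1 h2 => by rw [P.xo_val (a := .inl i) (b := .inl j) (jx_ne.2 h), P.X_f _ h1 h2]

theorem mem_Mg {i j : Fin C.n} (h : i ≠ j) {g : P.cl.Om} (hg : g ∈ Mg P i j) :
    ∃ t s s', g = P.xo (.inl i) (.inl j) t * P.yo (.inl i) 0 s * P.yo (.inl j) 0 s' := by
  have key : ∀ g ∈ Mg P i j, B (P.f (.inr i)) (g.1 (P.f (.inr i))) = 0 →
      B (P.f (.inr j)) (g.1 (P.f (.inr i))) = 0 → B (P.f (.inr j)) (g.1 (P.f (.inr j))) = 0 →
      g = 1 := fun g hg a1 a2 a3 => by
    have b1 : ∀ c x, c ≠ .inr i → c ≠ .inr j → B (P.f c) (g.1 x) = B (P.f c) x := fun c x c1 c2 => by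
      conv_lhs => rw [← hg c c1 c2, isom]
    have b2 : g.1 (P.f (.inr i)) = P.f (.inr i) := vec_ext (P := P) fun c => by
      by_cases c1 : c = .inr i
      · rw [c1, a1, B0 P]
      by_cases c2 : c = .inr j
      · rw [c2, a2, P.perp _ _ (by simp)]
      exact b1 c _ c1 c2
    have b3 : g.1 (P.f (.inr j)) = P.f (.inr j) := vec_ext (P := P) fun c => by
      by_cases c1 : c = .inr i
      · conv_lhs => rw [c1, ← b2, isom, ← c1]
      by_cases c2 : c = .inr j
      · rw [c2, a3, B0 P]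
      exact b1 c _ c1 c2
    refine om_ext P fun c => ?_
    by_cases c1 : c = .inr i
    · rw [c1, b2]; rfl
    by_cases c2 : c = .inr j
    · rw [c2, b3]; rfl
    exact hg c c1 c2
  have hj := yo_Mg (P := P) j i
  rw [Mg_symm] at hj
  have e1 : ∀ k, B (P.f (.inl k)) (P.f (.inr k)) = 1 := P.one
  have e2 : ∀ k, B (P.f (.inr k)) (P.f (.inl k)) = -1 := fun k => by rw [Bs P, e1]
  have e3 : ∀ k l, B (P.f (.inr k)) (P.f (.inr l)) = 0 := fun k l => P.perp _ _ (by simp)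
  have e4 : ∀ k l, B (P.f (.inl k)) (P.f (.inl l)) = 0 := fun k l => P.perp _ _ (by simp)
  have e5 : ∀ k l, k ≠ l → B (P.f (.inl k)) (P.f (.inr l)) = 0 := fun k l h =>
    P.perp _ _ (by simpa using h.symm)
  have e6 : ∀ k l, k ≠ l → B (P.f (.inr k)) (P.f (.inl l)) = 0 := fun k l h =>
    P.perp _ _ (by simpa using h.symm)
  have g1 : ∀ k x, B (P.f (.inl k)) (g.1 x) = B (P.f (.inl k)) x := fun k x => by
    conv_lhs => rw [← hg (.inl k) (by simp) (by simp), isom]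
  refine ⟨-B (P.f (.inr j)) (g.1 (P.f (.inr i))), B (P.f (.inr i)) (g.1 (P.f (.inr i))),
    B (P.f (.inr j)) (g.1 (P.f (.inr j))), (inv_mul_eq_one.1 (key _ (mul_mem (inv_mem (mul_mem
      (mul_mem (xo_Mg h _) (yo_Mg i j _)) (hj _))) hg) ?_ ?_ ?_)).symm⟩
  all_goals
    rw [← isom (P.xo (.inl i) (.inl j) _ * P.yo (.inl i) 0 _ * P.yo (.inl j) 0 _),
      ← LinearEquiv.mul_apply _ (_ * _ : P.cl.Om).1, ← Subgroup.coe_mul, mul_inv_cancel_left]
    simp [xo_eq, yo_eq', eo_apply, e1, e2, e4, e5, e6, h, h.symm, g1]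

theorem comm_Mg {i j : Fin C.n} (h : i ≠ j) {g a : P.cl.Om} (hg : g ∈ Mg P i j)
    (h1 : a.1 (P.f (.inl i)) = P.f (.inl i)) (h2 : a.1 (P.f (.inl j)) = P.f (.inl j)) :
    a * g = g * a := by
  obtain ⟨t, s, s', rfl⟩ := mem_Mg h hg
  exact Commute.mul_right (Commute.mul_right (comm_xo' (a := .inl i) (b := .inl j) (jx_ne.2 h) h1 h2 t)
    (comm_yo (vp_sp s) h1 (map_zero _))) (comm_yo (vp_sp s') h2 (map_zero _))

theorem comm_Fx (d : Disjoint J J') {g g' : P.cl.Om} (h : g ∈ Fx P J) (h' : g' ∈ Fx P J') :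
    g * g' = g' * g := by
  have key : ∀ {J J' : Set (Fin C.n)}, Disjoint J J' → ∀ {g : P.cl.Om}, g ∈ Fx P J →
      ∀ v ∈ VJ P J', g.1 v = v := fun {J J'} d g h v hv => by
    rw [sub_eq_zero.1 (V0_sp (P.sub_sum_mem v)), map_sum]
    refine Finset.sum_congr rfl fun a _ => ?_
    by_cases e : jx a ∈ J'
    · rw [map_smul, h a (Set.disjoint_right.1 d e)]
    · rw [hv a.swap (by rwa [jx_swap]), mul_zero, zero_smul, map_zero]
  refine om_ext P fun c => ?_
  simp only [Subgroup.coe_mul, LinearEquiv.mul_apply]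
  by_cases e : jx c ∈ J
  · rw [h' c (Set.disjoint_left.1 d e), key d.symm h' _ (map_VJ h (f_mem e))]
  rw [h c e]
  by_cases e' : jx c ∈ J'
  · exact key d h _ (map_VJ h' (f_mem e'))
  · rw [h' c e', h c e]

section Sub
variable {m : ℕ} {j : Fin m → Fin C.n} (hj : Function.Injective j)

theorem nondeg_VJ : NondegOn B (VJ P J) := fun x hx h => by
  by_contra h0
  obtain ⟨c, c1, c2⟩ := exists_f_ne hx h0
  exact c2 (P.cl.refl (h _ (f_mem c1)))

theorem jx_map' {n : ℕ} (j : Fin m → Fin n) (a : Fin m ⊕ Fin m) : jx (a.map j j) = j (jx a) := by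
  cases a <;> rfl

theorem swap_map' {n : ℕ} (j : Fin m → Fin n) (a : Fin m ⊕ Fin m) :
    (a.map j j).swap = a.swap.map j j := by
  cases a <;> rfl

theorem exists_map {n : ℕ} {j : Fin m → Fin n} {c : Fin n ⊕ Fin n} (h : jx c ∈ Set.range j) :
    ∃ a : Fin m ⊕ Fin m, c = a.map j j := by
  obtain ⟨l, hl⟩ := h
  rcases c with c | c
  exacts [⟨.inl l, congrArg _ hl.symm⟩, ⟨.inr l, congrArg _ hl.symm⟩]

variable (P) in
/-- the frame of a coordinate subspace -/
def sub : Frame (σ := RingHom.id F) (ctC m) ℤ (-1) 0 0 (pull B (VJ P (Set.range j)).subtype)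
    (fun x => Q x) where
  cl := P.cl.restrict nondeg_VJ
  f := fun a => ⟨P.f (a.map j j), f_mem ⟨_, (jx_map' j a).symm⟩⟩
  Qf := fun _ => P.Qf _
  perp := fun a b h => P.perp _ _ fun e => h ((Sum.map_injective.2 ⟨hj, hj⟩)
    (e.trans (swap_map' j a)))
  one := fun i => P.one (j i)
  anis := fun x hx _ => Subtype.ext (by
    by_contra h0
    obtain ⟨c, c1, c2⟩ := exists_f_ne x.2 h0
    obtain ⟨a, rfl⟩ := exists_map c1
    exact c2 (hx a))
  hD := fun h => by simp [ctC] at h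
  hY := fun _ => .inl nq_zero
  h1 := fun _ => ⟨1, one_pos, rfl⟩
  h2 := fun ⟨w, h0, hw⟩ => absurd (Subtype.ext (by
    by_contra h0
    obtain ⟨c, c1, c2⟩ := exists_f_ne w.2 h0
    obtain ⟨a, rfl⟩ := exists_map c1
    exact c2 (hw a))) h0

variable (P) in
/-- restriction to a coordinate subspace -/
noncomputable def res : Fx P (Set.range j) →* (sub P hj).cl.Om := MonoidHom.mk' (fun g =>
  ⟨LinearEquiv.ofLinearMap (g.1.1.toLinearMap.restrict fun _ => map_VJ g.2)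
    (g⁻¹.1.1.toLinearMap.restrict fun _ => map_VJ g⁻¹.2)
    (by ext x; simp [LinearEquiv.coe_inv]) (by ext x; simp [LinearEquiv.coe_inv]),
    (mem_om_alt _).2 fun x y => isom g.1 x y⟩) fun _ _ => rfl

theorem res_apply (g : Fx P (Set.range j)) (x : VJ P (Set.range j)) :
    ((res P hj g).1 x).1 = g.1.1 x := rfl

theorem res_inj : Function.Injective (res P hj) := (injective_iff_map_eq_one _).2 fun g e =>
  Subtype.ext (om_ext P fun c => by
    by_cases hc : jx c ∈ Set.range j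
    · exact (res_apply hj g ⟨_, f_mem hc⟩).symm.trans (by rw [e]; rfl)
    · exact g.2 c hc)

theorem res_ym {a b : (ctC m).ι} (h : b ≠ a.swap) (t : F)
    (h' : ym P (a.map j j) (b.map j j) t ∈ Fx P (Set.range j)) :
    res P hj ⟨_, h'⟩ = ym (sub P hj) a b t := by
  refine Subtype.ext (LinearEquiv.ext fun x => Subtype.ext ?_)
  rw [res_apply]
  by_cases e : b = a
  · subst e
    simp only [ym_self]
    rw [yo_eq', yo_eq', eo_apply (map_zero _), eo_apply (map_zero _)]; rfl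
  · simp only [ym, if_neg e, if_neg ((Sum.map_injective.2 ⟨hj, hj⟩).ne e)]
    rw [xo_eq, xo_eq, eo_apply ((sub P hj).perp_smul h t),
      eo_apply (B := B) (u := P.f (a.map j j)) (w := t • P.f (b.map j j))
        ((sub P hj).perp_smul h t)]
    rfl

include hj in
theorem Fx_le {N : Subgroup P.cl.Om}
    (h : ∀ a b, jx a ∈ Set.range j → jx b ∈ Set.range j → b ≠ a.swap → ∀ t, ym P a b t ∈ N) :
    Fx P (Set.range j) ≤ N := fun g hg => by
  have : (sub P hj).rgdO.US Set.univ ≤ (N.subgroupOf _).map (res P hj) := iSup₂_le fun r _ v hv => by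
    obtain ⟨a, b, h1, rfl⟩ := exists_rt r
    obtain ⟨t, rfl⟩ := (ym_mem _ h1).1 hv
    have a1 : jx (a.map j j) ∈ Set.range j := ⟨_, (jx_map' j a).symm⟩
    have a2 : jx (b.map j j) ∈ Set.range j := ⟨_, (jx_map' j b).symm⟩
    have a3 : b.map j j ≠ (a.map j j).swap := fun e => h1.1 ((Sum.map_injective.2 ⟨hj, hj⟩)
      (e.trans (swap_map' j a)))
    exact ⟨⟨_, ym_fx a1 a2 a3 t⟩, h _ _ a1 a2 a3 t, res_ym hj h1.1 t _⟩
  obtain ⟨a, ha, e⟩ := this ((sub P hj).rgdO_US_univ.ge (Subgroup.mem_top (res P hj ⟨g, hg⟩)))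
  rwa [res_inj hj e] at ha

end Sub

end Sp

end Cfsg.Agent.H12
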