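import Mathlib
import Cfsg.Agent.H12.Am2

/-!
Lifting the stabiliser of a vector in a symplectic group over a field with more than two elements.
-/

set_option autoImplicit false
set_option linter.unusedSectionVars false

namespace Cfsg.Agent.H12

open H10 H11 H17 H17.CT H17.Frame H19.St RGD H7.Pr

universe u

variable {F : Type u} [Field F] {V : Type u} [AddCommGroup V] [Module F V]
  {C : H17.CT} {B : V →ₗ[F] V →ₗ[F] F} {Q : V → F} [FiniteDimensional F V]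
  {P : Frame (σ := RingHom.id F) C ℤ (-1) 0 0 B Q} {J : Set (Fin C.n)} {u v w v' w' : V}
  {E : Type*} [Group E] {f : E →* P.cl.Om}

namespace Sp

theorem inj_sub {m : ℕ} {j : Fin m → Fin C.n} (hj : Function.Injective j)
    (W : C.ι → C.ι → Subgroup E) (K : C.ι → Subgroup E) {i₀ i₁ : Fin m} (ne : i₀ ≠ i₁)
    (sym : ∀ a b, W b a = W a b)
    (map : ∀ a b, jx a ∈ Set.range j → jx b ∈ Set.range j → b ≠ a.swap →
      ∀ g, g ∈ (W a b).map f ↔ ∃ t, g = ym P a b t)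
    (inj : ∀ e, jx e = j i₀ ∨ jx e = j i₁ → InjS f (K e))
    (le : ∀ e, jx e = j i₀ ∨ jx e = j i₁ → ∀ a b, a ≠ e.swap → b ≠ e.swap → W a b ≤ K e)
    (hD : InjS f (⨆ (a) (_ : jx a ∈ Set.range j), W a a)) :
    InjS f (⨆ (a) (b) (_ : jx a ∈ Set.range j ∧ jx b ∈ Set.range j ∧ b ≠ a.swap), W a b) := by
  let E' := (Fx P (Set.range j)).comap f
  let f' := (res P hj).comp (f.subgroupComap (Fx P (Set.range j)))
  have mi := Sum.map_injective.2 ⟨hj, hj⟩
  have a1 : ∀ a : Fin m ⊕ Fin m, jx (a.map j j) ∈ Set.range j := fun a => ⟨_, (jx_map' j a).symm⟩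
  have a3 : ∀ {a b : Fin m ⊕ Fin m}, b ≠ a.swap → b.map j j ≠ (a.map j j).swap := fun h e =>
    h (mi (e.trans (swap_map' j _)))
  have i1 : ∀ {K : Subgroup E}, InjS f K → InjS f' (K.subgroupOf E') := fun h g hg e =>
    Subtype.ext (h g hg (congrArg Subtype.val (res_inj hj (e.trans (map_one _).symm))))
  have he : ∀ e : Fin m ⊕ Fin m, jx e = i₀ ∨ jx e = i₁ →
      jx (e.map j j) = j i₀ ∨ jx (e.map j j) = j i₁ := fun e h => by
    rw [jx_map']; exact h.imp (congrArg j) (congrArg j)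
  let Y : Cover (sub P hj) f' :=
    { W := fun a b => (W (a.map j j) (b.map j j)).subgroupOf E'
      K := fun e => (K (e.map j j)).subgroupOf E'
      i₀ := i₀
      i₁ := i₁
      ne := ne
      sym := fun a b => by rw [sym]
      map := fun a b h g => ⟨by
        rintro ⟨x, hx, rfl⟩
        obtain ⟨t, ht⟩ := (map _ _ (a1 a) (a1 b) (a3 h) _).1 ⟨x, hx, rfl⟩
        exact ⟨t, by
          rw [← res_ym hj h t (ym_fx (a1 a) (a1 b) (a3 h) t)]
          exact congrArg (res P hj) (Subtype.ext ht)⟩, by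
        rintro ⟨t, rfl⟩
        obtain ⟨x, hx, e⟩ := (map _ _ (a1 a) (a1 b) (a3 h) _).2 ⟨t, rfl⟩
        exact ⟨⟨x, show f x ∈ _ from e ▸ ym_fx (a1 a) (a1 b) (a3 h) t⟩, hx, by
          rw [← res_ym hj h t (ym_fx (a1 a) (a1 b) (a3 h) t)]
          exact congrArg (res P hj) (Subtype.ext e)⟩⟩
      inj := fun e h => i1 (inj _ (he e h))
      le := fun e h a b _ h1 h2 => Subgroup.comap_mono (le _ (he e h) _ _ (a3 h1) (a3 h2)) }
  have h2 := Y.inj_all ((i1 hD).mono (iSup_le fun a => Subgroup.comap_mono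
    (le_iSup₂ (f := fun a (_ : jx a ∈ Set.range j) => W a a) _ (a1 a))))
  have h3 : (⨆ (a) (b) (_ : jx a ∈ Set.range j ∧ jx b ∈ Set.range j ∧ b ≠ a.swap), W a b) ≤
      (Y.fs.pre.VS Set.univ).map E'.subtype := iSup_le fun a => iSup₂_le fun b ⟨b1, b2, b3⟩ x hx => by
    obtain ⟨t, ht⟩ := (map _ _ b1 b2 b3 _).1 ⟨x, hx, rfl⟩
    have b4 := ym_fx (P := P) b1 b2 b3 t
    obtain ⟨a, rfl⟩ := exists_map b1
    obtain ⟨b, rfl⟩ := exists_map b2
    exact ⟨⟨x, show f x ∈ _ from ht ▸ b4⟩, Y.W_le (a := a) (b := b)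
      (fun e => b3 (e ▸ (swap_map' j a).symm)) hx, rfl⟩
  intro g hg e
  obtain ⟨x, hx, rfl⟩ := h3 hg
  rw [h2 x hx (by
    change res P hj _ = 1
    rw [show f.subgroupComap _ x = 1 from Subtype.ext e, map_one]), map_one]

variable (P f J) in
/-- the data for the lift of the stabiliser of a vector -/
structure Heis (c k : Fin C.n) (G A : Subgroup E) where
  S : Subgroup E
  hc : c ∉ J
  hk : k ∈ J
  hG : InjS f G
  mG : G.map f = Fx P J
  hS : S ≤ G
  mS : S.map f = Fx P {k}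
  hA : InjS f (A ⊔ S)
  mA : A.map f = Mg P c k
  hx : ∀ a ∈ A, ∀ g ∈ G, (f g).1 (P.f (.inl k)) = P.f (.inl k) → g * a = a * g
  hz : ∀ a ∈ A, ∀ s, f a = P.yo (.inl c) 0 s → ∀ g ∈ G, g * a = a * g

namespace Heis
variable {c k : Fin C.n} {G A : Subgroup E} (H : Heis P J f c k G A) {g g' : E}

include H in
theorem ne : c ≠ k := fun e => H.hc (e ▸ H.hk)

/-- the lift of a short root element -/
noncomputable def x (t : F) : E := (H.mA.ge (xo_Mg H.ne t)).choose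

theorem x_mem (t : F) : H.x t ∈ A := (H.mA.ge (xo_Mg H.ne t)).choose_spec.1

theorem f_x (t : F) : f (H.x t) = eo P (P.f (.inl c)) (t • P.f (.inl k)) 0 :=
  (H.mA.ge (xo_Mg H.ne t)).choose_spec.2

/-- the lift of a long root element -/
noncomputable def z (t : F) : E := (H.mA.ge (yo_Mg c k t)).choose

theorem z_mem (t : F) : H.z t ∈ A := (H.mA.ge (yo_Mg c k t)).choose_spec.1

theorem f_z (t : F) : f (H.z t) = eo P (P.f (.inl c)) 0 t := (H.mA.ge (yo_Mg c k t)).choose_spec.2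

theorem z_G (t : F) (hg : g ∈ G) : Commute g (H.z t) := H.hz _ (H.z_mem t) t (H.f_z t) g hg

theorem z_A (t : F) (hg : g ∈ A) : Commute g (H.z t) :=
  H.hA.comm (Subgroup.mem_sup_left hg) (Subgroup.mem_sup_left (H.z_mem t))
    (comm_Mg H.ne (H.mA.le ⟨_, H.z_mem t, rfl⟩) (H.mA.le ⟨g, hg, rfl⟩ _ (by simp) (by simp))
      (H.mA.le ⟨g, hg, rfl⟩ _ (by simp) (by simp)))

theorem z_add (s t : F) : H.z (s + t) = H.z s * H.z t :=
  H.hA.eq (Subgroup.mem_sup_left (H.z_mem _)) (Subgroup.mem_sup_left (mul_mem (H.z_mem _) (H.z_mem _)))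
    (by rw [map_mul, f_z, f_z, f_z, eo_mul (map_zero _) (map_zero _)]; simp)

theorem z_zero : H.z 0 = 1 := left_eq_mul.1 ((add_zero (0 : F) ▸ H.z_add 0 0 :))

include H in
theorem fx (hg : g ∈ G) : f g ∈ Fx P J := H.mG.le ⟨g, hg, rfl⟩

include H in
theorem perp (hv : v ∈ VJ P J) : B (P.f (.inl c)) v = 0 := hv _ H.hc

open Classical in
/-- the lift of an Eichler element -/
noncomputable def T (v : V) : E :=
  if h : ∃ g ∈ G, (f g).1 (P.f (.inl k)) = v then h.choose * H.x 1 * h.choose⁻¹ else 1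

theorem T_eq (hg : g ∈ G) : H.T ((f g).1 (P.f (.inl k))) = g * H.x 1 * g⁻¹ := by
  have h : ∃ g' ∈ G, (f g').1 (P.f (.inl k)) = (f g).1 (P.f (.inl k)) := ⟨g, hg, rfl⟩
  have := H.hx _ (H.x_mem 1) _ (mul_mem (inv_mem hg) h.choose_spec.1) (by
    rw [map_mul, map_inv, Subgroup.coe_mul, LinearEquiv.mul_apply, h.choose_spec.2]
    simp [LinearEquiv.coe_inv])
  rw [T, dif_pos h, mul_inv_eq_iff_eq_mul, mul_assoc, mul_assoc, ← this]
  group

theorem T_zero : H.T 0 = 1 := dif_neg fun ⟨_, _, e⟩ => P.f_ne _ (by simpa using e)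

include H in
theorem ex1 (hv : v ∈ VJ P J) (h0 : v ≠ 0) : ∃ g ∈ G, (f g).1 (P.f (.inl k)) = v := by
  obtain ⟨_, hg, rfl⟩ := trans1 (f_mem (P := P) (a := .inl k) H.hk) hv (P.f_ne _) h0
  obtain ⟨g, h1, rfl⟩ := H.mG.ge hg
  exact ⟨g, h1, rfl⟩

theorem T_conj (hg : g ∈ G) (hv : v ∈ VJ P J) : g * H.T v * g⁻¹ = H.T ((f g).1 v) := by
  by_cases h0 : v = 0
  · simp [h0, T_zero]
  obtain ⟨a, ha, rfl⟩ := H.ex1 hv h0
  rw [H.T_eq ha, ← LinearEquiv.mul_apply, ← Subgroup.coe_mul, ← map_mul, H.T_eq (mul_mem hg ha)]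
  group

theorem f_T (hv : v ∈ VJ P J) : f (H.T v) = eo P (P.f (.inl c)) v 0 := by
  by_cases h0 : v = 0
  · rw [h0, T_zero, map_one, ← yo_eq', P.yo_zero]
  obtain ⟨a, ha, rfl⟩ := H.ex1 hv h0
  rw [H.T_eq ha, map_mul, map_mul, map_inv, f_x, one_smul, conj_eo _ (P.perp _ _ (by simp)),
    H.fx ha (.inl c) H.hc]

theorem z_T (t : F) (v : V) : Commute (H.T v) (H.z t) := by
  unfold T
  split_ifs with h
  · exact ((H.z_G t h.choose_spec.1).mul_left (H.z_A t (H.x_mem 1))).mul_left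
      (H.z_G t (inv_mem h.choose_spec.1))
  · exact Commute.one_left _

theorem T_mem (hv : v ∈ VJ P {k}) : H.T v ∈ A ⊔ H.S := by
  by_cases h0 : v = 0
  · rw [h0, T_zero]; exact one_mem _
  obtain ⟨_, hg, rfl⟩ := trans1 (f_mem (P := P) (J := {k}) (a := .inl k) rfl) hv (P.f_ne _) h0
  obtain ⟨g, h1, rfl⟩ := H.mS.ge hg
  rw [H.T_eq (H.hS h1)]
  exact mul_mem (mul_mem (Subgroup.mem_sup_right h1) (Subgroup.mem_sup_left (H.x_mem 1)))
    (inv_mem (Subgroup.mem_sup_right h1))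

include H in
theorem le_VJ : VJ P {k} ≤ VJ P J := VJ_mono (Set.singleton_subset_iff.2 H.hk)

/-- the Heisenberg relation -/
def R (v w : V) : Prop := H.T v * H.T w = H.T (v + w) * H.z (-B v w)

theorem R_plane (hv : v ∈ VJ P {k}) (hw : w ∈ VJ P {k}) : H.R v w :=
  H.hA.eq (mul_mem (H.T_mem hv) (H.T_mem hw))
    (mul_mem (H.T_mem (add_mem hv hw)) (Subgroup.mem_sup_left (H.z_mem _))) (by
      have h1 := H.le_VJ hv
      have h2 := H.le_VJ hw
      rw [map_mul, map_mul, H.f_T h1, H.f_T h2, H.f_T (add_mem h1 h2), f_z,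
        eo_mul (H.perp h1) (H.perp h2), eo_mul (H.perp (add_mem h1 h2)) (map_zero _)]
      simp)

variable {H} in
theorem R.conj (h : H.R v w) (hv : v ∈ VJ P J) (hw : w ∈ VJ P J) (hg : g ∈ G) :
    H.R ((f g).1 v) ((f g).1 w) := by
  rw [R, ← map_add, isom, ← H.T_conj hg hv, ← H.T_conj hg hw, ← H.T_conj hg (add_mem hv hw),
    mul_assoc _ g⁻¹ (H.z _), (H.z_G _ (inv_mem hg)).eq, ← mul_assoc _ (H.z _),
    mul_assoc g _ (H.z _), ← h]
  group

theorem R_hyp (hv : v ∈ VJ P J) (hw : w ∈ VJ P J) (h : B v w ≠ 0) : H.R v w := by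
  have a1 := f_mem (P := P) (J := {k}) (a := .inl k) rfl
  have a2 := Submodule.smul_mem _ (B v w) (f_mem (P := P) (J := {k}) (a := .inr k) rfl)
  obtain ⟨_, hg, rfl, e⟩ := trans2 (H.le_VJ a1) (H.le_VJ a2) hv hw (by simp [P.one k]) h
  obtain ⟨g, h1, rfl⟩ := H.mG.ge hg
  rw [← e]
  exact (H.R_plane a1 a2).conj (H.le_VJ a1) (H.le_VJ a2) h1

theorem R_dep (hv : v ∈ VJ P J) (t : F) : H.R v (t • v) := by
  by_cases h0 : v = 0
  · simp [R, h0, T_zero, z_zero]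
  obtain ⟨a, ha, rfl⟩ := H.ex1 hv h0
  have a1 := f_mem (P := P) (J := {k}) (a := .inl k) rfl
  have a2 := Submodule.smul_mem _ t a1
  rw [← map_smul]
  exact (H.R_plane a1 a2).conj (H.le_VJ a1) (H.le_VJ a2) ha

theorem R_all (hF : ∃ a : F, a ≠ 0 ∧ a ≠ 1) (hv : v ∈ VJ P J) (hw : w ∈ VJ P J) : H.R v w := by
  by_cases h : B v w = 0
  swap
  · exact H.R_hyp hv hw h
  by_cases h0 : v = 0
  · simp [R, h0, T_zero, z_zero]
  by_cases h1 : ∃ t : F, w = t • v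
  · obtain ⟨t, rfl⟩ := h1; exact H.R_dep hv t
  obtain ⟨a, a0, a1⟩ := hF
  obtain ⟨y, hy, y1, y2⟩ : ∃ y ∈ VJ P J, B v y = 1 ∧ B w y = -a := by
    obtain ⟨b, b1, b2⟩ := exists_f_ne hv h0
    have b3 := P.cl.refl_ne b2
    set p := (B v (P.f b))⁻¹ • P.f b
    have p1 : p ∈ VJ P J := Submodule.smul_mem _ _ (f_mem b1)
    have p2 : B v p = 1 := by simp [p, b3]
    obtain ⟨d, d1, d2⟩ := exists_f_ne (sub_mem hw (Submodule.smul_mem _ (B w p) hv))
      fun e => h1 ⟨_, sub_eq_zero.1 e⟩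
    have d3 := P.cl.refl_ne d2
    set q := P.f d - B v (P.f d) • p
    have q1 : B v q = 0 := by simp [q, p2]
    have q2 : B w q ≠ 0 := by simpa [q, mul_comm] using d3
    exact ⟨p + ((-a - B w p) / B w q) • q, add_mem p1 (Submodule.smul_mem _ _ (sub_mem (f_mem d1)
      (Submodule.smul_mem _ _ p1))), by simp [p2, q1], by simp [q2]⟩
  have r1 := H.R_hyp hy (sub_mem hw hy) (by simpa [B0 P, Bs P w y, y2])
  have r2 := H.R_hyp hv hy (by simp [y1])
  have r3 := H.R_hyp (add_mem hv hy) (sub_mem hw hy) (by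
    simpa [B0 P, Bs P w y, y2, h, y1, ← sub_eq_add_neg, add_comm] using sub_ne_zero.2 a1)
  simp only [R, add_sub_cancel, map_sub, map_add, LinearMap.add_apply, B0 P, Bs P w y, y1, y2, h,
    add_assoc] at r1 r2 r3 ⊢
  have r4 : H.T w = H.T y * H.T (w - y) * H.z a := by
    rw [r1, mul_assoc, ← z_add]; simp [z_zero]
  rw [r4, ← mul_assoc, ← mul_assoc, r2, mul_assoc _ (H.z _), ← (H.z_T _ _).eq, ← mul_assoc, r3,
    mul_assoc, mul_assoc, ← z_add, ← z_add]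
  congr 2; ring

/-- the Heisenberg group -/
def Qg (hF : ∃ a : F, a ≠ 0 ∧ a ≠ 1) : Subgroup E where
  carrier := {a | ∃ v ∈ VJ P J, ∃ s, a = H.T v * H.z s}
  one_mem' := ⟨0, zero_mem _, 0, by simp [T_zero, z_zero]⟩
  mul_mem' := by
    rintro _ _ ⟨v, hv, s, rfl⟩ ⟨w, hw, t, rfl⟩
    refine ⟨_, add_mem hv hw, -B v w + s + t, ?_⟩
    rw [z_add, z_add, ← mul_assoc, ← mul_assoc, ← mul_assoc, ← H.R_all hF hv hw, mul_assoc _ (H.z s),
      ← (H.z_T s w).eq]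
    simp only [mul_assoc]
  inv_mem' := by
    rintro _ ⟨v, hv, s, rfl⟩
    refine ⟨_, neg_mem hv, -s, inv_eq_of_mul_eq_one_right ?_⟩
    have := H.R_dep hv (-1)
    simp only [R, neg_smul, one_smul, add_neg_cancel, T_zero, map_neg, B0 P, neg_zero, z_zero] at this
    rw [mul_assoc, ← mul_assoc (H.z s), ← (H.z_T s _).eq, mul_assoc, ← z_add, ← mul_assoc, this]
    simp [z_zero]

include H in
theorem inj (hF : ∃ a : F, a ≠ 0 ∧ a ≠ 1) : InjS f (G ⊔ A) := by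
  have n1 : ∀ g ∈ G, ∀ a ∈ H.Qg hF, g * a * g⁻¹ ∈ H.Qg hF := by
    rintro g hg _ ⟨v, hv, s, rfl⟩
    refine ⟨_, map_VJ (H.fx hg) hv, s, ?_⟩
    rw [← H.T_conj hg hv, mul_assoc _ g⁻¹, (H.z_G _ (inv_mem hg)).eq]
    group
  have n2 : G ≤ Subgroup.normalizer (H.Qg hF : Set E) := fun g hg =>
    mem_normalizer_of_conj (n1 g hg) (by simpa using n1 _ (inv_mem hg))
  have n3 : A ≤ H.Qg hF ⊔ G := fun a ha => by
    obtain ⟨t, s, s', e⟩ := mem_Mg H.ne (H.mA.le ⟨a, ha, rfl⟩)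
    have a1 := f_mem (P := P) (J := {k}) (a := .inl k) rfl
    have a2 := Submodule.smul_mem _ t a1
    obtain ⟨b, hb, e'⟩ := H.mS.ge (eo_mem a1 (zero_mem _) (map_zero _) s')
    rw [H.hA.eq (Subgroup.mem_sup_left ha) (mul_mem (mul_mem (H.T_mem a2)
      (Subgroup.mem_sup_left (H.z_mem s))) (Subgroup.mem_sup_right hb)) (by
        rw [e, map_mul, map_mul, e', H.f_T (H.le_VJ a2), f_z]; rfl)]
    exact Subgroup.mul_mem_sup ⟨_, H.le_VJ a2, s, rfl⟩ (H.hS hb)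
  intro a ha e
  obtain ⟨_, ⟨v, hv, s, rfl⟩, g, hg, rfl⟩ :=
    (mem_sup_of_le_normalizer n2).1 (sup_le le_sup_right n3 ha)
  have h1 := congrArg (fun g : P.cl.Om => g.1 (P.f (.inr c))) e
  have b1 : B (P.f (.inl c)) (P.f (.inr c)) = 1 := P.one c
  simp only [map_mul, H.f_T hv, f_z, eo_mul (H.perp hv) (map_zero _), Subgroup.coe_mul,
    LinearEquiv.mul_apply, H.fx hg (.inr c) H.hc, add_zero, map_zero, sub_zero, zero_add,
    eo_apply (H.perp hv), b1, P.cl.refl (hv (.inr c) H.hc)] at h1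
  have h2 : v = s • P.f (.inl c) := by
    simp only [OneMemClass.coe_one, LinearEquiv.coe_one, id_eq] at h1
    linear_combination (norm := module) h1
  have h3 : s = 0 := by
    have := hv (.inr c) H.hc
    rwa [h2, map_smul, Bs P, b1, smul_neg, smul_eq_mul, mul_one, neg_eq_zero] at this
  rw [h3, zero_smul] at h2
  rw [h2, h3, T_zero, z_zero, one_mul, one_mul] at e ⊢
  exact H.hG g hg e

end Heis

end Sp

end Cfsg.Agent.H12
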