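import Mathlib
import Cfsg.Agent.H12.Am3

/-!
The symplectic group as the universal completion of an amalgam of small subgroups.
-/

set_option autoImplicit false
set_option linter.unusedSectionVars false

namespace Cfsg.Agent.H12

open H10 H11 H17 H17.CT H17.Frame H19.St RGD H7.Pr

universe u

variable {F : Type u} [Field F] {V : Type u} [AddCommGroup V] [Module F V]
  {C : H17.CT} {B : V →ₗ[F] V →ₗ[F] F} {Q : V → F} [FiniteDimensional F V]
  {P : Frame (σ := RingHom.id F) C ℤ (-1) 0 0 B Q} {J J' : Set (Fin C.n)}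
  {E : Type*} [Group E] {f : E →* P.cl.Om}

namespace Sp

theorem exists_enum {n : ℕ} (J : Set (Fin n)) :
    ∃ (m : ℕ) (j : Fin m → Fin n), Function.Injective j ∧ Set.range j = J := by
  obtain ⟨m, ⟨e⟩⟩ := Finite.exists_equiv_fin J
  exact ⟨m, Subtype.val ∘ e.symm, Subtype.val_injective.comp e.symm.injective, by
    rw [Set.range_comp, e.symm.surjective.range_eq, Set.image_univ, Subtype.range_val]⟩

theorem Fx_le' {N : Subgroup P.cl.Om}
    (h : ∀ a b, jx a ∈ J → jx b ∈ J → b ≠ a.swap → ∀ t, ym P a b t ∈ N) : Fx P J ≤ N := by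
  obtain ⟨m, j, hj, rfl⟩ := exists_enum J
  exact Fx_le hj h

/-- consecutive indices -/
def Adj {n : ℕ} (i j : Fin n) : Prop := i.1 + 1 = j.1 ∨ j.1 + 1 = i.1

theorem Adj.symm {n : ℕ} {i j : Fin n} (h : Adj i j) : Adj j i := Or.symm h

theorem Adj.ne {n : ℕ} {i j : Fin n} (h : Adj i j) : i ≠ j := by
  rintro rfl; rcases h with h | h <;> omega

/-- intervals of indices -/
def Iv (n lo hi : ℕ) : Set (Fin n) := {k | lo ≤ k.1 ∧ k.1 < hi}

theorem ym_symm {a b : C.ι} (h : b ≠ a.swap) : ym P b a = ym P a b := by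
  by_cases e : b = a
  · rw [e]
  · rw [ym_ne P (ix_of_ne e h), ym_ne P (ix_of_ne e h).symm]
    exact funext (xo_comm_sp (ix_of_ne e h))

theorem root_mem {lo hi : ℕ} (N : C.ι → C.ι → Subgroup P.cl.Om) (sym : ∀ a b, N b a = N a b)
    (h0 : ∀ a, jx a ∈ Iv _ lo hi → ∀ t, P.yo a 0 t ∈ N a a)
    (h1 : ∀ a b, jx a ∈ Iv _ lo hi → jx b ∈ Iv _ lo hi → Adj (jx a) (jx b) → ∀ t, P.xo a b t ∈ N a b)
    (h2 : ∀ a b c, jx a ∈ Iv _ lo hi → jx b ∈ Iv _ lo hi → (jx a).1 < (jx c).1 →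
      (jx c).1 < (jx b).1 → N a c ≤ N a b ∧ N c b ≤ N a b) {a b : C.ι}
    (ha : jx a ∈ Iv _ lo hi) (hb : jx b ∈ Iv _ lo hi) (h : b ≠ a.swap) (t : F) :
    ym P a b t ∈ N a b := by
  have key : ∀ d a b, jx a ∈ Iv _ lo hi → jx b ∈ Iv _ lo hi → (jx a).1 + d + 1 = (jx b).1 →
      ∀ t, P.xo a b t ∈ N a b := fun d => by
    induction d with
    | zero => exact fun a b ha hb e => h1 a b ha hb (.inl e)
    | succ d ih =>
      intro a b ha hb e t
      have hc : (jx a).1 + 1 < C.n := by have := (jx b).2; omega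
      have c1 : jx (.inl ⟨_, hc⟩ : C.ι) ∈ Iv _ lo hi := by
        simp only [Iv, Set.mem_ofPred_eq, jx_inl] at ha hb ⊢; omega
      have := P.cm_xx (a := a) (b := .inl ⟨_, hc⟩) (d := b) (by simp [idx_eq])
        (by simp only [idx_eq]; omega) (by simp only [idx_eq, jx_inl]; omega) (-1) t
      have a1 := (h2 a b (.inl ⟨_, hc⟩) ha hb (by simp) (by simp only [jx_inl]; omega)).1
        (h1 a _ ha c1 (.inl rfl) t)
      have a2 := (h2 a b (.inr ⟨_, hc⟩) ha hb (by simp) (by simp only [jx_inr]; omega)).2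
        (ih (.inr ⟨_, hc⟩) b c1 hb (by simp only [jx_inr]; omega) (-1))
      rw [P.β_inl, neg_mul_neg, one_mul, one_mul] at this
      rw [← this]
      exact mul_mem (mul_mem (mul_mem a2 a1) (inv_mem a2)) (inv_mem a1)
  by_cases e : b = a
  · rw [e, ym_self]; exact h0 a ha t
  have e' := ix_of_ne e h
  simp only [idx_eq] at e'
  rcases Nat.lt_or_gt_of_ne e' with l | l
  · rw [ym_ne P (ix_of_ne e h)]
    exact key ((jx b).1 - (jx a).1 - 1) a b ha hb (by omega) t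
  · rw [← ym_symm h, ym_ne P (ix_of_ne e h).symm, ← sym]
    exact key ((jx a).1 - (jx b).1 - 1) b a hb ha (by omega) t

variable (P f) in
/-- a lift of the amalgam -/
structure Am where
  S : Fin C.n → Subgroup E
  M : Fin C.n → Fin C.n → Subgroup E
  sym : ∀ i j, M j i = M i j
  mS : ∀ k, (S k).map f = Fx P {k}
  mM : ∀ i j, Adj i j → (M i j).map f = Mg P i j
  iSS : ∀ k l, InjS f (S k ⊔ S l)
  iMM : ∀ i j k l, Adj i j → Adj k l → InjS f (M i j ⊔ M k l)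
  iMS : ∀ i j k, Adj i j → InjS f (M i j ⊔ S k)

namespace Am
variable (A : Am P f) {i j k l : Fin C.n} {g g' : E}

/-- the subgroups generated by parts of the amalgam -/
def G (J : Set (Fin C.n)) : Subgroup E :=
  (⨆ k ∈ J, A.S k) ⊔ ⨆ (i) (j) (_ : i ∈ J ∧ j ∈ J ∧ Adj i j), A.M i j

theorem S_le (h : k ∈ J) : A.S k ≤ A.G J :=
  (le_iSup₂ (f := fun k (_ : k ∈ J) => A.S k) k h).trans le_sup_left

theorem M_le (hi : i ∈ J) (hj : j ∈ J) (h : Adj i j) : A.M i j ≤ A.G J :=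
  le_sup_of_le_right (le_iSup_of_le i (le_iSup₂_of_le j ⟨hi, hj, h⟩ le_rfl))

theorem G_le {H : Subgroup E} (h1 : ∀ k ∈ J, A.S k ≤ H)
    (h2 : ∀ i ∈ J, ∀ j ∈ J, Adj i j → A.M i j ≤ H) : A.G J ≤ H :=
  sup_le (iSup₂_le h1) (iSup_le fun i => iSup₂_le fun j h => h2 i h.1 j h.2.1 h.2.2)

theorem G_mono (h : J ⊆ J') : A.G J ≤ A.G J' :=
  A.G_le (fun _ hk => A.S_le (h hk)) fun _ hi _ hj => A.M_le (h hi) (h hj)

theorem fS (hg : g ∈ A.S k) : f g ∈ Fx P {k} := (A.mS k).le ⟨g, hg, rfl⟩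

theorem fM (h : Adj i j) (hg : g ∈ A.M i j) : f g ∈ Mg P i j := (A.mM i j h).le ⟨g, hg, rfl⟩

theorem SS (h : k ≠ l) (hg : g ∈ A.S k) (hg' : g' ∈ A.S l) : g * g' = g' * g :=
  (A.iSS k l).comm (Subgroup.mem_sup_left hg) (Subgroup.mem_sup_right hg')
    (comm_Fx (Set.disjoint_singleton.2 h) (A.fS hg) (A.fS hg'))

theorem MM (h : Adj i j) (h' : Adj k l) (hg : g ∈ A.M i j) (hg' : g' ∈ A.M k l) : g * g' = g' * g :=
  (A.iMM i j k l h h').comm (Subgroup.mem_sup_left hg) (Subgroup.mem_sup_right hg')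
    (comm_Mg h'.ne (A.fM h' hg') (A.fM h hg _ (by simp) (by simp)) (A.fM h hg _ (by simp) (by simp)))

theorem SM (h : Adj i j) (h1 : i ≠ k) (h2 : j ≠ k) (hg : g ∈ A.S k) (hg' : g' ∈ A.M i j) :
    g * g' = g' * g :=
  (A.iMS i j k h).comm (Subgroup.mem_sup_right hg) (Subgroup.mem_sup_left hg')
    (comm_Mg h.ne (A.fM h hg') (A.fS hg (.inl i) h1) (A.fS hg (.inl j) h2))

theorem SG (h : k ∉ J) (hg : g ∈ A.S k) (hg' : g' ∈ A.G J) : g * g' = g' * g :=
  (Subgroup.mem_centralizer_singleton_iff.1 (A.G_le (H := Subgroup.centralizer {g})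
    (fun l hl _ ha => Subgroup.mem_centralizer_singleton_iff.2
      (A.SS (by rintro rfl; exact h hl) ha hg))
    (fun _ hi _ hj e _ ha => Subgroup.mem_centralizer_singleton_iff.2 (A.SM e
      (by rintro rfl; exact h hi) (by rintro rfl; exact h hj) hg ha).symm) hg')).symm

theorem map_G_le : (A.G J).map f ≤ Fx P J := Subgroup.map_le_iff_le_comap.2 (A.G_le
  (fun _ hk _ hg => Fx_mono (Set.singleton_subset_iff.2 hk) (A.fS hg))
  fun _ hi _ hj h _ hg => Mg_le hi hj (A.fM h hg))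

theorem exists_y (a : C.ι) (s : F) : ∃ g ∈ A.S (jx a), f g = P.yo a 0 s :=
  (A.mS _).ge (eo_mem (f_mem (J := {jx a}) rfl) (zero_mem _) (map_zero _) s)

theorem mem_M (h : Adj i j) (hg : g ∈ A.S i) {s : F} (e : f g = P.yo (.inl i) 0 s) : g ∈ A.M i j :=
  (A.iMS i j i h).mem le_sup_left (Subgroup.mem_sup_right hg) (by rw [A.mM i j h, e]; exact yo_Mg i j s)

theorem inj_D (s : Finset (Fin C.n)) : InjS f (⨆ k ∈ s, A.S k) := by
  induction s using Finset.induction with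
  | empty => intro g hg _; simpa using hg
  | insert k s hk ih =>
    have le : (⨆ k ∈ s, A.S k) ≤ A.G s := le_sup_left
    intro g hg e
    rw [Finset.iSup_insert] at hg
    obtain ⟨a, ha, b, hb, rfl⟩ := (mem_sup_of_le_normalizer fun b hb => mem_normalizer_of_conj
      (fun a ha => by rwa [← A.SG hk ha (le hb), mul_inv_cancel_right])
      fun a ha => by rwa [mul_assoc, A.SG hk ha (le hb), inv_mul_cancel_left]).1 hg
    have h1 : f a = 1 := eq_one_of_Fx (A.fS ha) (by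
      rw [map_mul, mul_eq_one_iff_eq_inv] at e
      rw [e]; exact inv_mem (A.map_G_le ⟨b, le hb, rfl⟩)) (Set.disjoint_singleton_left.2 hk)
    rw [A.iSS k k a (Subgroup.mem_sup_left ha) h1, one_mul] at e ⊢
    exact ih b hb e

theorem inj_end (hF : ∃ a : F, a ≠ 0 ∧ a ≠ 1) {c : Fin C.n} (hc : c ∉ J) (hk : k ∉ J') (h : Adj c k)
    (hJ : J = insert k J') (h1 : InjS f (A.G J)) (h2 : (A.G J).map f = Fx P J)
    (h3 : (A.G J').map f = Fx P J') (h4 : J'.Nonempty → ∃ l ∈ J', Adj k l) :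
    InjS f (A.G J ⊔ A.M c k) := by
  have k1 : k ∈ J := hJ ▸ Set.mem_insert _ _
  have k2 : J' ⊆ J := hJ ▸ Set.subset_insert _ _
  refine Heis.inj ⟨A.S k, hc, k1, h1, h2, A.S_le k1, A.mS k, A.iMS c k k h, A.mM c k h,
    fun a ha g hg e => ?_, fun a ha s e g hg => ?_⟩ hF
  · refine Subgroup.mem_centralizer_singleton_iff.1 (h1.mem (K' := A.G J ⊓ Subgroup.centralizer {a})
      inf_le_left hg (stab_le hk ?_ (fun s => ?_) (fun h5 => ?_) (hJ ▸ h2.le ⟨g, hg, rfl⟩) e)).2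
    · rw [← h3]
      exact Subgroup.map_mono (le_inf (A.G_mono k2) (A.G_le
        (fun l hl b hb => Subgroup.mem_centralizer_singleton_iff.2 (A.SM h
          (by rintro rfl; exact hc (k2 hl)) (by rintro rfl; exact hk hl) hb ha))
        fun i _ j _ e b hb => Subgroup.mem_centralizer_singleton_iff.2 (A.MM e h hb ha)))
    · obtain ⟨b, hb, e⟩ := A.exists_y (.inl k) s
      exact ⟨b, ⟨A.S_le k1 hb, Subgroup.mem_centralizer_singleton_iff.2
        (A.MM h.symm h (A.mem_M h.symm hb e) ha)⟩, e⟩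
    · obtain ⟨l, hl, h6⟩ := h4 h5
      obtain ⟨b, hb, e⟩ := (A.mM k l h6).ge (xo_Mg h6.ne 1)
      exact ⟨l, hl, b, ⟨A.M_le k1 (k2 hl) h6 hb, Subgroup.mem_centralizer_singleton_iff.2
        (A.MM h6 h hb ha)⟩, e⟩
  · obtain ⟨b, hb, e'⟩ := A.exists_y (.inl c) s
    rw [(A.iMS c k c h).eq (Subgroup.mem_sup_left ha) (Subgroup.mem_sup_right hb) (e.trans e'.symm)]
    exact (A.SG hc hb hg).symm

theorem exists_w (k : Fin C.n) : ∃ g ∈ A.S k, (f g).1 (P.f (.inl k)) = P.f (.inr k) := by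
  obtain ⟨_, hg, e⟩ := trans1 (f_mem (P := P) (J := {k}) (a := .inl k) rfl)
    (f_mem (P := P) (J := {k}) (a := .inr k) rfl) (P.f_ne _) (P.f_ne _)
  obtain ⟨g, h1, rfl⟩ := (A.mS k).ge hg
  exact ⟨g, h1, e⟩

/-- lifts of Weyl elements -/
noncomputable def w : C.ι → E := Sum.elim (fun _ => 1) fun k => (A.exists_w k).choose

theorem w_mem (a : C.ι) : A.w a ∈ A.S (jx a) := by
  cases a
  exacts [one_mem _, (A.exists_w _).choose_spec.1]

theorem f_w (a : C.ι) : (f (A.w a)).1 (P.f (.inl (jx a))) = P.f a := by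
  cases a
  exacts [by simp [w], (A.exists_w _).choose_spec.2]

/-- lifts of vector stabilisers -/
noncomputable def K (J : Set (Fin C.n)) (e : C.ι) : Subgroup E :=
  (A.G (J \ {jx e}) ⊔ ⨆ (l) (_ : l ∈ J ∧ Adj (jx e) l), A.M (jx e) l).map
    (MulAut.conj (A.w e)).toMonoidHom

theorem G_le_K (e : C.ι) : A.G (J \ {jx e}) ≤ A.K J e := fun g hg =>
  ⟨g, Subgroup.mem_sup_left hg, mul_inv_eq_iff_eq_mul.2 (A.SG (by simp) (A.w_mem e) hg)⟩

theorem K_le {e : C.ι} (h : jx e ∈ J) : A.K J e ≤ A.G J := by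
  rintro _ ⟨g, hg, rfl⟩
  have := A.S_le h (A.w_mem e)
  exact mul_mem (mul_mem this (sup_le (A.G_mono Set.sdiff_subset)
    (iSup₂_le fun l hl => A.M_le h hl.1 hl.2) hg)) (inv_mem this)

theorem x_mem_K {a b e : C.ι} (ha : jx a ∈ J) (hb : jx b ∈ J) (h : Adj (jx a) (jx b))
    (h1 : a ≠ e.swap) (h2 : b ≠ e.swap) (hg : g ∈ A.M (jx a) (jx b)) :
    A.w a * A.w b * g * (A.w a * A.w b)⁻¹ ∈ A.K J e := by
  have key : ∀ {a b : C.ι}, jx b ∈ J → Adj (jx a) (jx b) → g ∈ A.M (jx a) (jx b) →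
      A.w a * A.w b * g * (A.w a * A.w b)⁻¹ ∈ A.K J a := fun {a b} hb h hg => by
    have := A.S_le (J := J \ {jx a}) ⟨hb, h.ne.symm⟩ (A.w_mem b)
    exact ⟨_, mul_mem (mul_mem (Subgroup.mem_sup_left this) (Subgroup.mem_sup_right
      (le_iSup₂ (f := fun l (_ : l ∈ J ∧ Adj (jx a) l) => A.M (jx a) l) _ ⟨hb, h⟩ hg)))
      (inv_mem (Subgroup.mem_sup_left this)), by simp [mul_assoc]⟩
  by_cases e1 : a = e
  · exact e1 ▸ key hb h hg
  by_cases e2 : b = e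
  · rw [A.SS h.ne (A.w_mem a) (A.w_mem b)]
    exact e2 ▸ key ha h.symm (A.sym _ _ ▸ hg)
  have a1 : jx a ∈ J \ {jx e} := ⟨ha, (jx_ne.1 (ix_of_ne e1 h1)).symm⟩
  have a2 : jx b ∈ J \ {jx e} := ⟨hb, (jx_ne.1 (ix_of_ne e2 h2)).symm⟩
  have := mul_mem (A.S_le a1 (A.w_mem a)) (A.S_le a2 (A.w_mem b))
  exact A.G_le_K e (mul_mem (mul_mem this (A.M_le a1 a2 h hg)) (inv_mem this))

theorem y_mem_K {a e : C.ι} (ha : jx a ∈ J) (h : ∃ l ∈ J, Adj (jx e) l) (h1 : a ≠ e.swap)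
    (hg : g ∈ A.S (jx a)) {s : F} (h2 : f g = P.yo a 0 s) : g ∈ A.K J e := by
  by_cases e1 : a = e
  · subst e1
    obtain ⟨l, hl, h⟩ := h
    obtain ⟨b, hb, e⟩ := A.exists_y (.inl (jx a)) s
    refine ⟨b, Subgroup.mem_sup_right (le_iSup₂ (f := fun l (_ : l ∈ J ∧ Adj (jx a) l) =>
      A.M (jx a) l) _ ⟨hl, h⟩ (A.mem_M h hb e)), ((A.iSS _ (jx a)).mono le_sup_left).eq
      (mul_mem (mul_mem (A.w_mem a) hb) (inv_mem (A.w_mem a))) hg ?_⟩
    simp only [MulEquiv.toMonoidHom_eq_coe, MonoidHom.coe_coe, MulAut.conj_apply, map_mul, map_inv]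
    rw [e, h2, conj_zo (c := a) (y := 1) (by rw [A.f_w, one_smul])]
    simp
  · exact A.G_le_K e (A.S_le (J := J \ {jx e}) ⟨ha, (jx_ne.1 (ix_of_ne e1 h1)).symm⟩ hg)

theorem exists_x {a b : C.ι} (h : Adj (jx a) (jx b)) (t : F) :
    ∃ g ∈ A.M (jx a) (jx b), f (A.w a * A.w b * g * (A.w a * A.w b)⁻¹) = P.xo a b t := by
  obtain ⟨g, hg, e⟩ := (A.mM _ _ h).ge (xo_Mg h.ne t)
  refine ⟨g, hg, ?_⟩
  rw [map_mul, map_mul, map_inv, e, conj_xo (a := .inl (jx a)) (b := .inl (jx b)) (c := a) (d := b)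
    (x := 1) (y := 1) (jx_ne.2 h.ne) (jx_ne.2 h.ne)]
  · simp
  · rw [map_mul, Subgroup.coe_mul, LinearEquiv.mul_apply, A.fS (A.w_mem b) (.inl (jx a)) h.ne, A.f_w,
      one_smul]
  · rw [map_mul, Subgroup.coe_mul, LinearEquiv.mul_apply, A.f_w, A.fS (A.w_mem a) b h.ne.symm,
      one_smul]

theorem map_G (lo hi : ℕ) : (A.G (Iv _ lo hi)).map f = Fx P (Iv _ lo hi) :=
  A.map_G_le.antisymm (Fx_le' fun _ _ ha hb => root_mem (fun _ _ => (A.G (Iv _ lo hi)).map f)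
    (fun _ _ => rfl) (fun a ha t => by
      obtain ⟨g, hg, e⟩ := A.exists_y a t
      exact ⟨g, A.S_le ha hg, e⟩) (fun a b ha hb h t => by
      obtain ⟨g, hg, e⟩ := A.exists_x h t
      have := mul_mem (A.S_le ha (A.w_mem a)) (A.S_le hb (A.w_mem b))
      exact ⟨_, mul_mem (mul_mem this (A.M_le ha hb h hg)) (inv_mem this), e⟩)
    (fun _ _ _ _ _ _ _ => ⟨le_rfl, le_rfl⟩) ha hb)

theorem inj_step {lo hi : ℕ} {k₀ k₁ : Fin C.n} (e₀ : k₀.1 = lo) (e₁ : k₁.1 + 1 = hi) (h : lo + 1 < hi)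
    (hK : ∀ e, jx e = k₀ ∨ jx e = k₁ → InjS f (A.K (Iv _ lo hi) e)) : InjS f (A.G (Iv _ lo hi)) := by
  have m₀ : k₀ ∈ Iv _ lo hi := ⟨by omega, by omega⟩
  have m₁ : k₁ ∈ Iv _ lo hi := ⟨by omega, by omega⟩
  have ne : k₀ ≠ k₁ := fun e => by rw [e] at e₀; omega
  have val : ∀ {a b : C.ι}, b ≠ a.swap → C.Val a b := fun h => ⟨h, fun _ => P.isD_sp⟩
  let I : C.ι → C.ι → Subgroup E := fun a b =>
    ⨅ (e) (_ : (jx e = k₀ ∨ jx e = k₁) ∧ a ≠ e.swap ∧ b ≠ e.swap), A.K (Iv _ lo hi) e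
  let W : C.ι → C.ι → Subgroup E := fun a b =>
    I a b ⊓ (⨅ h : b ≠ a.swap, P.rgdO.U (rt ℤ (val h))).comap f
  have sI : ∀ a b, I b a = I a b := fun a b => by simp only [I, and_comm]
  have mI : ∀ {a b g}, g ∈ I a b ↔ ∀ e, jx e = k₀ ∨ jx e = k₁ → a ≠ e.swap → b ≠ e.swap →
      g ∈ A.K (Iv _ lo hi) e := by simp only [I, Subgroup.mem_iInf, and_imp, implies_true]
  have mW : ∀ {a b g}, g ∈ W a b ↔ g ∈ I a b ∧ (b ≠ a.swap → ∃ t, f g = ym P a b t) := by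
    simp only [W, Subgroup.mem_inf, Subgroup.mem_comap, Subgroup.mem_iInf, ym_mem, implies_true]
  have nb : ∀ e : C.ι, jx e = k₀ ∨ jx e = k₁ → ∃ l ∈ Iv _ lo hi, Adj (jx e) l := fun e he => by
    have := k₁.2
    rcases he with he | he
    · exact ⟨⟨lo + 1, by omega⟩, ⟨by simp, h⟩, .inl (by simp [he, e₀])⟩
    · exact ⟨⟨hi - 2, by omega⟩, ⟨by simp only; omega, by simp only; omega⟩,
        .inr (by simp only [he]; omega)⟩
  have ex : ∀ a b, jx a ∈ Iv _ lo hi → jx b ∈ Iv _ lo hi → b ≠ a.swap → ∀ t,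
      ym P a b t ∈ (W a b).map f := fun a b ha hb h t => by
    obtain ⟨g, hg, e⟩ := root_mem (fun a b => (I a b).map f) (fun a b => by simp only [sI])
      (fun a ha t => by
        obtain ⟨g, hg, e⟩ := A.exists_y a t
        exact ⟨g, mI.2 fun c hc h1 _ => A.y_mem_K ha (nb c hc) h1 hg e, e⟩)
      (fun a b ha hb h t => by
        obtain ⟨g, hg, e⟩ := A.exists_x h t
        exact ⟨_, mI.2 fun c _ h1 h2 => A.x_mem_K ha hb h h1 h2 hg, e⟩)
      (fun a b c ha hb h1 h2 => by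
        have : ∀ e : C.ι, jx e = k₀ ∨ jx e = k₁ → c ≠ e.swap := by
          rintro e he rfl
          rw [jx_swap] at h1 h2
          have := ha.1
          have := hb.2
          rcases he with he | he <;> rw [he] at h1 h2 <;> omega
        exact ⟨Subgroup.map_mono fun g hg => mI.2 fun e he a1 _ => mI.1 hg e he a1 (this e he),
          Subgroup.map_mono fun g hg => mI.2 fun e he _ a2 => mI.1 hg e he (this e he) a2⟩)
      ha hb h t
    exact ⟨g, mW.2 ⟨hg, fun _ => ⟨t, e⟩⟩, e⟩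
  obtain ⟨m, j, hj, hJ⟩ := exists_enum (Iv C.n lo hi)
  obtain ⟨i₀, rfl⟩ := hJ.ge m₀
  obtain ⟨i₁, rfl⟩ := hJ.ge m₁
  have key := inj_sub hj W (A.K (Iv _ lo hi)) (i₀ := i₀) (i₁ := i₁) (fun e => ne (congrArg j e))
    (fun a b => by
      ext g
      rw [mW, mW, sI]
      exact and_congr_right fun _ => ⟨fun h e => ym_symm (P := P) e ▸ h fun e' => e (by simp [e']),
        fun h e => ym_symm (P := P) e ▸ h fun e' => e (by simp [e'])⟩)
    (fun a b ha hb h g => ⟨by rintro ⟨g, hg, rfl⟩; exact (mW.1 hg).2 h, by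
      rintro ⟨t, rfl⟩; exact ex a b (hJ ▸ ha) (hJ ▸ hb) h t⟩) hK
    (fun e he a b h1 h2 g hg => mI.1 (mW.1 hg).1 e he h1 h2)
    ((A.inj_D Finset.univ).mono (iSup₂_le fun a ha g hg => by
      obtain ⟨t, ht⟩ := (mW.1 hg).2 (swap_ne_self a).symm
      obtain ⟨e, he, h1, -⟩ := exists_end ne (swap_ne_self a).symm (swap_ne_self a).symm
        (.inl (swap_ne_self a).symm) (.inl (swap_ne_self a).symm)
      obtain ⟨b, hb, e'⟩ := A.exists_y a t
      rw [(hK e he).eq (mI.1 (mW.1 hg).1 e he h1 h1) (A.y_mem_K (hJ ▸ ha) (nb e he) h1 hb e')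
        (by rw [ht, e', ym_self])]
      exact le_iSup₂ (f := fun k (_ : k ∈ Finset.univ) => A.S k) _ (Finset.mem_univ _) hb))
  rw [hJ] at key
  set R := ⨆ (a) (b) (_ : jx a ∈ Iv C.n lo hi ∧ jx b ∈ Iv C.n lo hi ∧ b ≠ a.swap), W a b
  have r1 : ∀ e : C.ι, jx e = j i₀ ∨ jx e = j i₁ → ∀ a b, jx a ∈ Iv _ lo hi → jx b ∈ Iv _ lo hi →
      b ≠ a.swap → a ≠ e.swap → b ≠ e.swap → ∀ t,
      ym P a b t ∈ (R ⊓ A.K (Iv _ lo hi) e).map f := fun e he a b ha hb h h1 h2 t =>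
    Subgroup.map_mono (le_inf (show W a b ≤ R from le_iSup_of_le a (le_iSup₂_of_le b ⟨ha, hb, h⟩
      le_rfl)) fun g hg => mI.1 (mW.1 hg).1 e he h1 h2) (ex a b ha hb h t)
  have r2 : ∀ k, k = j i₀ ∨ k = j i₁ → A.G (Iv _ lo hi \ {k}) ≤ R := fun k hk g hg =>
    ((hK (.inl k) hk).mem inf_le_right (A.G_le_K (.inl k) hg) (Fx_le' (J := Iv _ lo hi \ {k})
      (fun a b ha hb h => r1 (.inl k) hk a b ha.1 hb.1 h (fun e => ha.2 (by simp [e]))
        fun e => hb.2 (by simp [e])) (A.map_G_le (Subgroup.mem_map_of_mem f hg)))).1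
  refine key.mono (A.G_le (fun k hk => ?_) fun i hi l hl h g hg => ?_)
  · by_cases e : k = j i₀
    · exact (A.S_le (J := _ \ {j i₁}) ⟨hk, e ▸ ne⟩).trans (r2 _ (.inr rfl))
    · exact (A.S_le (J := _ \ {j i₀}) ⟨hk, e⟩).trans (r2 _ (.inl rfl))
  · obtain ⟨t, s, s', e⟩ := mem_Mg h.ne (A.fM h hg)
    have a1 := r1 (.inl (j i₀)) (.inl rfl)
    refine ((hK (.inl (j i₀)) (.inl rfl)).mem inf_le_right (by
      simpa [w] using A.x_mem_K (a := .inl i) (b := .inl l) (e := .inl (j i₀)) hi hl h (by simp)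
        (by simp) hg) (e ▸ mul_mem (mul_mem ?_ ?_) ?_)).1
    · rw [← ym_ne P (a := .inl i) (b := .inl l) (jx_ne.2 h.ne)]
      exact a1 (.inl i) (.inl l) hi hl (by simp) (by simp) (by simp) t
    · rw [← ym_self]; exact a1 (.inl i) (.inl i) hi hi (by simp) (by simp) (by simp) s
    · rw [← ym_self]; exact a1 (.inl l) (.inl l) hl hl (by simp) (by simp) (by simp) s'

theorem inj_Iv (hF : ∃ a : F, a ≠ 0 ∧ a ≠ 1) (d lo hi : ℕ) (h : lo + d + 1 = hi) (hn : hi ≤ C.n) :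
    InjS f (A.G (Iv _ lo hi)) := by
  induction d generalizing lo hi with
  | zero =>
    refine ((A.iSS ⟨lo, by omega⟩ ⟨lo, by omega⟩).mono le_sup_left).mono (A.G_le (fun k hk => ?_)
      fun i hi j hj e => ?_)
    · rw [show k = ⟨lo, by omega⟩ from Fin.ext (by have := hk.1; have := hk.2; simp only; omega)]
    · have := hi.1; have := hi.2; have := hj.1; have := hj.2
      rcases e with e | e <;> omega
  | succ d ih =>
    refine A.inj_step (k₀ := ⟨lo, by omega⟩) (k₁ := ⟨hi - 1, by omega⟩) rfl (by simp only; omega)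
      (by omega) fun e he => InjS.conj ?_ _
    rcases he with he | he <;> rw [he]
    · have e1 : Iv C.n lo hi \ {⟨lo, by omega⟩} = Iv _ (lo + 1) hi := by
        ext k; simp [Iv, Fin.ext_iff]; omega
      rw [e1]
      refine (A.inj_end hF (c := ⟨lo, by omega⟩) (k := ⟨lo + 1, by omega⟩) (J' := Iv _ (lo + 2) hi)
        (by simp [Iv]) (by simp [Iv]) (.inl rfl) (by ext k; simp [Iv, Fin.ext_iff]; omega)
        (ih _ _ (by omega) hn) (A.map_G _ _) (A.map_G _ _) fun ⟨l, hl⟩ =>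
          ⟨⟨lo + 2, by have := hl.1; omega⟩, ⟨le_rfl, hl.1.trans_lt hl.2⟩, .inl rfl⟩).mono
        (sup_le_sup_left (iSup₂_le fun l ⟨hl, h⟩ => ?_) _)
      rw [show l = ⟨lo + 1, by omega⟩ from Fin.ext (by
        have := hl.1; rcases h with h | h <;> simp only at h ⊢ <;> omega)]
    · have e1 : Iv C.n lo hi \ {⟨hi - 1, by omega⟩} = Iv _ lo (hi - 1) := by
        ext k; simp [Iv, Fin.ext_iff]; omega
      rw [e1]
      refine (A.inj_end hF (c := ⟨hi - 1, by omega⟩) (k := ⟨hi - 2, by omega⟩)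
        (J' := Iv _ lo (hi - 2)) (by simp [Iv]) (by simp [Iv]) (.inr (by simp only; omega))
        (by ext k; simp [Iv, Fin.ext_iff]; omega)
        (ih _ _ (by omega) (by omega)) (A.map_G _ _) (A.map_G _ _) fun ⟨l, hl⟩ =>
          ⟨⟨hi - 3, by omega⟩, by have := hl.1; have := hl.2; constructor <;> simp only <;> omega,
            .inr (by have := hl.2; simp only; omega)⟩).mono
        (sup_le_sup_left (iSup₂_le fun l ⟨hl, h⟩ => ?_) _)
      rw [show l = ⟨hi - 2, by omega⟩ from Fin.ext (by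
        have := hl.2; rcases h with h | h <;> simp only at h ⊢ <;> omega)]

theorem main (hF : ∃ a : F, a ≠ 0 ∧ a ≠ 1) (hn : 0 < C.n) :
    InjS f (A.G Set.univ) ∧ (A.G Set.univ).map f = ⊤ := by
  have e : Iv C.n 0 C.n = Set.univ := by ext k; simp [Iv]
  have h1 := A.inj_Iv hF (C.n - 1) 0 C.n (by omega) le_rfl
  have h2 := A.map_G 0 C.n
  rw [e] at h1 h2
  exact ⟨h1, h2.trans (eq_top_iff.2 fun _ _ _ h => absurd trivial h)⟩

end Am

end Sp

end Cfsg.Agent.H12
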