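import Cfsg.Agent.H12.Bfb6x
import Cfsg.Agent.H23.Bfb6a

/-! The quotient `C(t)/O_{2',2}(C(t))`. -/

set_option autoImplicit false

namespace Cfsg.Agent.H7.Bf

open Subgroup Cfsg.Agent.H19.Gt Cfsg.Agent.H1.G2

universe u

variable {G : Type u} {K : Type*} [Group G] [Finite G] [CommGroup K] {τ : K × K →* G} {u v : G}
  {z : K} {S : Sylow 2 G}

theorem b6b (h : Cw S τ u v z) (hO : oddCore G = ⊥) (hM : h.gz.M.Normal) :
    pCore 2 G = h.gz.M ∧ Nonempty (G ⧸ pCore 2 G ≃* Equiv.Perm (Fin 3)) :=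
  b6b_of h hM fun _ ho hn => b6a h hO hM ho hn

end Cfsg.Agent.H7.Bf
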