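import Cfsg.Agent.H7.Bf0
import Cfsg.Agent.H2.Cores

/-! The action of `C(t)/O(C(t))` on the three pairs of conjugates of `y`. -/

set_option autoImplicit false
set_option linter.unusedVariables false
set_option linter.unusedSectionVars false

namespace Cfsg.Agent.H7.Bf

open Subgroup Cfsg.Agent.H19.Gt Cfsg.Agent.H1.G2

universe u

variable {G : Type u} {K : Type*} [Group G] [Finite G] [CommGroup K] {τ : K × K →* G} {u v : G}
  {z : K} {S : Sylow 2 G}

theorem b6b_act {t : G} (r : Fin 3 → G) (tt : t * t = 1) (cen : ∀ g, g * t = t * g)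
    (ex : ∀ g i, ∃ j, g * r i * g⁻¹ = r j ∨ g * r i * g⁻¹ = r j * t)
    (ne : ∀ j k, r j = r k ∨ r j = r k * t → j = k) : ∃ φ : G →* Equiv.Perm (Fin 3), ∀ g i j,
      φ g i = j ↔ (g * r i * g⁻¹ = r j ∨ g * r i * g⁻¹ = r j * t) := by
  choose f hf using ex
  have un : ∀ x j k, (x = r j ∨ x = r j * t) → (x = r k ∨ x = r k * t) → j = k := by
    rintro _ j k (rfl | rfl) e
    · exact ne j k e
    · refine ne j k (e.symm.imp (fun e => mul_right_cancel e) fun e => ?_)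
      rw [← e, mul_assoc, tt, mul_one]
  letI : MulAction G (Fin 3) :=
    { smul := f
      one_smul := fun i => un _ _ _ (hf 1 i) (by simp)
      mul_smul := fun g h i => un _ _ _ (hf (g * h) i) (by
        show _ = r (f g (f h i)) ∨ _ = r (f g (f h i)) * t
        rw [show g * h * r i * (g * h)⁻¹ = g * (h * r i * h⁻¹) * g⁻¹ by group]
        rcases hf h i with e | e <;> rw [e]
        · exact hf g _
        · rw [show g * (r (f h i) * t) * g⁻¹ = g * r (f h i) * g⁻¹ * t by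
            rw [mul_assoc _ g⁻¹, cen g⁻¹]; group]
          rcases hf g (f h i) with e | e <;> rw [e]
          · exact Or.inr rfl
          · exact Or.inl (by rw [mul_assoc, tt, mul_one])) }
  exact ⟨MulAction.toPermHom G (Fin 3), fun g i j => ⟨fun e => e ▸ hf g i, un _ _ _ (hf g i)⟩⟩

theorem b6b_s3 : ∀ a b c : Equiv.Perm (Fin 3), b 0 = 0 → b 1 = 2 → a 1 = 0 → c = 1 ∨ c = b ∨ c = a ∨
    c = a * b ∨ c = b * a ∨ c = a * b * a ∨ c = a * a := by decide +kernel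

theorem b6b_s3' : ∀ a : Equiv.Perm (Fin 3), a ^ (2 * 3) = 1 ∧
    (a * a = 1 → (∀ b, a * (b * a * b⁻¹) * (a * (b * a * b⁻¹)) = 1) → a = 1) := by decide +kernel

theorem b6b_of (h : Cw S τ u v z) (hM : h.gz.M.Normal)
    (ha : ∀ n : G, Odd (orderOf n) →
      (∀ s, InE τ u z s → n * s * n⁻¹ = s ∨ n * s * n⁻¹ = s * τ (z, z)) → n = 1) :
    pCore 2 G = h.gz.M ∧ Nonempty (G ⧸ pCore 2 G ≃* Equiv.Perm (Fin 3)) := by
  haveI : Fact (Nat.Prime 2) := ⟨Nat.prime_two⟩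
  have g := h.gz.toGs
  haveI := h.gz.fin
  obtain ⟨ρ, rr, -⟩ := h.gz.rho
  have z1 := h.gz.z1
  have zz := h.gz.zz
  have zi := h.gz.zi
  have hK : ∀ a : K, a = 1 ∨ a = z ∨ a = ρ ∨ a = ρ * z := fun a => by
    have o : orderOf ρ = 2 ^ 2 := orderOf_eq_prime_pow (by rwa [pow_one, pow_two, rr])
      (by rw [show 2 ^ (1 + 1) = 2 * 2 from rfl, pow_mul, pow_two, pow_two, rr, zz])
    have e : zpowers ρ = ⊤ := Subgroup.eq_top_of_card_eq _ (by rw [Nat.card_zpowers, o, h.four]; rfl)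
    obtain ⟨n, rfl⟩ := mem_powers_iff_mem_zpowers.2 (e ▸ mem_top a : a ∈ zpowers ρ)
    simp only
    rw [← pow_mod_orderOf, o]
    have : n % 2 ^ 2 < 4 := Nat.mod_lt _ (by norm_num)
    generalize n % 2 ^ 2 = m at this
    interval_cases m <;> simp [pow_succ, rr, mul_comm]
  have sq : ∀ a : K, IsSquare a → a = 1 ∨ a = z := by
    rintro _ ⟨c, rfl⟩
    rcases hK c with rfl | rfl | rfl | rfl
    · simp
    · exact Or.inl zz
    · exact Or.inr rr
    · right; rw [mul_mul_mul_comm, rr, zz, mul_one]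
  have nρ : ¬ IsSquare ρ := fun e => by
    rcases sq _ e with rfl | rfl
    · exact z1 (by rw [← rr, one_mul])
    · exact z1 (rr.symm.trans zz)
  have nρ' : ¬ IsSquare (ρ * z) := fun e => nρ (by
    have := e.mul h.gz.zsq
    rwa [mul_assoc, zz, mul_one] at this)
  have ns : ∀ a : K, ¬ IsSquare a → a = ρ ∨ a = ρ * z := fun a e => by
    rcases hK a with rfl | rfl | e1 | e1
    exacts [(e IsSquare.one).elim, (e h.gz.zsq).elim, Or.inl e1, Or.inr e1]
  let r : Fin 3 → G := ![τ (z, 1), τ (ρ, ρ) * u, τ (ρ * z, ρ) * u]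
  have t0 : τ (z, 1) * τ (z, z) = τ (1, z) := by rw [tm, zz, one_mul]
  have tu : ∀ a b, τ (a, b) * u * τ (z, z) = τ (a * z, b * z) * u := fun a b => by
    rw [mul_assoc, g.ut, tm', zi]
  have rE : ∀ i, InE τ u z (r i) := fun i => by
    fin_cases i
    exacts [Or.inl rfl, Or.inr (Or.inr ⟨_, _, nρ, nρ, rfl⟩), Or.inr (Or.inr ⟨_, _, nρ', nρ, rfl⟩)]
  have Er : ∀ s, InE τ u z s → ∃ j, s = r j ∨ s = r j * τ (z, z) := by
    rintro _ (rfl | rfl | ⟨a, b, e1, e2, rfl⟩)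
    · exact ⟨0, Or.inl rfl⟩
    · exact ⟨0, Or.inr t0.symm⟩
    · rcases ns a e1 with rfl | rfl <;> rcases ns b e2 with e | e <;> rw [e]
      · exact ⟨1, Or.inl rfl⟩
      · exact ⟨2, Or.inr (by
          show _ = τ (a * z, a) * u * τ (z, z)
          rw [tu, mul_assoc a, zz, mul_one])⟩
      · exact ⟨2, Or.inl rfl⟩
      · exact ⟨1, Or.inr (tu _ _).symm⟩
  have rM : ∀ i, r i ∈ h.gz.M := fun i => by
    fin_cases i
    exacts [h.gz.yM, ⟨_, _, ⟨ρ, rfl⟩, Or.inr (Or.inl rfl)⟩, ⟨_, _, by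
      rw [mul_right_comm]; exact IsSquare.mul ⟨ρ, rfl⟩ h.gz.zsq, Or.inr (Or.inl rfl)⟩]
  have rc := fun i => (h.fe _ (h.gz.M_le (rM i))).2 (rE i)
  obtain ⟨φ, hφ⟩ := b6b_act r h.gz.tt h.cen (fun x i => Er _ ((h.fe _ (h.gz.M_le
    (hM.conj_mem _ (rM i) x))).1 ((isConj_iff.2 ⟨x, rfl⟩).symm.trans (rc i)))) (by
      have n1 := h.gz.ne_u
      have n2 : ∀ a b c d, τ (c, d) ≠ τ (a, b) * u := fun a b c d => (n1 a b c d).symm
      intro j k
      fin_cases j <;> fin_cases k <;> simp [r, t0, tu, n1, n2, g.teq, z1])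
  have hs : Function.Surjective φ := fun c => by
    obtain ⟨x, hx⟩ := isConj_iff.1 (rc 1)
    have e1 : φ x 1 = 0 := (hφ _ _ _).2 (Or.inl hx)
    have e2 : φ (τ (ρ, 1)) 0 = 0 := (hφ _ _ _).2 (Or.inl (by
      show _ * τ (z, 1) * _ = τ (z, 1)
      rw [tinv, tm, tm]; simp))
    have e3 : φ (τ (ρ, 1)) 1 = 2 := (hφ _ _ _).2 (Or.inl (by
      show _ * (τ (ρ, ρ) * u) * _ = τ (ρ * z, ρ) * u
      rw [tinv, tm', mul_assoc, g.ut, tm', inv_inv, rr]; simp [mul_comm]))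
    rcases b6b_s3 _ _ c e2 e3 e1 with e | e | e | e | e | e | e <;> simp only [e, ← map_mul]
    exacts [⟨1, map_one _⟩, ⟨_, rfl⟩, ⟨_, rfl⟩, ⟨_, rfl⟩, ⟨_, rfl⟩, ⟨_, rfl⟩, ⟨_, rfl⟩]
  have pk : IsPGroup 2 φ.ker := by
    refine IsPGroup.iff_card.2 ⟨_, Nat.eq_prime_pow_of_unique_prime_dvd Nat.card_pos.ne' ?_⟩
    intro p hp hd
    by_contra h2
    haveI : Fact p.Prime := ⟨hp⟩
    obtain ⟨x, hx⟩ := exists_prime_orderOf_dvd_card' (G := φ.ker) p hd
    rw [← Subgroup.orderOf_coe] at hx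
    have := ha x (hx ▸ hp.odd_of_ne_two h2) fun s hs => by
      have k : ∀ j, (x : G) * r j * (x : G)⁻¹ = r j ∨ (x : G) * r j * (x : G)⁻¹ = r j * τ (z, z) :=
        fun j => (hφ _ _ _).1 (by rw [show φ x = 1 from x.2]; rfl)
      obtain ⟨j, rfl | rfl⟩ := Er s hs
      · exact k j
      · rw [show (x : G) * (r j * τ (z, z)) * (x : G)⁻¹ = x * r j * (x : G)⁻¹ * τ (z, z) by
          rw [mul_assoc _ (x : G)⁻¹, h.cen (x : G)⁻¹]; group]
        exact (k j).imp (fun e => by rw [e]) fun e => by rw [e]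
    rw [this, orderOf_one] at hx
    exact hp.one_lt.ne hx
  have nk : ∀ N : Subgroup G, N.Normal → IsPGroup 2 N → N ≤ φ.ker := fun N hN hp q hq => by
    have k : ∀ q ∈ N, φ q * φ q = 1 := fun q hq => by
      obtain ⟨k, hk⟩ := hp ⟨q, hq⟩
      have h1 := orderOf_dvd_of_pow_eq_one (x := φ q) (n := 2 ^ k) (by
        rw [← map_pow, show q ^ 2 ^ k = 1 from congrArg Subtype.val hk, map_one])
      have h3 : Nat.Coprime (orderOf (φ q)) 3 :=
        Nat.Coprime.coprime_dvd_left h1 (Nat.Coprime.pow_left _ (by norm_num))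
      rw [← pow_two]
      exact orderOf_dvd_iff_pow_eq_one.1
        (h3.dvd_of_dvd_mul_right (orderOf_dvd_of_pow_eq_one (b6b_s3' _).1))
    refine (b6b_s3' _).2 (k q hq) fun b => ?_
    obtain ⟨b, rfl⟩ := hs b
    simpa only [map_mul, map_inv] using k _ (mul_mem hq (hN.conj_mem q hq b))
  have hO : pCore 2 G = φ.ker :=
    le_antisymm (nk _ (Cfsg.pCore_normal 2 G) H2.pCore_isPGroup) (H2.le_pCore pk)
  have Mk := nk _ hM (S.isPGroup'.to_le h.gz.M_le)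
  refine ⟨hO.trans (le_antisymm (fun s hs => ?_) Mk),
    ⟨(QuotientGroup.quotientMulEquivOfEq hO).trans (QuotientGroup.quotientKerEquivOfSurjective φ hs)⟩⟩
  have hS : s ∈ (S : Subgroup G) := by
    obtain ⟨T, hT⟩ := pk.exists_le_sylow
    obtain ⟨x, rfl⟩ := MulAction.exists_smul_eq G S T
    have := hT (φ.normal_ker.conj_mem s hs x)
    rw [← SetLike.mem_coe, Sylow.coe_subgroup_smul] at this
    obtain ⟨y, hy, e⟩ := this
    rwa [← (MulAut.conj x).injective e]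
  by_contra hn
  obtain ⟨a, b, e⟩ := (g.mem s).1 hS
  have n1 : ¬ IsSquare (a * b) := fun e' => hn ⟨a, b, e', e⟩
  have m : τ (ρ, 1) * s ∈ h.gz.M := ⟨ρ * a, 1 * b, by
    rw [one_mul, mul_assoc]
    rcases ns _ n1 with e | e <;> rw [e]
    · exact ⟨ρ, rfl⟩
    · rw [← mul_assoc]; exact IsSquare.mul ⟨ρ, rfl⟩ h.gz.zsq, by
    rcases e with rfl | rfl | rfl | rfl
    exacts [Or.inl (tm ..), Or.inr (Or.inl (tm' ..)), Or.inr (Or.inr (Or.inl (tm' ..))),
      Or.inr (Or.inr (Or.inr (tm' ..)))]⟩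
  have e1 : φ (τ (ρ, 1)) = 1 := (φ.ker.mul_mem_cancel_right hs).1 (Mk m)
  have e3 : φ (τ (ρ, 1)) 1 = 2 := (hφ _ _ _).2 (Or.inl (by
    show _ * (τ (ρ, ρ) * u) * _ = τ (ρ * z, ρ) * u
    rw [tinv, tm', mul_assoc, g.ut, tm', inv_inv, rr]; simp [mul_comm]))
  rw [e1] at e3
  exact absurd e3 (by decide)

end Cfsg.Agent.H7.Bf
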