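import Mathlib
import Cfsg.Agent.H12.Tri3
import Cfsg.Agent.H12.GraphE6
import Cfsg.Agent.H12.Fix

/-!
The elements of order five of `²E₆(2)` are conjugate.
-/

set_option autoImplicit false
set_option linter.unusedSectionVars false

namespace Cfsg.Agent.H12

open Matrix Cfsg.Lie Cfsg.Agent.H13

/-- products along a word -/
def wChk8 (L : List (Fin chevD4.nroots × ℕ)) (m : ℕ) : ℕ → Bool :=
  List.rec (fun n => Nat.beq n m)
    (fun p _ ih n => decide (dm8 n * (1 + E8v (ZMod 2) p.1) = dm8 p.2) && ih p.2) L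

/-- conjugates along a word -/
def cChk8 (L : List (Fin chevD4.nroots × ℕ)) (m : ℕ) : ℕ → Bool :=
  List.rec (fun n => Nat.beq n m) (fun p _ ih n =>
    decide ((1 + E8v (ZMod 2) p.1) * dm8 n = dm8 p.2 * (1 + E8v (ZMod 2) p.1)) && ih p.2) L

/-- words in the root elements -/
noncomputable def wd8 (L : List (Fin chevD4.nroots)) : chevD4.group (ZMod 2) :=
  (L.map fun r => (grpSt chevD4 (ZMod 2)).x r 1).prod

section Chk

variable {ρ : chevD4.group (ZMod 2) →* GL (Fin 8) (ZMod 2)}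
  (hρ : ∀ r t, (ρ ((grpSt chevD4 (ZMod 2)).x r t)).1 = 1 + t • E8v (ZMod 2) r)
include hρ

theorem wChk8_spec {m : ℕ} (L : List (Fin chevD4.nroots × ℕ)) : ∀ {n : ℕ} {g}, (ρ g).1 = dm8 n →
    wChk8 L m n = true → (ρ (g * wd8 (L.map Prod.fst))).1 = dm8 m := by
  induction L with
  | nil => exact fun h e => by rw [← Nat.eq_of_beq_eq_true e, ← h]; simp [wd8]
  | cons p L ih =>
    intro n g h e
    obtain ⟨e1, e2⟩ := Bool.and_eq_true_iff.1 e
    have := ih (g := g * (grpSt chevD4 (ZMod 2)).x p.1 1) (by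
      rw [map_mul, Units.val_mul, h, hρ, one_smul, of_decide_eq_true e1]) e2
    rwa [mul_assoc] at this

theorem cChk8_spec {m : ℕ} (L : List (Fin chevD4.nroots × ℕ)) : ∀ {n : ℕ} {g}, (ρ g).1 = dm8 n →
    cChk8 L m n = true → ∃ g', IsConj g g' ∧ (ρ g').1 = dm8 m := by
  induction L with
  | nil => exact fun h e => ⟨_, IsConj.refl _, by rw [← Nat.eq_of_beq_eq_true e, h]⟩
  | cons p L ih =>
    intro n g h e
    obtain ⟨e1, e2⟩ := Bool.and_eq_true_iff.1 e
    obtain ⟨g', h1, h2⟩ := ih (g := (grpSt chevD4 (ZMod 2)).x p.1 1 * g *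
      ((grpSt chevD4 (ZMod 2)).x p.1 1)⁻¹) (by
      rw [map_mul, map_mul, map_inv, Units.val_mul, Units.mul_inv_eq_iff_eq_mul, Units.val_mul, h,
        hρ, one_smul, of_decide_eq_true e1]) e2
    exact ⟨g', (isConj_iff.2 ⟨_, rfl⟩).trans h1, h2⟩

end Chk

theorem five_D4 : ∃ b : chevD4.group (ZMod 2), Commute (wd8 [13, 14, 12, 10, 9, 11]) b ∧
    orderOf (wd8 [13, 14, 12, 10, 9, 11]) = 5 ∧ IsConj (wd8 [13, 14, 12, 10, 9, 11]) b ∧
    IsConj (wd8 [13, 14, 12, 10, 9, 11]) (wd8 [13, 14, 12, 10, 9, 11] ^ 2) ∧ ∀ k < 5, 0 < k →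
      IsConj (wd8 [18, 14, 12, 5, 9, 11]) (wd8 [13, 14, 12, 10, 9, 11] * b ^ k) ∨
      IsConj (wd8 [18, 14, 13, 5, 9, 10]) (wd8 [13, 14, 12, 10, 9, 11] * b ^ k) := by
  obtain ⟨ρ, hi, hρ, -⟩ := exists_rho8 (ZMod 2)
  have h0 : (ρ 1).1 = dm8 0x8040201008040201 := by rw [map_one, Units.val_one]; decide +kernel
  have ha := wChk8_spec hρ (m := 0x8068544032201001) [(13, 0x80402030080c0201), (14, 0x80406070080c0601), (12, 0x80406070283c1601),
      (10, 0x804070603c281601), (9, 0x806050403e281401), (11, 0x8068544032201001)] h0 (by decide +kernel)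
  have h1 := wChk8_spec hρ (m := 0xe880401420121110) [(18, 0x80c0201008040203), (14, 0x80c0601008040607), (12, 0x80c0601028141617),
      (5, 0xc080601028141716), (9, 0xe080401028161514), (11, 0xe880401420121110)] h0 (by decide +kernel)
  have h2 := wChk8_spec hρ (m := 0xf08040200c0a0908) [(18, 0x80c0201008040203), (14, 0x80c0601008040607), (13, 0x80c06030080c0e0f),
      (5, 0xc0806030080c0f0e), (9, 0xe0804030080e0d0c), (10, 0xf08040200c0a0908)] h0 (by decide +kernel)
  simp only [one_mul, List.map_cons, List.map_nil] at ha h1 h2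
  generalize wd8 [13, 14, 12, 10, 9, 11] = a at ha ⊢
  obtain ⟨b, hb1, hb⟩ := cChk8_spec hρ (m := 0xcbc09490bcb08280) [(2, 0xd069544033201001), (8, 0xda505e5a31201201), (19, 0xda50845ab5a012a5),
      (21, 0x5ad084803da09290), (2, 0xcbc09490bcb08280)] ha (by decide +kernel)
  have hm : ∀ {g g' n n'} n'', (ρ g).1 = dm8 n → (ρ g').1 = dm8 n' → dm8 n * dm8 n' = dm8 n'' →
      (ρ (g * g')).1 = dm8 n'' := fun _ h h' e => by rw [map_mul, Units.val_mul, h, h', e]
  have he : ∀ {g g' n}, (ρ g).1 = dm8 n → (ρ g').1 = dm8 n → g = g' :=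
    fun h h' => hi (Units.ext (h.trans h'.symm))
  have hc : ∀ {g g' n m} L, (ρ g).1 = dm8 n → (ρ g').1 = dm8 m → cChk8 L m n = true →
      IsConj g g' := fun L h h' e => by
    obtain ⟨g'', e1, e2⟩ := cChk8_spec hρ L h e
    exact he e2 h' ▸ e1
  have a2 := hm 0x800e086804544001 ha ha (by decide +kernel)
  have a4 := hm 0x8010040254320e01 a2 a2 (by decide +kernel)
  have t1 := hm 0xcbe8e0c086949080 ha hb (by decide +kernel)
  have t2 := hm 0xb5239f0bf9eb5bcb t1 hb (by decide +kernel)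
  have t3 := hm 0xff9655be3321eeb5 t2 hb (by decide +kernel)
  have t4 := hm 0x1696041061411ff t3 hb (by decide +kernel)
  have := Fact.mk (by norm_num : Nat.Prime 5)
  refine ⟨b, he t1 (hm _ hb ha (by decide +kernel)), orderOf_eq_prime ?_ fun e => ?_, hb1,
    hc [(6, 0x804c404430221001), (8, 0x8076485e32221201), (15, 0x8066080e44320c01),
      (16, 0x806e0868447a4801), (17, 0x800e086804544001)] ha (sq a ▸ a2) (by decide +kernel), fun k hk hk' => ?_⟩
  · rw [← he (hm _ a4 ha (by decide +kernel)) h0]; simp only [pow_succ, pow_zero, one_mul, mul_assoc]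
  · rw [e, h0] at ha
    exact absurd ha (by decide +kernel)
  interval_cases k
  · exact Or.inl (hc [(2, 0xed90401430121110), (8, 0xe5a0480532101312), (9, 0xc7c8680732031312),
      (14, 0xc3c8e00376071016), (12, 0xc3e8e00386141006), (21, 0xcbe8e0c086949080)] h1 (pow_one b ▸ t1 :) (by decide +kernel))
  · exact Or.inr (hc [(1, 0xff8448210c0a0908), (2, 0xcf944921040b0809), (17, 0xafd4492144ff4109),
      (11, 0xa7d00dda44f34109), (20, 0xb7d09d5af3e351c3), (8, 0xb5239f0bf9eb5bcb)] h2 (by rw [← t2, sq, mul_assoc]) (by decide +kernel))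
  · exact Or.inr (hc [(6, 0xf68a4d220c0a0908), (22, 0x768aed228c7c29e5), (3, 0xf382e5cf847d29ed),
      (10, 0xe3823ecbed693df9), (15, 0xf3926e9b3f29e6b9), (11, 0xff9655be3321eeb5)] h2
      (by rw [← t3, pow_three, mul_assoc, mul_assoc]) (by decide +kernel))
  · exact Or.inl (hc [(3, 0xc088400420131011), (4, 0xa0a8400520021011), (19, 0x20286001a0021017),
      (2, 0x21296001a7021017), (4, 0x4129600186141016), (23, 0x1696041061411ff)] h1
      (by rw [← t4, pow_succ', pow_three, mul_assoc, mul_assoc, mul_assoc]) (by decide +kernel))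

/-- packed data -/
def embD4E6D : MorD :=
  pMor 2 0x474635412f2745333f2e2c3c0b1b19081402201806120100 0 0

theorem embD4E6_chk : embD4E6D.chk fastD4.tab fastE6.tab 0 24 = true := by decide +kernel

/-- the long roots of the twisted group -/
def embD4E6 : Mor chevD4 chevE6 := ⟨embD4E6D, by
  rw [tbD4, tbE6]
  exact fun r hr => by simpa using allLt_iff.1 embD4E6_chk r hr⟩

theorem m_conj_one {D : ChevalleyDatum} [Good D] {K G : Type*} [Field K] [CharP K 2] [Group G]
    (S : StSys (cdOf D) K G) (i : Fin D.rank) (r : Fin D.nroots) :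
    S.n ((rsOf D).simple i) 1 * S.x r 1 * (S.n ((rsOf D).simple i) 1)⁻¹ =
      S.x ((rsOf D).sref i r) 1 := by
  rw [(chev_nc S).m_conj_x]
  rcases mul_self_eq_one_iff.1 ((cdOf D).eta_sq i r K) with h | h
  · rw [h, one_mul]
  · rw [h, CharTwo.neg_eq, one_mul]

variable {K : Type*} [Field K] [CharP K 2] (S : ED K)

theorem ED_x_mem {r : Fin chevE6.nroots} (h : foldE6.ρ r = r) : E6.x r 1 ∈ S.G :=
  ⟨x_mem_grp chevNC chevNM _ _, (twSt_x_one S.A r).trans (by rw [h])⟩

theorem exists_D4_ED : ∃ e : chevD4.group (ZMod 2) →* S.G, Function.Injective e ∧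
    ∀ r, (e ((grpSt chevD4 (ZMod 2)).x r 1)).1 = E6.x (embD4E6.ρ r) 1 := by
  have h : embD4E6.Fld (ZMod 2) := Mor.fld_char (p := 2) rfl (pMor_e _ _ _ _)
  obtain ⟨e, h1, h2, -⟩ := exists_emb (Mor.pull_nm h (chevNM.twist (ZMod.castHom dvd_rfl K)) 1
    fun r hr => by
      rw [one_smul]
      exact Mor.pos_of_chk (μ := embD4E6) (by rw [tbD4, tbE6]; decide +kernel) r hr)
    (Mor.pull_r3 h (chevSt_r3.twist _)) hT_ker_D4_two
  have h3 : ∀ r, e ((grpSt chevD4 (ZMod 2)).x r 1) = E6.x (embD4E6.ρ r) 1 := fun r => by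
    rw [h2, Mor.pull_x, StSys.twist_x, show embD4E6.φ r (1 : ZMod 2) = 1 by
      revert r; decide +kernel, map_one]
  refine ⟨e.codRestrict _ fun g => StSys.induction_x grpSt_top (L := S.G.comap e) (fun r t => ?_) g,
    fun a b h => h1 (congrArg Subtype.val h), h3⟩
  obtain rfl | rfl : t = 0 ∨ t = 1 := by revert t; decide
  · simp [one_mem]
  · exact Subgroup.mem_comap.2 (h3 r ▸ ED_x_mem S (by revert r; decide +kernel))

theorem ED_isConj {e : chevD4.group (ZMod 2) →* S.G}
    (he : ∀ r, (e ((grpSt chevD4 (ZMod 2)).x r 1)).1 = E6.x (embD4E6.ρ r) 1)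
    {i j : Fin chevE6.rank} (h1 : foldE6.τ i = j ∧ foldE6.τ j = i)
    (h2 : Orth ((rsOf chevE6).simple i) ((rsOf chevE6).simple j)) {L L' : List (Fin chevD4.nroots)}
    (h : L.map (fun r => (rsOf chevE6).sref i ((rsOf chevE6).sref j (embD4E6.ρ r))) =
      L'.map embD4E6.ρ) : IsConj (e (wd8 L)) (e (wd8 L')) := by
  have hn := fun i => n_mem_grp (S := chevSt chevE6 K) chevNC chevNM ((rsOf chevE6).simple i) 1
  refine isConj_iff.2 ⟨⟨_, mul_mem (hn i) (hn j), ?_⟩, Subtype.ext ?_⟩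
  · change S.A.σ _ = _
    rw [S.A.map_mul _ (hn i) _ (hn j), S.A.σ_n, S.A.σ_n, map_one, map_one, h1.1, h1.2,
      (h2.n_comm _ _).eq]
  · have h3 : ∀ L, (e (wd8 L)).1 = ((L.map embD4E6.ρ).map (E6.x · 1)).prod := fun L => by
      rw [wd8, map_list_prod, SubmonoidClass.coe_list_prod, List.map_map, List.map_map,
        List.map_map]
      exact congrArg _ (List.map_congr_left fun r _ => he r)
    change (MulAut.conj _) (e _).1 = _
    rw [h3, h3, ← h, map_list_prod, List.map_map, List.map_map, List.map_map]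
    refine congrArg _ (List.map_congr_left fun r _ => ?_)
    simp only [Function.comp_apply, map_mul, MulAut.mul_apply, MulAut.conj_apply, m_conj_one]

theorem orderOf_of_isConj {G : Type*} [Group G] {a b : G} (h : IsConj a b) :
    orderOf a = orderOf b := by
  obtain ⟨c, rfl⟩ := isConj_iff.1 h
  exact (orderOf_injective (MulAut.conj c).toMonoidHom (MulAut.conj c).injective a).symm

theorem ED_five [Finite K] (hK : Nat.card K = 2 ^ 2) (he : ∀ t, S.θ t = t ^ 2) {x y : S.G}
    (hx : orderOf x = 5) (hy : orderOf y = 5) : IsConj x y := by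
  obtain ⟨e, hi, h0⟩ := exists_D4_ED S
  obtain ⟨b, h1, h2, h3, h4, h5⟩ := five_D4
  have c1 := ED_isConj S h0 (i := 2) (j := 4) (by decide) (by decide +kernel)
    (L := [13, 14, 12, 10, 9, 11]) (L' := [18, 14, 12, 5, 9, 11]) (by decide +kernel)
  have c2 := ED_isConj S h0 (i := 0) (j := 5) (by decide) (by decide +kernel)
    (L := [18, 14, 12, 5, 9, 11]) (L' := [18, 14, 13, 5, 9, 10]) (by decide +kernel)
  have c3 : ∀ k < 5, 0 < k → IsConj (e (wd8 [13, 14, 12, 10, 9, 11])) (e (wd8 [13, 14, 12, 10, 9, 11]) * e b ^ k) :=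
    fun k hk hk' => by
    rw [← map_pow, ← map_mul]
    exact (h5 k hk hk').elim (fun h => c1.trans (e.map_isConj h))
      fun h => (c1.trans c2).trans (e.map_isConj h)
  replace h1 := h1.map e
  replace h3 := e.map_isConj h3
  replace h4 := e.map_isConj h4
  rw [← orderOf_injective _ hi] at h2
  rw [map_pow] at h4
  generalize e (wd8 [13, 14, 12, 10, 9, 11]) = A at *
  generalize e b = B at *
  have hB : orderOf B = 5 := orderOf_of_isConj h3 ▸ h2
  have hA5 : A ^ 5 = 1 := h2 ▸ pow_orderOf_eq_one A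
  have hB5 : B ^ 5 = 1 := hB ▸ pow_orderOf_eq_one B
  have h6 : ∀ i < 5, 0 < i → IsConj A (A ^ i) := fun i hi hi' => by
    have a4 : IsConj A (A ^ 4) := h4.trans (by simpa [← pow_mul] using h4.pow 2)
    interval_cases i
    · rw [pow_one]
    · exact h4
    · refine a4.trans ?_
      have := h4.pow 4
      rwa [← pow_mul, show 2 * 4 = 5 + 3 from rfl, pow_add, hA5, one_mul] at this
    · exact a4
  have h7 : ∀ i < 5, ∀ j < 5, 0 < i + j → IsConj A (A ^ i * B ^ j) := fun i hi j hj h => by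
    rcases Nat.eq_zero_or_pos i with rfl | hi'
    · simpa using (h6 j hj (by omega)).trans (h3.pow j)
    rcases Nat.eq_zero_or_pos j with rfl | hj'
    · simpa using h6 i hi hi'
    obtain ⟨k, hk, hk', e⟩ : ∃ k < 5, 0 < k ∧ k * i % 5 = j := by
      clear * - hi hj hi' hj'; interval_cases i <;> interval_cases j <;> decide
    have := (h6 i hi hi').trans ((c3 k hk hk').pow i)
    rwa [(h1.pow_right k).mul_pow, ← pow_mul, pow_eq_pow_mod _ hB5, e] at this
  have h8 : ∀ (C : S.G), C ^ 5 = 1 → ∀ g ∈ Subgroup.zpowers C, ∃ i < 5, g = C ^ i :=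
    fun C hC g hg => by
    obtain ⟨k, rfl⟩ := (mem_powers_iff_mem_zpowers.2 hg :)
    exact ⟨k % 5, Nat.mod_lt _ (by norm_num), pow_eq_pow_mod _ hC⟩
  let χ := (Subgroup.zpowers A).subtype.noncommCoprod (Subgroup.zpowers B).subtype
    fun a b => by
      obtain ⟨i, -, e⟩ := h8 A hA5 _ a.2
      obtain ⟨j, -, e'⟩ := h8 B hB5 _ b.2
      change Commute a.1 b.1
      rw [e, e']; exact h1.pow_pow i j
  have h9 : ∀ g, g ≠ 1 → IsConj A (χ g) := fun g hg => by
    obtain ⟨i, hi, e⟩ := h8 A hA5 _ g.1.2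
    obtain ⟨j, hj, e'⟩ := h8 B hB5 _ g.2.2
    change IsConj A (g.1.1 * g.2.1)
    rw [e, e']
    refine h7 i hi j hj (Nat.pos_of_ne_zero fun h => hg (Prod.ext (Subtype.ext ?_) (Subtype.ext ?_)))
    · rw [e, show i = 0 by omega]; rfl
    · rw [e', show j = 0 by omega]; rfl
  have h10 : Nat.card χ.range = 5 ^ 2 := by
    rw [← Nat.card_congr (χ.ofInjective ((injective_iff_map_eq_one _).2 fun g hg =>
      by_contra fun h => by
        have := orderOf_of_isConj (h9 g h)
        rw [hg, orderOf_one] at this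
        omega)).toEquiv, Nat.card_prod, Nat.card_zpowers, Nat.card_zpowers, h2, hB, sq]
  have := Fact.mk (by norm_num : Nat.Prime 5)
  have h11 := S.card_G le_rfl hK he
  have : Finite S.G := Nat.finite_of_card_ne_zero fun h => by rw [h] at h11; norm_num at h11
  let P := (IsPGroup.of_card h10).toSylow fun ⟨k, hk⟩ => by
    rw [← χ.range.card_mul_index, h10, hk] at h11
    norm_num at h11
    omega
  have key : ∀ x : S.G, orderOf x = 5 → IsConj A x := fun x hx => by
    obtain ⟨Q, hQ⟩ := (IsPGroup.of_card (n := 1) (by rw [Nat.card_zpowers, hx, pow_one]) :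
      IsPGroup 5 (Subgroup.zpowers x)).exists_le_sylow
    obtain ⟨g, rfl⟩ := MulAction.exists_smul_eq S.G P Q
    obtain ⟨_, ⟨c, rfl⟩, e⟩ := hQ (Subgroup.mem_zpowers x)
    refine (h9 c fun h => ?_).trans (isConj_iff.2 ⟨g, e⟩)
    rw [← e, h] at hx
    simp at hx
  exact (key x hx).symm.trans (key y hy)

end Cfsg.Agent.H12
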