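import Mathlib
import Cfsg.Agent.H12.Five1
import Cfsg.Agent.H12.CT2
import Cfsg.Agent.H12.CT4
import Cfsg.Agent.H10.SmallIso2

/-!
The centralizer of an element of order five in `²E₆(2)`.
-/

set_option autoImplicit false
set_option linter.unusedSectionVars false

namespace Cfsg.Agent.H12

open Matrix Cfsg.Lie Cfsg.Agent.H13
open scoped MatrixGroups

namespace StSys

variable {Φ I : Type*} [DecidableEq I] {R : RS Φ I ℤ} {C : CD R} {K : Type*} [Field K]
  {G : Type*} [Group G] {S : StSys C K G} [Fintype I] [Finite Φ]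

theorem mem_of_fix_commute (hS : S.NC) (hM : S.NM) (h3 : S.R3)
    (hinj : Function.Injective (hProd hS h3)) {c : I → Kˣ} (hc : IsOfFinOrder c) {σ : G →* G}
    {θ : K →+* K} (h1 : ∀ r ∈ R.cP c, ∀ t, σ (S.x r t) = S.x r (θ t)) (h2 : ∀ t ∈ S.H, σ t ∈ S.H)
    {L : Subgroup G} (hL : ∀ r ∈ R.cP c, ∀ t, θ t = t → S.x r t ∈ L)
    (hT : ∀ t ∈ S.H, σ t = t → t ∈ L) {g : G} (hg : g ∈ (rgd hS hM).grp)
    (h : Commute g (hProd hS h3 c)) (e : σ g = g) : g ∈ L := by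
  classical
  obtain ⟨Δ, _, Ψ, hΨ⟩ := (RS.isSub_cP (R := R) c).exists_sub
  have h4 : ∀ i, S.n (Ψ.β i) 1 ∈ L ⊓ fxs σ ∧
      ((rgd hS hM).res Ψ).Rep (S.n (Ψ.β i) 1) (Ψ.rs.s i) := fun i => by
    have a1 := hΨ.le (Ψ.β_mem i)
    have a2 := hΨ.le (Ψ.neg_mem _ (Ψ.β_mem i))
    refine ⟨⟨mul_mem (mul_mem (hL _ a1 _ (map_one θ)) (hL _ a2 _ (by simp))) (hL _ a1 _ (map_one θ)),
      show σ _ = _ by simp [n, h1 _ a1, h1 _ a2]⟩, ?_⟩
    exact inv_mul_cancel_right (S.n (Ψ.β i) 1) _ ▸ (RGD.rep_m (X := (rgd hS hM).res Ψ) i).T_mul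
      ((rep_n hS hM (Ψ.β i) one_ne_zero).mul_inv_mem_T ((rgd hS hM).rep_mr _))
  refine RGD.Stab.fxs_le (X := (rgd hS hM).res Ψ) ⟨fun r u hu => ?_, h2, fun i => ?_⟩
    (fun r => rgd_ab hS hM r) (fun r _ u hu e => ?_) (fun n w hn e => ?_)
    (by rw [RGD.res_grp, hΨ]; exact mem_of_commute_hProd hinj hc hg h) e
  · obtain ⟨t, rfl⟩ := S.mem_U.1 hu
    exact h1 _ (hΨ.le r.2) t ▸ S.x_mem_U _ _
  · have := (h4 i).2.T_mul (h2 _ ((RGD.rep_m i).mul_inv_mem_T (h4 i).2))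
    have e : σ (S.n (Ψ.β i) 1) = S.n (Ψ.β i) 1 := (h4 i).1.2
    rwa [map_mul, map_inv, e, inv_mul_cancel_right] at this
  · obtain ⟨t, rfl⟩ := S.mem_U.1 hu
    exact hL _ (hΨ.le r.2) t (x_injective hS hM _ ((h1 _ (hΨ.le r.2) t).symm.trans e))
  · obtain ⟨m, h5, h6⟩ : ∃ m ∈ L ⊓ fxs σ, ((rgd hS hM).res Ψ).Rep m w := by
      clear hn
      induction w using RS.W_induction with
      | one => exact ⟨1, one_mem _, RGD.rep_one⟩
      | step i w ih =>
        obtain ⟨m, a1, a2⟩ := ih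
        exact ⟨_, mul_mem (h4 i).1 a1, (h4 i).2.mul a2⟩
    simpa using mul_mem (hT _ (hn.mul_inv_mem_T h6)
      ((fxs σ).mul_mem e ((fxs σ).inv_mem h5.2))) h5.1

variable (S) in
/-- a diagonalizing element -/
def dgz (a : Φ) (z : K) : G := S.x (R.neg a) (1 + z⁻¹) * S.x a (z + z⁻¹)⁻¹

variable [CharP K 2]

theorem mul_dgz (hS : S.NC) (h3 : S.R3) (a : Φ) {z : K} (h0 : z ≠ 0) (h1 : z + z⁻¹ ≠ 0) :
    S.x a 1 * S.x (R.neg a) (z + z⁻¹) * S.dgz a z = S.dgz a z * S.h a z := by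
  obtain ⟨φ, -, a2, a3⟩ := hS.exists_sl2 a (h3 a)
  have : φ (H19.St.hh H19.St.xx H19.St.yy z) = S.h a z := by
    rw [← hh_eq]
    simp only [H19.St.hh, H19.St.ww, map_mul, map_inv, a2, a3]
  simp only [dgz, ← a2, ← a3, ← this, ← map_mul]
  have h2 : (2 : K) = 0 := CharTwo.two_eq_zero
  refine congrArg _ (Subtype.ext ?_)
  change (_ * _ * (_ * _) : Matrix (Fin 2) (Fin 2) K) = _ * _ * _
  rw [H19.St.coe_hh h0]
  simp only [H19.St.xx, H19.St.yy]
  generalize hw : (z + z⁻¹)⁻¹ = w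
  have e1 := mul_inv_cancel₀ h0
  have e2 := hw ▸ mul_inv_cancel₀ h1
  generalize z⁻¹ = v at *
  ext i j
  fin_cases i <;> fin_cases j <;> simp <;> grind

theorem dgz_inv (a : Φ) (z : K) : S.dgz a z⁻¹ = S.dgz a z * S.n a (z + z⁻¹)⁻¹ := by
  rw [dgz, dgz, n, inv_inv, inv_inv, add_comm z⁻¹, mul_assoc, ← mul_assoc (S.x a _),
    ← mul_assoc (S.x a _), ← S.add, CharTwo.add_self_eq_zero, x_zero, one_mul, ← mul_assoc, ← S.add,
    CharTwo.neg_eq, add_comm z, add_assoc, ← add_assoc z⁻¹, CharTwo.add_self_eq_zero, zero_add]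

end StSys

section Orth

variable {D : ChevalleyDatum} [Good D] {K G : Type*} [Field K] [Group G] (S : StSys (cdOf D) K G)

theorem x_commute_of {r s : Fin D.nroots} (h : s ≠ r ∧ s ≠ (rsOf D).neg r ∧ D.commTerms r s = [])
    (t u : K) : Commute (S.x r t) (S.x s u) := by
  have := xN_comm S r.2 s.2 (fun e => h.1 (Fin.ext e)) (fun e => h.2.1 (Fin.ext e)) t u
  rw [h.2.2, xN_fin, xN_fin] at this
  simpa [Commute, SemiconjBy] using this.symm

theorem x_commute_dgz {r a : Fin D.nroots} (h : Orth r a) (t z : K) :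
    Commute (S.x r t) (S.dgz a z) := (x_commute_of S h.2.1 _ _).mul_right (x_commute_of S h.1 _ _)

theorem x_commute_n {r a : Fin D.nroots} (h : Orth r a) (t z : K) :
    Commute (S.x r t) (S.n a z) := ((x_commute_of S h.1 _ _).mul_right
      (x_commute_of S h.2.1 _ _)).mul_right (x_commute_of S h.1 _ _)

end Orth

/-- a subsystem of type `A₃` -/
def a3r (r : H17.AΦ 3) : Fin chevE6.nroots :=
  Fin.ofNat _ (fld 0x1918002e0020012f27000247464500 8 (4 * r.1.1 + r.1.2))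

set_option synthInstance.maxSize 1000 in
theorem a3r_chk1 : ∀ r s : H17.AΦ 3, s ≠ r → s ≠ H17.TA.ng r →
    a3r s ≠ a3r r ∧ a3r s ≠ (rsOf chevE6).neg (a3r r) ∧
    ((cdOf chevE6).terms (a3r r) (a3r s)).map (fun c => (c.1, c.2.1 % 2, c.2.2)) =
      (H17.TA.tm r s).map fun c => (a3r c.1, c.2.1 % 2, c.2.2) := by decide +kernel

theorem a3r_chk2 : ∀ r, grE6.ρ (a3r r) = a3r r ∧ foldE6.ρ (a3r r) = a3r r ∧ Orth (a3r r) 56 ∧
    Orth (a3r r) 36 := by decide +kernel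

theorem a3r_chk3 : ∀ r : Fin chevE6.nroots, 5 ∣ chevE6.cartan 0 r + 2 * chevE6.cartan 5 r →
    ∃ s, r = a3r s := by decide +kernel

variable {K : Type*} [Field K] [CharP K 2] (S : ED K)

theorem exists_A3_ED : ∃ ψ : SL(4, ZMod 2) →* S.G, Function.Injective ψ ∧
    (∀ r, ∃ g, (ψ g).1 = E6.x (a3r r) 1) ∧
    ∀ y : S.G, (∀ r t, Commute y.1 (E6.x (a3r r) t)) → ∀ g, Commute y (ψ g) := by
  let T₀ : StSys (H17.TA.cd 3) (ZMod 2) (GL chevE6.Idx K) :=
    ⟨fun r t => E6.x (a3r r) (ZMod.castHom dvd_rfl K t), fun r t u => by rw [map_add, E6.x, StSys.add],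
      fun r s h1 h2 t u => by
        obtain ⟨a1, a2, a3⟩ := a3r_chk1 r s h1 h2
        have := congrArg (List.map fun c : _ × ℤ × ℕ × ℕ => E6.x c.1 ((c.2.1 : K) *
          (-ZMod.castHom dvd_rfl K t) ^ c.2.2.1 * ZMod.castHom dvd_rfl K u ^ c.2.2.2)) a3
        have h : ∀ e : ℤ, ((e % 2 : ℤ) : K) = e := fun e => (CharP.intCast_eq_intCast_mod K 2).symm
        simp only [List.map_map, Function.comp_def, h] at this
        rw [StSys.comm _ _ _ a1 a2, this]
        simp [H17.TA.cd, CharTwo.neg_eq]⟩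
  obtain ⟨ψ, hψ⟩ := exists_hom_SL (by norm_num) T₀
  have h1 : ∀ r, ψ ((H17.TA.st 3 _).x r 1) = E6.x (a3r r) 1 := fun r =>
    (hψ r 1).trans (by simp only [T₀, map_one])
  have := H10.isSimpleGroup_SL_two (n := 4) (by norm_num)
  refine ⟨ψ.codRestrict _ fun g => StSys.induction_x H17.TA.st_top (L := S.G.comap ψ)
    (fun r t => ?_) g, fun a b h => ?_, fun r => ⟨_, h1 r⟩, fun y hy g => Subtype.ext
      (StSys.induction_x H17.TA.st_top (L := (Subgroup.centralizer {y.1}).comap ψ)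
        (fun r t => ?_) g y.1 rfl)⟩
  · obtain rfl | rfl : t = 0 ∨ t = 1 := by revert t; decide
    · simp [one_mem]
    · exact Subgroup.mem_comap.2 (h1 r ▸ ED_x_mem S (a3r_chk2 r).2.1)
  · exact (MonoidHom.ker_eq_bot_iff ψ).1 ((IsSimpleGroup.eq_bot_or_eq_top_of_normal _
      inferInstance).resolve_right fun e => E6.x_ne_one _
        ((h1 (H17.TA.sm 0)).symm.trans (e.ge trivial))) (congrArg Subtype.val h)
  · rw [Subgroup.mem_comap, Subgroup.mem_centralizer_singleton_iff, hψ]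
    exact (hy r _).symm

theorem wp_six {Γ : Type*} [CommGroup Γ] (y : Fin chevE6.rank → ℤ) (c : Fin chevE6.rank → Γ) :
    wp y c = c 0 ^ y 0 * c 1 ^ y 1 * c 2 ^ y 2 * c 3 ^ y 3 * c 4 ^ y 4 * c 5 ^ y 5 :=
  Fin.prod_univ_six fun i => c i ^ y i

theorem five_torus {F : Type*} [Field F] {z : Fˣ} (hz : IsPrimitiveRoot z.1 5)
    {d : Fin chevE6.rank → Fˣ} (h : (rsOf chevE6).sC 0 (fun j => d (foldE6.τ j) ^ 2) = d) :
    ∃ k : ℕ, ∃ c ∈ (hT chevE6 F).ker, d = (Pi.mulSingle 0 z * Pi.mulSingle 5 (z ^ 2)) ^ k * c := by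
  obtain ⟨t0, t1, t2, t3, t4, t5⟩ := E6.τ_val
  have h1 : ∀ j, j ≠ 0 → d (foldE6.τ j) ^ 2 = d j := fun j hj => by
    simpa [RS.sC, Pi.mulSingle_eq_of_ne hj] using congrFun h j
  have h0 := congrFun h 0
  rw [RS.sC, show (rsOf chevE6).rwt ((rsOf chevE6).simple 0) = fun j : Fin chevE6.rank =>
    [2, 0, -1, 0, 0, 0].getD j 0 from funext fun j => (rwt_eq _ j).trans (by
      revert j; decide +kernel), wp_six] at h0
  have a1 := h1 1 (by decide)
  have a2 := h1 2 (by decide)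
  have a3 := h1 3 (by decide)
  have a4 := h1 4 (by decide)
  have a5 := h1 5 (by decide)
  simp only [Pi.mul_apply, Pi.inv_apply, Pi.mulSingle_eq_same, t0, t1, t2, t3, t4, t5] at *
  change d 5 ^ 2 * ((d 5 ^ 2) ^ (2 : ℤ) * _ ^ (0 : ℤ) * (d 4 ^ 2) ^ (-1 : ℤ) * _ ^ (0 : ℤ) *
    _ ^ (0 : ℤ) * _ ^ (0 : ℤ))⁻¹ = d 0 at h0
  have b2 : d 2 = d 0 ^ 5 := by
    rw [← a2, pow_succ (d 0) 4, show d 0 ^ 4 = d 5 ^ 2 by rw [← a5, ← pow_mul]]
    conv_rhs => rw [← h0]
    simp only [pow_zero, mul_one, _root_.zpow_neg_one, zpow_ofNat]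
    generalize d 5 ^ 2 = a
    rw [← mul_assoc, ← sq, mul_inv, inv_inv, mul_inv_cancel_left]
  have b3 : d 0 ^ 15 = 1 := by
    rw [← a4, b2, ← pow_mul, ← pow_mul, show 5 * (2 * 2) = 15 + 5 from rfl, pow_add] at a2
    exact mul_eq_right.1 a2
  obtain ⟨k, -, hk⟩ := hz.eq_pow_of_pow_eq_one (ξ := (d 0 ^ 6).1) (by
    rw [← Units.val_pow_eq_pow_val, ← pow_mul, show 6 * 5 = 15 * 2 from rfl, pow_mul, b3]; simp)
  replace hk : z ^ k = d 0 ^ 6 := Units.ext hk
  refine ⟨k, E6.zc (d 0 ^ 10), E6.mem_ker.2 ⟨_, by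
    rw [← pow_mul, show 10 * 3 = 15 * 2 from rfl, pow_mul, b3, one_pow], rfl⟩, funext fun j => ?_⟩
  have b4 : ∀ m n : ℕ, m % 15 = n % 15 → d 0 ^ m = d 0 ^ n := fun m n h => by
    rw [pow_eq_pow_mod m b3, h, ← pow_eq_pow_mod n b3]
  rcases E6.rank_cases j with rfl | rfl | rfl | rfl | rfl | rfl <;>
    simp +decide only [Pi.mul_apply, Pi.pow_apply, Pi.mulSingle_apply, if_true, if_false, one_mul,
      mul_one, one_pow, E6.zc]
  · rw [hk]; exact (pow_one _).symm.trans ((b4 1 (6 + 10) rfl).trans (by rw [pow_add]; exact congrArg _ (zpow_one _).symm))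
  · exact (mul_eq_left.1 ((sq _).symm.trans a1)).trans (zpow_zero _).symm
  · rw [b2, b4 5 (10 * 2) rfl, pow_mul]; rfl
  · exact (mul_eq_left.1 ((sq _).symm.trans a3)).trans (zpow_zero _).symm
  · rw [← a4, b2, ← pow_mul]; exact (zpow_one _).symm
  · rw [← a5, ← pow_mul, mul_comm 2 k, pow_mul, hk, b4 2 (6 * 2 + 10 * 2) rfl, pow_add, pow_mul, pow_mul]
    rfl

theorem ED_cent [Fintype K] (hK : Fintype.card K = 2 ^ 2) (he : ∀ t, S.θ t = t ^ 2) :
    ∃ x : S.G, orderOf x = 5 ∧ Nonempty (Subgroup.centralizer {x} ≃*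
      Multiplicative (ZMod 5) × alternatingGroup (Fin 8)) := by
  let F := AlgebraicClosure K
  let ι := algebraMap K F
  let θ := frobenius F 2
  let T := stSt chevE6 F
  have hι : ∀ t : F, t ^ 4 = t ↔ t ∈ Set.range ι := fun t => by
    rw [← pow_card_iff_mem_range, hK]; rfl
  have hinj : Function.Injective (StSys.hProd (chev_nc T) stSt_r3) :=
    stSt_hProd_of_mem5 (by simp)
  obtain ⟨π, hπ⟩ := stSt_lift (grpSt_r3 (D := chevE6) (K := F))
  obtain ⟨α, hα⟩ := grE6_aut F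
  obtain ⟨σ, hσ⟩ := stSt_lift (StSys.R3.twist (Mor.pull_r3 (grE6_fld F) (stSt_r3 (K := F))) θ)
  have e0 : ∀ (r : Fin chevE6.nroots) (t : F), grE6.φ r t = t := fun r t => by
    rw [Mor.φ, show grE6.m.e r = 1 from pMor_e_zero _ _ _ _, pow_one]
    rcases mul_self_eq_one_iff.1 (grE6.ε_sq (K := F) r.2) with h | h
    · rw [h, one_mul]
    · rw [h, CharTwo.neg_eq, one_mul]
  replace hσ : ∀ r t, σ (T.x r t) = T.x (grE6.ρ r) (θ t) := fun r t =>
    (hσ r t).trans (show T.x _ (grE6.φ r (θ t)) = _ by rw [e0])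
  replace hα : ∀ r t, α ((grpSt chevE6 F).x r t) = (grpSt chevE6 F).x (grE6.ρ r) t := fun r t =>
    (hα r t).trans (congrArg _ (e0 _ _))
  let τ : Equiv.Perm (Fin chevE6.rank) := Function.Involutive.toPerm foldE6.τ E6.τ_τ
  have e1 : ∀ i, grE6.ρ ((rsOf chevE6).simple i) = (rsOf chevE6).simple (foldE6.τ i) := by
    decide +kernel
  have e2 : ∀ d, σ (StSys.hProd (chev_nc T) stSt_r3 d) =
      StSys.hProd (chev_nc T) stSt_r3 fun j => d (foldE6.τ j) ^ 2 := fun d =>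
    (map_hProd_of_simple _ _ (τ := τ) (fun i t => (hσ _ t).trans (by rw [e1]; rfl))
      (fun i t => (hσ _ t).trans (by rw [Mor.ρ_neg, e1]; rfl)) d).trans
        (congrArg _ (funext fun j => Units.ext rfl))
  have hle : S.G ≤ chevE6.group K := S.tw.Fix_le_grp.trans group_eq.ge
  let φ := (fieldHom chevE6 ι).comp (Subgroup.inclusion hle)
  have hφ : Function.Injective φ := (fieldHom_injective ι).comp (Subgroup.inclusion_injective _)
  have hφx : ∀ (y : S.G) (L : List (Fin chevE6.nroots × K)), y.1 = (L.map fun p => E6.x p.1 p.2).prod →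
      φ y = π (L.map fun p => T.x p.1 (ι p.2)).prod := fun y L h => by
    rw [MonoidHom.comp_apply, show Subgroup.inclusion hle y =
      (L.map fun p => (grpSt chevE6 K).x p.1 p.2).prod from Subtype.ext (by
        rw [SubmonoidClass.coe_list_prod, List.map_map]; exact h), map_list_prod, map_list_prod,
      List.map_map, List.map_map]
    exact congrArg _ (List.map_congr_left fun p _ => (fieldHom_x ..).trans (hπ ..).symm)
  have hz : ∀ z, π z = 1 → z ∈ Subgroup.center _ ∧ z ^ 3 = 1 ∧ σ z = z := fun z h => by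
    refine ⟨(hom_grp_ker stSt_top hπ).le h, ?_⟩
    obtain ⟨c, rfl⟩ := (StSys.hProd_range (chev_nc _) stSt_r3).ge
      (hπ.ker_le_H (chev_nc _) grpNM stSt_top h)
    rw [map_hProd_grp hπ, hProd_grp_eq_one] at h
    refine ⟨by rw [← map_pow, E6.ker_cube h, map_one], (e2 c).trans (congrArg _ ?_)⟩
    obtain ⟨w, hw, rfl⟩ := E6.mem_ker.1 h
    funext j
    rw [E6.zc, E6.zc, ← zpow_natCast, ← _root_.zpow_mul, zpow_eq_zpow_emod' _ hw]
    congr 1
    revert j; decide +kernel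
  have hl : ∀ y : S.G, ∃ u, σ u = u ∧ π u = φ y := fun y => by
    obtain ⟨u, h1, h2⟩ := (range_fieldHom_eq hinj hπ (σ := σ.comp σ) (θ := θ.comp θ) (ι := ι)
      (fun r t => by
        rw [MonoidHom.comp_apply, hσ, hσ, show grE6.ρ (grE6.ρ r) = r by revert r; decide +kernel]
        rfl) fun t => by
        rw [← hι, show 4 = 2 * 2 from rfl, pow_mul]; rfl).le ⟨Subgroup.inclusion hle y, rfl⟩
    have h3 : π (σ u) = (α.toMonoidHom.comp (fieldHom chevE6 θ)) (π u) :=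
      DFunLike.congr_fun (StSys.hom_ext stSt_top (f := π.comp σ)
        (g := (α.toMonoidHom.comp (fieldHom chevE6 θ)).comp π) fun r t => by
          rw [MonoidHom.comp_apply, hσ, MonoidHom.comp_apply, hπ, hπ, MonoidHom.comp_apply,
            fieldHom_x]
          exact (hα _ _).symm) u
    have h4 : ∀ i t, θ (ι t) = ι (S.A.φ i t) := fun i t => by rw [S.φ, he, map_pow]; rfl
    have h5 : π (σ u) = π u := by
      rw [h3, h2]
      refine Subtype.ext ((fieldHom_twSt S.A ι (fun i t => ?_) (fun i t => ?_) _).symm.trans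
        (congrArg _ y.2.2))
      · rw [MonoidHom.comp_apply, fieldHom_x, h4 i, ← e1]; exact hα _ _
      · rw [MonoidHom.comp_apply, fieldHom_x, h4 i, ← e1, ← Mor.ρ_neg]; exact hα _ _
    obtain ⟨-, h6, h7⟩ := hz (u⁻¹ * σ u) (by rw [map_mul, map_inv, h5, inv_mul_cancel])
    have h8 : (u⁻¹ * σ u) * (u⁻¹ * σ u) = 1 := by
      nth_rewrite 2 [← h7]
      rw [map_mul, map_inv, show σ (σ u) = u from h1]
      group
    rw [pow_three, h8, mul_one, inv_mul_eq_one] at h6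
    exact ⟨u, h6.symm, h2⟩
  have : NeZero ((5 : ℕ) : F) := ⟨fun h => absurd ((CharP.cast_eq_zero_iff F 2 5).1 h) (by decide)⟩
  obtain ⟨z, hz5⟩ := HasEnoughRootsOfUnity.exists_primitiveRoot F 5
  have z0 : z ≠ 0 := hz5.ne_zero (by norm_num)
  have z4 : z ^ 4 = z⁻¹ := eq_inv_of_mul_eq_one_left (by rw [← pow_succ, hz5.pow_eq_one])
  have z1 : z + z⁻¹ ≠ 0 := fun h => hz5.pow_ne_one_of_pos_of_lt (l := 2) (by norm_num) (by norm_num)
    (by rw [sq]; nth_rewrite 2 [CharTwo.add_eq_zero.1 h]; exact mul_inv_cancel₀ z0)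
  have z2 : θ (z + z⁻¹) = θ z + (θ z)⁻¹ := by rw [map_add, map_inv₀]
  have z3 : θ (θ z) = z⁻¹ := by rw [← z4, show 4 = 2 * 2 from rfl, pow_mul]; rfl
  obtain ⟨ω, hω⟩ := (hι (z + z⁻¹)).1 (by
    rw [show 4 = 2 * 2 from rfl, pow_mul]
    change θ (θ _) = _
    rw [z2, map_add, map_inv₀, z3, inv_inv, add_comm])
  have n1 : (rsOf chevE6).neg 56 = 15 := by decide +kernel
  have n2 : (rsOf chevE6).neg 36 = 35 := by decide +kernel
  have s1 : (rsOf chevE6).simple 0 = 56 := by decide +kernel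
  have s2 : (rsOf chevE6).simple 5 = 36 := by decide +kernel
  let x : S.G := ⟨S.up 56 36 1 * S.up 15 35 ω, S.X_grp.le (mul_mem
    (RGD.U_le_grp _ (S.mem_U33.2 ⟨1, rfl⟩)) (RGD.U_le_grp _ (S.mem14 ω)))⟩
  let g := T.dgz 56 z * T.dgz 36 (θ z)
  let c : Fin chevE6.rank → Fˣ := Pi.mulSingle 0 (Units.mk0 z z0) * Pi.mulSingle 5 (Units.mk0 z z0 ^ 2)
  let h := StSys.hProd (chev_nc T) stSt_r3 c
  have o := E6.o1
  have c1 : ∀ t u, Commute (T.dgz 56 t) (T.dgz 36 u) := fun t u =>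
    ((x_commute_of T o.2.2.2 _ _).mul_right (x_commute_of T o.2.2.1 _ _)).mul_left
      (x_commute_dgz T o _ _)
  have c2 : ∀ t u, Commute (T.n 56 t) (T.dgz 36 u) := fun t u =>
    ((x_commute_dgz T o _ _).mul_left ((x_commute_of T o.2.2.2 _ _).mul_right
      (x_commute_of T o.2.2.1 _ _))).mul_left (x_commute_dgz T o _ _)
  have hx : φ x = π (g * h * g⁻¹) := by
    rw [hφx x [(56, 1), (15, ω), (36, 1), (35, S.θ ω)] (by
      simp only [x, ED.up, map_one, List.map_cons, List.prod_cons, List.map_nil, List.prod_nil,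
        mul_one, mul_assoc]
      rw [← mul_assoc (E6.x 36 1), ← n1, ← (o.np _ _).eq, mul_assoc])]
    refine congrArg _ (eq_mul_inv_of_mul_eq ?_)
    have a1 := StSys.mul_dgz (chev_nc T) stSt_r3 56 z0 z1
    have a2 := StSys.mul_dgz (chev_nc T) stSt_r3 36 ((map_ne_zero θ).2 z0)
      (z2 ▸ (map_ne_zero θ).2 z1)
    have a3 : Commute (T.dgz 56 z) (T.x 36 1 * T.x ((rsOf chevE6).neg 36) (θ z + (θ z)⁻¹)) :=
      ((x_commute_of T o.2.2.1 _ _).mul_right (x_commute_of T o.2.2.2 _ _)).mul_left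
        ((x_commute_of T o.1 _ _).mul_right (x_commute_of T o.2.1 _ _))
    simp only [List.map_cons, List.prod_cons, List.map_nil, List.prod_nil, mul_one, map_one, he,
      map_pow, hω, g, h, c, map_mul, StSys.hProd_single, s1, s2]
    rw [show (z + z⁻¹) ^ 2 = θ z + (θ z)⁻¹ from z2, ← n1, ← n2, ← mul_assoc (T.x 56 1),
      a3.symm.mul_mul_mul_comm, a1, a2,
      (show Commute (T.h 56 z) _ from (c2 _ _).mul_left (c2 _ _)).mul_mul_mul_comm]
    rfl
  have hg : σ g = g * T.n 56 (z + z⁻¹)⁻¹ := by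
    have : ∀ a t, σ (T.dgz a t) = T.dgz (grE6.ρ a) (θ t) := fun a t => by
      simp [StSys.dgz, hσ, Mor.ρ_neg]
    rw [map_mul, this, this, z3, show grE6.ρ 56 = 36 by decide +kernel,
      show grE6.ρ 36 = 56 by decide +kernel, StSys.dgz_inv, ← mul_assoc, ← (c1 _ _).eq]
  have h5 : c ^ 5 = 1 := by
    have : Units.mk0 z z0 ^ 5 = 1 := Units.ext hz5.pow_eq_one
    rw [mul_pow, ← Pi.mulSingle_pow, ← Pi.mulSingle_pow, ← pow_mul, mul_comm 2, pow_mul, this]
    simp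
  have := Fact.mk (by norm_num : Nat.Prime 5)
  have hx5 : orderOf x = 5 := orderOf_eq_prime
    (hφ (by rw [map_pow, hx, ← map_pow, conj_pow, ← map_pow, h5]; simp)) fun e => by
      rw [e, map_one, map_mul, map_mul, map_inv, eq_comm, mul_inv_eq_one, mul_eq_left,
        map_hProd_grp hπ, hProd_grp_eq_one] at hx
      have := congrFun (E6.ker_cube hx) 0
      exact hz5.pow_ne_one_of_pos_of_lt (l := 3) (by norm_num) (by norm_num)
        (by simpa +decide [c, Units.ext_iff] using this)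
  obtain ⟨ψ, hψ, hψ1, hψ2⟩ := exists_A3_ED S
  have hc := hψ2 x fun r t => by
    obtain ⟨-, -, a1, a2⟩ := a3r_chk2 r
    exact (((a1.pp _ _).mul_right (a2.pp _ _)).mul_right
      ((n1 ▸ a1.pn _ _).mul_right (n2 ▸ a2.pn _ _))).symm
  have hc' : ∀ (a : Subgroup.zpowers x) b, Commute a.1 (ψ b) := fun a b => by
    obtain ⟨_, k, rfl⟩ := a
    exact (hc b).zpow_left k
  let f := (Subgroup.zpowers x).subtype.noncommCoprod ψ hc'
  have hf : Function.Injective f := (injective_iff_map_eq_one _).2 fun a e => by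
    have e' : a.1.1 * ψ a.2 = 1 := e
    have : a.2 = 1 := (H10.center_SL_eq_bot_of_card_two (n := 4) (by simp) (by norm_num)).le
      (Subgroup.mem_center_iff.2 fun b => hψ (by
        rw [map_mul, map_mul, eq_inv_of_mul_eq_one_right e', (hc' _ b).inv_left.eq]))
    exact Prod.ext (Subtype.ext (by simpa [this] using e')) this
  have hr : f.range = Subgroup.centralizer {x} := by
    rw [show f.range = _ from MonoidHom.noncommCoprod_range _ _ hc', Subgroup.range_subtype]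
    refine le_antisymm (sup_le (Subgroup.zpowers_le.2 (Subgroup.mem_centralizer_singleton_iff.2 rfl))
      ?_) fun y hy => ?_
    · rintro _ ⟨b, rfl⟩
      exact Subgroup.mem_centralizer_singleton_iff.2 (hc b).symm
    obtain ⟨u, h1, h2⟩ := hl y
    obtain ⟨a1, a2, -⟩ := hz (u * (g * h * g⁻¹) * u⁻¹ * (g * h * g⁻¹)⁻¹) (by
      rw [map_mul, map_mul, map_mul, map_inv, map_inv, ← hx, h2, ← map_mul,
        Subgroup.mem_centralizer_singleton_iff.1 hy, map_mul]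
      group)
    have a3 : (g * h * g⁻¹) ^ 5 = 1 := by rw [conj_pow, ← map_pow, h5]; simp
    have a4 := (show Commute _ _ from (Subgroup.mem_center_iff.1 a1 (g * h * g⁻¹)).symm).mul_pow 5
    rw [inv_mul_cancel_right, conj_pow, a3, mul_one, mul_inv_cancel, mul_one,
      show 5 = 3 + 2 from rfl, pow_add, a2, one_mul] at a4
    rw [pow_succ, ← a4, one_mul, mul_inv_eq_one, mul_inv_eq_iff_eq_mul] at a2
    have hn := StSys.rep_n (chev_nc T) stSt_nm 56 (inv_ne_zero z1)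
    have a5 : ∀ r ∈ (rsOf chevE6).cP c, ∃ s, r = a3r s := fun r hr => a3r_chk3 r (by
      rw [RS.cP, Set.mem_ofPred_eq, map_mul, wp_mulSingle, wp_mulSingle, ← zpow_natCast,
        ← _root_.zpow_mul, ← _root_.zpow_add, rwt_eq, rwt_eq, Units.ext_iff,
        Units.val_zpow_eq_zpow_val] at hr
      exact (hz5.zpow_eq_one_iff_dvd _).1 hr)
    refine Exists.elim (StSys.mem_of_fix_commute (chev_nc T) stSt_nm stSt_r3 hinj
      (isOfFinOrder_iff_pow_eq_one.2 ⟨5, by norm_num, h5⟩) (θ := θ)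
      (σ := (MulAut.conj (T.n 56 (z + z⁻¹)⁻¹)).toMonoidHom.comp σ) (g := g⁻¹ * u * g)
      (L := ((Subgroup.zpowers x ⊔ ψ.range).map φ).comap (π.comp (MulAut.conj g).toMonoidHom))
      (fun r hr t => ?_) (fun t ht => ?_) (fun r hr t ht => ?_) (fun t ht e => ?_)
      (by rw [StSys.grp_eq, stSt_top]; trivial) ?_ ?_) fun y' b =>
        (hφ (b.2.trans (by simp [mul_assoc, h2])) : y' = y) ▸ b.1
    · obtain ⟨s, rfl⟩ := a5 r hr
      change _ * σ _ * _ = _
      rw [hσ, (a3r_chk2 s).1, ← (x_commute_n T (a3r_chk2 s).2.2.1 _ _).eq, mul_inv_cancel_right]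
    · obtain ⟨d, rfl⟩ := (StSys.hProd_range (chev_nc T) stSt_r3).ge ht
      exact hn.conj_T (e2 d ▸ (StSys.hProd_range _ _).le ⟨_, rfl⟩)
    · obtain ⟨s, rfl⟩ := a5 r hr
      obtain rfl | rfl := eq_zero_or_one_of_sq_eq_self (show t ^ 2 = t from ht)
      · simp [one_mem]
      obtain ⟨b, hb⟩ := hψ1 s
      refine ⟨ψ b, Subgroup.mem_sup_right ⟨b, rfl⟩, (hφx _ [(a3r s, 1)] (by simp [hb])).trans ?_⟩
      change _ = π (g * _ * g⁻¹)
      rw [← ((x_commute_dgz T (a3r_chk2 s).2.2.1 _ _).mul_right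
        (x_commute_dgz T (a3r_chk2 s).2.2.2 _ _)).eq]
      simp [g, mul_assoc]
    · obtain ⟨d, rfl⟩ := (StSys.hProd_range (chev_nc T) stSt_r3).ge ht
      change _ * σ _ * _ = _ at e
      rw [e2, StSys.Rep.conj_hProd stSt_r3 hn, ← s1, RS.rrefl_simple, RS.mT_cM_s] at e
      obtain ⟨k, c', a6, rfl⟩ := five_torus (z := Units.mk0 z z0) hz5 (hinj e)
      refine ⟨x ^ k, Subgroup.mem_sup_left (Subgroup.npow_mem_zpowers x k), ?_⟩
      rw [← hProd_grp_eq_one, ← map_hProd_grp hπ] at a6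
      change φ (x ^ k) = π (g * StSys.hProd _ _ (c ^ k * c') * g⁻¹)
      simp only [map_pow, hx, map_mul, a6, mul_one, map_inv, conj_pow, h]
    · change g⁻¹ * u * g * h = h * (g⁻¹ * u * g)
      rw [← mul_left_inj g⁻¹, ← mul_right_inj g]
      simpa [mul_assoc] using a2
    · change _ * σ _ * _ = _
      rw [map_mul, map_mul, map_inv, hg, h1]
      group
  obtain ⟨e⟩ := H10.SL4_two_equiv (F := ZMod 2) (by simp)
  exact ⟨x, hx5, ⟨(MulEquiv.subgroupCongr hr.symm).trans ((f.ofInjective hf).symm.trans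
    ((mulEquivOfPrimeCardEq (p := 5) (by rw [Nat.card_zpowers, hx5]) (by simp)).prodCongr e))⟩⟩

theorem centralizer_equiv_of_isConj {G : Type*} [Group G] {a b : G} (h : IsConj a b) :
    Nonempty (Subgroup.centralizer {a} ≃* Subgroup.centralizer {b}) := by
  obtain ⟨c, rfl⟩ := isConj_iff.1 h
  refine ⟨((MulAut.conj c).subgroupMap _).trans (MulEquiv.subgroupCongr (Subgroup.ext fun g => ?_))⟩
  obtain ⟨g, rfl⟩ := (MulAut.conj c).surjective g
  refine (Subgroup.mem_map_iff_mem (f := (MulAut.conj c).toMonoidHom)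
    (MulAut.conj c).injective).trans ?_
  rw [Subgroup.mem_centralizer_singleton_iff,
    Subgroup.mem_centralizer_singleton_iff, ← (MulAut.conj c).injective.eq_iff, map_mul, map_mul]
  rfl

end Cfsg.Agent.H12
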