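import Mathlib
import Cfsg.Agent.H26.Lf0

/-!
Coordinates on the normal `E₁₆` of a group with Sylow 2-subgroup of type `L₃(4)`.
-/

set_option autoImplicit false
set_option linter.unusedVariables false
set_option linter.unusedSectionVars false

namespace Cfsg.Agent.H26.Lf

open Subgroup

theorem emb1_F4 {F : Type*} [Field F] [Fintype F] (hF : Fintype.card F = 4) :
    ∃ ω : F, ω * ω = ω + 1 ∧ (∀ x : F, x = 0 ∨ x = 1 ∨ x = ω ∨ x = ω + 1) ∧ (2 : F) = 0 ∧
      ω ≠ 0 ∧ ω ≠ 1 := by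
  classical
  have h2 : (2 : F) = 0 := by
    have h4 := FiniteField.cast_card_eq_zero F
    rw [hF] at h4
    have : (2 : F) * 2 = 0 := by rw [← h4]; norm_num
    exact mul_self_eq_zero.1 this
  have hq : ∀ x : F, x ≠ 0 → x ≠ 1 → x * x = x + 1 := by
    intro x h0 h1
    have h4 := FiniteField.pow_card x
    rw [hF] at h4
    have : x * (x - 1) * (x * x + x + 1) = 0 := by linear_combination h4
    rcases mul_eq_zero.1 this with h | h
    · rcases mul_eq_zero.1 h with h | h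
      · exact absurd h h0
      · exact absurd (sub_eq_zero.1 h) h1
    · linear_combination h - (x + 1) * h2
  obtain ⟨ω, h0, h1⟩ : ∃ ω : F, ω ≠ 0 ∧ ω ≠ 1 := by
    by_contra hc
    push Not at hc
    have : (Finset.univ : Finset F) ⊆ {0, 1} := fun x _ => by
      by_cases h : x = 0
      · simp [h]
      · simp [hc x h]
    have h3 := (Finset.card_le_card this).trans Finset.card_le_two
    rw [Finset.card_univ, hF] at h3
    omega
  refine ⟨ω, hq ω h0 h1, fun x => ?_, h2, h0, h1⟩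
  by_cases e0 : x = 0
  · exact Or.inl e0
  by_cases e1 : x = 1
  · exact Or.inr (Or.inl e1)
  have : (x - ω) * (x - (ω + 1)) = 0 := by
    linear_combination hq x e0 e1 + hq ω h0 h1 + (1 + ω - x * ω) * h2
  rcases mul_eq_zero.1 this with h | h
  · exact Or.inr (Or.inr (Or.inl (sub_eq_zero.1 h)))
  · exact Or.inr (Or.inr (Or.inr (sub_eq_zero.1 h)))

theorem emb1_tau {F : Type*} [Field F] {G : Type*} [Group G] {ω : F}
    (hall : ∀ x : F, x = 0 ∨ x = 1 ∨ x = ω ∨ x = ω + 1) (h2 : (2 : F) = 0) (h0 : ω ≠ 0)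
    (h1 : ω ≠ 1) {p q : G} (hp : p * p = 1) (hq : q * q = 1) (hpq : q * p = p * q) :
    ∃ τ : F → G, τ 0 = 1 ∧ τ 1 = p ∧ τ ω = q ∧ τ (ω + 1) = p * q ∧
      ∀ x y, τ (x + y) = τ x * τ y := by
  classical
  have n1 : ω + 1 ≠ 0 := fun e => h1 (by linear_combination e - h2)
  have n2 : ω + 1 ≠ 1 := fun e => h0 (by linear_combination e)
  have n3 : ω + 1 ≠ ω := fun e => one_ne_zero (α := F) (by linear_combination e)
  obtain ⟨τ, t0, t1, t2, t3⟩ : ∃ τ : F → G, τ 0 = 1 ∧ τ 1 = p ∧ τ ω = q ∧ τ (ω + 1) = p * q :=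
    ⟨fun x => if x = 0 then 1 else if x = 1 then p else if x = ω then q else p * q,
      by simp, by simp, by simp [h0, h1], by simp [n1, n2, n3]⟩
  refine ⟨τ, t0, t1, t2, t3, fun x y => ?_⟩
  have s1 : (1 : F) + 1 = 0 := by linear_combination h2
  have s2 : 1 + ω = ω + 1 := add_comm _ _
  have s3 : 1 + (ω + 1) = ω := by linear_combination h2
  have s4 : ω + ω = 0 := by linear_combination ω * h2
  have s5 : ω + (ω + 1) = 1 := by linear_combination ω * h2
  have s6 : ω + 1 + 1 = ω := by linear_combination h2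
  have s7 : ω + 1 + ω = 1 := by linear_combination ω * h2
  have s8 : ω + 1 + (ω + 1) = 0 := by linear_combination (ω + 1) * h2
  have e1 : p * (p * q) = q := by rw [← mul_assoc, hp, one_mul]
  have e3 : q * (p * q) = p := by rw [← mul_assoc, hpq, mul_assoc, hq, mul_one]
  have e4 : p * q * p = q := by rw [mul_assoc, hpq, e1]
  have e5 : p * q * q = p := by rw [mul_assoc, hq, mul_one]
  have e6 : p * q * (p * q) = 1 := by rw [mul_assoc, e3, hp]
  rcases hall x with rfl | rfl | hx | hx <;> rcases hall y with rfl | rfl | hy | hy <;>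
    (try rw [hx]) <;> (try rw [hy]) <;>
    simp only [zero_add, add_zero, s1, s2, s3, s4, s5, s6, s7, s8, t0, t1, t2, t3, one_mul, mul_one,
      hp, hq, hpq, e1, e3, e4, e5, e6]

/-- an additive map preserving all lines is a scalar -/
theorem emb1_scalar {F : Type*} [Field F] (T : F × F → F × F) (hT : ∀ u v, T (u + v) = T u + T v)
    (hd : ∀ u, u.1 * (T u).2 = u.2 * (T u).1) : ∃ c : F, ∀ u, T u = c • u := by
  have h0 : T 0 = 0 := by
    have := hT 0 0
    rw [add_zero] at this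
    exact left_eq_add.1 this
  have a1 : ∀ x, (T (x, 0)).2 = 0 := fun x => by
    by_cases hx : x = 0
    · subst hx; exact congrArg Prod.snd h0
    · have := hd (x, 0)
      simpa [hx] using this
  have a2 : ∀ y, (T (0, y)).1 = 0 := fun y => by
    by_cases hy : y = 0
    · subst hy; exact congrArg Prod.fst h0
    · have := hd (0, y)
      simpa [hy] using this
  have a3 : ∀ x y, T (x, y) = ((T (x, 0)).1, (T (0, y)).2) := fun x y => by
    have := hT (x, 0) (0, y)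
    simp only [Prod.mk_add_mk, add_zero, zero_add] at this
    rw [this]
    ext <;> simp [a1, a2]
  have a4 : ∀ x y, x * (T (0, y)).2 = y * (T (x, 0)).1 := fun x y => by
    have := hd (x, y)
    rwa [a3] at this
  refine ⟨(T (1, 0)).1, fun ⟨x, y⟩ => ?_⟩
  rw [a3]
  have b1 := a4 1 1
  have b2 := a4 x 1
  have b3 := a4 1 y
  ext
  · simp only [Prod.smul_mk, smul_eq_mul]; linear_combination -b2 + x * b1
  · simp only [Prod.smul_mk, smul_eq_mul]; linear_combination b3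

variable {G : Type*} [Group G] [Finite G] {S A B : Subgroup G}

theorem emb1_coord {F : Type*} [Field F] [Fintype F] (hF : Fintype.card F = 4) {ω : F}
    (hω : ω * ω = ω + 1) (hall : ∀ x : F, x = 0 ∨ x = 1 ∨ x = ω ∨ x = ω + 1) (h2 : (2 : F) = 0)
    (h0 : ω ≠ 0) (h1 : ω ≠ 1) (h : St S A B) {W : Subgroup G} (hWA : W ≤ A)
    (hWB : ∀ w ∈ W, w ∈ B → w = 1) (hdec : ∀ u ∈ A, ∃ z ∈ A ⊓ B, ∃ w ∈ W, u = z * w) :
    ∃ θ : F × F → G, (∀ u v, θ (u + v) = θ u * θ v) ∧ Function.Injective θ ∧ (∀ v, θ v ∈ A) ∧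
      (∀ a ∈ A, ∃ v, θ v = a) ∧ (∀ v, θ v ∈ B ↔ v.2 = 0) ∧ (∀ v, θ v ∈ W ↔ v.1 = 0) ∧
      (∀ s ∈ S, ∃ c, ∀ x y, s * θ (x, y) * s⁻¹ = θ (x + c * y, y)) ∧
      ∀ c, ∃ s ∈ S, ∀ x y, s * θ (x, y) * s⁻¹ = θ (x + c * y, y) := by
  classical
  obtain ⟨y0, hy0W, hy0B⟩ : ∃ y0 ∈ W, y0 ∉ B := by
    obtain ⟨a, ha, haB⟩ := h.exA
    obtain ⟨z, hz, w, hw, rfl⟩ := hdec a ha
    exact ⟨w, hw, fun e => haB (mul_mem hz.2 e)⟩
  obtain ⟨z0, hz0, z1, hz1, n0, n1, n01⟩ : ∃ z0 ∈ A ⊓ B, ∃ z1 ∈ A ⊓ B, z0 ≠ 1 ∧ z1 ≠ 1 ∧ z0 ≠ z1 := by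
    obtain ⟨z0, hz0, n0⟩ := h.exZ
    by_contra hc
    push Not at hc
    haveI := Fintype.ofFinite ↥(A ⊓ B)
    have : (Finset.univ : Finset ↥(A ⊓ B)) ⊆ {1, ⟨z0, hz0⟩} := fun x _ => by
      by_cases e : (x : G) = 1
      · simp [show x = 1 from Subtype.ext e]
      · simp [show x = ⟨z0, hz0⟩ from Subtype.ext (hc z0 hz0 x x.2 n0 e).symm]
    have h3 := (Finset.card_le_card this).trans Finset.card_le_two
    rw [Finset.card_univ, ← Nat.card_eq_fintype_card, h.cZ] at h3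
    omega
  have hon : ∀ z ∈ A ⊓ B, ∃ b ∈ B, b * y0 * b⁻¹ = z * y0 := fun z hz => by
    obtain ⟨b, hb, e⟩ := h.onto (hWA hy0W) hy0B hz
    refine ⟨b, hb, ?_⟩
    rw [h.commA hz.1 (hWA hy0W), ← e, h.invA (hWA hy0W), ← mul_assoc, ← mul_assoc, ← mul_assoc,
      h.sqA _ (hWA hy0W), one_mul]
  obtain ⟨b1, hb1, e10⟩ := hon z0 hz0
  obtain ⟨b2, hb2, e20⟩ := hon z1 hz1
  have hb1A : b1 ∉ A := fun e => n0 (by
    rw [h.commA e (hWA hy0W), mul_inv_cancel_right] at e10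
    exact right_eq_mul.1 e10)
  obtain ⟨y1, hy1W, e11⟩ : ∃ y1 ∈ W, b1 * y1 * b1⁻¹ = z1 * y1 := by
    obtain ⟨a, ha, e⟩ := h.symm.onto hb1 hb1A (z := z1) ⟨hz1.2, hz1.1⟩
    obtain ⟨z, hz, w, hw, rfl⟩ := hdec a ha
    refine ⟨w, hw, ?_⟩
    have e2 := h.cenZ (h.leB hb1) hz
    have e3 := h.commA hz.1 hz1.1
    calc b1 * w * b1⁻¹ = z⁻¹ * (z * b1 * w * b1⁻¹ * (z * w)⁻¹) * (z * w) := by group
      _ = z⁻¹ * z1 * (z * w) := by rw [← e2, mul_assoc b1 z w, e]
      _ = z⁻¹ * (z1 * z) * w := by group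
      _ = z1 * w := by rw [← e3]; group
  obtain ⟨τ, t0, t1, t2, t3, tadd⟩ := emb1_tau hall h2 h0 h1 (h.sqA _ hz0.1) (h.sqA _ hz1.1)
    (h.commA hz1.1 hz0.1)
  obtain ⟨μ, m0, m1, m2, m3, madd⟩ := emb1_tau hall h2 h0 h1 (h.sqA _ (hWA hy0W))
    (h.sqA _ (hWA hy1W)) (h.commA (hWA hy1W) (hWA hy0W))
  have tZ : ∀ x, τ x ∈ A ⊓ B := fun x => by
    rcases hall x with rfl | rfl | hx | hx
    · rw [t0]; exact one_mem _
    · rw [t1]; exact hz0
    · rw [hx, t2]; exact hz1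
    · rw [hx, t3]; exact mul_mem hz0 hz1
  have mW : ∀ x, μ x ∈ W := fun x => by
    rcases hall x with rfl | rfl | hx | hx
    · rw [m0]; exact one_mem _
    · rw [m1]; exact hy0W
    · rw [hx, m2]; exact hy1W
    · rw [hx, m3]; exact mul_mem hy0W hy1W
  have tk : ∀ x, τ x = 1 → x = 0 := fun x e => by
    rcases hall x with rfl | rfl | hx | hx
    · rfl
    · exact absurd (t1 ▸ e) n0
    · exact absurd (by rw [hx, t2] at e; exact e) n1
    · rw [hx, t3] at e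
      exact absurd (by rw [eq_inv_of_mul_eq_one_left e, h.invA hz1.1]) n01
  have ny1 : y1 ≠ 1 := fun e => n1 (by simpa [e] using e11.symm)
  have ny01 : y0 ≠ y1 := fun e => n01 (by rw [← e, e10] at e11; exact mul_right_cancel e11)
  have mk : ∀ x, μ x = 1 → x = 0 := fun x e => by
    rcases hall x with rfl | rfl | hx | hx
    · rfl
    · exact absurd (by rw [← m1, e]; exact one_mem _) hy0B
    · exact absurd (by rw [hx, m2] at e; exact e) ny1
    · rw [hx, m3] at e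
      exact absurd (by rw [eq_inv_of_mul_eq_one_left e, h.invA (hWA hy1W)]) ny01
  let θ : F × F → G := fun v => τ v.1 * μ v.2
  have θA : ∀ v, θ v ∈ A := fun v => mul_mem (tZ _).1 (hWA (mW _))
  have θadd : ∀ u v, θ (u + v) = θ u * θ v := fun u v => by
    simp only [θ, Prod.fst_add, Prod.snd_add, tadd, madd]
    rw [mul_assoc, mul_assoc, ← mul_assoc (τ v.1), ← mul_assoc (μ u.2),
      h.commA (tZ v.1).1 (hWA (mW u.2))]
  have θB : ∀ v, θ v ∈ B ↔ v.2 = 0 := fun v => by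
    constructor
    · intro e
      exact mk _ (hWB _ (mW _) ((B.mul_mem_cancel_left (mem_inf.1 (tZ v.1)).2).1 e))
    · intro e
      simp only [θ, e, m0, mul_one]; exact (tZ _).2
  have θW : ∀ v, θ v ∈ W ↔ v.1 = 0 := fun v => by
    constructor
    · intro e
      exact tk _ (hWB _ ((mul_mem_cancel_right (mW v.2)).1 e) (tZ _).2)
    · intro e
      simp only [θ, e, t0, one_mul]; exact mW _
  have θinj : Function.Injective θ := fun u v e => by
    have e1 : θ (u + v) = 1 := by rw [θadd, e, h.sqA _ (θA v)]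
    have e2 := (θB _).1 (e1 ▸ one_mem B)
    have e3 := (θW _).1 (e1 ▸ one_mem W)
    simp only [Prod.fst_add, Prod.snd_add] at e2 e3
    ext
    · linear_combination e3 - v.1 * h2
    · linear_combination e2 - v.2 * h2
  have θsurj : ∀ a ∈ A, ∃ v, θ v = a := fun a ha => by
    have hb : Function.Bijective (fun v => (⟨θ v, θA v⟩ : A)) := by
      refine (Nat.bijective_iff_injective_and_card _).2 ⟨fun u v e => θinj (congrArg Subtype.val e), ?_⟩
      rw [h.cA, Nat.card_prod, Nat.card_eq_fintype_card, hF]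
    obtain ⟨v, hv⟩ := hb.2 ⟨a, ha⟩
    exact ⟨v, congrArg Subtype.val hv⟩
  have τsurj : ∀ z ∈ A ⊓ B, ∃ c, τ c = z := fun z hz => by
    obtain ⟨v, hv⟩ := θsurj z hz.1
    have := (θB v).1 (hv ▸ hz.2)
    exact ⟨v.1, by simpa [θ, this, m0] using hv⟩
  have hP : ∀ c, ∀ s ∈ S, s * y0 * s⁻¹ = τ c * y0 → s * y1 * s⁻¹ = τ (c * ω) * y1 →
      ∀ x y, s * θ (x, y) * s⁻¹ = θ (x + c * y, y) := by
    intro c s hs ea eb x y
    have k : s * μ y * s⁻¹ = τ (c * y) * μ y := by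
      rcases hall y with rfl | rfl | hx | hx
      · simp [m0, t0]
      · rw [m1, mul_one, ea]
      · rw [hx, m2, eb]
      · rw [hx, m3, mul_add, mul_one, add_comm, tadd]
        calc s * (y0 * y1) * s⁻¹ = (s * y0 * s⁻¹) * (s * y1 * s⁻¹) := by group
          _ = τ c * (y0 * τ (c * ω)) * y1 := by rw [ea, eb]; group
          _ = _ := by rw [h.commA (hWA hy0W) (tZ _).1]; group
    simp only [θ, tadd]
    rw [← mul_assoc, h.cenZ hs (tZ x), mul_assoc (τ x), mul_assoc (τ x), k, mul_assoc]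
  have hy1B : y1 ∉ B := fun e => ny1 (hWB _ hy1W e)
  have e21 : b2 * y1 * b2⁻¹ = τ (ω * ω) * y1 := by
    obtain ⟨c, hc⟩ := τsurj _ (h.comSA (h.leB hb2) (hWA hy1W))
    have e : b2 * y1 * b2⁻¹ = τ c * y1 := by rw [hc]; group
    have hb2A : b2 ∉ A := fun e => n1 (by
      rw [h.commA e (hWA hy0W), mul_inv_cancel_right] at e20
      exact right_eq_mul.1 e20)
    have e30 : (b1 * b2) * y0 * (b1 * b2)⁻¹ = z1 * z0 * y0 := by
      calc _ = b1 * (b2 * y0 * b2⁻¹) * b1⁻¹ := by group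
        _ = (b1 * z1) * y0 * b1⁻¹ := by rw [e20]; group
        _ = z1 * (b1 * y0 * b1⁻¹) := by rw [h.cenZ (h.leB hb1) hz1]; group
        _ = _ := by rw [e10]; group
    have e31 : (b1 * b2) * y1 * (b1 * b2)⁻¹ = τ c * z1 * y1 := by
      calc _ = b1 * (b2 * y1 * b2⁻¹) * b1⁻¹ := by group
        _ = (b1 * τ c) * y1 * b1⁻¹ := by rw [e]; group
        _ = τ c * (b1 * y1 * b1⁻¹) := by rw [h.cenZ (h.leB hb1) (tZ c)]; group
        _ = _ := by rw [e11]; group
    have hb3A : b1 * b2 ∉ A := fun e => n01 (by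
      rw [h.commA e (hWA hy0W), mul_inv_cancel_right] at e30
      have := right_eq_mul.1 e30
      rw [eq_inv_of_mul_eq_one_right this, h.invA hz1.1])
    rcases hall c with rfl | rfl | hx | hx
    · rw [t0, one_mul, mul_inv_eq_iff_eq_mul] at e
      exact absurd (h.cenA (hWA hy1W) hy1B (h.leB hb2) e) hb2A
    · exfalso
      have hy : y0 * y1 ∉ B := fun e => ny01 (by
        rw [eq_inv_of_mul_eq_one_left (hWB _ (mul_mem hy0W hy1W) e), h.invA (hWA hy1W)])
      refine hb3A (h.cenA (hWA (mul_mem hy0W hy1W)) hy (h.leB (mul_mem hb1 hb2)) ?_)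
      rw [← mul_inv_eq_iff_eq_mul]
      rw [t1] at e31
      calc _ = ((b1 * b2) * y0 * (b1 * b2)⁻¹) * ((b1 * b2) * y1 * (b1 * b2)⁻¹) := by group
        _ = z1 * z0 * (y0 * (z0 * z1)) * y1 := by rw [e30, e31]; group
        _ = z1 * (z0 * z0) * z1 * (y0 * y1) := by
          rw [h.commA (hWA hy0W) (mul_mem hz0.1 hz1.1)]; group
        _ = _ := by rw [h.sqA _ hz0.1, mul_one, h.sqA _ hz1.1, one_mul]
    · rw [hx, t2, h.sqA _ hz1.1, one_mul, mul_inv_eq_iff_eq_mul] at e31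
      exact absurd (h.cenA (hWA hy1W) hy1B (h.leB (mul_mem hb1 hb2)) e31) hb3A
    · rw [hω, ← hx, e]
  have P1 := hP 1 b1 (h.leB hb1) (by rw [t1, e10]) (by rw [one_mul, t2, e11])
  have P2 := hP ω b2 (h.leB hb2) (by rw [t2, e20]) e21
  have hex : ∀ c, ∃ s ∈ S, ∀ x y, s * θ (x, y) * s⁻¹ = θ (x + c * y, y) := fun c => by
    rcases hall c with rfl | rfl | hx | hx
    · exact ⟨1, one_mem _, fun x y => by simp⟩
    · exact ⟨b1, h.leB hb1, P1⟩
    · exact ⟨b2, h.leB hb2, hx ▸ P2⟩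
    · refine ⟨b1 * b2, h.leB (mul_mem hb1 hb2), fun x y => ?_⟩
      calc _ = b1 * (b2 * θ (x, y) * b2⁻¹) * b1⁻¹ := by group
        _ = _ := by rw [P2, P1, hx]; congr 2; ring
  refine ⟨θ, θadd, θinj, θA, θsurj, θB, θW, fun s hs => ?_, hex⟩
  obtain ⟨c, hc⟩ := τsurj _ (h.comSA hs (hWA hy0W))
  obtain ⟨t, ht, et⟩ := hex c
  refine ⟨c, fun x y => ?_⟩
  have e1 : t * y0 * t⁻¹ = s * y0 * s⁻¹ := by
    have := et 0 1
    simp only [θ, t0, m1, one_mul, zero_add, mul_one] at this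
    rw [this, hc]; group
  have e2 : t⁻¹ * s ∈ A := h.cenA (hWA hy0W) hy0B (mul_mem (inv_mem ht) hs) (by
    calc t⁻¹ * s * y0 = t⁻¹ * (s * y0 * s⁻¹) * s := by group
      _ = _ := by rw [← e1]; group)
  rw [← et]
  calc s * θ (x, y) * s⁻¹ = t * ((t⁻¹ * s) * θ (x, y)) * s⁻¹ := by group
    _ = _ := by rw [h.commA e2 (θA _)]; group

end Cfsg.Agent.H26.Lf
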