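import Mathlib
import Cfsg.Agent.H12.Lfemb1a
import Cfsg.Agent.H26.Lf1
import Cfsg.Agent.FT.BG01
import Cfsg.Agent.S0051

/-!
A group with Sylow 2-subgroup of type `L₃(4)` and a self-centralizing normal `E₁₆` embeds
in `PGL₃(4)`.
-/

set_option autoImplicit false
set_option linter.unusedVariables false
set_option linter.unusedSectionVars false

namespace Cfsg.Agent.H26.Lf

open Subgroup

universe u
variable {G : Type u} [Group G] [Finite G] {S A B : Subgroup G}

/-- `u`, `v` lie in a common member of the spread defined by `W` -/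
def emb1_col (S A B W : Subgroup G) (u v : G) : Prop :=
  (u ∈ A ⊓ B ∧ v ∈ A ⊓ B) ∨ ∃ s ∈ S, s⁻¹ * u * s ∈ W ∧ s⁻¹ * v * s ∈ W

theorem emb1_cover (h : St S A B) {W : Subgroup G} (hWA : W ≤ A)
    (hdec : ∀ u ∈ A, ∃ z ∈ A ⊓ B, ∃ w ∈ W, u = z * w) {u : G} (hu : u ∈ A) :
    u ∈ A ⊓ B ∨ ∃ s ∈ S, s⁻¹ * u * s ∈ W := by
  obtain ⟨z, hz, w, hw, rfl⟩ := hdec u hu
  by_cases hwB : w ∈ B
  · exact Or.inl (mul_mem hz ⟨hWA hw, hwB⟩)
  · obtain ⟨b, hb, e⟩ := h.onto (hWA hw) hwB hz
    refine Or.inr ⟨b, h.leB hb, ?_⟩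
    have : b⁻¹ * (z * w) * b = w := by
      rw [h.commA hz.1 (hWA hw), ← e, h.invA (hWA hw), ← mul_assoc w, ← mul_assoc w, ← mul_assoc w,
        h.sqA _ (hWA hw)]
      group
    rwa [this]

theorem emb1_spread (h : St S A B) [hA : A.Normal] (hC : centralizer (A : Set G) ≤ A) :
    ∃ W : Subgroup G, W ≤ A ∧ (∀ w ∈ W, w ∈ B → w = 1) ∧
      (∀ u ∈ A, ∃ z ∈ A ⊓ B, ∃ w ∈ W, u = z * w) ∧
      ∀ g u v, u ∈ A → v ∈ A → emb1_col S A B W u v →
        emb1_col S A B W (g * u * g⁻¹) (g * v * g⁻¹) := by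
  have hNA : ∀ g : G, g ∈ normalizer (A : Set G) := fun g => by
    rw [normalizer_eq_top_iff.2 hA]; exact mem_top g
  by_cases hZ : ∀ g : G, g ∈ normalizer ((A ⊓ B : Subgroup G) : Set G)
  · haveI hS : S.Normal := by
      refine normalizer_eq_top_iff.1 (eq_top_iff.2 fun g _ => ?_)
      obtain ⟨n, hn, c, hc, rfl⟩ := h.chain inf_le_left h.leA (hNA g) (hZ g)
      exact mul_mem hn (le_normalizer (h.leA (hC hc)))
    have hcop : Nat.Coprime (Nat.card S) S.index := by
      rw [h.cS]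
      exact Nat.Coprime.pow_left 6 ((Nat.Prime.coprime_iff_not_dvd Nat.prime_two).2 h.odd)
    obtain ⟨H, hH⟩ := exists_right_complement'_of_coprime hcop
    have hab : FT.Abelem 2 A :=
      ⟨⟨⟨fun a b => Subtype.ext (h.commA a.2 b.2)⟩⟩, fun x hx => by rw [pow_two, h.sqA x hx]⟩
    obtain ⟨W, dp, hW⟩ := FT.Maschke_abelem (A := H) (U := A ⊓ B) Nat.prime_two hab
      ((FT.p'nat_iff Nat.prime_two).2 (by rw [← hH.symm.index_eq_card]; exact h.odd)) inf_le_left
      (fun g _ => hNA g) (fun g _ => hZ g)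
    have hWA : W ≤ A := dp.sup ▸ le_sup_right
    refine ⟨W, hWA, fun w hw hb => ?_, fun u hu => ?_, fun g u v hu hv hc => ?_⟩
    · exact mem_bot.1 (dp.inf ▸ (⟨⟨hWA hw, hb⟩, hw⟩ : w ∈ (A ⊓ B) ⊓ W))
    · haveI : (A ⊓ B).Normal := normalizer_eq_top_iff.1 (eq_top_iff.2 fun g _ => hZ g)
      rw [← dp.sup, ← SetLike.mem_coe, normal_mul] at hu
      obtain ⟨z, hz, w, hw, rfl⟩ := hu
      exact ⟨z, hz, w, hw, rfl⟩
    · rcases hc with ⟨h1, h2⟩ | ⟨s, hs, h1, h2⟩
      · exact Or.inl ⟨(mem_normalizer_iff.1 (hZ g) u).1 h1, (mem_normalizer_iff.1 (hZ g) v).1 h2⟩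
      · obtain ⟨⟨s', k⟩, e, -⟩ := hH.existsUnique (g * s)
        simp only at e
        have key : ∀ x, s⁻¹ * x * s ∈ W → (s' : G)⁻¹ * (g * x * g⁻¹) * s' ∈ W := fun x hx => by
          have := (mem_normalizer_iff.1 (hW k.2) _).1 hx
          have e2 : (k : G) = (s' : G)⁻¹ * (g * s) := by rw [← e]; group
          rw [e2] at this
          convert this using 1; group
        exact Or.inr ⟨s', s'.2, key _ h1, key _ h2⟩
  · push Not at hZ
    obtain ⟨g0, hg0⟩ := hZ
    let W : Subgroup G := (A ⊓ B).map (MulAut.conj g0).toMonoidHom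
    have mW : ∀ w, w ∈ W ↔ g0⁻¹ * w * g0 ∈ A ⊓ B := fun w => by
      constructor
      · rintro ⟨z, hz, rfl⟩
        simpa [mul_assoc] using hz
      · intro hw
        exact ⟨_, hw, by simp [mul_assoc]⟩
    have hWA : W ≤ A := by
      rintro _ ⟨z, hz, rfl⟩
      exact hA.conj_mem _ hz.1 g0
    have hWB : ∀ w ∈ W, w ∈ B → w = 1 := by
      rintro _ ⟨z, hz, rfl⟩ hb
      by_contra hne
      refine hg0 (h.ti (hNA g0) hz (fun e => hne (by simp [e])) ⟨hA.conj_mem _ hz.1 g0, hb⟩)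
    have hdec : ∀ u ∈ A, ∃ z ∈ A ⊓ B, ∃ w ∈ W, u = z * w := fun u hu => by
      have hb : Function.Bijective (fun x : ↥(A ⊓ B) × W =>
          (⟨x.1 * x.2, mul_mem x.1.2.1 (hWA x.2.2)⟩ : A)) := by
        refine (Nat.bijective_iff_injective_and_card _).2 ⟨?_, ?_⟩
        · rintro ⟨s, w⟩ ⟨t, v⟩ e
          have e1 : (s : G) * w = t * v := congrArg Subtype.val e
          have e2 : (v : G) * (w : G)⁻¹ = (t : G)⁻¹ * s := by
            calc (v : G) * (w : G)⁻¹ = (t : G)⁻¹ * (t * v) * (w : G)⁻¹ := by group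
              _ = _ := by rw [← e1]; group
          have e3 := hWB _ (mul_mem v.2 (inv_mem w.2))
            (e2 ▸ (mem_inf.1 (mul_mem (inv_mem t.2) s.2)).2)
          have e4 : v = w := Subtype.ext (mul_inv_eq_one.1 e3)
          subst e4
          rw [mul_left_inj] at e1
          rw [Subtype.ext e1]
        · rw [h.cA, Nat.card_prod, card_map_of_injective (MulAut.conj g0).injective, h.cZ]
      obtain ⟨⟨z, w⟩, e⟩ := hb.2 ⟨u, hu⟩
      exact ⟨z, z.2, w, w.2, (congrArg Subtype.val e).symm⟩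
    refine ⟨W, hWA, hWB, hdec, fun g u v hu hv hc => ?_⟩
    obtain ⟨k, k1, k2⟩ : ∃ k : G, k⁻¹ * (g * u * g⁻¹) * k ∈ A ⊓ B ∧
        k⁻¹ * (g * v * g⁻¹) * k ∈ A ⊓ B := by
      rcases hc with ⟨h1, h2⟩ | ⟨s, hs, h1, h2⟩
      · exact ⟨g, by simpa [mul_assoc] using h1, by simpa [mul_assoc] using h2⟩
      · exact ⟨g * s * g0, by simpa [mul_assoc] using (mW _).1 h1,
          by simpa [mul_assoc] using (mW _).1 h2⟩
    have hu' := hA.conj_mem _ hu g
    have hv' := hA.conj_mem _ hv g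
    generalize g * u * g⁻¹ = x at *
    generalize g * v * g⁻¹ = y at *
    have key : ∀ m : G, x ≠ 1 → m⁻¹ * x * m ∈ A ⊓ B → m⁻¹ * y * m ∈ A ⊓ B := fun m hx hm => by
      have h1 := h.ti (hNA (m⁻¹ * k)) k1 (fun e => hx (by
        calc x = k * (k⁻¹ * x * k) * k⁻¹ := by group
          _ = 1 := by rw [e]; group)) (by simpa [mul_assoc] using hm)
      simpa [mul_assoc] using (mem_normalizer_iff.1 h1 _).1 k2
    by_cases hx : x = 1
    · subst hx
      rcases emb1_cover h hWA hdec hv' with h1 | ⟨s, hs, h1⟩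
      · exact Or.inl ⟨one_mem _, h1⟩
      · exact Or.inr ⟨s, hs, by simp, h1⟩
    · rcases emb1_cover h hWA hdec hu' with h1 | ⟨s, hs, h1⟩
      · exact Or.inl ⟨h1, by simpa using key 1 hx (by simpa using h1)⟩
      · refine Or.inr ⟨s, hs, h1, (mW _).2 ?_⟩
        simpa [mul_assoc] using key (s * g0) hx (by simpa [mul_assoc] using (mW _).1 h1)

theorem emb1_lin {F : Type*} [Field F] [Fintype F] (hF : Fintype.card F = 4) (h : St S A B)
    [hA : A.Normal] (hC : centralizer (A : Set G) ≤ A) :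
    ∃ (θ : F × F → G) (σ : G → F × F → F × F), (∀ u v, θ (u + v) = θ u * θ v) ∧
      Function.Injective θ ∧ (∀ v, θ v ∈ A) ∧ (∀ a ∈ A, ∃ v, θ v = a) ∧
      (∀ g v, θ (σ g v) = g * θ v * g⁻¹) ∧ ∀ g (c : F) v, σ g (c • v) = c • σ g v := by
  obtain ⟨ω, hω, hall, h2, h0, h1⟩ := emb1_F4 hF
  obtain ⟨W, hWA, hWB, hdec, hinv⟩ := emb1_spread h hC
  obtain ⟨θ, θadd, θinj, θA, θsurj, θB, θW, hS, hex⟩ :=
    emb1_coord hF hω hall h2 h0 h1 h hWA hWB hdec
  choose σ hσ using fun g v => θsurj _ (hA.conj_mem _ (θA v) g)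
  have σadd : ∀ g u v, σ g (u + v) = σ g u + σ g v := fun g u v => θinj (by
    rw [θadd, hσ, hσ, hσ, θadd]; group)
  have σmul : ∀ g k v, σ (g * k) v = σ g (σ k v) := fun g k v => θinj (by
    rw [hσ, hσ, hσ]; group)
  have σone : ∀ v, σ 1 v = v := fun v => θinj (by rw [hσ]; group)
  have hcol : ∀ u v : F × F, emb1_col S A B W (θ u) (θ v) ↔ u.1 * v.2 = u.2 * v.1 := by
    rintro ⟨x, y⟩ ⟨x', y'⟩
    constructor
    · rintro (⟨a, b⟩ | ⟨s, hs, a, b⟩)
      · have a' := (θB _).1 a.2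
        have b' := (θB _).1 b.2
        simp only at a' b' ⊢
        rw [a', b']; ring
      · obtain ⟨c, hc⟩ := hS _ (inv_mem hs)
        rw [inv_inv] at hc
        rw [hc, θW] at a b
        simp only at a b ⊢
        linear_combination y' * a - y * b
    · intro e
      simp only at e
      by_cases hy : y = 0
      · by_cases hy' : y' = 0
        · exact Or.inl ⟨⟨θA _, (θB _).2 hy⟩, ⟨θA _, (θB _).2 hy'⟩⟩
        · obtain ⟨s, hs, es⟩ := hex (-x' / y')
          refine Or.inr ⟨s⁻¹, inv_mem hs, ?_, ?_⟩ <;> rw [inv_inv, es, θW] <;> simp only <;>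
            field_simp
          · linear_combination e
          · ring
      · obtain ⟨s, hs, es⟩ := hex (-x / y)
        refine Or.inr ⟨s⁻¹, inv_mem hs, ?_, ?_⟩ <;> rw [inv_inv, es, θW] <;> simp only <;>
          field_simp
        · ring
        · linear_combination -e
  have hsc : ∀ g, ∃ c : F, ∀ v, σ g (ω • v) = c • σ g v := fun g => by
    obtain ⟨c, hc⟩ := emb1_scalar (fun u => σ g (ω • σ g⁻¹ u))
      (fun u v => by simp only [σadd, smul_add]) (fun u => by
        have := hinv g _ _ (θA _) (θA _) ((hcol (σ g⁻¹ u) (ω • σ g⁻¹ u)).2 (by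
          simp only [Prod.smul_fst, Prod.smul_snd, smul_eq_mul]; ring))
        rw [← hσ, ← hσ, hcol, ← σmul, mul_inv_cancel, σone] at this
        exact this)
    refine ⟨c, fun v => ?_⟩
    have := hc (σ g v)
    rwa [← σmul, inv_mul_cancel, σone] at this
  have σinj : ∀ g u v, σ g u = σ g v → u = v := fun g u v e => by
    rw [← σone u, ← σone v, ← inv_mul_cancel g, σmul, σmul, e]
  have σ0 : ∀ g, σ g 0 = 0 := fun g => by
    have := σadd g 0 0
    rw [add_zero] at this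
    exact left_eq_add.1 this
  have hlin : ∀ g, (∀ v, σ g (ω • v) = ω • σ g v) → ∀ (c : F) v, σ g (c • v) = c • σ g v := by
    intro g hg c v
    rcases hall c with rfl | rfl | hx | hx
    · simp [σ0]
    · simp
    · rw [hx, hg]
    · rw [hx, add_smul, add_smul, σadd, hg, one_smul, one_smul]
  let K : Subgroup G :=
    { carrier := {g | ∀ v, σ g (ω • v) = ω • σ g v}
      one_mem' := fun v => by rw [σone, σone]
      mul_mem' := fun {a b} ha hb v => by rw [σmul, σmul, hb, ha]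
      inv_mem' := fun {a} ha v => σinj a _ _ (by
        rw [ha, ← σmul, ← σmul, mul_inv_cancel, σone, σone]) }
  have hSK : S ≤ K := fun s hs ⟨x, y⟩ => by
    obtain ⟨c, hc⟩ := hS s hs
    have e : ∀ x y, σ s (x, y) = (x + c * y, y) := fun x y => θinj (by rw [hσ, hc])
    rw [Prod.smul_mk, e, e, Prod.smul_mk]
    simp only [smul_eq_mul]
    congr 1; ring
  have hsq : ∀ g, g * g ∈ K := fun g => by
    obtain ⟨c, hc⟩ := hsc g
    rcases hall c with rfl | rfl | hx | hx
    · have := hc (1, 0)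
      rw [zero_smul, ← σ0 g] at this
      have := congrArg Prod.fst (σinj _ _ _ this)
      simp [h0] at this
    · have := hc (1, 0)
      rw [one_smul] at this
      have := congrArg Prod.fst (σinj _ _ _ this)
      simp [h1] at this
    · have : g ∈ K := fun v => by rw [hc, hx]
      exact mul_mem this this
    · intro v
      rw [σmul, σmul, hc, hx, add_smul, one_smul, σadd, hc, hx, add_smul, one_smul, add_assoc,
        ← two_smul F, h2, zero_smul, add_zero]
  haveI : K.Normal := ⟨fun n hn g => by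
    have := mul_mem (mul_mem (hsq g) (hsq (g⁻¹ * n))) (inv_mem hn)
    convert this using 1; group⟩
  have hK : ∀ g, g ∈ K := fun g => by
    have h3 : ¬ 2 ∣ K.index := fun e => h.odd (e.trans (index_dvd_of_le hSK))
    obtain ⟨k, hk⟩ : ∃ k, K.index = 2 * k + 1 := ⟨K.index / 2, by omega⟩
    have h4 := K.pow_index_mem g
    rw [hk, pow_succ, pow_mul, pow_two] at h4
    exact (K.mul_mem_cancel_left (pow_mem (hsq g) k)).1 h4
  exact ⟨θ, σ, θadd, θinj, θA, θsurj, hσ, fun g => hlin g (hK g)⟩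

theorem emb1 {F : Type*} [Field F] [Fintype F] (hF : Fintype.card F = 4) (h : St S A B)
    [A.Normal] (hC : centralizer (A : Set G) ≤ A) :
    ∃ f : G →* GL (Fin 3) F ⧸ center (GL (Fin 3) F), Function.Injective f := by
  obtain ⟨θ, σ, θadd, θinj, θA, θsurj, hσ, hlin⟩ := emb1_lin hF h hC
  have σadd : ∀ g u v, σ g (u + v) = σ g u + σ g v := fun g u v => θinj (by
    rw [θadd, hσ, hσ, hσ, θadd]; group)
  have σmul : ∀ g k v, σ (g * k) v = σ g (σ k v) := fun g k v => θinj (by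
    rw [hσ, hσ, hσ]; group)
  have σone : ∀ v, σ 1 v = v := fun v => θinj (by rw [hσ]; group)
  have θ0 : θ 0 = 1 := by
    have := θadd 0 0
    rw [add_zero] at this
    exact left_eq_mul.1 this
  have hab : FT.Abelem 2 B :=
    ⟨⟨⟨fun a b => Subtype.ext (h.commB a.2 b.2)⟩⟩, fun x hx => by rw [pow_two, h.sqB x hx]⟩
  obtain ⟨B0, dp⟩ := hab.exists_compl Nat.prime_two (B := A ⊓ B) inf_le_right
  have hB0 : B0 ≤ B := dp.sup ▸ le_sup_right
  haveI : IsMulCommutative A := ⟨⟨fun a b => Subtype.ext (h.commA a.2 b.2)⟩⟩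
  obtain ⟨H, hH⟩ := S0051.result A S h.leA (by
      rw [h.cA]
      exact Nat.Coprime.pow_left 4 ((Nat.Prime.coprime_iff_not_dvd Nat.prime_two).2 h.odd))
    B0 (hB0.trans h.leB) (eq_bot_iff.2 fun x hx => dp.inf ▸ (⟨⟨hx.2, hB0 hx.1⟩, hx.1⟩ : x ∈ (A ⊓ B) ⊓ B0))
    (le_antisymm (sup_le h.leA (hB0.trans h.leB)) (by
      rw [← h.sup]
      refine sup_le le_sup_left (dp.sup.ge.trans (sup_le_sup_right inf_le_left _))))
  have hAH : ∀ x ∈ A, x ∈ H → x = 1 := fun x h1 h2 =>
    mem_bot.1 (hH.disjoint.eq_bot ▸ (⟨h1, h2⟩ : x ∈ A ⊓ H))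
  have hex : ∀ g, ∃ v, (θ v)⁻¹ * g ∈ H := fun g => by
    obtain ⟨⟨a, k⟩, e, -⟩ := hH.existsUnique g
    obtain ⟨v, hv⟩ := θsurj a a.2
    exact ⟨v, by rw [hv, ← e]; simp⟩
  choose t ht using hex
  have tuniq : ∀ g v, (θ v)⁻¹ * g ∈ H → t g = v := fun g v hv => θinj (by
    have := hAH _ (mul_mem (inv_mem (θA v)) (θA (t g))) (by
      have := mul_mem hv (inv_mem (ht g))
      convert this using 1; group)
    exact (inv_mul_eq_one.1 this).symm)
  have tmul : ∀ g k, t (g * k) = t g + σ g (t k) := fun g k => tuniq _ _ (by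
    have := mul_mem (ht g) (ht k)
    rw [add_comm, θadd, hσ]
    have e := h.commA (inv_mem (θA (t g))) (inv_mem (θA (σ g (t k))))
    convert this using 1; group)
  have t1 : t 1 = 0 := tuniq _ _ (by rw [θ0]; simp)
  have σxy : ∀ g x y, σ g (x, y) = x • σ g (1, 0) + y • σ g (0, 1) := fun g x y => by
    rw [← hlin, ← hlin, ← σadd]; simp
  let M : G →* Matrix (Fin 3) (Fin 3) F :=
    { toFun := fun g => !![(σ g (1, 0)).1, (σ g (0, 1)).1, (t g).1;
        (σ g (1, 0)).2, (σ g (0, 1)).2, (t g).2; 0, 0, 1]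
      map_one' := by
        simp only [σone, t1]
        ext i j; fin_cases i <;> fin_cases j <;> simp
      map_mul' := fun g k => by
        simp only [σmul, tmul]
        rw [show σ g (σ k (1, 0)) = _ from σxy g _ _, show σ g (σ k (0, 1)) = _ from σxy g _ _,
          show σ g (t k) = _ from σxy g _ _]
        ext i j; fin_cases i <;> fin_cases j <;>
          simp [Matrix.mul_apply, Fin.sum_univ_three] <;> ring }
  refine ⟨(QuotientGroup.mk' _).comp M.toHomUnits, (injective_iff_map_eq_one _).2 fun g hg => ?_⟩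
  simp only [MonoidHom.comp_apply, QuotientGroup.mk'_apply, QuotientGroup.eq_one_iff] at hg
  obtain ⟨c, hc⟩ := Matrix.GeneralLinearGroup.mem_center_iff_val_mem_range_scalar.1 hg
  have e : ∀ i j, Matrix.scalar (Fin 3) c i j = M g i j := fun i j => by rw [hc]; rfl
  have e22 := e 2 2
  have e00 := e 0 0
  have e01 := e 0 1
  have e02 := e 0 2
  have e10 := e 1 0
  have e11 := e 1 1
  have e12 := e 1 2
  simp [M] at e22 e00 e01 e02 e10 e11 e12
  have hg1 : g ∈ A := hC fun a ha => by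
    obtain ⟨⟨x, y⟩, rfl⟩ := θsurj a ha
    have : σ g (x, y) = (x, y) := by
      rw [σxy]
      ext <;> simp [← e00, ← e01, ← e10, ← e11, e22]
    have h3 := hσ g (x, y)
    rw [this] at h3
    rw [eq_mul_inv_iff_mul_eq] at h3
    exact h3
  have h4 := ht g
  rw [show t g = 0 from Prod.ext e02.symm e12.symm, θ0] at h4
  exact hAH g hg1 (by simpa using h4)

end Cfsg.Agent.H26.Lf
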