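import Mathlib
import Cfsg.Agent.H17.Pron
import Cfsg.Agent.H16.Prim

/-! Self-normalizing Sylow 2-subgroups of monomial type. -/

set_option autoImplicit false
set_option linter.unusedSectionVars false

namespace Cfsg.Agent.H12

open Equiv Matrix SemidirectProduct H17 H18

/-- the monomial group -/
abbrev Wm (ι E : Type*) [Field E] := (ι → Eˣ) ⋊[mulAutArrow] Perm ι

variable {ι : Type} {E : Type*} [Fintype ι] [DecidableEq ι] [Field E]

theorem Wm.mul_left (x y : Wm ι E) (i : ι) : (x * y).left i = x.left i * y.left (x.right⁻¹ i) := rfl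

theorem Wm.conj_inl (x : Wm ι E) (a : ι → Eˣ) :
    x * inl a * x⁻¹ = inl fun i => a (x.right⁻¹ i) := by
  rw [mul_inv_eq_iff_eq_mul]
  ext i
  · simp [Wm.mul_left, mul_comm]
  · simp

instance instFiniteWm [Finite E] : Finite (Wm ι E) := Finite.of_equiv _ equivProd.symm

/-- monomial matrices -/
def muM : Wm ι E →* Matrix ι ι E where
  toFun x := (diagonal fun i => (x.left i : E)).submatrix id x.right
  map_one' := by ext i j; simp [diagonal_apply, one_apply]
  map_mul' x y := by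
    ext i j
    rw [mul_apply, Finset.sum_eq_single (x.right⁻¹ i) (fun k _ hk => by
      simp [diagonal_apply_ne _ (mt (fun e : i = x.right k => by simp [e]) hk)]) (by simp)]
    simp [diagonal_apply, Wm.mul_left, Equiv.symm_apply_eq]

theorem muM_apply (x : Wm ι E) (i j : ι) :
    muM x i j = if i = x.right j then (x.left i : E) else 0 := rfl

theorem det_muM (x : Wm ι E) : (muM x).det = (Perm.sign x.right : ℤ) * ↑(∏ i, x.left i) := by
  simp [muM, det_permute']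

/-- monomial matrices -/
def mu : Wm ι E →* GL ι E := muM.toHomUnits

theorem mu_inj : Function.Injective (mu : Wm ι E → GL ι E) := (injective_iff_map_eq_one _).2 fun x h => by
  have h1 : ∀ i j, muM x i j = (1 : Matrix ι ι E) i j := fun i j => by rw [← Units.val_one, ← h]; rfl
  have h2 : ∀ j, x.right j = j := fun j => by_contra fun e => by
    simpa [muM_apply, one_apply_ne e] using h1 (x.right j) j
  ext i
  · simpa [muM_apply, h2] using h1 i i
  · exact h2 i

theorem exists_mu {g : GL ι E} (h : ∀ m j k, g m j ≠ 0 → g m k ≠ 0 → j = k) : ∃ y, mu y = g := by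
  have h1 : ∀ j, ∃ m, g m j ≠ 0 := fun j => by_contra fun e => g.det_ne_zero
    (det_eq_zero_of_column_eq_zero j (by simpa using e))
  choose σ hσ using h1
  have h2 : Function.Bijective σ := Finite.injective_iff_bijective.1 fun j k e =>
    h _ _ _ (hσ j) (e ▸ hσ k)
  let τ := Equiv.ofBijective σ h2
  refine ⟨⟨fun i => Units.mk0 _ (hσ (τ.symm i)), τ⟩, Units.ext (Matrix.ext fun i j => ?_)⟩
  obtain ⟨i, rfl⟩ := τ.surjective i
  change (if τ i = τ j then g (σ (τ.symm (τ i))) (τ.symm (τ i)) else 0) = g (σ i) j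
  rw [τ.symm_apply_apply]
  split_ifs with e
  · rw [τ.injective e]
  · exact (not_not.1 fun e' => e (congrArg _ (h _ _ _ (hσ i) e'))).symm

theorem sn_mono [Finite E] {G : Type*} [Group G] [Finite G] (f : G →* GL ι E)
    (hf : Function.Injective f) (hd : ∀ g, (f g).1.det = 1) {k : ℕ} (hι : Fintype.card ι = 2 ^ k)
    (M : Subgroup (Wm ι E)) (hM : ∀ x ∈ M, mu x ∈ f.range)
    (h1 : ¬ 2 * Nat.card M ∣ Nat.card G) (h2 : ¬ 2 ∣ (M.map rightHom).index)
    (h3 : ∀ x ∈ M, ∀ j, x.right j ≠ j → ∃ a, inl a ∈ M ∧ a ^ 8 = 1 ∧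
      a (x.right⁻¹ j) * a (x.right j) ≠ a j ^ 2)
    (h4 : ∀ j k, j ≠ k → ∃ a, inl a ∈ M ∧ a ^ 8 = 1 ∧ a j ≠ a k) : SN G := by
  obtain ⟨S, hS, hD⟩ := exists_sylIn_ge (p := 2) (H := M)
    (P := ((powMonoidHom 8).ker.map inl) ⊓ M)
    ((IsPGroup.map (fun g => ⟨3, Subtype.ext g.2⟩) _).to_inf_left) inf_le_right
  replace hD : ∀ {a}, inl a ∈ M → a ^ 8 = 1 → inl a ∈ S := fun h e => hD ⟨⟨_, e, rfl⟩, h⟩
  have hQ : SylIn 2 (S.map rightHom) ⊤ := by
    have := hS.map rightHom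
    refine sylIn_of_not_dvd_relIndex le_top this.isP ?_
    rw [Subgroup.relIndex_top_right, ← Subgroup.relIndex_mul_index this.le]
    exact Nat.prime_two.not_dvd_mul this.not_dvd_relIndex h2
  have hT : SylIn 2 ((S.map mu).comap f) ⊤ := by
    have hle : M.map mu ≤ f.range := Subgroup.map_le_iff_le_comap.2 hM
    have := (hS.map mu).comap_of_injective f hf ((hS.map mu).le.trans hle)
    refine sylIn_of_not_dvd_relIndex le_top this.isP ?_
    rw [Subgroup.relIndex_top_right, ← Subgroup.relIndex_mul_index this.le]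
    refine Nat.prime_two.not_dvd_mul this.not_dvd_relIndex fun e => h1 ?_
    rw [← ((M.map mu).comap f).index_mul_card, ← Subgroup.card_map_of_injective hf,
      Subgroup.map_comap_eq_self hle, Subgroup.card_map_of_injective mu_inj]
    exact mul_dvd_mul_right e _
  refine SN.of_one hT (fun g _ hg => mem_of_odd hT le_rfl le_rfl (fun g hg ho => ?_) ⟨trivial, hg⟩)
    Subgroup.topEquiv
  have k0 : ∀ {g}, g ∈ Subgroup.normalizer ((S.map mu).comap f : Set G) → ∀ x ∈ S,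
      ∃ y ∈ S, mu y = f g * mu x * (f g)⁻¹ := fun {g} hg x hx => by
    obtain ⟨z, e⟩ := hM x (hS.le hx)
    obtain ⟨y, hy, e'⟩ := (Subgroup.mem_normalizer_iff.1 hg z).1 ⟨x, hx, e.symm⟩
    exact ⟨y, hy, by rw [e', map_mul, map_mul, map_inv, e]⟩
  have k1 : ∀ a, inl a ∈ S → ∃ b, mu (inl b) = f g * mu (inl a) * (f g)⁻¹ := fun a ha => by
    obtain ⟨y, hy, e⟩ := k0 hg.2 _ ha
    suffices y.right = 1 from ⟨y.left, by rw [← e, ← inl_left_mul_inr_right y]; simp [this]⟩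
    refine Equiv.ext fun j => by_contra fun hj => ?_
    obtain ⟨b, hb, hb', e'⟩ := h3 y (hS.le hy) j hj
    obtain ⟨z, hz, e''⟩ := k0 (inv_mem hg.2) _ (hD hb hb')
    have c1 : Commute (inl a : Wm ι E) (z * inl a * z⁻¹) := by
      rw [Wm.conj_inl]; exact (Commute.all _ _).map _
    have c2 : Commute y (inl b * y * (inl b)⁻¹) := mu_inj (by
      have := (c1.map mu).map (MulAut.conj (f g))
      simp only [map_mul, map_inv, e'', MulAut.conj_apply, e] at this ⊢
      convert this.eq using 1 <;> group)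
    have := congrArg (fun x : Wm ι E => x.left (y.right j)) c2.eq
    simp only [Wm.mul_left, ← map_inv, left_inl, right_inl, mul_right, inv_one, mul_one, one_mul,
      Perm.coe_one, id, Pi.inv_apply, Perm.coe_inv, symm_apply_apply] at this
    refine e' (Additive.ofMul.injective ?_)
    replace this := congrArg Additive.ofMul this
    simp only [ofMul_mul, ofMul_inv, ofMul_pow, Perm.coe_inv] at this ⊢
    linear_combination (norm := abel) -this
  obtain ⟨y, hy⟩ := exists_mu (g := f g) fun m j k hj hk => by_contra fun e => by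
    obtain ⟨a, ha, ha', e'⟩ := h4 j k e
    obtain ⟨b, hb⟩ := k1 a (hD ha ha')
    have : ∀ j, (b m : E) * f g m j = f g m j * a j := fun j => by
      have := congrArg (fun x : GL ι E => x m j) (eq_mul_inv_iff_mul_eq.1 hb)
      simpa [mu, muM] using this
    exact e' (Units.ext (by
      rw [← mul_right_inj' hj, ← this, mul_comm, mul_right_inj' hj, ← mul_right_inj' hk, ← this,
        mul_comm]))
  have k2 : ∀ x ∈ S, y * x * y⁻¹ ∈ S := fun x hx => by
    obtain ⟨z, hz, e⟩ := k0 hg.2 x hx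
    rw [← hy, ← map_inv, ← map_mul, ← map_mul, mu_inj.eq_iff] at e
    exact e ▸ hz
  have ho' : Odd (orderOf y) := by rwa [← orderOf_injective mu mu_inj, hy, orderOf_injective f hf]
  have k3 : y.right = 1 := by
    refine eq_one_of_odd (pEl_of_mem hQ.isP (sn_perm _ rfl _ hQ (H18.mem_normalizer_of_conj_mem ?_)))
      (ho'.of_dvd_nat (orderOf_map_dvd rightHom y))
    rintro _ ⟨x, hx, rfl⟩
    exact ⟨_, k2 x hx, by simp⟩
  obtain ⟨c, rfl⟩ : ∃ c, inl c = y := ⟨y.left, by rw [← inl_left_mul_inr_right y]; simp [k3]⟩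
  rw [orderOf_injective inl inl_injective] at ho'
  have k4 : ∀ i j, c i = c j := fun i j => by
    obtain ⟨P, hP⟩ := hQ.exists_sylow_top
    obtain ⟨⟨_, hσ⟩, rfl⟩ := (H16.sylow_trans (α := ι) (by simpa using hι) P).exists_smul_eq i j
    obtain ⟨x, hx, rfl⟩ := hP.le hσ
    have := mul_mem (k2 x hx) (inv_mem hx)
    rw [mul_assoc, mul_assoc, ← mul_assoc x, ← map_inv, Wm.conj_inl, ← map_mul] at this
    replace this := eq_one_of_odd (pEl_of_mem hS.isP this) (ho'.of_dvd_nat (orderOf_dvd_of_pow_eq_one (by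
      rw [← map_pow, mul_pow, pow_orderOf_eq_one, one_mul]
      refine (congrArg _ (funext fun i => ?_)).trans (map_one _)
      simpa using congrFun (pow_orderOf_eq_one c) _)))
    replace this := congrFun (inl_injective (this.trans (map_one _).symm)) (x.right i)
    simp only [Pi.mul_apply, Pi.inv_apply, Perm.coe_inv, symm_apply_apply, Pi.one_apply,
      mul_inv_eq_one] at this
    exact this.symm
  have k5 : c = 1 := eq_one_of_odd ⟨k, funext fun i => by
    have := hd g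
    rw [← hy] at this
    change (muM _).det = 1 at this
    rw [det_muM, left_inl, Finset.prod_congr rfl fun j _ => k4 j i] at this
    simpa [hι, ← Units.val_pow_eq_pow_val] using this⟩ ho'
  rw [hf (a₁ := g) (a₂ := 1) (by simp [← hy, k5])]
  exact one_mem _

/-- twisted monomial group -/
def Mw (w : Perm ι) (r : ℤ) : Subgroup (Wm ι E) where
  carrier := {x | Commute x.right w ∧ ∀ i, x.left i ^ r = x.left (w i)}
  one_mem' := ⟨Commute.one_left _, fun i => by simp⟩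
  mul_mem' {x y} hx hy := ⟨hx.1.mul_left hy.1, fun i => by
    rw [Wm.mul_left, Wm.mul_left, mul_zpow, hx.2, hy.2, ← Perm.mul_apply, ← hx.1.inv_left.eq]; rfl⟩
  inv_mem' {x} hx := ⟨hx.1.inv_left, fun i => by
    change (x.left (x.right⁻¹⁻¹ i))⁻¹ ^ r = (x.left (x.right⁻¹⁻¹ (w i)))⁻¹
    rw [_root_.inv_zpow, hx.2, inv_inv, ← Perm.mul_apply, ← hx.1.eq]; rfl⟩

theorem inl_mem_Mw {w : Perm ι} {r : ℤ} {a : ι → Eˣ} :
    (inl a : Wm ι E) ∈ Mw w r ↔ ∀ i, a i ^ r = a (w i) := and_iff_right (Commute.one_left _)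

/-- determinant of a monomial matrix -/
def dtM : Wm ι E →* Eˣ := GeneralLinearGroup.det.comp mu

theorem dtM_val (x : Wm ι E) : (dtM x : E) = (Perm.sign x.right : ℤ) * ↑(∏ i, x.left i) := det_muM x

theorem dtM_inl (a : ι → Eˣ) : dtM (inl a : Wm ι E) = ∏ i, a i := Units.ext (by simp [dtM_val])

theorem card_eq_inf_mul_map {G H : Type*} [Group G] [Group H] (K : Subgroup G) (φ : G →* H) :
    Nat.card K = Nat.card (K ⊓ φ.ker : Subgroup G) * Nat.card (K.map φ) := by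
  rw [← Subgroup.relIndex_ker, ← Subgroup.inf_relIndex_left, Subgroup.relIndex,
    ← Nat.card_congr (Subgroup.subgroupOfEquivOfLe (inf_le_left (a := K) (b := φ.ker))).toEquiv,
    Subgroup.card_mul_index]

local notation "v₂" => emultiplicity (2 : ℤ)

theorem sn_tw [Finite E] {G : Type*} [Group G] [Finite G] (f : G →* GL ι E)
    (hf : Function.Injective f) (hd : ∀ g, (f g).1.det = 1) {k : ℕ} (hι : Fintype.card ι = 2 ^ k)
    {w : Perm ι} {r : ℤ} (hr : Odd r) (hr1 : r ≠ 1) (hw : ¬ 2 ∣ (Subgroup.centralizer {w}).index)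
    (hM : ∀ x ∈ Mw w r, dtM x = 1 → mu x ∈ f.range) {N : ℕ}
    (hN : N ∣ Nat.card ((Mw w r : Subgroup (Wm ι E)).comap inl))
    (hG : v₂ ((r - 1) * Nat.card G) ≤ v₂ (N * (2 ^ k).factorial))
    (hc : ∃ c : ι → Eˣ, (∀ i, c i ^ r = c (w i)) ∧ ∏ i, c i = -1)
    (h3 : ∀ σ, Commute σ w → ∀ j, σ j ≠ j → ∃ a : ι → Eˣ, ((∀ i, a i ^ r = a (w i)) ∧ ∏ i, a i = 1) ∧
      a ^ 8 = 1 ∧ a (σ⁻¹ j) * a (σ j) ≠ a j ^ 2)
    (h4 : ∀ j k, j ≠ k → ∃ a : ι → Eˣ, ((∀ i, a i ^ r = a (w i)) ∧ ∏ i, a i = 1) ∧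
      a ^ 8 = 1 ∧ a j ≠ a k) : SN G := by
  have k0 : ∀ σ, Commute σ w → (inr σ : Wm ι E) ∈ Mw w r := fun σ h => ⟨h, fun i => by simp⟩
  have k1 : ∀ a : ι → Eˣ, (∀ i, a i ^ r = a (w i)) ∧ ∏ i, a i = 1 →
      (inl a : Wm ι E) ∈ Mw w r ⊓ dtM.ker := fun a h => ⟨inl_mem_Mw.2 h.1, (dtM_inl a).trans h.2⟩
  refine sn_mono f hf hd hι (Mw w r ⊓ dtM.ker) (fun x hx => hM x hx.1 hx.2) (fun h => ?_)
    (fun h => hw (h.trans (Subgroup.index_dvd_of_le fun σ hσ => ?_))) (fun x hx j hj =>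
      (h3 _ hx.1.1 j hj).imp fun a h => ⟨k1 a h.1, h.2⟩)
    fun j k e => (h4 j k e).imp fun a h => ⟨k1 a h.1, h.2⟩
  · have a1 := card_eq_inf_mul_map (Mw w r : Subgroup (Wm ι E)) rightHom
    rw [show (Mw w r : Subgroup (Wm ι E)).map rightHom = Subgroup.centralizer {w} from
      Subgroup.ext fun σ => Subgroup.mem_centralizer_singleton_iff.trans
        ⟨fun h => ⟨_, k0 σ h, rfl⟩, fun ⟨x, hx, e⟩ => e ▸ hx.1⟩ |>.symm, ← range_inl_eq_ker_rightHom,
      inf_comm, ← Subgroup.map_comap_eq, Subgroup.card_map_of_injective inl_injective,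
      card_eq_inf_mul_map _ dtM] at a1
    have a2 : Nat.card ((Mw w r : Subgroup (Wm ι E)).map dtM) ∣ (r - 1).natAbs := by
      refine (Subgroup.card_dvd_of_le (K := (powMonoidHom (r - 1).natAbs).ker) ?_).trans
        (IsCyclic.card_powMonoidHom_ker Eˣ _ ▸ Nat.gcd_dvd_right _ _)
      rintro _ ⟨x, hx, rfl⟩
      rw [MonoidHom.mem_ker, powMonoidHom_apply, pow_natAbs_eq_one, _root_.zpow_sub_one,
        mul_inv_eq_one, Units.ext_iff, Units.val_zpow_eq_zpow_val, dtM_val, mul_zpow,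
        ← Units.val_zpow_eq_zpow_val, ← Finset.prod_zpow, Finset.prod_congr rfl fun i _ => hx.2 i,
        Equiv.prod_comp w]
      rcases Int.units_eq_one_or (Perm.sign x.right) with e | e <;> simp [e, hr.neg_one_zpow]
    have a3 := (Subgroup.centralizer {w}).card_mul_index
    rw [Nat.card_perm, Nat.card_eq_fintype_card (α := ι), hι] at a3
    have a4 : ((N * (2 ^ k).factorial : ℕ) : ℤ) ∣ (r - 1) * Nat.card (Mw w r ⊓ dtM.ker : Subgroup (Wm ι E)) *
        (Subgroup.centralizer {w}).index := by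
      rw [← Int.dvd_natAbs, Int.natCast_dvd_natCast, ← a3, ← mul_assoc, Int.natAbs_mul, Int.natAbs_mul]
      refine mul_dvd_mul_right ((mul_dvd_mul_right hN _).trans (a1 ▸ ?_)) _
      rw [mul_comm]
      exact mul_dvd_mul_right a2 _
    have a5 := (emultiplicity_le_emultiplicity_of_dvd_right (mul_dvd_mul_left (r - 1)
      (Int.natCast_dvd_natCast.2 h))).trans (hG.trans
        (emultiplicity_le_emultiplicity_of_dvd_right (Nat.cast_mul (α := ℤ) _ _ ▸ a4)))
    rw [emultiplicity_mul Int.prime_two (b := ((Subgroup.centralizer {w}).index : ℤ)),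
      emultiplicity_eq_zero.2 (show ¬ (2 : ℤ) ∣ (Subgroup.centralizer {w}).index by
        exact_mod_cast hw), add_zero, Nat.cast_mul, mul_left_comm, emultiplicity_mul Int.prime_two,
      add_comm] at a5
    refine emultiplicity_eq_zero.1 (nonpos_iff_eq_zero.1 ((ENat.add_le_add_iff_left ?_).1
      (a5.trans_eq (add_zero _).symm))) dvd_rfl
    exact finiteMultiplicity_iff_emultiplicity_ne_top.1 (Int.finiteMultiplicity_iff.2
      ⟨by decide, mul_ne_zero (sub_ne_zero.2 hr1) (by exact_mod_cast Nat.card_pos.ne')⟩)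
  · replace hσ := k0 σ (Subgroup.mem_centralizer_singleton_iff.1 hσ)
    obtain ⟨c, hc, hc'⟩ := hc
    rcases Int.units_eq_one_or (Perm.sign σ) with e | e
    · exact ⟨inr σ, ⟨hσ, Units.ext (by simp [dtM_val, e])⟩, rfl⟩
    · refine ⟨inl c * inr σ, ⟨mul_mem (inl_mem_Mw.2 hc) hσ, ?_⟩, by simp⟩
      change dtM _ = 1
      rw [map_mul, dtM_inl, hc']
      exact Units.ext (by simp [dtM_val, e])

theorem v2_prod_A {r : ℤ} (h : 4 ∣ r - 1) (d : ℕ) : v₂ (∏ i ∈ Finset.range d, (r ^ (i + 1) - 1)) =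
    v₂ ((r - 1) ^ d * d.factorial) := by
  induction d with
  | zero => simp
  | succ d ih =>
    have := Int.two_pow_sub_pow' (d + 1) h (by omega)
    rw [one_pow] at this
    rw [Finset.prod_range_succ, Nat.factorial_succ, Nat.cast_mul, pow_succ (r - 1)]
    simp only [emultiplicity_mul Int.prime_two, ih, this]
    abel

theorem v2_prod_B {r : ℤ} (h : 4 ∣ r + 1) (m : ℕ) :
    v₂ (∏ i ∈ Finset.range (2 * m), (r ^ (i + 1) - 1)) = v₂ ((r ^ 2 - 1) ^ m * (2 * m).factorial) := by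
  induction m with
  | zero => simp
  | succ m ih =>
    obtain ⟨c, hc⟩ := h
    obtain rfl : r = 4 * c - 1 := by omega
    have a1 := Int.two_pow_sub_pow' (x := (4 * c - 1) ^ 2) (y := 1) (m + 1) ⟨4 * c ^ 2 - 2 * c, by ring⟩
      (fun e => by have := Int.prime_two.dvd_of_dvd_pow e; omega)
    have a2 := emultiplicity_pow_sub_pow_of_prime Int.prime_two (x := 4 * c - 1) (y := 1)
      (n := 2 * m + 1) (by omega) (by omega) (by omega)
    rw [one_pow, show 4 * c - 1 - 1 = 2 * (2 * c - 1) by ring] at a2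
    rw [one_pow, ← pow_mul] at a1
    rw [show 2 * (m + 1) = 2 * m + 1 + 1 by ring] at a1 ⊢
    rw [Finset.prod_range_succ, Finset.prod_range_succ, Nat.factorial_succ, Nat.factorial_succ,
      show 2 * m + 1 + 1 = 2 * (m + 1) by ring, pow_succ _ m] at *
    simp only [emultiplicity_mul Int.prime_two, ih, a1, a2, Nat.cast_mul,
      emultiplicity_eq_zero.2 (show ¬ (2 : ℤ) ∣ 2 * c - 1 by omega),
      emultiplicity_eq_zero.2 (show ¬ (2 : ℤ) ∣ (2 * m + 1 : ℕ) by omega), Nat.cast_ofNat]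
    abel

theorem exists_ne_three (h : 4 ≤ Fintype.card ι) (a b c : ι) : ∃ l, l ≠ a ∧ l ≠ b ∧ l ≠ c := by
  by_contra e
  have := (Finset.card_le_card (s := Finset.univ) (t := {a, b, c}) fun l _ => by
    simp only [Finset.mem_insert, Finset.mem_singleton]
    by_contra h
    exact e ⟨l, by simpa only [not_or] using h⟩).trans Finset.card_le_three
  rw [Finset.card_univ] at this
  omega

theorem exists_unit_order [Finite E] {n : ℕ} (h : 2 * n ∣ Nat.card Eˣ) :
    ∃ z : Eˣ, z ^ n = -1 ∧ (-1 : Eˣ) ≠ 1 := by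
  obtain ⟨g, hg⟩ := IsCyclic.exists_ofOrder_eq_natCard (α := Eˣ)
  obtain ⟨c, hc⟩ := h
  have h0 : 0 < Nat.card Eˣ := Nat.card_pos
  have h1 : (g ^ c) ^ n ≠ 1 := by
    rw [← pow_mul]
    exact pow_ne_one_of_lt_orderOf (fun e => by rw [hc, mul_assoc, mul_comm n, e] at h0; omega)
      (by rw [hg]; nlinarith)
  have h2 : (g ^ c) ^ n = -1 := Units.ext ((mul_self_eq_one_iff.1 (by
    rw [← Units.val_mul, ← pow_add, ← pow_mul, ← two_mul, mul_comm, ← hc, pow_card_eq_one',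
      Units.val_one])).resolve_left fun e => h1 (Units.ext e))
  exact ⟨_, h2, h2 ▸ h1⟩

theorem sn_A [Finite E] {G : Type*} [Group G] [Finite G] (f : G →* GL ι E)
    (hf : Function.Injective f) (hd : ∀ g, (f g).1.det = 1) {k : ℕ} (hι : Fintype.card ι = 2 ^ k)
    (hk : 2 ≤ k) {r : ℤ} (hr : 4 ∣ r - 1) (hr1 : r ≠ 1) (hE : (r - 1).natAbs ∣ Nat.card Eˣ)
    (hM : ∀ x : Wm ι E, (∀ i, x.left i ^ r = x.left i) → dtM x = 1 → mu x ∈ f.range)
    (hG : v₂ ((r - 1) * Nat.card G) = v₂ (∏ i ∈ Finset.range (2 ^ k), (r ^ (i + 1) - 1))) : SN G := by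
  have h4 : 4 ≤ Fintype.card ι := hι ▸ Nat.pow_le_pow_right two_pos hk
  obtain ⟨I, hI, h1⟩ := exists_unit_order (E := E) (n := 2) ((Int.natAbs_dvd_natAbs.2 hr).trans hE)
  have k0 : ∀ x : Eˣ, x ^ (r - 1).natAbs = 1 → x ^ r = x := fun x h => by
    rwa [pow_natAbs_eq_one, _root_.zpow_sub_one, mul_inv_eq_one] at h
  have k1 : ∀ a : ι → Eˣ, a ^ 4 = 1 → ∀ i, a i ^ r = a i := fun a h i => k0 _ (by
    obtain ⟨c, hc⟩ := Int.natAbs_dvd_natAbs.2 hr
    rw [hc, pow_mul, show a i ^ Int.natAbs 4 = 1 from congrFun h i, one_pow])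
  have k2 : ∀ j l : ι, ∃ a : ι → Eˣ, ((∀ i, a i ^ r = a i) ∧ ∏ i, a i = 1) ∧ a ^ 8 = 1 ∧
      a = Pi.mulSingle j I * Pi.mulSingle l I⁻¹ := fun j l => by
    have : (Pi.mulSingle j I * Pi.mulSingle l I⁻¹ : ι → Eˣ) ^ (2 * 2) = 1 := by
      rw [mul_pow, ← Pi.mulSingle_pow, ← Pi.mulSingle_pow, inv_pow, pow_mul, hI]; simp
    exact ⟨_, ⟨k1 _ this, by simp [Finset.prod_mul_distrib]⟩,
      by rw [show 8 = 2 * 2 * 2 from rfl, pow_mul, this, one_pow], rfl⟩
  refine sn_tw f hf hd hι (w := 1) (Int.odd_iff.2 (by omega)) hr1 (by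
      rw [Subgroup.centralizer_eq_top_iff_subset.2 (by simp [one_mem])]; simp)
    (fun x hx => hM x hx.2) (N := (r - 1).natAbs ^ 2 ^ k) ?_ (hG.trans ?_).le ?_
    (fun σ _ j hj => ?_) fun j l h => (k2 j l).imp fun a ha => ⟨ha.1, ha.2.1, ?_⟩
  · have := Subgroup.card_dvd_of_injective (((powMonoidHom (r - 1).natAbs : Eˣ →* Eˣ).ker.subtype.compLeft ι).codRestrict
      ((Mw 1 r : Subgroup (Wm ι E)).comap inl) fun a => inl_mem_Mw.2 fun i => k0 _ (a i).2)
      fun a b e => funext fun i => Subtype.ext (congrFun (congrArg Subtype.val e) i)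
    rwa [Nat.card_fun, IsCyclic.card_powMonoidHom_ker, Nat.gcd_eq_right hE,
      Nat.card_eq_fintype_card, hι] at this
  · rw [v2_prod_A hr]
    exact emultiplicity_eq_of_associated_right (Associated.mul_right (by
      rw [Nat.cast_pow]; exact (Int.associated_natAbs _).pow_pow) _)
  · obtain ⟨i⟩ : Nonempty ι := Fintype.card_pos_iff.1 (by omega)
    exact ⟨Pi.mulSingle i (-1), k1 _ (by simp [← Pi.mulSingle_pow]; norm_num), by simp⟩
  · obtain ⟨l, a1, a2, a3⟩ := exists_ne_three h4 j (σ j) (σ⁻¹ j)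
    refine (k2 j l).imp fun a ha => ⟨ha.1, ha.2.1, ?_⟩
    have : σ⁻¹ j ≠ j := fun e => hj (Perm.inv_eq_iff_eq.1 e).symm
    simp only [ha.2.2, Pi.mul_apply, Pi.mulSingle_eq_of_ne, ne_eq, not_false_eq_true, a1.symm,
      a2.symm, a3.symm, this, hj, mul_one, Pi.mulSingle_eq_same, hI, h1.symm]
  · simp only [ha.2.2, Pi.mul_apply, Pi.mulSingle_eq_of_ne, ne_eq, not_false_eq_true, h, h.symm,
      mul_one, one_mul, Pi.mulSingle_eq_same]
    rwa [← mul_eq_one_iff_eq_inv, ← sq, hI]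

theorem sn_B [LinearOrder ι] [Finite E] {G : Type*} [Group G] [Finite G] (f : G →* GL ι E)
    (hf : Function.Injective f) (hd : ∀ g, (f g).1.det = 1) {k : ℕ} (hι : Fintype.card ι = 2 ^ k)
    (hk : 2 ≤ k) {w : Perm ι} (hw : ¬ 2 ∣ (Subgroup.centralizer {w}).index) (hw1 : ∀ i, w i ≠ i)
    (hw2 : ∀ i, w (w i) = i) {r : ℤ} (hr : 4 ∣ r + 1) (hE : (Nat.card Eˣ : ℤ) = r ^ 2 - 1)
    (hM : ∀ x ∈ Mw w r, dtM x = 1 → mu x ∈ f.range)
    (hG : v₂ ((r - 1) * Nat.card G) = v₂ (∏ i ∈ Finset.range (2 ^ k), (r ^ (i + 1) - 1))) : SN G := by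
  have h4 : 4 ≤ Fintype.card ι := hι ▸ Nat.pow_le_pow_right two_pos hk
  obtain ⟨c, hc⟩ := hr
  obtain rfl : r = 4 * c - 1 := by omega
  obtain ⟨z, hz, h1⟩ := exists_unit_order (E := E) (n := 4) (Int.natCast_dvd_natCast.1
    ⟨2 * c ^ 2 - c, by rw [hE]; push_cast; ring⟩)
  obtain ⟨t, ht, -⟩ := exists_unit_order (E := E) (n := (4 * c).natAbs) (by
    rw [← Int.natAbs_natCast (Nat.card _), show 2 = Int.natAbs 2 from rfl, ← Int.natAbs_mul]
    exact Int.natAbs_dvd_natAbs.2 ⟨2 * c - 1, by rw [hE]; ring⟩)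
  replace ht : t * t ^ (4 * c - 1) = -1 := by
    rw [mul_self_zpow, sub_add_cancel]
    rcases Int.natAbs_eq (4 * c) with e | e <;> rw [e]
    · rwa [zpow_natCast]
    · rw [_root_.zpow_neg, zpow_natCast, ht, inv_neg_one]
  set r := 4 * c - 1
  have k0 : ∀ x : Eˣ, (x ^ r) ^ r = x := fun x => by
    rw [← _root_.zpow_mul, ← sq, ← sub_add_cancel (r ^ 2) 1, ← hE, _root_.zpow_add_one]
    simp
  let pr : ι → Eˣ → ι → Eˣ := fun j s => Pi.mulSingle j s * Pi.mulSingle (w j) (s ^ r)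
  have k1 : ∀ j s i, pr j s i ^ r = pr j s (w i) := fun j s i => by
    by_cases e : i = j
    · simp [pr, e, hw1, (hw1 _).symm]
    by_cases e' : i = w j
    · simp [pr, e', hw1, (hw1 _).symm, hw2, k0]
    have : w i ≠ j := fun h => e' (by rw [← h, hw2])
    simp [pr, e, e', this]
  have k2 : ∀ j s, ∏ i, pr j s i = s * s ^ r := fun j s => by simp [pr, Finset.prod_mul_distrib]
  have k3 : ∀ j s, s ^ 8 = 1 → pr j s ^ 8 = 1 := fun j s h => by
    rw [mul_pow, ← Pi.mulSingle_pow, ← Pi.mulSingle_pow, ← zpow_natCast (s ^ r), zpow_comm,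
      zpow_natCast, h]
    simp
  have z8 : z ^ 8 = 1 := by rw [show 8 = 4 * 2 from rfl, pow_mul, hz]; simp
  have z2 : (z ^ 2) ^ r = (z ^ 2)⁻¹ := by
    rw [_root_.zpow_sub_one, _root_.zpow_mul, zpow_ofNat, ← pow_mul, z8]; simp
  have z4 : z ^ 2 * z ^ 2 ≠ 1 := by rwa [← pow_add, hz]
  have k4 : ∀ j, ((∀ i, pr j (z ^ 2) i ^ r = pr j (z ^ 2) (w i)) ∧ ∏ i, pr j (z ^ 2) i = 1) ∧
      pr j (z ^ 2) ^ 8 = 1 := fun j => ⟨⟨k1 _ _, by rw [k2, z2, mul_inv_cancel]⟩,
    k3 _ _ (by rw [← pow_mul, mul_comm, pow_mul, z8, one_pow])⟩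
  obtain ⟨k, rfl⟩ := Nat.exists_eq_add_one.2 (show 0 < k by omega)
  refine sn_tw f hf hd hι (Int.odd_iff.2 (by omega)) (by omega) hw hM
    (N := Nat.card Eˣ ^ 2 ^ k) ?_ (hG.trans ?_).le (let ⟨i⟩ := Fintype.card_pos_iff.1 (by omega)
      ⟨pr i t, k1 _ _, (k2 _ _).trans ht⟩)
    (fun σ hσ j hj => ?_) fun j l h => ⟨_, (k4 j).1, (k4 j).2, ?_⟩
  · have a1 : ∀ i, ¬ i < w i → w i < w (w i) := fun i h => by
      rw [hw2]; exact (not_lt.1 h).lt_of_ne (hw1 i)
    let φ : ({i // i < w i} → Eˣ) →* (ι → Eˣ) := MonoidHom.mk'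
      (fun a i => if h : i < w i then a ⟨i, h⟩ else a ⟨w i, a1 i h⟩ ^ r) fun a b => funext fun i => by
        by_cases h : i < w i <;> simp [h, mul_zpow]
    have := Subgroup.card_dvd_of_injective (φ.codRestrict
      ((Mw w r : Subgroup (Wm ι E)).comap inl) fun a => inl_mem_Mw.2 fun i => by
        by_cases h : i < w i
        · simp [φ, h, hw2, h.not_gt]
        · simp [φ, h, a1 i h, k0])
      fun a b e => funext fun i => (dif_pos i.2).symm.trans ((congrFun (congrArg Subtype.val e) i.1).trans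
        (dif_pos i.2))
    have a2 : Fintype.card {i // i < w i} = Fintype.card {i // ¬ i < w i} := Fintype.card_congr
      (w.subtypeEquiv fun i => by rw [hw2]; exact ⟨fun h => h.not_gt, fun h => by
        simpa [hw2] using (not_lt.1 h).lt_of_ne (hw1 i).symm⟩)
    rw [Fintype.card_subtype_compl, hι, pow_succ] at a2
    rwa [Nat.card_fun, Nat.card_eq_fintype_card (α := Subtype _),
      show Fintype.card {i // i < w i} = 2 ^ k by omega] at this
  · rw [pow_succ', v2_prod_B ⟨c, hc⟩, Nat.cast_pow, hE]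
  have a0 : ∀ i, σ (w i) = w (σ i) := fun i => congrArg (· i) hσ.eq
  by_cases e : σ j = w j
  · obtain ⟨l, a1, a2, -⟩ := exists_ne_three h4 j (w j) j
    have a3 : j ≠ w l := fun h => a2 (by rw [h, hw2])
    refine ⟨pr j z * pr l z⁻¹, ⟨fun i => by simp [mul_zpow, k1], by
      simp only [Pi.mul_apply, Finset.prod_mul_distrib, k2, _root_.inv_zpow, ← mul_inv,
        mul_inv_cancel]⟩, by rw [mul_pow, k3 _ _ z8, k3 _ _ (by simp [z8]), mul_one], ?_⟩
    rw [show σ⁻¹ j = w j from Perm.inv_eq_iff_eq.2 (by rw [a0, e, hw2]), e]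
    simp only [pr, Pi.mul_apply, Pi.mulSingle_eq_of_ne, ne_eq, not_false_eq_true, a1.symm,
      a2.symm, a3, hw1, (hw1 _).symm, w.injective.ne a1.symm, mul_one, one_mul, Pi.mulSingle_eq_same]
    rwa [← mul_zpow, ← sq, z2, inv_eq_iff_mul_eq_one]
  · refine ⟨_, (k4 j).1, (k4 j).2, ?_⟩
    have a1 : σ⁻¹ j ≠ j := fun e => hj (Perm.inv_eq_iff_eq.1 e).symm
    have a2 : σ⁻¹ j ≠ w j := fun h => e (by rw [← hw2 (σ j), ← a0, ← h]; simp [← h])
    simp only [pr, Pi.mul_apply, Pi.mulSingle_eq_of_ne, ne_eq, not_false_eq_true, a1, a2, e, hj,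
      (hw1 _).symm, mul_one, Pi.mulSingle_eq_same]
    rw [sq]; exact z4.symm
  · by_cases e : l = w j
    · simp only [pr, e, Pi.mul_apply, Pi.mulSingle_eq_of_ne, ne_eq, not_false_eq_true, hw1,
        (hw1 _).symm, mul_one, one_mul, Pi.mulSingle_eq_same]
      rwa [z2, ← mul_eq_one_iff_eq_inv]
    · simp only [pr, e, Pi.mul_apply, Pi.mulSingle_eq_of_ne, ne_eq, not_false_eq_true, h.symm,
        (hw1 _).symm, mul_one, Pi.mulSingle_eq_same]
      exact fun e => z4 (by rw [e, mul_one])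

end Cfsg.Agent.H12
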