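import Mathlib
import Cfsg.Agent.H12.Mon1
import Cfsg.Agent.H12.CR4
import Cfsg.Agent.H12.PreF
import Cfsg.Agent.H12.TorD
import Cfsg.Agent.H17.Lie
import Cfsg.Agent.S0242
import Cfsg.Agent.S0278
import Cfsg.Agent.S2677

/-! Pronormality of subgroups of odd index in `SL` and `SU` of degree a power of two. -/

set_option autoImplicit false
set_option linter.unusedSectionVars false

namespace Cfsg.Agent.H12

open Equiv Matrix SemidirectProduct H17 H18 RGD
open scoped MatrixGroups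

theorem RGD.allPron {Φ I k : Type*} [DecidableEq I] [CommRing k] [LinearOrder k] {R : RS Φ I k}
    {G : Type*} [Group G] {X : RGD R G} [IsStrictOrderedRing k] [Fintype I] [Finite Φ] [Finite G]
    (h : X.CharP 2) (top : X.grp = ⊤) (hT : ∀ a ∈ X.T, ∀ b ∈ X.T, a * b = b * a) : AllPron G := by
  obtain ⟨P, hP⟩ := h.exists_sylow top
  refine allPron_of_normalizes (hP ▸ sylIn_top P) fun M hM g hg _ x hx => ?_
  have h1 : x ∈ X.PJ {i | X.m i ∈ M} := by
    obtain ⟨w, hw⟩ := mem_grp_iff.1 (top ▸ Subgroup.mem_top x : x ∈ X.grp)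
    refine (mem_PJ_iff_of_mem_cell hw).2 ?_
    obtain ⟨b, hb, n, hn, b', hb', rfl⟩ := hw
    obtain ⟨u, hu, t, ht, rfl⟩ := mem_B.1 hb
    obtain ⟨t', ht', u', hu', rfl⟩ := (mem_sup_of_le_normalizer' (T_le_normalizer_US _)).1 hb'
    have h1 : t * n * t' ∈ M := by
      simpa [mul_assoc] using mul_mem (mul_mem (inv_mem (hM hu)) hx) (inv_mem (hM hu'))
    exact ((hn.T_mul ht).mul_T ht').mem_PJ_of_conj hM fun v hv =>
      mul_mem (mul_mem h1 (hM hv)) (inv_mem h1)
  have h2 : X.US {r | X.U r ≤ M} ≤ M := US_le.2 fun r hr => hr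
  have h3 : X.PJ {i | X.m i ∈ M} ≤ X.US {r | X.U r ≤ M} ⊔ X.T := by
    refine sup_le (sup_le_sup_right (US_le.2 fun r hr => U_le_US ((U_le_Up hr).trans hM)) _)
      ((Subgroup.closure_le _).2 ?_)
    rintro _ ⟨i, hi, rfl⟩
    have := (U_le_Up (R.pos_simple i)).trans hM
    refine Subgroup.mem_sup_left ((sup_le (U_le_US this) (U_le_US fun u hu => ?_) : _ ≤ X.US _)
      (m_mem_sup i))
    have h4 := X.m_conj i _ _ hu
    rw [R.sref_neg, R.sref_simple, R.neg_neg] at h4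
    simpa [mul_assoc] using mul_mem (mul_mem (inv_mem hi) (this h4)) hi
  obtain ⟨l, hl, t, ht, rfl⟩ := mem_US_sup_T.1 (h3 h1)
  obtain ⟨u, hu, s, hs, rfl⟩ := mem_B.1 (normalizer_Up.le ⟨hg, top ▸ Subgroup.mem_top g⟩)
  have := mul_mem (mul_mem (hM hu) (mul_mem (h2 (T_conj_US hs hl))
    ((mul_mem_cancel_left (h2 hl)).1 hx))) (inv_mem (hM hu))
  convert this using 1
  rw [mul_assoc (s * l), ← hT t ht _ (inv_mem hs)]
  group

variable {ι : Type} {E : Type*} [Fintype ι] [DecidableEq ι] [Field E]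

theorem muM_map (ρ : E →+* E) (x : Wm ι E) :
    (muM x).map ρ = muM ⟨fun i => Units.map ρ.toMonoidHom (x.left i), x.right⟩ := by
  ext i j; simp [muM_apply, apply_ite ρ]

theorem muM_T (x : Wm ι E) : (muM x)ᵀ = muM ⟨fun i => x.left (x.right i), x.right⁻¹⟩ := by
  ext i j
  simp only [muM_apply, transpose_apply, Perm.eq_inv_iff_eq, eq_comm (a := j)]
  split_ifs with h
  · rw [h]
  · rfl

theorem exists_fpf {k : ℕ} (hι : Fintype.card ι = 2 ^ k) (hk : 1 ≤ k) : ∃ w : Perm ι,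
    ¬ 2 ∣ (Subgroup.centralizer {w}).index ∧ (∀ i, w i ≠ i) ∧ ∀ i, w (w i) = i := by
  obtain ⟨P⟩ : Nonempty (Sylow 2 (Perm ι)) := inferInstance
  have hP := H16.sylow_trans (α := ι) (by simpa using hι) P
  obtain ⟨a, b, hab⟩ := (Fintype.one_lt_card_iff_nontrivial.1
    (hι ▸ Nat.one_lt_two_pow (by omega))).exists_pair_ne (α := ι)
  obtain ⟨g, rfl⟩ := hP.exists_smul_eq a b
  have : Nontrivial P := ⟨g, 1, fun e => hab (by simp [e])⟩
  have := P.isPGroup'.center_nontrivial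
  obtain ⟨n, hn, e⟩ := (P.isPGroup'.to_subgroup (Subgroup.center P)).nontrivial_iff_card.1 this
  obtain ⟨w, hw⟩ := exists_prime_orderOf_dvd_card' (G := Subgroup.center P) 2
    (e ▸ dvd_pow_self 2 hn.ne')
  have h1 : ∀ g : P, g.1 * w.1.1 = w.1.1 * g.1 := fun g =>
    congrArg Subtype.val (Subgroup.mem_center_iff.1 w.2 g)
  refine ⟨w.1.1, fun h => P.not_dvd_index (h.trans (Subgroup.index_dvd_of_le fun g hg =>
    Subgroup.mem_centralizer_singleton_iff.2 (h1 ⟨g, hg⟩))), fun i hi => ?_, fun i => ?_⟩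
  · refine absurd (hw.symm.trans (orderOf_eq_one_iff.2 (Subtype.ext (Subtype.ext
      (Equiv.ext fun j => ?_))))) (by norm_num)
    obtain ⟨g, rfl⟩ := hP.exists_smul_eq i j
    exact (congrArg (· i) (h1 g)).symm.trans (congrArg g.1 hi)
  · have := congrArg (fun x : Subgroup.center P => x.1.1 i) (pow_orderOf_eq_one w)
    rwa [hw] at this

theorem exists_Pw [LinearOrder ι] {w : Perm ι} (hw1 : ∀ i, w i ≠ i) (hw2 : ∀ i, w (w i) = i)
    {z : E} (hz : z ^ 2 = -1) (h2 : (2 : E) ≠ 0) : ∃ P : GL ι E,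
    P.1ᵀ * P.1 = (2 : E) • muM (inr w) ∧ (∀ ρ : E →+* E, ρ z = z → P.1.map ρ = P.1) ∧
      ∀ ρ : E →+* E, ρ z = -z → P.1.map ρ = P.1 * muM (inr w) := by
  let J : Matrix ι ι E := muM (inr w)
  have hw : w⁻¹ = w := Equiv.ext fun i => Perm.inv_eq_iff_eq.2 (hw2 i).symm
  have j1 : Jᵀ = J := (muM_T _).trans (congrArg _ (by ext <;> simp [hw]))
  have j2 : J * J = 1 := by rw [← map_mul, ← map_mul, mul_eq_one_iff_inv_eq.2 hw]; simp
  have j3 : ∀ c : ι → E, J * diagonal c = diagonal (fun i => c (w i)) * J := fun c => by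
    ext i j
    simp only [mul_diagonal, diagonal_mul, J, muM_apply, right_inr]
    split_ifs with h <;> simp [h, hw2]
  have j4 : ∀ ρ : E →+* E, J.map ρ = J := fun ρ => (muM_map ρ _).trans (congrArg _ (by ext <;> simp))
  have k : ∀ i, w i < w (w i) ↔ ¬ i < w i := fun i => by
    rw [hw2]; exact ⟨fun h => h.not_gt, fun h => (not_lt.1 h).lt_of_ne (hw1 i)⟩
  let a : E → ι → E := fun z i => if i < w i then 1 else z
  let P := diagonal (a (-z)) + diagonal (a z) * J
  have h1 : Pᵀ * P = (2 : E) • J := by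
    have : J * diagonal (a z) * (diagonal (a z) * J) = diagonal fun i => a z (w i) * a z (w i) := by
      rw [← mul_assoc, mul_assoc J, diagonal_mul_diagonal, j3, mul_assoc, j2, mul_one]
    rw [transpose_add, transpose_mul, j1, diagonal_transpose, diagonal_transpose, add_mul, mul_add,
      mul_add, this, mul_assoc J, ← mul_assoc (diagonal _), diagonal_mul_diagonal,
      diagonal_mul_diagonal, diagonal_mul_diagonal, j3, add_comm (_ * J) (diagonal _),
      add_add_add_comm, ← add_mul, diagonal_add, diagonal_add, smul_eq_diagonal_mul,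
      ← zero_add (diagonal (fun _ => 2) * J), ← diagonal_zero]
    congr 3 <;> funext i <;> simp only [a, k] <;> split_ifs <;> grind
  have h3 : ∀ (ρ : E →+* E) x, (diagonal (a x)).map ρ = diagonal (a (ρ x)) := fun ρ x => by
    rw [diagonal_map (map_zero _)]; congr; funext i; simp [a, apply_ite ρ]
  refine ⟨GeneralLinearGroup.mkOfDetNeZero P fun e => ?_, h1, fun ρ h => ?_, fun ρ h => ?_⟩
  · have := congrArg (fun A => det (A * J)) h1
    simp only [smul_mul_assoc, j2, det_mul, e, mul_zero, zero_mul, det_smul, det_one] at this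
    exact h2 (pow_eq_zero_iff' .. |>.1 (by simpa using this.symm)).1
  · change P.map ρ = P
    rw [Matrix.map_add _ (map_add ρ), Matrix.map_mul, j4, h3, h3, map_neg, h]
  · change P.map ρ = P * J
    rw [Matrix.map_add _ (map_add ρ), Matrix.map_mul, j4, h3, h3, map_neg, h, neg_neg, add_mul,
      mul_assoc, j2, mul_one, add_comm]

theorem conj_mu_fix {w : Perm ι} {q : ℕ} {ρ : E →+* E} (hρ : ∀ x, ρ x = x ^ q) {P : GL ι E}
    (hP : P.1.map ρ = P.1 * muM (inr w)) {x : Wm ι E} (hx : x ∈ Mw w q) :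
    (P * mu x * P⁻¹).1.map ρ = (P * mu x * P⁻¹).1 := by
  have h1 : muM (inr w) * (muM x).map ρ = muM x * muM (inr w) := by
    rw [muM_map, ← map_mul, ← map_mul]
    congr 1
    ext i
    · have := congrArg Units.val (hx.2 (w⁻¹ i))
      simpa [Wm.mul_left, hρ] using this
    · exact congrArg (· i) hx.1.eq.symm
  change ((GeneralLinearGroup.map ρ (P * mu x * P⁻¹)).1 : Matrix ι ι E) = _
  rw [← Units.ext_iff, map_mul, map_mul, map_inv, mul_inv_eq_iff_eq_mul, Units.ext_iff]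
  change P.1.map ρ * (muM x).map ρ = P.1 * muM x * (P⁻¹).1 * P.1.map ρ
  rw [hP, mul_assoc, h1]
  simp [mul_assoc]

theorem conj_mu_unit {w : Perm ι} {q : ℕ} {ρ : E →+* E} (hρ : ∀ x, ρ x = x ^ q) {P : GL ι E} {c : E}
    (hP : P.1ᵀ * P.1.map ρ = c • muM (inr w)) {x : Wm ι E} (hx : x ∈ Mw w (-q)) :
    (P * mu x * P⁻¹).1ᵀ * (P * mu x * P⁻¹).1.map ρ = 1 := by
  have h1 : (muM x)ᵀ * (muM (inr w) * (muM x).map ρ) = muM (inr w) := by
    rw [muM_map, muM_T, ← map_mul, ← map_mul]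
    congr 1
    ext i
    · have := congrArg Units.val (hx.2 (w⁻¹ (x.right i)))
      simp only [_root_.zpow_neg, zpow_natCast, Units.val_inv_eq_inv_val, Units.val_pow_eq_pow_val,
        Perm.coe_inv, apply_symm_apply] at this
      simp [Wm.mul_left, hρ, ← this]
    · simp [← Perm.mul_apply, ← hx.1.eq]
  have h2 : (P⁻¹).1ᵀ * (P.1ᵀ * P.1.map ρ * (P⁻¹).1.map ρ) = 1 := by
    rw [mul_assoc, ← Matrix.map_mul, ← mul_assoc, ← transpose_mul]; simp
  change (P.1 * muM x * (P⁻¹).1)ᵀ * (P.1 * muM x * (P⁻¹).1).map ρ = 1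
  rw [← h2, hP, ← h1]
  simp only [transpose_mul, Matrix.map_mul, mul_assoc]
  rw [← mul_assoc P.1ᵀ, hP]
  simp only [smul_mul_assoc, mul_smul_comm, mul_assoc]

local notation "v₂" => emultiplicity (2 : ℤ)

theorem sn_SL {F : Type*} [Field F] [Fintype F] (h2 : (2 : F) ≠ 0) {k : ℕ} (hk : 2 ≤ k) :
    SN SL(2 ^ k, F) := by
  set q := Fintype.card F with hq
  have q1 : 1 < q := Fintype.one_lt_card
  have q2 : q % 2 = 1 := FiniteField.odd_card_of_char_ne_two fun e => h2 (by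
    exact_mod_cast (ringChar.spec F 2).2 (e ▸ dvd_rfl))
  have hG : v₂ (((q : ℤ) - 1) * Nat.card SL(2 ^ k, F)) =
      v₂ (∏ i ∈ Finset.range (2 ^ k), ((q : ℤ) ^ (i + 1) - 1)) := by
    have := congrArg (Nat.cast (R := ℤ)) (S0242.result hq.symm (2 ^ k) Nat.one_le_two_pow)
    rw [Nat.cast_mul, Nat.cast_pred (by omega), Fin.prod_univ_eq_prod_range
      (fun i => q ^ 2 ^ k - q ^ i), Nat.cast_prod] at this
    rw [this, ← Finset.prod_range_reflect (fun i => (q : ℤ) ^ (i + 1) - 1),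
      Finset.emultiplicity_prod Int.prime_two, Finset.emultiplicity_prod Int.prime_two]
    refine Finset.sum_congr rfl fun i hi => ?_
    have := Finset.mem_range.1 hi
    rw [Nat.cast_sub (Nat.pow_le_pow_right (by omega) this.le), show 2 ^ k = i + (2 ^ k - 1 - i + 1) by
      omega, pow_add, Nat.cast_mul, ← mul_sub_one, emultiplicity_mul Int.prime_two,
      emultiplicity_eq_zero.2 fun e => by
        have := Int.prime_two.dvd_of_dvd_pow (Nat.cast_pow (α := ℤ) _ _ ▸ e); omega]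
    simp
  rcases (by omega : q % 4 = 1 ∨ q % 4 = 3) with h | h
  · exact sn_A SpecialLinearGroup.toGL SpecialLinearGroup.toGL_injective (fun g => g.2) (by simp) hk
      (by omega) (by omega) (by rw [Nat.card_units, Nat.card_eq_fintype_card]; exact dvd_of_eq (by omega))
      (fun x _ e => ⟨⟨_, Units.ext_iff.1 e⟩, Units.ext rfl⟩) hG
  obtain ⟨p, hp⟩ := CharP.exists F
  have := Fact.mk (CharP.char_is_prime F p)
  let E := FiniteField.Extension F p 2
  have hE : Nat.card E = q ^ 2 := by rw [FiniteField.natCard_extension, Nat.card_eq_fintype_card]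
  have hE' : (Nat.card Eˣ : ℤ) = q ^ 2 - 1 := by
    rw [Nat.card_units, Nat.cast_pred Nat.card_pos, hE, Nat.cast_pow]
  let ρ : E →+* E := FiniteField.Extension.frob F p 2
  have hρ : ∀ x, ρ x = x ^ q := fun x =>
    (FiniteField.Extension.frob_apply F p 2).trans (by rw [Nat.card_eq_fintype_card])
  obtain ⟨w, hw, hw1, hw2⟩ := exists_fpf (Fintype.card_fin (2 ^ k)) (by omega)
  obtain ⟨z, hz, -⟩ := exists_unit_order (E := E) (n := 2) (Int.natCast_dvd_natCast.1 (by
    obtain ⟨c, hc⟩ : ∃ c : ℤ, q = 4 * c + 3 := ⟨q / 4, by omega⟩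
    exact ⟨4 * c ^ 2 + 6 * c + 2, by rw [hE', hc]; push_cast; ring⟩))
  replace hz : (z : E) ^ 2 = -1 := Units.ext_iff.1 hz
  obtain ⟨P, -, -, hP⟩ := exists_Pw hw1 hw2 hz (by
    rw [← map_ofNat (algebraMap F E)]; exact (map_ne_zero _).2 h2)
  replace hP := hP ρ (by
    rw [hρ, ← Nat.div_add_mod q 4, h, pow_add, pow_mul, show 4 = 2 * 2 from rfl, pow_mul, pow_succ _ 2, hz]
    rw [neg_one_sq, one_pow, one_mul, neg_one_mul])
  refine sn_B ((MulAut.conj P⁻¹).toMonoidHom.comp (SpecialLinearGroup.toGL.comp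
    (SpecialLinearGroup.map (algebraMap F E)))) ((MulAut.conj P⁻¹).injective.comp
      (SpecialLinearGroup.toGL_injective.comp fun a b e => Subtype.ext (Matrix.map_injective
        (algebraMap F E).injective (congrArg Subtype.val e))))
    (fun g => (det_units_conj P⁻¹ _).trans (Matrix.SpecialLinearGroup.det_coe _)) (by simp) hk hw hw1 hw2
    (by omega) hE' (fun x hx e => ?_) hG
  have : ∀ i j, ∃ t, algebraMap F E t = (P * mu x * P⁻¹).1 i j := fun i j =>
    (pow_card_iff_mem_range _ _).1 ((hρ _).symm.trans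
      (congrFun (congrFun (conj_mu_fix hρ hP hx) i) j))
  choose A hA using this
  replace hA : (Matrix.of A).map (algebraMap F E) = (P * mu x * P⁻¹).1 := Matrix.ext hA
  refine ⟨⟨Matrix.of A, (algebraMap F E).injective ?_⟩, ?_⟩
  · rw [RingHom.map_det, RingHom.mapMatrix_apply, hA, map_one]
    exact (det_units_conj P _).trans (Units.ext_iff.1 e)
  · exact (congrArg (MulAut.conj P⁻¹) (Units.ext hA : _ = P * mu x * P⁻¹)).trans (by simp [mul_assoc])

theorem sn_SU {F : Type*} [Field F] [Fintype F] {q : ℕ} (hF : Fintype.card F = q ^ 2)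
    (h2 : (2 : F) ≠ 0) {k : ℕ} (hk : 2 ≤ k) : SN (SU (2 ^ k) F q) := by
  have q1 := H11.two_le_of_card_eq_sq hF
  have q2 : q % 2 = 1 := Nat.odd_iff.1 ((Nat.odd_pow_iff two_ne_zero).1 (hF ▸ Nat.odd_iff.2
    (FiniteField.odd_card_of_char_ne_two fun e => h2 (by
      exact_mod_cast (ringChar.spec F 2).2 (e ▸ dvd_rfl)))))
  have hG : v₂ ((-(q : ℤ) - 1) * Nat.card (SU (2 ^ k) F q)) =
      v₂ (∏ i ∈ Finset.range (2 ^ k), ((-q : ℤ) ^ (i + 1) - 1)) := by
    have := congrArg (Nat.cast (R := ℤ)) (S0278.result hF (2 ^ k) Nat.one_le_two_pow)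
    rw [Nat.cast_mul, Nat.cast_succ, Nat.cast_mul, Nat.cast_prod] at this
    rw [← neg_add', neg_mul, emultiplicity_neg, this, emultiplicity_mul Int.prime_two,
      emultiplicity_eq_zero.2 fun e => by
        have := Int.prime_two.dvd_of_dvd_pow (Nat.cast_pow (α := ℤ) _ _ ▸ e); omega,
      Finset.emultiplicity_prod Int.prime_two, Finset.emultiplicity_prod Int.prime_two, zero_add]
    refine Finset.sum_congr rfl fun i _ => ?_
    split_ifs with h
    · rw [h.add_one.neg_pow, ← neg_add', emultiplicity_neg]; simp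
    · rw [(Nat.not_even_iff_odd.1 h).add_one.neg_pow, Nat.cast_pred (by positivity), Nat.cast_pow]
  have hE : (Nat.card Fˣ : ℤ) = (-q) ^ 2 - 1 := by
    rw [Nat.card_units, Nat.cast_pred Nat.card_pos, Nat.card_eq_fintype_card, hF]; simp
  have key : ∀ P : GL (Fin (2 ^ k)) F, ∃ f : SU (2 ^ k) F q →* GL (Fin (2 ^ k)) F,
      Function.Injective f ∧ (∀ g, (f g).1.det = 1) ∧ ∀ w c, P.1ᵀ * P.1.map (H11.conjQ hF) =
        c • muM (inr w) → ∀ x ∈ Mw w (-q), dtM x = 1 → mu x ∈ f.range := fun P =>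
    ⟨(MulAut.conj P⁻¹).toMonoidHom.comp (SpecialLinearGroup.toGL.comp (SU _ F q).subtype),
      (MulAut.conj P⁻¹).injective.comp (SpecialLinearGroup.toGL_injective.comp Subtype.val_injective),
      fun g => (det_units_conj P⁻¹ _).trans (Matrix.SpecialLinearGroup.det_coe _), fun w c hP x hx e =>
      ⟨⟨⟨_, (det_units_conj P _).trans (Units.ext_iff.1 e)⟩, (S2677.mem_GU_iff
        (H11.conjQ_apply hF)).2 (conj_mu_unit (H11.conjQ_apply hF) hP hx)⟩,
        Units.ext (show (P⁻¹ * (P * mu x * P⁻¹) * P⁻¹⁻¹).1 = _ from congrArg _ (by group))⟩⟩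
  rcases (by omega : q % 4 = 3 ∨ q % 4 = 1) with h | h
  · obtain ⟨f, h1, h2, h3⟩ := key 1
    exact sn_A f h1 h2 (by simp) hk (by omega) (by omega) (Int.natCast_dvd_natCast.1
      (Int.natAbs_dvd.2 ⟨-q + 1, by rw [hE]; ring⟩))
      (fun x hx => h3 1 1 (by simp) x ⟨Commute.one_right _, hx⟩) hG
  obtain ⟨w, hw, hw1, hw2⟩ := exists_fpf (Fintype.card_fin (2 ^ k)) (by omega)
  obtain ⟨z, hz, -⟩ := exists_unit_order (E := F) (n := 2) (Int.natCast_dvd_natCast.1 (by
    obtain ⟨c, hc⟩ : ∃ c : ℤ, q = 4 * c + 1 := ⟨q / 4, by omega⟩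
    exact ⟨4 * c ^ 2 + 2 * c, by rw [hE, hc]; push_cast; ring⟩))
  replace hz : (z : F) ^ 2 = -1 := Units.ext_iff.1 hz
  obtain ⟨P, h1, hP, -⟩ := exists_Pw hw1 hw2 hz h2
  replace hP := hP (H11.conjQ hF) (by
    rw [H11.conjQ_apply, ← Nat.div_add_mod q 4, h, pow_add, pow_mul, show 4 = 2 * 2 from rfl,
      pow_mul, hz]
    simp)
  obtain ⟨f, h1', h2, h3⟩ := key P
  exact sn_B f h1' h2 (by simp) hk hw hw1 hw2 (by omega) hE (h3 w 2 (hP.symm ▸ h1)) hG

theorem allPron_SL_two {F : Type*} [Field F] [Fintype F] [CharP F 2] {n : ℕ} (hn : 0 < n) :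
    AllPron SL(n, F) := by
  obtain ⟨n, rfl⟩ := Nat.exists_eq_add_one.2 hn
  exact RGD.allPron (TA.charP 2) TA.rgd_top (StSys.NC.T_comm TA.st_nc (StSys.NC.r3_of_finite TA.st_nc))

theorem allPron_SU_two {F : Type*} [Field F] [Fintype F] [CharP F 2] {q : ℕ}
    (hF : Fintype.card F = q ^ 2) (m : ℕ) : AllPron (SU (2 * m) F q) := by
  obtain ⟨P, hP⟩ := frame_su_even hF m
  have h0 : ∀ w ∈ P.V0, w = 0 := fun w hw => by
    have := P.finrank_V0
    rw [Module.finrank_fin_fun] at this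
    exact (Submodule.finrank_eq_zero.1 (add_eq_right.1 this)).le hw
  have := Finite.of_equiv _ (suOm hF (2 * m)).toEquiv
  exact (RGD.allPron (P.ld 2).char (P.ld 2).top (T_comm h0)).of_surjective
    (suOm hF _).symm.toMonoidHom (suOm hF _).symm.surjective

end Cfsg.Agent.H12
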