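import Mathlib
import Cfsg.Agent.H12.Tor
import Cfsg.Agent.H12.Fix

/-! Centraliser and normaliser of the finite Chevalley groups in the algebraic group. -/

namespace Cfsg.Agent.H12

open Cfsg.Lie

namespace RGD

variable {Φ I : Type*} [DecidableEq I] [Fintype I] [Finite Φ] {R : RS Φ I ℤ}
  {G : Type*} [Group G] {X : RGD R G} {σ : G →* G}

theorem mem_T_of_commute {g : G} (hg : g ∈ X.grp)
    (h1 : ∀ i, ∃ y ∈ X.U (R.simple i), y ≠ 1 ∧ Commute g y) (h2 : ∀ i, Commute g (X.m i)) :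
    g ∈ X.T := by
  obtain ⟨w, hw⟩ := mem_grp_iff.1 hg
  have h3 : w = 1 := R.eq_one_of_pos fun i => by
    obtain ⟨y, hy, y1, hc⟩ := h1 i
    rcases smul_eq_or_lt hw (R.pos_simple i) hy y1 (by
      rw [hc.eq, mul_inv_cancel_right]
      exact U_le_US (r := R.simple i) (by exact Or.inl rfl) hy) with h | h
    · rw [h]; exact R.pos_simple i
    · exact h.1
  rw [h3, mem_cell_one] at hw
  refine mem_T_of_conj_mem_B fun n hn => ?_
  obtain ⟨_, a, t, ht, rfl, -⟩ := mem_N_iff.1 hn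
  have h4 : Commute g (X.mw a) := Commute.list_prod_right _ _ fun x hx => by
    obtain ⟨i, -, rfl⟩ := List.mem_map.1 hx
    exact h2 i
  rw [mul_assoc t, ← h4.eq, mul_inv_rev, ← mul_assoc, ← mul_assoc, mul_inv_cancel_right]
  exact mul_mem (mul_mem (T_le_B ht) hw) (inv_mem (T_le_B ht))

theorem Stab.exists_mul_T (h : X.Stab σ) (hX : X.Ab) (hm : ∀ i, X.m i ∈ ⨆ r, X.U r ⊓ fxs σ)
    {g : G} (hg : g ∈ X.grp) (hσ : σ g = g) :
    ∃ a ∈ ⨆ r, X.U r ⊓ fxs σ, ∃ t ∈ X.T ⊓ fxs σ, g = a * t := by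
  have hn : X.T ⊓ fxs σ ≤ Subgroup.normalizer ((⨆ r, X.U r ⊓ fxs σ : Subgroup G) : Set G) := by
    have key : ∀ t ∈ X.T ⊓ fxs σ, ∀ a ∈ ⨆ r, X.U r ⊓ fxs σ, t * a * t⁻¹ ∈ ⨆ r, X.U r ⊓ fxs σ :=
      fun t ht a ha => (iSup_le (a := (⨆ r, X.U r ⊓ fxs σ).comap (MulAut.conj t).toMonoidHom)
        fun r u hu => le_iSup (fun r => X.U r ⊓ fxs σ) r ⟨X.T_conj t ht.1 r u hu.1,
          (fxs σ).mul_mem ((fxs σ).mul_mem ht.2 hu.2) ((fxs σ).inv_mem ht.2)⟩) ha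
    intro t ht
    refine Subgroup.mem_normalizer_iff.2 fun a => ⟨key t ht a, fun ha => ?_⟩
    simpa [mul_assoc] using key t⁻¹ (inv_mem ht) _ ha
  rw [← mem_sup_of_le_normalizer hn]
  refine h.fxs_le hX (fun r _ u hu e => Subgroup.mem_sup_left
    (le_iSup (fun r => X.U r ⊓ fxs σ) r ⟨hu, e⟩)) (fun n w hn e => ?_) hg hσ
  obtain ⟨a, t, ht, rfl, -⟩ := hn
  have h4 : X.mw a ∈ ⨆ r, X.U r ⊓ fxs σ := list_prod_mem fun x hx => by
    obtain ⟨i, -, rfl⟩ := List.mem_map.1 hx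
    exact hm i
  have h5 : σ (X.mw a) = X.mw a := (iSup_le fun r => inf_le_right : _ ≤ fxs σ) h4
  rw [map_mul, h5, mul_left_inj] at e
  exact mul_mem (Subgroup.mem_sup_right ⟨ht, e⟩) (Subgroup.mem_sup_left h4)

theorem Stab.conj_mem (h : X.Stab σ) (hX : X.Ab) (hm : ∀ i, X.m i ∈ ⨆ r, X.U r ⊓ fxs σ)
    (hT : ∀ a ∈ X.T, ∀ b ∈ X.T, a * b = b * a) {L : Subgroup G} (h1 : ⨆ r, X.U r ⊓ fxs σ ≤ L)
    (h2 : L ≤ X.grp ⊓ fxs σ) {g : G} (hg : g ∈ X.grp) (hσ : σ g = g) {k : G} (hk : k ∈ L) :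
    g * k * g⁻¹ ∈ L := by
  obtain ⟨a, ha, t, ht, rfl⟩ := h.exists_mul_T hX hm hg hσ
  obtain ⟨b, hb, s, hs, rfl⟩ := h.exists_mul_T hX hm (h2 hk).1 (h2 hk).2
  have h3 : t * b * t⁻¹ ∈ L := (iSup_le (a := L.comap (MulAut.conj t).toMonoidHom)
    fun r u hu => h1 (le_iSup (fun r => X.U r ⊓ fxs σ) r
      ⟨X.T_conj t ht.1 r u hu.1, (fxs σ).mul_mem ((fxs σ).mul_mem ht.2 hu.2) ((fxs σ).inv_mem ht.2)⟩)) hb
  have h4 : s ∈ L := by simpa using mul_mem (inv_mem (h1 hb)) hk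
  rw [show a * t * (b * s) * (a * t)⁻¹ = a * ((t * b * t⁻¹) * (t * s * t⁻¹)) * a⁻¹ by group,
    hT t ht.1 s hs.1, mul_inv_cancel_right]
  exact mul_mem (mul_mem (h1 ha) (mul_mem h3 h4)) (inv_mem (h1 ha))

end RGD

variable {D : ChevalleyDatum} [Good D] {K : Type*} [Field K]

theorem chev_eq_one_of_commute {g : GL D.Idx K} (hg : g ∈ D.group K)
    (h : ∀ r, Commute g ((chevSt D K).x r 1)) : g = 1 := by
  refine eq_one_of_commute (RGD.mem_T_of_commute (X := chevRGD D K) (group_eq.le hg)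
    (fun i => ⟨_, (chevSt D K).x_mem_U _ 1, fun e => one_ne_zero
      (StSys.x_injective chevNC chevNM _ (e.trans ((chevSt D K).x_zero _).symm)), h _⟩)
    fun i => ?_) fun i => (h _).eq
  refine ((h _).mul_right ?_).mul_right (h _)
  rw [inv_one, StSys.x_neg]
  exact (h _).inv_right

theorem chev_stab_map (θ : K →+* K) :
    (chevRGD D K).Stab (Matrix.GeneralLinearGroup.map θ) := by
  have h2 : ∀ r t, Matrix.GeneralLinearGroup.map θ ((chevSt D K).n r t) = (chevSt D K).n r (θ t) :=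
    fun r t => by simp [StSys.n, map_x]
  refine ⟨fun r u hu => ?_, fun t ht => ?_, fun i => ?_⟩
  · obtain ⟨t, rfl⟩ := (chevSt D K).mem_U.1 hu
    exact map_x θ r t ▸ (chevSt D K).x_mem_U r _
  · refine (Subgroup.closure_le ((chevSt D K).H.comap (Matrix.GeneralLinearGroup.map θ))).2 ?_ ht
    rintro _ ⟨r, t, ht, rfl⟩
    have : Matrix.GeneralLinearGroup.map θ ((chevSt D K).h r t) = (chevSt D K).h r (θ t) := by
      simp [StSys.h, h2]
    exact Subgroup.mem_comap.2 (Set.mem_of_eq_of_mem this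
      ((chevSt D K).h_mem_H r ((map_ne_zero θ).2 ht)))
  · exact ((h2 _ 1).trans (by rw [map_one])).symm ▸ RGD.rep_m i

theorem chev_cent_norm (θ : K →+* K) {L : Subgroup (GL D.Idx K)} (hG : L ≤ D.group K)
    (h1 : ∀ r t, θ t = t → (chevSt D K).x r t ∈ L)
    (h2 : ∀ g ∈ L, Matrix.GeneralLinearGroup.map θ g = g) :
    D.group K ⊓ Subgroup.centralizer (L : Set (GL D.Idx K)) = ⊥ ∧ ∀ g ∈ D.group K,
      (g ∈ Subgroup.normalizer (L : Set (GL D.Idx K)) ↔ Matrix.GeneralLinearGroup.map θ g = g) := by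
  have key : ∀ g ∈ D.group K, (∀ k ∈ L, k * g = g * k) → g = 1 := fun g hg h =>
    chev_eq_one_of_commute hg fun r => (h _ (h1 r 1 (map_one θ))).symm
  refine ⟨eq_bot_iff.2 fun g hg => key g hg.1 hg.2, fun g hg => ⟨fun hn => ?_, fun hσ => ?_⟩⟩
  · have h3 := key (g⁻¹ * Matrix.GeneralLinearGroup.map θ g)
      (mul_mem (inv_mem hg) (fieldHom D θ ⟨g, hg⟩).2) fun k hk => by
        have h4 := h2 _ ((Subgroup.mem_normalizer_iff.1 hn k).1 hk)
        rw [map_mul, map_mul, map_inv, h2 k hk] at h4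
        exact (commute_of_conj_eq h4.symm).symm
    exact (inv_mul_eq_one.1 h3).symm
  · have h0 : ∀ r t, θ t = t → (chevSt D K).x r t ∈
        ⨆ r, (chevRGD D K).U r ⊓ fxs (Matrix.GeneralLinearGroup.map θ) := fun r t ht =>
      le_iSup (fun r => (chevRGD D K).U r ⊓ fxs (Matrix.GeneralLinearGroup.map θ)) r
        ⟨(chevSt D K).x_mem_U r t, (map_x θ r t).trans (by rw [ht]; rfl)⟩
    have key : ∀ g ∈ D.group K, Matrix.GeneralLinearGroup.map θ g = g → ∀ k ∈ L,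
        g * k * g⁻¹ ∈ L := fun g hg hσ k hk =>
      (chev_stab_map θ).conj_mem (StSys.rgd_ab _ _)
        (fun i => mul_mem (mul_mem (h0 _ _ (map_one θ)) (h0 _ _ (by simp))) (h0 _ _ (map_one θ)))
        (fun a ha b hb => H_comm ha hb) (iSup_le fun r u hu => by
          obtain ⟨t, rfl⟩ := (chevSt D K).mem_U.1 hu.1
          exact h1 r t (StSys.x_injective chevNC chevNM r ((map_x θ r t).symm.trans hu.2)))
        (fun k hk => ⟨group_eq.le (hG hk), h2 k hk⟩) (group_eq.le hg) hσ hk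
    refine Subgroup.mem_normalizer_iff.2 fun k => ⟨key g hg hσ k, fun hk => ?_⟩
    simpa [mul_assoc] using key g⁻¹ (inv_mem hg) (by rw [map_inv, hσ]) _ hk

end Cfsg.Agent.H12
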