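import Mathlib
import Cfsg.Agent.H12.PrCT
import Cfsg.Agent.H12.Ph3
import Cfsg.Agent.H7.Pr8
import Cfsg.Agent.S2402
import Cfsg.Agent.S2403

/-!
General tools for bounded presentations.
-/

set_option autoImplicit false
set_option linter.unusedSectionVars false

namespace Cfsg.Agent.H12

open Subgroup H7.Pr Equiv H19.St
open scoped MatrixGroups
open FreeGroup (lift of lift_apply_of)

universe u

section Pres

variable {G : Type u} [Group G] {ι : Type} {s : ι → G} {r : ℕ}

theorem pres_of_inj {P : ∀ (H : Type) [Group H], (ι → H) → Prop} (h : Rl s r P)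
    (hs : closure (Set.range s) = ⊤) (hP : ∀ (E : Type) [Group E] (x : ι → E) (f : E →* G),
      (∀ i, f (x i) = s i) → closure (Set.range x) = ⊤ → P E x → ∀ g, f g = 1 → g = 1) :
    Pres s r := by
  obtain ⟨R, h1, h2, h3⟩ := h
  refine ⟨hs, R, h1, h2, fun H _ x hx => ?_⟩
  let f : PresentedGroup (R : Set (FreeGroup ι)) →* G := PresentedGroup.toGroup h2
  have hf : ∀ i, f (PresentedGroup.of i) = s i := fun i => PresentedGroup.toGroup.of h2
  have := hP _ PresentedGroup.of f hf (PresentedGroup.closure_range_of _) (h3 _ _ fun ρ hρ => by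
    rw [show lift (PresentedGroup.of (rels := (R : Set (FreeGroup ι)))) = PresentedGroup.mk _ from
      FreeGroup.ext_hom _ _ fun _ => by simp [PresentedGroup.of]]
    exact PresentedGroup.one_of_mem hρ)
  let e := MulEquiv.ofBijective f ⟨(injective_iff_map_eq_one f).2 this, by
    rw [← MonoidHom.range_eq_top, eq_top_iff, ← hs, closure_le]
    rintro _ ⟨i, rfl⟩; exact ⟨_, hf i⟩⟩
  refine ⟨(PresentedGroup.toGroup hx).comp e.symm.toMonoidHom, fun i => ?_⟩
  rw [← hf]
  exact (congrArg _ (e.symm_apply_apply _)).trans (PresentedGroup.toGroup.of hx)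

theorem map_lift {E : Type*} [Group E] {x : ι → E} {f : E →* G} (h : ∀ i, f (x i) = s i)
    (w : FreeGroup ι) : f (lift x w) = lift s w :=
  DFunLike.congr_fun (FreeGroup.ext_hom (f.comp (lift x)) (lift s) fun i => by simp [h]) w

end Pres

section Gen

variable {G H : Type*} [Group G] [Group H]

theorem goursat {a b : G} {c d : H} (h1 : closure {a, b} = ⊤) (h2 : closure {c, d} = ⊤) (k : ℕ)
    (h3 : c ^ k = 1) (h4 : ∀ N : Subgroup G, N.Normal → a ^ k ∈ N → N = ⊤) :
    closure {(a, c), (b, d)} = ⊤ := by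
  set K := closure {(a, c), (b, d)}
  have e1 : K.map (MonoidHom.fst G H) = ⊤ := by simp [K, MonoidHom.map_closure, Set.image_pair, h1]
  have e2 : K.map (MonoidHom.snd G H) = ⊤ := by simp [K, MonoidHom.map_closure, Set.image_pair, h2]
  have := h4 (K.comap (MonoidHom.inl G H)) ⟨fun n hn g => by
    obtain ⟨⟨_, y⟩, hy, rfl⟩ := e1.ge (mem_top g)
    simpa using mul_mem (mul_mem hy hn) (inv_mem hy)⟩ (by
      simpa [h3] using pow_mem (subset_closure (by simp) : (a, c) ∈ K) k)
  refine eq_top_iff.2 fun ⟨x, y⟩ _ => ?_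
  obtain ⟨⟨z, _⟩, hz, rfl⟩ := e2.ge (mem_top y)
  simpa using K.mul_mem (mem_comap.1 (this.ge (mem_top (x * z⁻¹)))) hz

theorem goursat' {a b : G} {c d : H} (h1 : closure {a, b} = ⊤) (h2 : closure {c, d} = ⊤) (k : ℕ)
    (h3 : a ^ k = 1) (h4 : ∀ N : Subgroup H, N.Normal → c ^ k ∈ N → N = ⊤) :
    closure {(a, c), (b, d)} = ⊤ := by
  have := congrArg (Subgroup.map (MulEquiv.prodComm (M := H) (N := G)).toMonoidHom)
    (goursat h2 h1 k h3 h4)
  rwa [MonoidHom.map_closure, Set.image_pair, map_top_of_surjective _ (MulEquiv.surjective _)] at this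

theorem top_of_sup {K : Subgroup G} (h : K ⊔ center G = ⊤) (hp : commutator G = ⊤) : K = ⊤ := by
  refine eq_top_iff.2 (hp.ge.trans (commutator_le.2 fun a _ b _ => ?_))
  obtain ⟨a, ha, z, hz, rfl⟩ := mem_sup_of_normal_right.1 (h.ge (mem_top a))
  obtain ⟨b, hb, w, hw, rfl⟩ := mem_sup_of_normal_right.1 (h.ge (mem_top b))
  have e : ∀ x y : G, ∀ z ∈ center G, x * z * y * (x * z)⁻¹ = x * y * x⁻¹ := fun x y z hz => by
    rw [mul_assoc x z, ← mem_center_iff.1 hz y]; group
  rw [commutatorElement_def, e _ _ z hz, mul_assoc, mul_assoc, ← mul_assoc (b * w), e _ _ w hw]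
  exact mul_mem ha (mul_mem (mul_mem hb (inv_mem ha)) (inv_mem hb))

theorem isCyclic_of_two (z : G) (h : ∀ g : G, g = 1 ∨ g = z) : IsCyclic G :=
  ⟨z, fun g => by rcases h g with rfl | rfl; exacts [⟨0, by simp⟩, ⟨1, by simp⟩]⟩

variable {F : Type*} [Field F] {m n : ℕ}

/-- the block embedding of `SL m` -/
def esl {f : Fin m → Fin n} (hf : Function.Injective f) : SL(m, F) →* SL(n, F) where
  toFun g := ⟨Ph.embM f g.1, by rw [Ph.det_embM hf, g.2]⟩
  map_one' := Subtype.ext (Ph.embM_one f)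
  map_mul' _ _ := Subtype.ext (Ph.embM_mul hf _ _)

theorem esl_inj {f : Fin m → Fin n} (hf : Function.Injective f) :
    Function.Injective (esl (F := F) hf) := fun g g' e => Subtype.ext (by
  rw [← Ph.tr_embM hf g.1, ← Ph.tr_embM hf g'.1]
  exact congrArg (fun x : SL(n, F) => _ * x.1 * _) e)

theorem esl_tv {f : Fin m → Fin n} (hf : Function.Injective f) (i j : Fin m) (t : F) :
    esl hf (tv i j t) = tv (f i) (f j) t := by
  by_cases h : i = j
  · simp [tv, h]
  rw [tv_eq h, tv_eq (hf.ne h)]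
  ext k l
  change Ph.embM f (Matrix.transvection i j t) k l = Matrix.transvection _ _ t k l
  simp [Ph.embM, Ph.Pm, Matrix.transvection, Matrix.mul_apply, Matrix.single_apply, ite_and,
    eq_comm]
  rw [Finset.sum_eq_single j (fun _ _ e => by simp [e.symm]) (by simp)]
  simp only [true_and, ← ite_and, and_comm]

theorem xx_tv (t : F) : xx t = tv 0 1 t := by
  rw [tv_eq Fin.zero_ne_one]
  ext i j; fin_cases i <;> fin_cases j <;>
    simp [Matrix.SpecialLinearGroup.transvection, Matrix.transvection]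

theorem yy_tv (t : F) : yy t = tv 1 0 t := by
  rw [tv_eq Fin.zero_ne_one.symm]
  ext i j; fin_cases i <;> fin_cases j <;>
    simp [Matrix.SpecialLinearGroup.transvection, Matrix.transvection]

theorem tv_induction {p : SL(n, F) → Prop} (h1 : ∀ i j t, i ≠ j → p (tv i j t)) (h0 : p 1)
    (h2 : ∀ a b, p a → p b → p (a * b)) (g : SL(n, F)) : p g :=
  H10.SL_transvection_induction p h0 (fun i j h t => tv_eq h t ▸ h1 i j t h) h2 g

theorem tv_not_center {i j : Fin n} (h : i ≠ j) {t : F} (ht : t ≠ 0) : tv i j t ∉ center SL(n, F) :=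
  fun e => by
    obtain ⟨r, -, e⟩ := Matrix.SpecialLinearGroup.mem_center_iff.1 e
    have := congrFun (congrFun e i) j
    simp [tv_eq h, Matrix.SpecialLinearGroup.transvection, Matrix.transvection, h, ht.symm] at this

theorem top_of_not_center (hp : commutator SL(n, F) = ⊤) {g : SL(n, F)} (hg : g ∉ center _)
    (N : Subgroup SL(n, F)) (hN : N.Normal) (h : g ∈ N) : N = ⊤ :=
  (H10.normal_SL_le_center_or N).elim (fun e => absurd (e h) hg) fun e => eq_top_iff.2 (hp.ge.trans e)

/-- the Coxeter element -/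
def cw (F : Type*) [Field F] (m : ℕ) : SL(m + 1, F) := ⟨Matrix.of fun i j : Fin (m + 1) =>
    if j.val = i.val + 1 then (1 : F) else if i.val = m ∧ j.val = 0 then (-1) ^ m else 0, by
  have : (Matrix.of (fun i j : Fin (m + 1) => if j.val = i.val + 1 then (1 : F) else
      if i.val = m ∧ j.val = 0 then (-1) ^ m else 0)) =
      Matrix.diagonal (H17.G2.sg F m) * (finRotate (m + 1)).permMatrix F := by
    ext i j
    rw [H17.G2.w_eq rfl, Matrix.diagonal_mul]
    simp [eq_comm]
  rw [this, Matrix.det_mul, Matrix.det_diagonal, Matrix.det_permutation, sign_finRotate,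
    Finset.prod_eq_single (f := H17.G2.sg F m) (Fin.last m) (fun i _ h => if_neg fun e => h (Fin.ext e))
      (by simp)]
  simp [H17.G2.sg, ← mul_pow]⟩

theorem cw_one : (cw F 1).1 = !![0, 1; -1, 0] := by
  ext i j; fin_cases i <;> fin_cases j <;> simp [cw]

variable [Fintype F]

theorem gen_big (h : 3 < Fintype.card F) {ω : Fˣ} (hω : ∀ u : Fˣ, u ∈ zpowers ω) (m : ℕ) :
    closure {dg ω 0 1, tv 0 1 1 * cw F (m + 1)} = (⊤ : Subgroup SL(m + 2, F)) :=
  top_of_sup (S2402.result h (m + 1) (by omega) ω hω _ _ _ (by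
    simp only [dg, dl]
    congr 1; ext i
    rcases i with ⟨_ | _ | i, hi⟩ <;> simp [Pi.mulSingle_apply, Fin.ext_iff])
    (by rw [tv_eq Fin.zero_ne_one]; rfl) rfl)
    (H10.commutator_SL_fin_eq_top (by omega) fun _ => by rw [Nat.card_eq_fintype_card]; omega)

theorem tv_mem_small (h : Fintype.card F ≤ 3) {K : Subgroup SL(n, F)} {i j : Fin n}
    (e : tv i j 1 ∈ K) (t : F) : tv i j t ∈ K := by
  have := Fintype.one_lt_card (α := F)
  obtain ⟨k, rfl⟩ := int_of_prime (F := F) (by interval_cases Fintype.card F <;> norm_num) t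
  rw [← zsmul_one, (tv_add i j).zsmul]; exact zpow_mem e k

theorem gen_small (h : Fintype.card F ≤ 3) (m : ℕ) :
    closure {tv 0 1 1, cw F (m + 1)} = (⊤ : Subgroup SL(m + 2, F)) :=
  H17.G2.top_of (w := cw F (m + 1)) (H17.G2.w_eq rfl) (subset_closure (by simp)) Fin.zero_ne_one fun t =>
    tv_eq Fin.zero_ne_one t ▸ tv_mem_small h (subset_closure (by simp)) t

theorem norm_small (h : Fintype.card F ≤ 3) (m : ℕ) (N : Subgroup SL(m + 2, F)) (hN : N.Normal)
    (e : tv 0 1 1 ∈ N) : N = ⊤ := by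
  rcases m with _ | m
  · refine eq_top_iff.2 fun g _ => sl_induction (fun t => xx_tv t ▸ tv_mem_small h e t)
      (fun t => ?_) (fun _ _ => mul_mem) g
    rw [← neg_neg t, ← s2_w (ω := 1), xx_tv]; exact hN.conj_mem _ (tv_mem_small h e _) _
  · exact top_of_not_center (H10.commutator_SL_eq_top (by simp))
      (tv_not_center Fin.zero_ne_one one_ne_zero) N hN e

theorem gen_prod (m : ℕ) : ∃ a b : SL(m + 2, F) × SL(2, F), closure {a, b} = ⊤ := by
  obtain ⟨ω, hω⟩ := IsCyclic.exists_generator (α := Fˣ)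
  have e3 : ((tv 0 1 1 : SL(2, F)) * cw F 1) ^ 3 = 1 := by
    ext i j; fin_cases i <;> fin_cases j <;> simp [← xx_tv, cw_one, pow_succ]
  have hq := FiniteField.cast_card_eq_zero F
  have x1 : ∀ k : ℕ, (k : F) = 1 → (tv 0 1 1 : SL(m + 2, F)) ^ k = tv 0 1 1 := fun k hk => by
    rw [← zpow_natCast, ← (tv_add 0 1).zsmul]; simp [hk]
  by_cases h : Fintype.card F ≤ 3
  · have := Fintype.one_lt_card (α := F)
    have h2 := gen_small h 0
    by_cases h3 : Fintype.card F = 3
    · refine ⟨_, _, goursat (gen_small h m) (Set.pair_comm _ _ ▸ h2) 4 ?_ fun N hN e =>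
        norm_small h m N hN (x1 4 (by rw [h3] at hq; linear_combination hq) ▸ e)⟩
      ext i j; fin_cases i <;> fin_cases j <;> simp [cw_one, pow_succ]
    · refine ⟨_, _, goursat (d := tv 0 1 1) (gen_small h m) (eq_top_iff.2 (h2.ge.trans ?_)) 3 e3
        fun N hN e => norm_small h m N hN (x1 3 (by
          rw [show Fintype.card F = 2 by omega] at hq; linear_combination hq) ▸ e)⟩
      simp only [closure_le, Set.pair_subset_iff]
      exact ⟨subset_closure (by simp), (mul_mem_cancel_left (x := tv 0 1 1)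
        (subset_closure (by simp))).1 (subset_closure (by simp))⟩
  have p : ∀ m, commutator SL(m + 2, F) = ⊤ := fun m =>
    H10.commutator_SL_fin_eq_top (by omega) fun _ => by rw [Nat.card_eq_fintype_card]; omega
  have h2 := gen_big (by omega) hω 0
  by_cases h6 : (ω : F) ^ 6 = 1
  · refine ⟨_, _, goursat' (c := dg ω 0 1 * (tv 0 1 1 * cw F 1)) (d := dg ω 0 1)
      (gen_big (by omega) hω m) (eq_top_iff.2 (h2.ge.trans ?_)) 6 ?_
      (top_of_not_center (p 0) fun e => ?_)⟩
    · simp only [closure_le, Set.pair_subset_iff]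
      exact ⟨subset_closure (by simp), (mul_mem_cancel_left (x := dg ω 0 1)
        (subset_closure (by simp))).1 (subset_closure (by simp))⟩
    · ext i j
      have : dl ω 0 1 i ^ 6 = 1 := by
        rw [dl, ← Pi.pow_apply, div_pow, ← Pi.mulSingle_pow, ← Pi.mulSingle_pow,
          show ω ^ 6 = 1 from Units.ext (by simpa using h6)]
        simp
      rw [Matrix.SpecialLinearGroup.coe_pow]
      simp [dg, Matrix.diagonal_pow, Matrix.diagonal_apply, ← Units.val_pow_eq_pow_val, this,
        Matrix.one_apply]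
    · have e1 : (dg ω (0 : Fin 2) 1).1 = !![(ω : F), 0; 0, (ω : F)⁻¹] := by
        ext i j; fin_cases i <;> fin_cases j <;> simp [dg, dl]
      have e2 : ((dg ω 0 1 * (tv 0 1 1 * cw F 1)) ^ 6).1 1 0 = 0 := by
        rcases H19.St.mem_center_iff.1 e with e | e <;> rw [e] <;> simp
      simp [← xx_tv, cw_one, pow_succ, e1] at e2
      field_simp at e2
      have a1 : (ω : F) ^ 2 ≠ 1 := fun e => by
        have := Nat.le_of_dvd two_pos (card_dvd_of_pow hω e); omega
      have a2 : (ω : F) ^ 2 = 3 := by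
        have := sub_ne_zero.2 a1
        grind
      have a3 : (13 : F) = 0 := mul_left_cancel₀ (sub_ne_zero.2 a1)
        (by linear_combination h6 - ((ω : F) ^ 2 - 1) * (ω ^ 2 + 4) * a2)
      have a4 := card_dvd_of_pow hω h6
      have := Nat.le_of_dvd (by norm_num) a4
      have : Fintype.card F = 4 ∨ Fintype.card F = 7 := by
        generalize Fintype.card F = q at *
        have : q ≤ 7 := by omega
        interval_cases q <;> omega
      rcases this with e | e <;> rw [e] at hq <;> grind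
  · refine ⟨_, _, goursat (gen_big (by omega) hω m) (Set.pair_comm _ _ ▸ h2) 3 e3 fun N hN e =>
      top_of_not_center (p m) (tv_not_center Fin.zero_ne_one (sub_ne_zero.2 h6)) N hN ?_⟩
    have c : ∀ t, dg ω 0 1 * tv 0 1 t * (dg ω 0 1)⁻¹ = (tv 0 1 (ω ^ 2 * t) : SL(m + 2, F)) :=
      fun t => by rw [dg_tv]; simp [dl, sq]
    have := mul_mem e (hN.conj_mem _ (inv_mem e) (tv 0 1 1))
    rwa [← mul_assoc, ← mul_assoc, show dg ω 0 1 ^ 3 * tv 0 1 1 * (dg ω 0 1 ^ 3)⁻¹ = dg ω 0 1 * (dg ω 0 1 *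
      (dg ω 0 1 * tv 0 1 1 * (dg ω 0 1)⁻¹) * (dg ω 0 1)⁻¹) * (dg ω (0 : Fin (m + 2)) 1)⁻¹ by
        simp [pow_succ, mul_assoc],
      c, c, c, ← (tv_add 0 1).neg, ← tv_add, show (ω : F) ^ 2 * (ω ^ 2 * (ω ^ 2 * 1)) + -1 =
        ω ^ 6 - 1 by ring] at this

end Gen

end Cfsg.Agent.H12
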