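import Mathlib
import Cfsg.Agent.H12.PrG
import Cfsg.Agent.H12.CT6

/-!
A bounded presentation of `Ω⁺(2n, q)`.
-/

set_option autoImplicit false
set_option linter.unusedSectionVars false

namespace Cfsg.Agent.H12

open Subgroup H7.Pr H19.St H10 H11 H17 H17.CT H17.Frame
open FreeGroup (lift of lift_apply_of)
open scoped MatrixGroups

universe u

variable {F : Type u} [Field F]

section SL

variable {m l n : ℕ}

theorem esl_comm {f : Fin m → Fin n} (hf : Function.Injective f) {g : Fin l → Fin n}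
    (hg : Function.Injective g) (h : ∀ i j, f i ≠ g j) (x : SL(m, F)) (y : SL(l, F)) :
    Commute (esl hf x) (esl hg y) := by
  refine tv_induction (p := fun x => Commute (esl hf x) (esl hg y)) (fun i j t _ => ?_) (by simp)
    (fun a b h1 h2 => by rw [map_mul]; exact h1.mul_left h2) x
  refine tv_induction (p := fun y => Commute (esl hf _) (esl hg y)) (fun k l u _ => ?_) (by simp)
    (fun a b h1 h2 => by rw [map_mul]; exact h1.mul_right h2) y
  rw [esl_tv, esl_tv]; exact H7.Pr.tv_comm (h _ _) (h _ _) t u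

theorem top_of_adj (K : Subgroup SL(n, F)) (h : ∀ i j : Fin n, j.1 = i.1 + 1 → ∀ t,
    H7.Pr.tv i j t ∈ K ∧ H7.Pr.tv j i t ∈ K) : K = ⊤ := by
  have key : ∀ d : ℕ, ∀ i j : Fin n, j.1 = i.1 + d + 1 → ∀ t,
      H7.Pr.tv i j t ∈ K ∧ H7.Pr.tv j i t ∈ K := fun d => by
    induction d with
    | zero => exact h
    | succ d ih =>
      intro i j e t
      let k : Fin n := ⟨i.1 + d + 1, by omega⟩
      have a1 := ih i k rfl
      have a2 := h k j e
      have n1 : i ≠ k := Fin.ne_of_val_ne (by simp [k]; omega)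
      have n2 : k ≠ j := Fin.ne_of_val_ne (by simp [k]; omega)
      have n3 : i ≠ j := Fin.ne_of_val_ne (by omega)
      have b1 := mul_mem (mul_mem (a1 t).1 (a2 1).1) (inv_mem (a1 t).1)
      have b2 := mul_mem (mul_mem (a2 t).2 (a1 1).2) (inv_mem (a2 t).2)
      rw [tv_conj n1 n2 n3, mul_one] at b1
      rw [tv_conj n2.symm n1.symm n3.symm, mul_one] at b2
      exact ⟨(mul_mem_cancel_right (a2 1).1).1 b1, (mul_mem_cancel_right (a1 1).2).1 b2⟩
  refine eq_top_iff.2 fun g _ => tv_induction (fun i j t e => ?_) (one_mem K) (fun _ _ => mul_mem) g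
  rcases Nat.lt_or_gt_of_ne (Fin.val_ne_of_ne e) with e | e
  · exact (key (j - i - 1) i j (by omega) t).1
  · exact (key (i - j - 1) j i (by omega) t).2

theorem inj_two {a b : Fin n} (h : a ≠ b) : Function.Injective ![a, b] := fun i j e => by
  fin_cases i <;> fin_cases j <;> simp_all [eq_comm]

/-- the `SL₂` on two coordinates -/
def e2 {a b : Fin n} (h : a ≠ b) : SL(2, F) →* SL(n, F) := esl (inj_two h)

theorem e2_xx {a b : Fin n} (h : a ≠ b) (t : F) : e2 h (xx t) = H7.Pr.tv a b t := by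
  rw [e2, xx_tv, esl_tv]; rfl

theorem e2_yy {a b : Fin n} (h : a ≠ b) (t : F) : e2 h (yy t) = H7.Pr.tv b a t := by
  rw [e2, yy_tv, esl_tv]; rfl

end SL

variable {V : Type*} [AddCommGroup V] [Module F V] [FiniteDimensional F V] {C : CT}
  {B : V →ₗ[F] V →ₗ[F] F} {Q : V → F}
  (P : Frame (σ := RingHom.id F) C ℤ 1 2 (AddMonoidHom.id F) B Q)

theorem beta_one (a : C.ι) : P.β a = 1 := (P.β_cases a).elim id id

theorem idx_l (i : Fin C.n) : idx (C := C) (.inl i) = i := rfl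

theorem idx_r (i : Fin C.n) : idx (C := C) (.inr i) = i := rfl

set_option quotPrecheck false in
local notation "iy" => by simp only [idx_l, idx_r, idx_swap]; omega

set_option quotPrecheck false in
local notation "ny" => by
  simp only [Sum.swap_inl, Sum.swap_inr, ne_eq, Sum.inl.injEq, Sum.inr.injEq, reduceCtorEq,
    not_false_eq_true, Fin.ext_iff] <;> omega

theorem exists_levi [Finite F] (hn : 3 ≤ C.n) : ∃ j : SL(C.n, F) →* P.cl.Om, Function.Injective j ∧
    ∀ i k t, i ≠ k → j (H7.Pr.tv i k t) = P.xo (.inl i) (.inr k) t := by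
  obtain ⟨j, hj⟩ := st_hom hn (fun i k t => P.xo (.inl i) (.inr k) t)
    (fun i k h => P.xo_add iy) (fun i j k l t u a b c d => P.xx_comm iy iy ny ny ny ny t u)
    fun i j l t u a b c => by
      have := P.cm_xx (a := .inl i) (b := .inr j) (d := .inr l) iy iy iy u t
      rw [beta_one, neg_mul, neg_mul, one_mul, P.xo_neg iy, mul_comm u t] at this
      rw [← _root_.inv_inv (P.xo _ _ (t * u)), ← this, Sum.swap_inr]; group
  have key : ∀ g k, (j g).1 (P.f (.inl k)) = ∑ i, g.1 i k • P.f (.inl i) := fun g => by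
    refine tv_induction (p := fun g => ∀ k, (j g).1 (P.f (.inl k)) = ∑ i, g.1 i k • P.f (.inl i))
      (fun a b t h k => ?_) (fun k => by simp [Matrix.one_apply]) (fun x y h1 h2 k => ?_) g
    · rw [hj _ _ _ h, P.xo_val iy, H7.Pr.tv_eq h]
      change _ = ∑ i, Matrix.transvection a b t i k • _
      by_cases e : k = b
      · have := P.X_swap_right (a := .inl a) (b := .inr b) ny ny t
        simpa [e, beta_one, Matrix.transvection, add_smul, Finset.sum_add_distrib, Matrix.one_apply,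
          Matrix.single_apply] using this
      · rw [P.X_f t ny ny]
        simp [Matrix.transvection, Matrix.one_apply, Matrix.single_apply, Ne.symm e]
    · simp only [map_mul, Subgroup.coe_mul, LinearEquiv.mul_apply, h2, map_sum, map_smul, h1,
        Matrix.SpecialLinearGroup.coe_mul, Matrix.mul_apply, Finset.smul_sum, Finset.sum_smul,
        smul_smul, mul_comm]
      exact Finset.sum_comm
  refine ⟨j, (injective_iff_map_eq_one j).2 fun g e => Subtype.ext (Matrix.ext fun i k => ?_), hj⟩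
  have := congrArg (B (P.f (.inr i))) (key g k)
  simpa [e, P.B_f, beta_one, Matrix.one_apply, eq_comm] using this.symm

section Core

variable {P} {j : SL(C.n, F) →* P.cl.Om}
  (hj : ∀ i k t, i ≠ k → j (H7.Pr.tv i k t) = P.xo (.inl i) (.inr k) t)
include hj

theorem levi_w {a b : Fin C.n} (h : a ≠ b) : j (e2 h (ww xx yy 1)) = P.mo (.inl a) (.inr b) 1 := by
  simp only [ww, map_mul, e2_xx, e2_yy, hj _ _ _ h, hj _ _ _ h.symm, mo, beta_one, Sum.swap_inl,
    Sum.swap_inr, P.xo_comm (a := .inl b) (b := .inr a) iy]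
  simp

variable {o a b : Fin C.n} (ho : o.1 = 0) (ha : a.1 + 2 = C.n) (hb : b.1 + 1 = C.n) (hn : 4 ≤ C.n)
  (oa : o ≠ a)
include ho ha hb hn

theorem theta_x (t : F) : j (e2 oa (ww xx yy 1)) * P.mo (.inl a) (.inl b) 1 * j (e2 oa (xx t)) *
    (j (e2 oa (ww xx yy 1)) * P.mo (.inl a) (.inl b) 1)⁻¹ = P.xo (.inl a) (.inl b) t := by
  have a1 := P.mo_l (a := .inl o) (b := .inr a) iy
  have a2 := P.mo_l' (a := .inl a) (b := .inl b) iy
  rw [levi_w hj, e2_xx, hj _ _ _ oa, conj_xo (c := .inl a) (d := .inl b) (x := -1) (y := -1) iy iy]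
  · simp
  · simpa [P.mo_f (a := .inl a) (b := .inl b) (c := .inl o) iy iy iy, beta_one] using a1
  · simp only [Sum.swap_inl, beta_one] at a2
    simp [a2, P.mo_f (a := .inl o) (b := .inr a) (c := .inl b) iy iy iy]

theorem theta_y (t : F) : j (e2 oa (ww xx yy 1)) * P.mo (.inl a) (.inl b) 1 * j (e2 oa (yy t)) *
    (j (e2 oa (ww xx yy 1)) * P.mo (.inl a) (.inl b) 1)⁻¹ = P.xo (.inr b) (.inr a) t := by
  have a1 := P.mo_l' (a := .inl o) (b := .inr a) iy
  have a2 := P.mo_l (a := .inl a) (b := .inl b) iy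
  rw [levi_w hj, e2_yy, hj _ _ _ oa.symm,
    conj_xo (c := .inr b) (d := .inr a) (x := -1) (y := -1) iy iy]
  · simp
  · simp only [Sum.swap_inl, beta_one] at a2
    simp [a2, P.mo_f (a := .inl o) (b := .inr a) (c := .inr b) iy iy iy]
  · simpa [P.mo_f (a := .inl a) (b := .inl b) (c := .inr o) iy iy iy, beta_one] using a1

theorem theta_w : j (e2 oa (ww xx yy 1)) * P.mo (.inl a) (.inl b) 1 * j (e2 oa (ww xx yy 1)) *
    (j (e2 oa (ww xx yy 1)) * P.mo (.inl a) (.inl b) 1)⁻¹ = P.mo (.inl a) (.inl b) 1 := by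
  have h1 := theta_x hj ho ha hb hn oa 1
  have h2 := theta_y hj ho ha hb hn oa (-1⁻¹)
  rw [P.xo_comm iy] at h2
  conv_rhs => simp only [mo, beta_one, Sum.swap_inl]
  generalize j (e2 oa (ww xx yy 1)) * P.mo (.inl a) (.inl b) 1 = y at *
  simp only [neg_mul, one_mul, RingHom.id_apply, neg_neg] at h2
  simp only [one_mul, RingHom.id_apply, ← h1, ← h2, ww, map_mul]; group

theorem core_D [Finite F] (hD : C.isD = true) (ji : Function.Injective j) (ab : a ≠ b) {m : ℕ}
    {f1 : Fin m → Fin C.n} (i1 : Function.Injective f1) (s1 : ∀ i : Fin C.n, i.1 + 2 < C.n → ∃ k, f1 k = i)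
    {E : Type*} [Group E] {f : E →* P.cl.Om} {φ θ : SL(C.n, F) →* E} {z : E}
    (hφ : ∀ g, f (φ g) = j g) (hz : f z = P.mo (.inl a) (.inl b) 1)
    (hθ : ∀ g, θ g = φ (e2 oa (ww xx yy 1)) * z * φ g * (φ (e2 oa (ww xx yy 1)) * z)⁻¹)
    (h1 : ∀ x y, Commute (θ (e2 oa x)) (φ (esl i1 y))) (h2 : ∀ x y, Commute (θ (e2 oa x)) (φ (e2 ab y)))
    (h3 : z = θ (e2 oa (ww xx yy 1))) (h4 : z ^ 2 = φ (e2 ab (ww xx yy 1)) ^ 2) :
    (φ.range ⊔ zpowers z).map f = ⊤ ∧ ∀ g ∈ φ.range ⊔ zpowers z, f g = 1 → g = 1 := by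
  have adj : ∀ i : Fin C.n, ∀ h : i.1 + 1 < C.n, i ≠ ⟨i.1 + 1, h⟩ := fun i h =>
    Fin.ne_of_val_ne (by simp)
  let ψ : Fin C.n → SL(2, F) →* E := fun i =>
    if h : i.1 + 1 < C.n then φ.comp (e2 (adj i h)) else θ.comp (e2 oa)
  have hs : ∀ i : Fin C.n, idx (C.sa i) ≠ idx (C.sb i) ∧ ∀ t,
      f (ψ i (xx t)) = P.xo (C.sa i) (C.sb i) t ∧
      f (ψ i (yy t)) = P.xo (C.sb i).swap (C.sa i).swap t := fun i => by
    rcases simple_cases i with ⟨h, e1, e2⟩ | ⟨-, h, -⟩ | ⟨h, -, -, e1, e2⟩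
    · simp only [e1, e2, ψ, dif_pos h, MonoidHom.comp_apply, e2_xx, e2_yy, hφ, hj _ _ _ (adj i h),
        hj _ _ _ (adj i h).symm]
      exact ⟨iy, fun t => ⟨trivial, rfl⟩⟩
    · simp [hD] at h
    · obtain rfl : i = b := by omega
      rw [show (⟨i.1 - 1, _⟩ : Fin C.n) = a from Fin.ext (by simp; omega)] at e1
      simp only [e1, e2, ψ, dif_neg (show ¬ i.1 + 1 < C.n by omega), MonoidHom.comp_apply, hθ,
        map_mul f, map_inv f, hφ, hz, theta_x hj ho ha hb hn oa, theta_y hj ho ha hb hn oa]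
      exact ⟨iy, fun t => ⟨trivial, rfl⟩⟩
  have φi : ∀ g, f (φ g) = 1 → g = 1 := fun g e =>
    (injective_iff_map_eq_one j).1 ji g ((hφ g).symm.trans e)
  have θi : ∀ g, f (θ g) = 1 → g = 1 := fun g e => by
    rw [hθ, map_mul, map_mul, map_inv, mul_inv_eq_one, mul_eq_left] at e
    exact φi g e
  have M1 : ∀ g ∈ φ.range, f g = 1 → g = 1 := by
    rintro _ ⟨g, rfl⟩ e; rw [φi g e, map_one]
  have M2 : ∀ g ∈ θ.range, f g = 1 → g = 1 := by
    rintro _ ⟨g, rfl⟩ e; rw [θi g e, map_one]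
  have z2 : z ^ 2 ∈ φ.range := by rw [h4, ← map_pow]; exact ⟨_, rfl⟩
  have M3 : ∀ {χ : SL(2, F) →* SL(C.n, F)}, (∀ x y, Commute (θ (e2 oa x)) (φ (χ y))) →
      ∀ g ∈ (θ.comp (e2 oa)).range ⊔ (φ.comp χ).range, f g = 1 → g = 1 := fun {χ} h g hg e => by
    rw [← MonoidHom.noncommCoprod_range _ _ h] at hg
    obtain ⟨⟨x, y⟩, rfl⟩ := hg
    change f (θ (e2 oa x) * φ (χ y)) = 1 at e
    refine M1 _ (mul_mem ?_ ⟨_, rfl⟩) e
    have : x ∈ center SL(2, F) := Subgroup.mem_center_iff.2 fun u => by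
      refine mul_inv_eq_one.1 ((injective_iff_map_eq_one _).1 (esl_inj (inj_two oa)) _ (θi _ ?_))
      change f (θ (e2 oa _)) = 1
      rw [map_mul, mul_eq_one_iff_eq_inv] at e
      simp only [map_mul, map_inv, mul_inv_eq_one, e]
      exact ((h u y).map f).inv_right.eq
    rcases H19.St.mem_center_iff.1 this with rfl | rfl
    · simp
    · have : (-1 : SL(2, F)) = ww xx yy 1 ^ 2 := by
        ext i k; fin_cases i <;> fin_cases k <;> simp [coe_ww, sq]
      change θ (e2 oa _) ∈ _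
      rwa [this, map_pow, map_pow, ← h3]
  have c1 : ∀ {i k : Fin C.n} (h : i ≠ k), i.1 + 2 < C.n → k.1 + 2 < C.n → ∀ x y,
      Commute (θ (e2 oa x)) (φ (e2 h y)) := fun {i k} h hi hk x y => by
    obtain ⟨i, rfl⟩ := s1 i hi
    obtain ⟨k, rfl⟩ := s1 k hk
    refine sl_induction (p := fun y => Commute _ (φ (e2 h y))) (fun t => ?_) (fun t => ?_)
      (fun u v h1 h2 => by rw [map_mul, map_mul]; exact h1.mul_right h2) y
    · rw [e2_xx, ← esl_tv i1]; exact h1 _ _
    · rw [e2_yy, ← esl_tv i1]; exact h1 _ _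
  have p1 : ∀ i : Fin C.n, i.1 + 1 < C.n → (ψ i).range ≤ φ.range := fun i h => by
    simp only [ψ, dif_pos h]; rintro _ ⟨x, rfl⟩; exact ⟨_, rfl⟩
  have p2 : ψ b = θ.comp (e2 oa) := dif_neg (by omega)
  have p3 : ∀ i : Fin C.n, i.1 + 3 = C.n → (ψ i).range ≤ θ.range := fun i h => by
    have h' : i.1 + 1 < C.n := by omega
    have io : i ≠ o := by omega
    have e : ∀ y, φ (e2 oa (ww xx yy 1) * e2 io y * (e2 oa (ww xx yy 1))⁻¹) ∈ θ.range := fun y =>
      ⟨e2 io y, by
        rw [hθ, mul_assoc _ z, (h3 ▸ c1 io (by omega) (by omega) _ y : Commute z _).eq]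
        simp [mul_assoc]⟩
    have a1 := P.mo_l (a := .inl o) (b := .inr a) iy
    have a2 := P.mo_l' (a := .inl o) (b := .inr a) iy
    have ia : i ≠ a := by omega
    simp only [ψ, dif_pos h', show (⟨i.1 + 1, h'⟩ : Fin C.n) = a from Fin.ext (by simp; omega)]
    rintro _ ⟨x, rfl⟩
    refine sl_induction (p := fun x => (φ.comp _) x ∈ _) (fun t => ?_) (fun t => ?_)
      (fun u v h1 h2 => by rw [map_mul]; exact mul_mem h1 h2) x
    · convert e (xx (-t)) using 1
      refine congrArg φ (ji ?_)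
      rw [map_mul, map_mul, map_inv, levi_w hj, e2_xx, e2_xx, hj _ _ _ io, conj_xo (a := .inl i)
        (b := .inr o) (c := .inl i) (d := .inr a) (x := 1) iy iy (by rw [P.mo_f iy iy iy, one_smul]) a2, beta_one]
      simpa using hj _ _ t ia
    · convert e (yy (-t)) using 1
      refine congrArg φ (ji ?_)
      rw [map_mul, map_mul, map_inv, levi_w hj, e2_yy, e2_yy, hj _ _ _ io.symm, conj_xo (a := .inl o)
        (b := .inr i) (c := .inl a) (d := .inr i) (y := 1) iy iy a1 (by rw [P.mo_f iy iy iy, one_smul]), beta_one]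
      simpa using hj _ _ t ia.symm
  have p4 : (ψ b).range ≤ θ.range := by rw [p2]; rintro _ ⟨x, rfl⟩; exact ⟨_, rfl⟩
  have p5 : ∀ i, ∀ g ∈ (ψ b).range ⊔ (ψ i).range, f g = 1 → g = 1 := fun i g hg => by
    by_cases e1 : i = b
    · exact M2 g (sup_le p4 (e1 ▸ p4) hg)
    by_cases e2 : i.1 + 3 = C.n
    · exact M2 g (sup_le p4 (p3 i e2) hg)
    have h' : i.1 + 1 < C.n := by omega
    rw [p2, show ψ i = _ from dif_pos h'] at hg
    refine M3 (fun x y => ?_) g hg
    by_cases e3 : i = a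
    · convert h2 x y
      omega
    · exact c1 _ (by omega) (by simp; omega) x y
  let Y : RGD.CT P.rgdO f :=
    { A := fun i => (upperUnipotentSL2 F).map (ψ i)
      B := fun i => (lowerUnipotentSL2 F).map (ψ i)
      mapA := fun i => Subgroup.ext fun g => by
        rw [map_map, mem_map_upper]
        simp only [MonoidHom.comp_apply, ((hs i).2 _).1]
        exact (mem_U_xo P (hs i).1 g).symm
      mapB := fun i => Subgroup.ext fun g => by
        rw [map_map, mem_map_lower, rs_simple, neg_rt, ← rt_symm]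
        simp only [MonoidHom.comp_apply, ((hs i).2 _).2]
        exact (mem_U_xo P (by simp only [idx_swap]; exact (hs i).1.symm) g).symm
      inj := fun i k => by
        rw [map_upper_sup_lower, map_upper_sup_lower]
        by_cases e1 : i = b
        · exact e1 ▸ p5 k
        by_cases e2 : k = b
        · rw [sup_comm]; exact e2 ▸ p5 i
        · exact fun g hg => M1 g (sup_le (p1 i (by omega)) (p1 k (by omega)) hg) }
  have hL : ∀ i, Y.L i = (ψ i).range := fun i => map_upper_sup_lower _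
  have e : φ.range ⊔ zpowers z = ⨆ i, Y.L i := by
    refine le_antisymm (sup_le ?_ ?_) (iSup_le fun i => ?_)
    · rw [MonoidHom.range_eq_map, map_le_iff_le_comap, top_of_adj (comap φ _) fun i k e t => ?_]
      have h : i.1 + 1 < C.n := by omega
      obtain rfl : k = ⟨i.1 + 1, h⟩ := Fin.ext e
      have : (φ.comp (e2 (adj i h))).range ≤ ⨆ i, Y.L i :=
        le_iSup_of_le i (by rw [hL, show ψ i = _ from dif_pos h])
      exact ⟨e2_xx (adj i h) t ▸ this ⟨_, rfl⟩, e2_yy (adj i h) t ▸ this ⟨_, rfl⟩⟩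
    · exact zpowers_le.2 (mem_iSup_of_mem b (by rw [hL, p2]; exact ⟨_, h3.symm⟩))
    rw [hL]
    by_cases e1 : i = b
    · rintro _ ⟨x, rfl⟩
      have : φ (e2 oa (ww xx yy 1)) * z ∈ φ.range ⊔ zpowers z := mul_mem_sup ⟨_, rfl⟩ (mem_zpowers z)
      rw [e1, p2, MonoidHom.comp_apply, hθ]
      exact mul_mem (mul_mem this (mem_sup_left ⟨_, rfl⟩)) (inv_mem this)
    · exact (p1 i (by omega)).trans le_sup_left
  rw [e]
  refine ⟨Y.map_iSup_L P.rgdO_US_univ, fun g hg e => ?_⟩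
  refine (ct_ker_D Y hD (by omega) ha hb hg e).elim id fun ⟨u, hu, v, hv, _, e2, e3⟩ => M1 g ?_ e
  obtain rfl : v = z := mul_inv_eq_one.1 (M2 _ (mul_mem (p4 (hL b ▸ hv)) (inv_mem ⟨_, h3.symm⟩))
    (by simp [e2, hz]))
  rw [e3, inv_pow v]
  exact mul_mem (pow_mem (inv_mem (p1 a (by omega) (hL a ▸ hu))) 2) (inv_mem z2)

end Core

theorem mo_sq {a b : Fin C.n} (hD : C.isD = true) (h : a ≠ b) :
    P.mo (.inl a) (.inl b) 1 ^ 2 = P.mo (.inl a) (.inr b) 1 ^ 2 := by
  have key : ∀ d : C.ι, idx (C := C) (.inl a) ≠ idx d → ∀ c, idx c = a ∨ idx c = idx d →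
      (P.mo (.inl a) d 1 ^ 2).1 (P.f c) = -P.f c := fun d h c hc => by
    have a1 := P.mo_l h
    have a2 := P.mo_r h
    have a3 := P.mo_l' h
    have a4 := P.mo_r' h
    simp only [beta_one, one_smul, neg_smul, mul_one] at a1 a2 a3 a4
    rcases hc with hc | hc
    · rcases eq_of_ix (a := .inl a) hc.symm with rfl | rfl <;>
        simp [sq, a1, a2, a3, a4, -Sum.swap_inl]
    · rcases eq_of_ix hc.symm with rfl | rfl <;> simp [sq, a1, a2, a3, a4, -Sum.swap_inl]
  refine Subtype.ext (P.ext (fun c => ?_) fun w hw => by simp [(P.hD hD).2 w hw])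
  by_cases e : idx c = a ∨ idx c = b
  · rw [key (.inl b) iy c e, key (.inr b) iy c e]
  · simp [sq, P.mo_f (a := .inl a) (b := .inl b) (c := c) iy iy iy,
      P.mo_f (a := .inl a) (b := .inr b) (c := c) iy iy iy]

theorem closure_cons {A E : Type*} [Group A] [Group E] {k : ℕ} {s : Fin k → A}
    (hs : closure (Set.range s) = ⊤) {x : Fin (k + 1) → E} {φ : A →* E}
    (h : ∀ i, φ (s i) = x i.succ) : closure (Set.range x) = φ.range ⊔ zpowers (x 0) := by
  rw [Fin.range_fin_succ, Set.insert_eq, Subgroup.closure_union, sup_comm, zpowers_eq_closure,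
    MonoidHom.range_eq_map, ← hs, MonoidHom.map_closure, ← Set.range_comp]
  congr 3; exact funext fun i => (h i).symm

theorem pres_om [Fintype F] (hD : C.isD = true) (hn : 4 ≤ C.n) {r : ℕ} {s0 : Fin 4 → SL(C.n, F)}
    (hs : Pres s0 r) : ∃ s : Fin 5 → P.cl.Om, Pres s (r + 6) := by
  obtain ⟨j, ji, hj⟩ := exists_levi P (by omega)
  obtain ⟨m, hm⟩ : ∃ m, C.n = m + 4 := ⟨C.n - 4, by omega⟩
  obtain ⟨o, ho⟩ : ∃ o : Fin C.n, o.1 = 0 := ⟨⟨0, by omega⟩, rfl⟩
  obtain ⟨a, ha⟩ : ∃ a : Fin C.n, a.1 + 2 = C.n := ⟨⟨m + 2, by omega⟩, hm.symm⟩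
  obtain ⟨b, hb⟩ : ∃ b : Fin C.n, b.1 + 1 = C.n := ⟨⟨m + 3, by omega⟩, hm.symm⟩
  have oa : o ≠ a := by omega
  have ab : a ≠ b := by omega
  let f1 : Fin (m + 2) → Fin C.n := fun i => ⟨i, by omega⟩
  have i1 : Function.Injective f1 := fun i k e => Fin.ext (congrArg Fin.val e :)
  have s1 : ∀ i : Fin C.n, i.1 + 2 < C.n → ∃ k, f1 k = i := fun i h => ⟨⟨i, by omega⟩, rfl⟩
  let κ := (esl (F := F) i1).noncommCoprod (e2 ab) (esl_comm i1 (inj_two ab) fun i k => by
    fin_cases k <;> simp [f1, Fin.ext_iff] <;> omega)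
  obtain ⟨c1, c2, hc⟩ := gen_prod (F := F) m
  have hd := congrArg (Subgroup.map (MonoidHom.snd _ _)) hc
  rw [MonoidHom.map_closure, Set.image_pair, map_top_of_surjective _ Prod.snd_surjective,
    ← range2] at hd
  rw [← range2] at hc
  generalize ![c1, c2] = c at hc
  generalize ![(MonoidHom.snd _ _) c1, (MonoidHom.snd _ _) c2] = d at hd
  set z := P.mo (.inl a) (.inl b) 1 with hz
  set w : SL(C.n, F) := e2 oa (ww xx yy 1) with hw
  let s : Fin 5 → P.cl.Om := Fin.cons z fun i => j (s0 i)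
  let W : Fin 4 → FreeGroup (Fin 5) := fun i => of i.succ
  have hW : ∀ i, j (s0 i) = lift s (W i) := fun i => by simp [s, W]
  choose wd hwd using exists_word hs.1
  let Pw : SL(C.n, F) → FreeGroup (Fin 5) := fun g => lift W (wd g)
  let Θ : SL(C.n, F) → FreeGroup (Fin 5) := fun g => Pw w * of 0 * Pw g * (Pw w * of 0)⁻¹
  have gP : ∀ g, lift s (Pw g) = j g := fun g => by simp only [Pw, lift_lift hW, hwd]
  have s0' : lift s (of 0) = z := by simp [s]
  let θ : SL(C.n, F) →* P.cl.Om := (MulAut.conj (j w * z)).toMonoidHom.comp j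
  have gΘ : ∀ g, lift s (Θ g) = θ g := fun g => by simp only [Θ, map_mul, map_inv, gP, s0']; rfl
  have tx : ∀ t, θ (e2 oa (xx t)) = _ := theta_x hj ho ha hb hn oa
  have ty : ∀ t, θ (e2 oa (yy t)) = _ := theta_y hj ho ha hb hn oa
  have g3 : z = θ w := (theta_w hj ho ha hb hn oa).symm
  have g4 : z ^ 2 = j (e2 ab (ww xx yy 1)) ^ 2 := by rw [levi_w hj, hz, mo_sq P hD ab]
  have cm : ∀ y : P.cl.Om, (∀ t, Commute (P.xo (.inl a) (.inl b) t) y ∧
      Commute (P.xo (.inr b) (.inr a) t) y) → ∀ x, Commute (θ (e2 oa x)) y := fun y h x =>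
    sl_induction (p := fun x => Commute (θ (e2 oa x)) y) (fun t => tx t ▸ (h t).1)
      (fun t => ty t ▸ (h t).2) (fun u v h1 h2 => by rw [map_mul, map_mul]; exact h1.mul_left h2) x
  have g1 : ∀ x y, Commute (θ (e2 oa x)) (j (esl i1 y)) := fun x y => by
    refine tv_induction (p := fun y => Commute _ (j (esl i1 y))) (fun i k u e => cm _ (fun t => ?_) x)
      (by simp) (fun u v h1 h2 => by rw [map_mul, map_mul]; exact h1.mul_right h2) y
    have := i.2
    have := k.2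
    rw [esl_tv, hj _ _ _ (i1.ne e)]
    constructor <;> refine xo_commute P iy ?_ (.inl ?_) _ _ <;> simp [f1, idx, Fin.ext_iff] <;> omega
  have g2 : ∀ x y, Commute (θ (e2 oa x)) (j (e2 ab y)) := fun x y => by
    refine sl_induction (p := fun y => Commute _ (j (e2 ab y))) (fun u => cm _ (fun t => ?_) x)
      (fun u => cm _ (fun t => ?_) x)
      (fun u v h1 h2 => by rw [map_mul, map_mul]; exact h1.mul_right h2) y
    · rw [e2_xx, hj _ _ _ ab]
      constructor <;> exact xo_commute P iy iy (by simp) _ _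
    · rw [e2_yy, hj _ _ _ ab.symm]
      constructor <;> exact xo_commute P iy iy (by simp) _ _
  refine ⟨s, pres_of_inj (((Rl.sub hs W j hW).and ((Rl.comm (Finset.univ : Finset (Fin 2 × Fin 2))
    (fun p => Θ (e2 oa (d p.1))) (fun p => Pw (κ (c p.2))) fun p _ => ?_).and
    ((Rl.eq (of 0) (Θ w) ?_).and (Rl.eq (of 0 ^ 2) (Pw (e2 ab (ww xx yy 1)) ^ 2) ?_)))).mono
      (by simp) fun _ _ _ h => h) ?_ ?_⟩
  · rw [gΘ, gP]
    change Commute _ (j (_ * _))
    rw [map_mul]; exact (g1 _ _).mul_right (g2 _ _)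
  · rw [gΘ, s0', ← g3]
  · rw [map_pow, map_pow, gP, s0', g4]
  · have := (core_D hj ho ha hb hn oa hD ji ab i1 s1 (f := .id _) (z := s 0) (fun _ => rfl) rfl (fun _ => rfl)
      g1 g2 g3 g4).1
    rwa [map_id, ← closure_cons hs.1 (x := s) fun _ => rfl] at this
  rintro E _ x f hf hx ⟨⟨φ, hφ⟩, h1, h2, h3⟩ g
  have eP : ∀ g, lift x (Pw g) = φ g := fun g => by simp only [Pw, lift_lift hφ, hwd]
  let θ' : SL(C.n, F) →* E := (MulAut.conj (φ w * x 0)).toMonoidHom.comp φ
  have eΘ : ∀ g, lift x (Θ g) = θ' g := fun g => by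
    simp only [Θ, map_mul, map_inv, eP, lift_apply_of]; rfl
  simp only [eΘ, eP, map_pow, lift_apply_of] at h1 h2 h3
  have h4 : ∀ u v, Commute (θ' (e2 oa u)) (φ (κ v)) := fun u v =>
    comm_closure (θ'.comp (e2 oa)) (by
      rintro _ ⟨i, rfl⟩
      exact (comm_closure (φ.comp κ) (by
        rintro _ ⟨k, rfl⟩; exact (h1 (i, k) (Finset.mem_univ _)).symm) (hc.ge (mem_top v))).symm)
      (hd.ge (mem_top u))
  refine (core_D hj ho ha hb hn oa hD ji ab i1 s1 (θ := θ') (fun g => by rw [← eP, map_lift hf, gP])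
    (hf 0) (fun _ => rfl) (fun u v => ?_) (fun u v => ?_) h2 h3).2 g ?_
  · simpa only [show κ (v, 1) = esl i1 v * e2 ab 1 from rfl, map_one, mul_one] using h4 u (v, 1)
  · simpa only [show κ (1, v) = esl i1 1 * e2 ab v from rfl, map_one, one_mul] using h4 u (1, v)
  · rw [← closure_cons hs.1 fun i => by simpa [W] using hφ i, hx]; trivial

end Cfsg.Agent.H12
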