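import Mathlib
import Cfsg.Agent.H12.PrG
import Cfsg.Agent.H12.CT4

/-!
The rank one subgroups of a unitary group in terms of a frame.
-/

set_option autoImplicit false
set_option linter.unusedSectionVars false

namespace Cfsg.Agent.H12

open Subgroup H7.Pr H19 H19.St H10 H11 H17 H17.CT H17.Frame
open scoped MatrixGroups

variable {F : Type*} [Field F] {V : Type*} [AddCommGroup V] [Module F V]

theorem sl2_act {K : Type*} [Field K] {G : Subgroup (V ≃ₗ[F] V)} {j : SL(2, K) →* G} (ι : K →+* F)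
    {v w : V} (hx : ∀ t, (j (xx t)).1 v = v ∧ (j (xx t)).1 w = w + ι t • v)
    (hy : ∀ t, (j (yy t)).1 v = v + ι t • w ∧ (j (yy t)).1 w = w) (g : SL(2, K)) :
    (j g).1 v = ι (g.1 0 0) • v + ι (g.1 1 0) • w ∧ (j g).1 w = ι (g.1 0 1) • v + ι (g.1 1 1) • w := by
  refine sl_induction (p := fun g => (j g).1 v = ι (g.1 0 0) • v + ι (g.1 1 0) • w ∧
    (j g).1 w = ι (g.1 0 1) • v + ι (g.1 1 1) • w) (fun t => by simp [hx, add_comm])
    (fun t => by simp [hy]) (fun a b h1 h2 => ?_) g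
  simp only [map_mul, Subgroup.coe_mul, LinearEquiv.mul_apply, h2, map_add, map_smul, h1,
    H19.St.mul_apply]
  constructor <;> module

theorem sl2_fix {K : Type*} [Field K] {G : Subgroup (V ≃ₗ[F] V)} {j : SL(2, K) →* G}
    {v : V} (hx : ∀ t, (j (xx t)).1 v = v) (hy : ∀ t, (j (yy t)).1 v = v) (g : SL(2, K)) :
    (j g).1 v = v :=
  sl_induction (p := fun g => (j g).1 v = v) hx hy (fun a b h1 h2 => by simp [h1, h2]) g

theorem sl2_inj {K : Type*} [Field K] {G : Subgroup (V ≃ₗ[F] V)} {j : SL(2, K) →* G} {ι : K →+* F}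
    {v w : V} (li : ∀ a b : F, a • v + b • w = 0 → a = 0 ∧ b = 0)
    (h : ∀ g, (j g).1 v = ι (g.1 0 0) • v + ι (g.1 1 0) • w ∧
      (j g).1 w = ι (g.1 0 1) • v + ι (g.1 1 1) • w) : Function.Injective j :=
  (injective_iff_map_eq_one j).2 fun g e => by
    obtain ⟨h1, h2⟩ := h g
    rw [e] at h1 h2
    have a := li (ι (g.1 0 0) - 1) (ι (g.1 1 0)) (by
      rw [sub_smul, one_smul, sub_add_eq_add_sub, ← h1]; simp)
    have b := li (ι (g.1 0 1)) (ι (g.1 1 1) - 1) (by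
      rw [sub_smul, one_smul, ← add_sub_assoc, ← h2]; simp)
    refine sl_ext (ι.injective ?_) (ι.injective ?_) (ι.injective ?_) (ι.injective ?_) <;>
      simp [a.2, b.1, sub_eq_zero.1 a.1, sub_eq_zero.1 b.2]

variable {σ : F →+* F} {C : CT} {B : V →ₛₗ[σ] V →ₗ[F] F} {Q : V → F} [FiniteDimensional F V]
  (P : Frame C ℤ 1 1 (trHom σ) B Q)

theorem beta_one' (a : C.ι) : P.β a = 1 := (P.β_cases a).elim id id

theorem f_li {a b : C.ι} (h : a ≠ b) (x y : F) (e : x • P.f a + y • P.f b = 0) : x = 0 ∧ y = 0 := by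
  have e1 := congrArg (B (P.f a.swap)) e
  have e2 := congrArg (B (P.f b.swap)) e
  simp [P.B_f, h, h.symm, beta_one'] at e1 e2
  exact ⟨e1, e2⟩

theorem exists_j1 [Finite F] {a b : C.ι} (h : idx a ≠ idx b) : ∃ j : SL(2, F) →* P.cl.Om,
    Function.Injective j ∧ (∀ t, j (xx t) = P.xo a b t) ∧ (∀ t, j (yy t) = P.xo b.swap a.swap t) ∧
    (∀ g, (j g).1 (P.f a) = σ (g.1 0 0) • P.f a + σ (g.1 1 0) • P.f b.swap ∧
      (j g).1 (P.f b.swap) = σ (g.1 0 1) • P.f a + σ (g.1 1 1) • P.f b.swap) ∧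
    ∀ g, (j g).1 (P.f b) = g.1 0 0 • P.f b + g.1 1 0 • -P.f a.swap ∧
      (j g).1 (-P.f a.swap) = g.1 0 1 • P.f b + g.1 1 1 • -P.f a.swap := by
  have h' : idx b.swap ≠ idx a.swap := ix
  obtain ⟨j, h1, h2⟩ := exists_hom_of_finite (x := P.xo a b) (y := P.xo b.swap a.swap)
    ⟨P.xo_add h, P.xo_add h', fun t ht u => by
      have : P.xo a b t * P.xo b.swap a.swap (-t⁻¹) * P.xo a b t = P.mo a b t := by
        simp [mo, P.xo_comm h'.symm, beta_one']
      rw [this, ← mul_inv_eq_iff_eq_mul, conj_xo (c := b.swap) (d := a.swap) h h'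
        (by rw [P.mo_val h]; exact P.mX_left nx nx ht) (by rw [P.mo_val h]; exact P.mX_right nx nx ht)]
      congr 1
      simp [beta_one', P.cl.invol]
      field_simp⟩
  have a1 := sl2_act (j := j) σ (v := P.f a) (w := P.f b.swap) (fun t => by
      rw [h1, P.xo_val h, P.X_f t (swap_ne_self _).symm nx, P.X_swap_right nx nx]
      simp [beta_one']) fun t => by
    have := P.X_swap_right (a := b.swap) (b := a.swap) nx nx t
    rw [Sum.swap_swap] at this
    rw [h2, P.xo_val h', this, P.X_f t (swap_ne_self _).symm nx]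
    simp [beta_one']
  refine ⟨j, sl2_inj (f_li P nx) a1, h1, h2, a1, sl2_act (RingHom.id F) (fun t => ?_) fun t => ?_⟩
  · rw [h1, P.xo_val h, map_neg, P.X_f t nx (swap_ne_self _).symm, P.X_swap_left nx nx]
    simp [beta_one', add_comm, sub_eq_add_neg]
  · have := P.X_swap_left (a := b.swap) (b := a.swap) nx nx t
    rw [Sum.swap_swap] at this
    rw [h2, P.xo_val h', this, map_neg, P.X_f t nx (swap_ne_self _).symm]
    simp [beta_one', sub_eq_add_neg]

theorem exists_j2 {K : Type*} [Field K] [Finite K] {ι : K →+* F} (hι : ∀ u, σ (ι u) = ι u) {η : F}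
    (η0 : η ≠ 0) (hη : σ η = -η) (a : C.ι) : ∃ j : SL(2, K) →* P.cl.Om,
    Function.Injective j ∧ (∀ t, j (xx t) = P.yo a 0 (ι t * η)) ∧
    (∀ t, j (yy t) = P.yo a.swap 0 (ι t * η⁻¹)) ∧
    (∀ g, (j g).1 (P.f a) = ι (g.1 0 0) • P.f a + ι (g.1 1 0) • (-η⁻¹ • P.f a.swap) ∧
      (j g).1 (-η⁻¹ • P.f a.swap) = ι (g.1 0 1) • P.f a + ι (g.1 1 1) • (-η⁻¹ • P.f a.swap)) ∧
    ∀ g c, idx c ≠ idx a → (j g).1 (P.f c) = P.f c := by
  have v1 : ∀ t, P.VP 0 (ι t * η) := fun t => vp_zero (by simp [hι, hη])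
  have v2 : ∀ t, P.VP 0 (ι t * η⁻¹) := fun t => vp_zero (by simp [hι, hη])
  obtain ⟨j, h1, h2⟩ := exists_hom_of_finite (x := fun t => P.yo a 0 (ι t * η))
    (y := fun t => P.yo a.swap 0 (ι t * η⁻¹))
    ⟨fun s t => by simp [yo_mul a (v1 s) (v1 t), add_mul],
      fun s t => by simp [yo_mul _ (v2 s) (v2 t), add_mul], fun t ht u => by
      have t0 : ι t * η ≠ 0 := mul_ne_zero ((map_ne_zero ι).2 ht) η0
      have : P.yo a 0 (ι t * η) * P.yo a.swap 0 (ι (-t⁻¹) * η⁻¹) * P.yo a 0 (ι t * η) =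
          P.my a 0 (ι t * η) := by simp [my, hι, hη, mul_comm]
      rw [this, ← mul_inv_eq_iff_eq_mul, conj_yo (v1 u) (by
        rw [P.my_val a (v1 t) t0]; exact P.mY_left a (zero_mem _) (v1 t).2 t0) (by simp)]
      have := (map_ne_zero ι).2 ht
      simp [beta_one', hι, hη]
      congr 1
      field_simp⟩
  have a1 := sl2_act (j := j) ι (v := P.f a) (w := -η⁻¹ • P.f a.swap) (fun t => by
      rw [h1, yo_val (v1 t), map_smul, P.Y_f (zero_mem _) _ (swap_ne_self _).symm,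
        P.Y_swap a (zero_mem _)]
      simp [beta_one', smul_sub, smul_smul, mul_comm, η0, add_comm]) fun t => by
    have := P.Y_swap a.swap (zero_mem _) (ι t * η⁻¹)
    rw [Sum.swap_swap] at this
    rw [h2, yo_val (v2 t), this, map_smul, P.Y_f (zero_mem _) _ (swap_ne_self _).symm]
    simp [beta_one', smul_smul, sub_eq_add_neg]
  refine ⟨j, sl2_inj (fun x y e => ?_) a1, h1, h2, a1, fun g c hc => sl2_fix (fun t => ?_)
    (fun t => ?_) g⟩
  · simpa [η0] using f_li P (swap_ne_self a).symm x (y * -η⁻¹) (by rwa [smul_smul] at e)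
  · rw [h1, yo_val (v1 t), P.Y_f (zero_mem _) _ nx]
  · rw [h2, yo_val (v2 t), P.Y_f (zero_mem _) _ nx]

section Two

/-- the four indices in rank two -/
def a0 : (ctC 2).ι := .inl (0 : Fin 2)
def a1 : (ctC 2).ι := .inl (1 : Fin 2)
def b0 : (ctC 2).ι := .inr (0 : Fin 2)
def b1 : (ctC 2).ι := .inr (1 : Fin 2)

theorem cases4 (c : (ctC 2).ι) : c = a0 ∨ c = a1 ∨ c = b0 ∨ c = b1 := by
  revert c; decide

theorem sw4 : a0.swap = b0 ∧ a1.swap = b1 ∧ b0.swap = a0 ∧ b1.swap = a1 := ⟨rfl, rfl, rfl, rfl⟩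

theorem idx4 : idx a0 = 0 ∧ idx a1 = 1 ∧ idx b0 = 0 ∧ idx b1 = 1 := ⟨rfl, rfl, rfl, rfl⟩

/-- the reflections -/
def ρn : (ctC 2).ι → (ctC 2).ι := Sum.map Fin.rev Fin.rev
def ρz (c : (ctC 2).ι) : (ctC 2).ι := if idx c = 1 then c.swap else c

theorem all_pairs {Pr : (ctC 2).ι → (ctC 2).ι → Prop}
    (hn : ∀ a b, idx a ≠ idx b → Pr a b → Pr (ρn a) (ρn b))
    (hz : ∀ a b, idx a ≠ idx b → Pr a b → Pr (ρz a) (ρz b)) (h : Pr a0 b1) :
    ∀ a b, idx a ≠ idx b → Pr a b := by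
  have h1 : Pr a0 a1 := hz _ _ (by decide) h
  have h2 : Pr a1 a0 := hn _ _ (by decide) h1
  have h3 : Pr b1 a0 := hz _ _ (by decide) h2
  have h4 : Pr b0 a1 := hn _ _ (by decide) h3
  have h5 : Pr b0 b1 := hz _ _ (by decide) h4
  have h6 : Pr b1 b0 := hn _ _ (by decide) h5
  have h7 : Pr a1 b0 := hz _ _ (by decide) h6
  intro a b e
  rcases cases4 a with rfl | rfl | rfl | rfl <;> rcases cases4 b with rfl | rfl | rfl | rfl <;>
    first | assumption | exact absurd rfl e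

variable {E : Type*} [Group E]

theorem CmIn.cj {A B D : Subgroup E} (h : CmIn A B D) (g : E) : CmIn (cj g A) (cj g B) (cj g D) :=
  fun u hu v hv => mem_cj.2 (by simpa [mul_assoc] using h _ (mem_cj.1 hu) _ (mem_cj.1 hv))

/-- the short root groups -/
def X4 (A B A' B' : Subgroup E) : (ctC 2).ι → (ctC 2).ι → Subgroup E
  | .inl i, .inr _ => if i.1 = 0 then A else B
  | .inr _, .inl j => if j.1 = 0 then A else B
  | .inl _, .inl _ => A'
  | .inr _, .inr _ => B'

/-- the long root groups -/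
def Y4 (A B A' B' : Subgroup E) : (ctC 2).ι → Subgroup E
  | .inl i => if i.1 = 0 then A' else A
  | .inr i => if i.1 = 0 then B' else B

theorem inj_two_frame [Finite F] {ε κ : F} {τ : F →+ F} {P : Frame (ctC 2) ℤ ε κ τ B Q}
    (h0 : ∀ w ∈ P.V0, w = 0) {f : E →* P.cl.Om} {K : Type*} [Field K] [Finite K] (ι : K →+* F)
    (hι : ∀ u, σ (ι u) = ι u) {η : F} (η0 : η ≠ 0) (hη : τ η = 0)
    (hK : ∀ c, τ c = 0 → ∃ u, c = ι u * η) {U V U' V' : Subgroup E} {n z : E}
    (fn : P.Mon (Equiv.sumCongr Fin.revPerm Fin.revPerm) (f n).1)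
    (fz : P.Mon (Equiv.swap a1 b1) (f z).1)
    (m1 : U.map f = P.rgdO.U (rx ℤ (a := a0) (b := b1) (by decide)))
    (i1 : ∀ g ∈ U, f g = 1 → g = 1) (m2 : U'.map f = P.rgdO.U (ry ℤ rfl a1))
    (i2 : ∀ g ∈ U', f g = 1 → g = 1)
    (n1 : cj n U = V) (n2 : cj n V = U) (n3 : cj n (cj z U) = cj z U) (n4 : cj n (cj z V) = cj z V)
    (n5 : cj n (cj n U') = U') (n6 : cj n (cj n V') = V')
    (z1 : cj z U' = V') (z2 : cj z V' = U') (z3 : cj z (cj n U') = cj n U')
    (z4 : cj z (cj n V') = cj n V') (z5 : cj z (cj z U) = U) (z6 : cj z (cj z V) = V)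
    (c4 : CmIn U (cj z U) (cj n U')) (c6 : CmIn U (cj n U') ⊥)
    (c7 : CmIn U U' (cj n U' ⊔ cj z U)) (c8 : CmIn (cj n U') V' ⊥) :
    ∀ g ∈ U ⊔ V ⊔ (U' ⊔ V'), f g = 1 → g = 1 := by
  let X := X4 U V (cj z U) (cj z V)
  let Y := Y4 U' V' (cj n U') (cj n V')
  have xn : ∀ a b, idx a ≠ idx b → X (ρn a) (ρn b) = cj n (X a b) := fun a b e => by
    rcases cases4 a with rfl | rfl | rfl | rfl <;> rcases cases4 b with rfl | rfl | rfl | rfl <;>
      first | exact absurd rfl e | exact n1.symm | exact n2.symm | exact n3.symm | exact n4.symm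
  have xz : ∀ a b, idx a ≠ idx b → X (ρz a) (ρz b) = cj z (X a b) := fun a b e => by
    rcases cases4 a with rfl | rfl | rfl | rfl <;> rcases cases4 b with rfl | rfl | rfl | rfl <;>
      first | exact absurd rfl e | rfl | exact z5.symm | exact z6.symm
  have yn : ∀ a, Y (ρn a) = cj n (Y a) := fun a => by
    rcases cases4 a with rfl | rfl | rfl | rfl
    exacts [n5.symm, rfl, n6.symm, rfl]
  have yz : ∀ a, Y (ρz a) = cj z (Y a) := fun a => by
    rcases cases4 a with rfl | rfl | rfl | rfl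
    exacts [z3.symm, z1.symm, z4.symm, z2.symm]
  have sn : ∀ a, (ρn a).swap = ρn a.swap := by decide
  have sz : ∀ a, (ρz a).swap = ρz a.swap := by decide
  have en : ∀ a, ρn a = Equiv.sumCongr Fin.revPerm Fin.revPerm a := fun _ => rfl
  have ez : ∀ a, ρz a = Equiv.swap a1 b1 a := by decide
  have mon : ∀ {ρ : Equiv.Perm (ctC 2).ι} {g : P.cl.Om}, (∀ c, ρ c.swap = (ρ c).swap) → P.Mon ρ g.1 →
      ∀ {a b : (ctC 2).ι} (h : (ctC 2).Val a b) (h' : (ctC 2).Val (ρ a) (ρ b)),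
        cj g (P.rgdO.U (rt ℤ h)) = P.rgdO.U (rt ℤ h') := fun {ρ g} h1 h2 a b h h' => by
    ext u
    rw [mem_cj, P.mem_rgdO_U, P.mem_rgdO_U]
    refine ⟨fun e => by simpa [mul_assoc] using h2.conj h1 h e, fun e => ?_⟩
    simpa using h2.inv.conj (fun c => ρ.injective (by simp [h1])) h' e
  have ic : ∀ {A : Subgroup E} (g : E), (∀ v ∈ A, f v = 1 → v = 1) → ∀ v ∈ cj g A, f v = 1 → v = 1 :=
    fun g h v hv e => by
      obtain ⟨u, hu, rfl⟩ := exists_of_mem_cj hv
      rw [h u hu (by simpa [mul_inv_eq_one] using e)]; simp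
  have hX := all_pairs (Pr := fun a b => (∀ h : idx a ≠ idx b, (X a b).map f = P.rgdO.U (rx ℤ h)) ∧
      ∀ v ∈ X a b, f v = 1 → v = 1)
    (fun a b e h => by
      rw [xn a b e]; exact ⟨fun h' => by rw [map_cj, h.1 e]; exact mon (by decide) fn _ _, ic n h.2⟩)
    (fun a b e h => by
      rw [xz a b e]
      refine ⟨fun h' => ?_, ic z h.2⟩
      simp only [ez] at h' ⊢
      rw [map_cj, h.1 e]; exact mon (by decide) fz _ _) ⟨fun _ => m1, i1⟩
  have hY := all_pairs (Pr := fun _ b => (Y b.swap).map f = P.rgdO.U (ry ℤ rfl b.swap) ∧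
      ∀ v ∈ Y b.swap, f v = 1 → v = 1)
    (fun a b e h => by
      rw [sn, yn]; exact ⟨by rw [map_cj, h.1]; exact mon (by decide) fn _ _, ic n h.2⟩)
    (fun a b e h => by
      rw [sz, yz]
      refine ⟨?_, ic z h.2⟩
      simp only [ez]
      rw [map_cj, h.1]; exact mon (by decide) fz _ _) ⟨m2, i2⟩
  have hY' : ∀ a, (Y a).map f = P.rgdO.U (ry ℤ rfl a) ∧ ∀ v ∈ Y a, f v = 1 → v = 1 := fun a =>
    let ⟨b, hb⟩ := exists_ix₁ (C := ctC 2) le_rfl a.swap; by simpa using hY b a.swap hb.symm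
  have three : ∀ a b c : (ctC 2).ι, idx a ≠ idx b → idx a ≠ idx c → idx b ≠ idx c → False := by decide
  let S : FS P f :=
    { X := X
      Y := Y
      h0 := h0
      hn := le_rfl
      hn' := fun h => absurd h (by decide)
      sym := fun a b e => by
        rcases cases4 a with rfl | rfl | rfl | rfl <;> rcases cases4 b with rfl | rfl | rfl | rfl <;>
          first | exact absurd rfl e | rfl
      mapX := fun a b h => (hX a b h).1 h
      injX := fun a b h => (hX a b h).2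
      mapY := fun _ a => (hY' a).1
      injY := fun a => (hY' a).2
      hD := fun h => absurd h (by decide)
      c1 := fun a b c _ h _ h1 _ h2 _ => (three a b c h h1 h2).elim
      c2 := fun a b c h h1 h2 => (three a b c h h1 h2).elim
      c3 := fun a b c h h1 h2 => (three a b c h h1 h2).elim
      c4 := all_pairs (fun a b e h => by rw [sn, xn a b e, xn a _ ix, yn]; exact h.cj n)
        (fun a b e h => by rw [sz, xz a b e, xz a _ ix, yz]; exact h.cj z) c4
      c5 := fun a b c h h1 h2 => (three a b c h h1 h2).elim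
      c6 := all_pairs (fun a b e h => by rw [xn a b e, yn, ← cj_bot n]; exact h.cj n)
        (fun a b e h => by rw [xz a b e, yz, ← cj_bot z]; exact h.cj z) c6
      c7 := fun a b e => all_pairs (Pr := fun b a => CmIn (X a b) (Y a.swap) (Y b ⊔ X b a.swap))
        (fun a b e h => by rw [sn, xn b a e.symm, xn a _ ix, yn, yn, ← cj_sup]; exact h.cj n)
        (fun a b e h => by rw [sz, xz b a e.symm, xz a _ ix, yz, yz, ← cj_sup]; exact h.cj z)
        c7 b a e.symm
      c8 := all_pairs (fun a b e h => by rw [yn, yn, ← cj_bot n]; exact h.cj n)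
        (fun a b e h => by rw [yz, yz, ← cj_bot z]; exact h.cj z) c8 }
  have le : U ⊔ V ⊔ (U' ⊔ V') ≤ S.pre.VS Set.univ := sup_le (sup_le
    (S.X_le (a := a0) (b := b1) (by decide)) (S.X_le (a := a1) (b := b0) (by decide)))
    (sup_le (S.Y_le a1) (S.Y_le b1))
  exact fun g hg => S.inj_C' rfl ι hι η0 hη hK g (le hg)

end Two

end Cfsg.Agent.H12
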