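import Mathlib
import Cfsg.Agent.H12.PrU1

/-!
A bounded presentation of `SU₄(q)`: the relations force the Steinberg relations.
-/

set_option autoImplicit false
set_option linter.unusedSectionVars false

namespace Cfsg.Agent.H12

open Subgroup H7.Pr H19 H19.St H10 H11 H17 H17.CT H17.Frame
open scoped MatrixGroups

section Gen

variable {E G : Type*} [Group E] [Group G]

theorem eq_of_inj {f : E →* G} {M A A' : Subgroup E} (h : ∀ g ∈ M, f g = 1 → g = 1) (h1 : A ≤ M)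
    (h2 : A' ≤ M) (e : A.map f = A'.map f) : A = A' :=
  le_antisymm (fun _ hx => Ph.mem_of_inj h2 h (h1 hx) (e.le ⟨_, hx, rfl⟩))
    fun _ hx => Ph.mem_of_inj h1 h (h2 hx) (e.ge ⟨_, hx, rfl⟩)

theorem eq_of_map {f : E →* G} {M : Subgroup E} (h : ∀ g ∈ M, f g = 1 → g = 1) {a b : E}
    (ha : a ∈ M) (hb : b ∈ M) (e : f a = f b) : a = b :=
  mul_inv_eq_one.1 (h _ (mul_mem ha (inv_mem hb)) (by simp [e]))

theorem cj_range [Finite G] {ι : Type*} {s : ι → G} (hs : closure (Set.range s) = ⊤) {φ : G →* E}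
    {g : E} (h : ∀ i, g * φ (s i) * g⁻¹ ∈ φ.range) : cj g φ.range = φ.range := by
  haveI : Finite (φ.range : Set E) := Set.finite_range φ
  refine cj_eq_self_iff.2 (mem_normalizer_fintype ?_)
  rintro _ ⟨a, rfl⟩
  exact (closure_le (K := (φ.range.comap (MulAut.conj g).toMonoidHom).comap φ)).2
    (by rintro _ ⟨i, rfl⟩; exact h i) (hs.ge (mem_top a))

theorem cj_pair {a b g : E} (ha : g * a * g⁻¹ ∈ closure {a, b}) (hb : g * b * g⁻¹ ∈ closure {a, b})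
    (h : g * g ∈ closure {a, b}) : cj g (closure {a, b}) = closure {a, b} := by
  have : cj g (closure {a, b}) ≤ closure {a, b} := fun x hx => by
    obtain ⟨y, hy, rfl⟩ := exists_of_mem_cj hx
    exact (closure_le (K := (closure {a, b}).comap (MulAut.conj g).toMonoidHom)).2
      (Set.pair_subset ha hb) hy
  refine le_antisymm this ?_
  conv_lhs => rw [← cj_of_mem h, cj_mul]
  exact cj_mono g this

variable {K : Type*} [Field K]

theorem hh_mem_zpowers [Finite K] {ω : Kˣ} (hω : ∀ u : Kˣ, u ∈ zpowers ω) {t : K} (ht : t ≠ 0) :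
    (hh xx yy t : SL(2, K)) ∈ zpowers (hh xx yy (ω : K)) := by
  obtain ⟨n, rfl⟩ := exists_pow hω ht
  induction n with
  | zero => rw [pow_zero, Rel.h_one]; exact one_mem _
  | succ n ih =>
    rw [pow_succ, rel_SL.h_mul_of_finite (pow_ne_zero _ ω.ne_zero) ω.ne_zero]
    exact mul_mem (ih (pow_ne_zero _ ω.ne_zero)) (mem_zpowers _)

theorem ww_sq : (ww xx yy 1 * ww xx yy 1 : SL(2, K)) = hh xx yy (-1) := by
  ext i k; fin_cases i <;> fin_cases k <;> simp [coe_ww, coe_hh]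

theorem cj_upper (φ : SL(2, K) →* E) :
    cj (φ (ww xx yy 1)) ((upperUnipotentSL2 K).map φ) = (lowerUnipotentSL2 K).map φ := by
  rw [← map_cj, rel_SL.cj_w_left (fun _ => mem_upper) (fun _ => mem_lower) one_ne_zero]

theorem map_hx [Fintype K] (φ : SL(2, K) →* E) (ω : Kˣ) (t : K) :
    φ (xx (ω ^ 2 * t)) = φ (hh xx yy ω) * φ (xx t) * (φ (hh xx yy ω))⁻¹ := by
  rw [s2_h, map_mul, map_mul, map_inv]; rfl

/-- the relations for `SU₄` -/
structure SURel {F : Type*} [Field F] (ι : K →+* F) (ω : Fˣ) (c : Kˣ) (φ : SL(2, F) →* E)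
    (ψ : SL(2, K) →* E) (x h n y k z : E) : Prop where
  hx : x = φ (xx 1)
  hh' : h = φ (hh xx yy ω)
  hn : n = φ (ww xx yy 1)
  hy : y = ψ (xx 1)
  hk : k = ψ (hh xx yy c)
  hz : z = ψ (ww xx yy 1)
  b0 : k = z * h * z⁻¹ * h⁻¹
  b1 : h * y * h⁻¹ = ψ (xx (c : K)⁻¹)
  b2 : h * k = k * h
  b3 : k * x * k⁻¹ = φ (xx (ι c)⁻¹)
  b4 : n * k * n⁻¹ * k⁻¹ = φ (hh xx yy (ι c))
  c1 : n * (z * x * z⁻¹) * n⁻¹ = z * x⁻¹ * z⁻¹
  a1 : y * (n * y * n⁻¹) = n * y * n⁻¹ * y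
  a2 : z * (n * y * n⁻¹) = n * y * n⁻¹ * z
  a3 : z * (n * z * n⁻¹) = n * z * n⁻¹ * z
  d1 : x * (n * y * n⁻¹) = n * y * n⁻¹ * x
  e1 : y * x * y⁻¹ * x⁻¹ = n * y⁻¹ * n⁻¹ * (z * x * z⁻¹)
  e2 : y * φ (xx ω) * y⁻¹ * (φ (xx ω))⁻¹ = n * ψ (xx (-c)) * n⁻¹ * (z * φ (xx ω) * z⁻¹)

end Gen

variable {F : Type*} [Field F] {V : Type*} [AddCommGroup V] [Module F V]
  {σ : F →+* F} {B : V →ₛₗ[σ] V →ₗ[F] F} {Q : V → F} [FiniteDimensional F V]
  {P : Frame (ctC 2) ℤ 1 1 (trHom σ) B Q} {K : Type*} [Field K] {ι : K →+* F} {η : F}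

variable (P ι η) in
/-- the two fundamental `SL₂` subgroups of `SU₄` -/
structure SUDat (j : SL(2, F) →* P.cl.Om) (l : SL(2, K) →* P.cl.Om) : Prop where
  h0 : ∀ w ∈ P.V0, w = 0
  hι : ∀ u, σ (ι u) = ι u
  hK : ∀ c, σ c = c → ∃ u, c = ι u
  η0 : η ≠ 0
  hη : σ η = -η
  ji : Function.Injective j
  li : Function.Injective l
  jx : ∀ t, j (xx t) = P.xo a0 b1 t
  jy : ∀ t, j (yy t) = P.xo a1 b0 t
  lx : ∀ t, l (xx t) = P.yo a1 0 (ι t * η)
  ly : ∀ t, l (yy t) = P.yo b1 0 (ι t * η⁻¹)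
  n : (j (ww xx yy 1)).1 (P.f a0) = (-1 : F) • P.f a1 ∧ (j (ww xx yy 1)).1 (P.f a1) = (1 : F) • P.f a0 ∧
    (j (ww xx yy 1)).1 (P.f b0) = (-1 : F) • P.f b1 ∧ (j (ww xx yy 1)).1 (P.f b1) = (1 : F) • P.f b0
  h : ∀ t, t ≠ 0 → (j (hh xx yy t)).1 (P.f a0) = σ t • P.f a0 ∧
    (j (hh xx yy t)).1 (P.f a1) = (σ t)⁻¹ • P.f a1 ∧ (j (hh xx yy t)).1 (P.f b0) = t⁻¹ • P.f b0 ∧
    (j (hh xx yy t)).1 (P.f b1) = t • P.f b1
  z : (l (ww xx yy 1)).1 (P.f a0) = (1 : F) • P.f a0 ∧ (l (ww xx yy 1)).1 (P.f a1) = η⁻¹ • P.f b1 ∧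
    (l (ww xx yy 1)).1 (P.f b0) = (1 : F) • P.f b0 ∧ (l (ww xx yy 1)).1 (P.f b1) = (-η) • P.f a1
  k : ∀ t, t ≠ 0 → (l (hh xx yy t)).1 (P.f a0) = (1 : F) • P.f a0 ∧
    (l (hh xx yy t)).1 (P.f a1) = ι t • P.f a1 ∧ (l (hh xx yy t)).1 (P.f b0) = (1 : F) • P.f b0 ∧
    (l (hh xx yy t)).1 (P.f b1) = (ι t)⁻¹ • P.f b1

theorem exists_suDat [Finite F] [Finite K] (h0 : ∀ w ∈ P.V0, w = 0) (hι : ∀ u, σ (ι u) = ι u)
    (hK : ∀ c, σ c = c → ∃ u, c = ι u) (η0 : η ≠ 0) (hη : σ η = -η) : ∃ j l, SUDat P ι η j l := by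
  obtain ⟨j, j1, j2, j3, j4, j5⟩ := exists_j1 P (a := a0) (b := b1) (by decide)
  obtain ⟨l, l1, l2, l3, l4, l5⟩ := exists_j2 P hι η0 hη a1
  simp only [sw4, map_neg, map_smul, neg_smul] at j3 j4 j5 l3 l4
  have e : ∀ {u v : V}, -(η⁻¹ • u) = v → u = -η • v := fun h => by rw [← h]; simp [smul_smul, η0]
  refine ⟨j, l, h0, hι, hK, η0, hη, j1, l1, j2, j3, l2, l3, ?_, fun t ht => ?_, ?_, fun t ht => ?_⟩
  · simp [j4, j5, neg_eq_iff_eq_neg.1 (j5 _).2, coe_ww]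
  · simp [j4, j5, neg_eq_iff_eq_neg.1 (j5 _).2, coe_hh ht]
  · simp [l4, l5 _ a0 (by decide), l5 _ b0 (by decide), e (l4 _).2, coe_ww]
  · simp [l4, l5 _ a0 (by decide), l5 _ b0 (by decide), e (l4 _).2, coe_hh ht, smul_smul]
    congr 1; field_simp

namespace SUDat

variable {j : SL(2, F) →* P.cl.Om} {l : SL(2, K) →* P.cl.Om} (D : SUDat P ι η j l)
include D

theorem ext {g g' : P.cl.Om} (h : ∀ c, g.1 (P.f c) = g'.1 (P.f c)) : g = g' :=
  Subtype.ext (P.ext h fun w hw => by simp [D.h0 w hw])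

theorem vp (t : K) : P.VP 0 (ι t * η) := vp_zero (by simp [D.hι, D.hη])

theorem vp' (t : K) : P.VP 0 (ι t * η⁻¹) := vp_zero (by simp [D.hι, D.hη])

theorem tr0 (c : F) (h : trHom σ c = 0) : ∃ u, c = ι u * η := by
  obtain ⟨u, hu⟩ := D.hK (c / η) (by
    rw [map_div₀, D.hη, show σ c = -c from eq_neg_of_add_eq_zero_right h, neg_div_neg_eq])
  exact ⟨u, by rw [← hu, div_mul_cancel₀ _ D.η0]⟩

theorem n_y (t : K) : j (ww xx yy 1) * l (xx t) * (j (ww xx yy 1))⁻¹ = P.yo a0 0 (ι t * η) := by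
  rw [D.lx, conj_yo (D.vp t) D.n.2.1 (by simp)]; simp

theorem z_x (t : F) : l (ww xx yy 1) * j (xx t) * (l (ww xx yy 1))⁻¹ = P.xo a0 a1 (-η * t) := by
  rw [D.jx, conj_xo (by decide) (by decide) D.z.1 D.z.2.2.2]; simp

theorem cm (s : F) (t u : K) (h : ι u = -(σ s * s * ι t)) :
    l (xx t) * j (xx s) * (l (xx t))⁻¹ * (j (xx s))⁻¹ =
      j (ww xx yy 1) * l (xx u) * (j (ww xx yy 1))⁻¹ *
        (l (ww xx yy 1) * j (xx (ι t * s)) * (l (ww xx yy 1))⁻¹) := by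
  rw [D.n_y, D.z_x, D.lx, D.jx, h]
  have := P.cm_yx (a := a0) (b := b1) (by decide) (D.vp t) s
  simp only [sw4, smul_zero, beta_one', map_mul, D.hι, D.hη] at this
  rw [this]; congr 2 <;> ring

theorem comm (g g' : SL(2, K)) : Commute (l g) (j (ww xx yy 1) * l g' * (j (ww xx yy 1))⁻¹) := by
  have key : ∀ {a b : (ctC 2).ι} {x y : F}, idx a ≠ idx b → P.VP 0 x → P.VP 0 y →
      Commute (P.yo b 0 y) (P.yo a 0 x) := fun h h1 h2 =>
    commutatorElement_eq_one_iff_commute.1 ((P.cm_yy h h1 h2).trans (by simp [P.xo_zero]))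
  have : ∀ {a : (ctC 2).ι} {x : F}, idx a = 0 → P.VP 0 x → Commute (l g) (P.yo a 0 x) :=
    fun {a x} h h1 => sl_induction (p := fun g => Commute (l g) _)
      (fun t => D.lx t ▸ key (by simp [h, idx4]) h1 (D.vp t))
      (fun t => D.ly t ▸ key (by simp [h, idx4]) h1 (D.vp' t))
      (fun a b h1 h2 => by rw [map_mul]; exact h1.mul_left h2) g
  refine sl_induction (p := fun g' => Commute _ (_ * l g' * _)) (fun t => D.n_y t ▸ this rfl (D.vp t))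
    (fun t => ?_) (fun a b h1 h2 => by simpa [mul_assoc] using h1.mul_right h2) g'
  rw [D.ly, conj_yo (D.vp' t) D.n.2.2.2 (by simp)]
  simpa using this (a := b0) rfl (D.vp' t)

theorem rel [Fintype F] [Fintype K] {ω : Fˣ} {c : Kˣ} (hc : ι c = σ ω * ω) : SURel ι ω c j l (j (xx 1)) (j (hh xx yy ω))
    (j (ww xx yy 1)) (l (xx 1)) (l (hh xx yy c)) (l (ww xx yy 1)) := by
  have h := D.h ω ω.ne_zero
  have k := D.k c c.ne_zero
  have c0 : ι c ≠ 0 := (map_ne_zero ι).2 c.ne_zero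
  have h' := D.h _ c0
  have := D.η0
  have s0 : σ ω ≠ 0 := (map_ne_zero σ).2 ω.ne_zero
  refine ⟨rfl, rfl, rfl, rfl, rfl, rfl, ?_, ?_, ?_, ?_, ?_, ?_, (D.comm _ _).eq, (D.comm _ _).eq,
    (D.comm _ _).eq, ?_, by
      have := D.cm 1 1 (-1) (by simp)
      rwa [xx_add.neg, map_inv, map_one, mul_one] at this,
    by simpa using D.cm ω 1 (-c) (by simp [hc])⟩
  · rw [eq_mul_inv_iff_mul_eq, eq_mul_inv_iff_mul_eq]
    refine D.ext fun a => ?_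
    rcases cases4 a with rfl | rfl | rfl | rfl <;> simp [h, k, D.z, smul_smul, hc]
    all_goals congr 1; field_simp
  · rw [D.lx, D.lx, conj_yo (D.vp 1) h.2.1 (by simp)]
    simp [hc, P.cl.invol]
  · refine D.ext fun a => ?_
    rcases cases4 a with rfl | rfl | rfl | rfl <;> simp [h, k, smul_smul, mul_comm]
  · rw [D.jx, D.jx, conj_xo (by decide) (by decide) k.1 k.2.2.2]; simp
  · rw [mul_inv_eq_iff_eq_mul, mul_inv_eq_iff_eq_mul]
    refine D.ext fun a => ?_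
    rcases cases4 a with rfl | rfl | rfl | rfl <;> simp [h', k, D.n, smul_smul, D.hι, c0]
  · rw [D.z_x, ← map_inv j (xx 1), ← xx_add.neg, D.z_x, conj_xo (by decide) (by decide) D.n.1 D.n.2.1,
      P.xo_comm (by decide)]
    simp [D.hη]
  · rw [D.n_y, D.jx]; exact P.xy_comm (by decide) (by decide) (by decide) _ (D.vp 1)

end SUDat

end Cfsg.Agent.H12
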