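import Mathlib
import Cfsg.Agent.H12.PrU2

/-!
A bounded presentation of `SU₄(q)`: the relations force the Steinberg relations.
-/

set_option autoImplicit false
set_option linter.unusedSectionVars false

namespace Cfsg.Agent.H12

open Subgroup H7.Pr H19 H19.St H10 H11 H17 H17.CT H17.Frame
open scoped MatrixGroups

section Gen

variable {E : Type*} [Group E] {K : Type*} [Field K]

/-- the upper and lower root groups -/
def upS (φ : SL(2, K) →* E) : Subgroup E := (upperUnipotentSL2 K).map φ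
def loS (φ : SL(2, K) →* E) : Subgroup E := (lowerUnipotentSL2 K).map φ

theorem mem_upS {φ : SL(2, K) →* E} {g : E} : g ∈ upS φ ↔ ∃ t, g = φ (xx t) :=
  ⟨fun ⟨_, h, e⟩ => let ⟨t, ht⟩ := mem_upper.1 h; ⟨t, by rw [← e, ht]⟩,
    fun ⟨t, e⟩ => ⟨_, mem_upper.2 ⟨t, rfl⟩, e.symm⟩⟩

theorem mem_loS {φ : SL(2, K) →* E} {g : E} : g ∈ loS φ ↔ ∃ t, g = φ (yy t) :=
  ⟨fun ⟨_, h, e⟩ => let ⟨t, ht⟩ := mem_lower.1 h; ⟨t, by rw [← e, ht]⟩,
    fun ⟨t, e⟩ => ⟨_, mem_lower.2 ⟨t, rfl⟩, e.symm⟩⟩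

theorem upS_le (φ : SL(2, K) →* E) : upS φ ≤ φ.range := map_le_range _ _
theorem loS_le (φ : SL(2, K) →* E) : loS φ ≤ φ.range := map_le_range _ _

theorem range_eq_sup (φ : SL(2, K) →* E) : φ.range = upS φ ⊔ loS φ :=
  le_antisymm (by
    rintro _ ⟨g, rfl⟩
    exact sl_induction (p := fun g => φ g ∈ upS φ ⊔ loS φ)
      (fun t => mem_sup_left (mem_upS.2 ⟨t, rfl⟩)) (fun t => mem_sup_right (mem_loS.2 ⟨t, rfl⟩))
      (fun a b h1 h2 => by rw [map_mul]; exact mul_mem h1 h2) g) (sup_le (upS_le φ) (loS_le φ))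

theorem cj_upS (φ : SL(2, K) →* E) : cj (φ (ww xx yy 1)) (upS φ) = loS φ := cj_upper φ

theorem comm_upS (φ : SL(2, K) →* E) : Comm (upS φ) (upS φ) := fun a ha b hb => by
  obtain ⟨s, rfl⟩ := mem_upS.1 ha
  obtain ⟨t, rfl⟩ := mem_upS.1 hb
  rw [← map_mul, ← map_mul, ← rel_SL.x_add, ← rel_SL.x_add, add_comm]

theorem cj_conj {T A : Subgroup E} {g t : E} (hg : cj g T = T) (ht : t ∈ T)
    (hA : ∀ t ∈ T, cj t A = A) : cj t (cj g A) = cj g A := by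
  have : g⁻¹ * t * g ∈ T := mem_cj.1 (hg.ge ht)
  conv_rhs => rw [← hA _ this, cj_cj]
  rw [cj_cj]; congr 1; group

theorem all_hx [Fintype K] {ω : Kˣ} (hω : ∀ u : Kˣ, u ∈ zpowers ω) (φ : SL(2, K) →* E)
    {C : Subgroup E} (h1 : φ (xx 1) ∈ C) (h2 : ∀ t, φ (xx t) ∈ C → φ (xx (ω ^ 2 * t)) ∈ C) :
    upS φ ≤ C := fun g hg => by
  obtain ⟨t, rfl⟩ := mem_upS.1 hg
  exact all_of_sq_stable hω (P := fun t => φ (xx t) ∈ C) (by rw [xx_add.zero, map_one]; exact one_mem _)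
    (fun a b h h' => by rw [xx_add, map_mul]; exact mul_mem h h') h2 one_ne_zero h1 t

theorem comm_conj {B : Subgroup E} {g a : E} (hg : cj g B = B) (h : a ∈ centralizer (B : Set E)) :
    g * a * g⁻¹ ∈ centralizer (B : Set E) := fun b hb => by
  obtain ⟨b', hb', rfl⟩ := exists_of_mem_cj (hg.ge hb)
  simp only [mul_assoc, inv_mul_cancel_left, mul_right_inj]
  rw [← mul_assoc, h b' hb', mul_assoc]

end Gen

variable {F : Type*} [Field F] {V : Type*} [AddCommGroup V] [Module F V]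
  {σ : F →+* F} {B : V →ₛₗ[σ] V →ₗ[F] F} {Q : V → F} [FiniteDimensional F V]
  {P : Frame (ctC 2) ℤ 1 1 (trHom σ) B Q} {K : Type*} [Field K] {ι : K →+* F} {η : F}
  {j : SL(2, F) →* P.cl.Om} {l : SL(2, K) →* P.cl.Om}

namespace SUDat

variable (D : SUDat P ι η j l)
include D

theorem up_j : upS j = P.rgdO.U (rx ℤ (a := a0) (b := b1) (by decide)) := by
  ext g; simp [mem_upS, P.mem_rx, D.jx]

theorem lo_j : loS j = P.rgdO.U (rx ℤ (a := a1) (b := b0) (by decide)) := by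
  ext g; simp [mem_loS, P.mem_rx, D.jy]

theorem mem_y {a : (ctC 2).ι} {g : P.cl.Om} : g ∈ P.rgdO.U (ry ℤ rfl a) ↔ ∃ t, g = P.yo a 0 (ι t * η) := by
  refine (P.mem_ry rfl).trans ⟨fun ⟨w, x, hw, e⟩ => ?_, fun ⟨t, e⟩ => ⟨_, _, D.vp t, e⟩⟩
  obtain rfl := D.h0 w hw.1
  obtain ⟨u, rfl⟩ := D.tr0 x (hw.2.trans P.cl.Q_zero)
  exact ⟨u, e⟩

theorem up_l : upS l = P.rgdO.U (ry ℤ rfl a1) := by
  ext g; simp [mem_upS, D.mem_y, D.lx]

theorem lo_l : loS l = P.rgdO.U (ry ℤ rfl b1) := by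
  ext g
  rw [mem_loS, D.mem_y]
  obtain ⟨e, he⟩ := D.hK (η * η) (by simp [D.hη])
  have := D.η0
  have e0 : e ≠ 0 := fun h => by simp_all
  refine ⟨fun ⟨t, h⟩ => ⟨t / e, ?_⟩, fun ⟨t, h⟩ => ⟨t * e, ?_⟩⟩
  · rw [h, D.ly, map_div₀, ← he]; congr 1; field_simp
  · rw [h, D.ly, map_mul, ← he]; congr 1; field_simp

theorem hT {t : F} (ht : t ≠ 0) : j (hh xx yy t) ∈ P.rgdO.T := P.mem_rgdO_T.2 fun a => by
  have := D.h t ht
  rcases cases4 a with rfl | rfl | rfl | rfl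
  exacts [⟨_, this.1⟩, ⟨_, this.2.1⟩, ⟨_, this.2.2.1⟩, ⟨_, this.2.2.2⟩]

theorem kT {t : K} (ht : t ≠ 0) : l (hh xx yy t) ∈ P.rgdO.T := P.mem_rgdO_T.2 fun a => by
  have := D.k t ht
  rcases cases4 a with rfl | rfl | rfl | rfl
  exacts [⟨_, this.1⟩, ⟨_, this.2.1⟩, ⟨_, this.2.2.1⟩, ⟨_, this.2.2.2⟩]

theorem fn : P.Mon (Equiv.sumCongr Fin.revPerm Fin.revPerm) (j (ww xx yy 1)).1 :=
  ⟨(j _).2, fun a => by
    rcases cases4 a with rfl | rfl | rfl | rfl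
    exacts [⟨_, D.n.1⟩, ⟨_, D.n.2.1⟩, ⟨_, D.n.2.2.1⟩, ⟨_, D.n.2.2.2⟩]⟩

theorem fz : P.Mon (Equiv.swap a1 b1) (l (ww xx yy 1)).1 :=
  ⟨(l _).2, fun a => by
    rcases cases4 a with rfl | rfl | rfl | rfl
    exacts [⟨_, D.z.1⟩, ⟨_, D.z.2.1⟩, ⟨_, D.z.2.2.1⟩, ⟨_, D.z.2.2.2⟩]⟩

theorem disj (t : K) (s : F) (h : j (ww xx yy 1) * l (xx t) * (j (ww xx yy 1))⁻¹ *
    (l (ww xx yy 1) * j (xx s) * (l (ww xx yy 1))⁻¹) = 1) : s = 0 := by
  rw [D.n_y, D.z_x] at h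
  have := congrArg (fun g : P.cl.Om => g.1 (P.f a1.swap)) h
  simp only [Subgroup.coe_mul, LinearEquiv.mul_apply, yo_val (D.vp t), P.xo_val (a := a0) (b := a1) (by decide),
    P.X_swap_right (a := a0) (b := a1) (by decide) (by decide), map_add, map_smul,
    P.Y_f (a := a0) (c := a0) (zero_mem _) _ (by decide),
    P.Y_f (a := a0) (c := a1.swap) (zero_mem _) _ (by decide)] at this
  exact (f_li P (a := a0) (b := a1) (by decide) _ 0 (by simpa [beta_one', D.η0] using this)).1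

end SUDat

theorem cj_T {t : P.cl.Om} (ht : t ∈ P.rgdO.T) (r) : cj t (P.rgdO.U r) = P.rgdO.U r := by
  ext u
  rw [mem_cj]
  exact ⟨fun h => by simpa [mul_assoc] using P.rgdO.T_conj t ht r _ h,
    fun h => by simpa using P.rgdO.T_conj _ (inv_mem ht) r _ h⟩

theorem core_SU4 [Fintype F] [Fintype K] (D : SUDat P ι η j l) {E : Type*} [Group E]
    {f : E →* P.cl.Om} {φ : SL(2, F) →* E} {ψ : SL(2, K) →* E} (fφ : ∀ g, f (φ g) = j g)
    (fψ : ∀ g, f (ψ g) = l g) {ω : Fˣ} {c : Kˣ} (hω : ∀ u : Fˣ, u ∈ zpowers ω)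
    (hc : ∀ u : Kˣ, u ∈ zpowers c) {x h n y k z : E} (R : SURel ι ω c φ ψ x h n y k z) :
    ∀ g ∈ φ.range ⊔ ψ.range, f g = 1 → g = 1 := by
  have i1 : ∀ g ∈ φ.range, f g = 1 → g = 1 := by
    rintro _ ⟨g, rfl⟩ e
    rw [fφ, map_eq_one_iff _ D.ji] at e; rw [e, map_one]
  have i2 : ∀ g ∈ ψ.range, f g = 1 → g = 1 := by
    rintro _ ⟨g, rfl⟩ e
    rw [fψ, map_eq_one_iff _ D.li] at e; rw [e, map_one]
  have ic : ∀ {A : Subgroup E} (g : E), (∀ v ∈ A, f v = 1 → v = 1) → ∀ v ∈ cj g A, f v = 1 → v = 1 :=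
    fun g h v hv e => by
      obtain ⟨u, hu, rfl⟩ := exists_of_mem_cj hv
      rw [h u hu (by simpa [mul_inv_eq_one] using e)]; simp
  have cφ : f.comp φ = j := MonoidHom.ext fφ
  have cψ : f.comp ψ = l := MonoidHom.ext fψ
  have mU : (upS φ).map f = _ := ((map_map ..).trans (cφ ▸ rfl)).trans D.up_j
  have mV : (loS φ).map f = _ := ((map_map ..).trans (cφ ▸ rfl)).trans D.lo_j
  have mU' : (upS ψ).map f = _ := ((map_map ..).trans (cψ ▸ rfl)).trans D.up_l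
  have mV' : (loS ψ).map f = _ := ((map_map ..).trans (cψ ▸ rfl)).trans D.lo_l
  have c0 : ι c ≠ 0 := (map_ne_zero ι).2 c.ne_zero
  have fn : f n = j (ww xx yy 1) := by rw [R.hn, fφ]
  have fz : f z = l (ww xx yy 1) := by rw [R.hz, fψ]
  have fh : f h = j (hh xx yy ω) := by rw [R.hh', fφ]
  have fk : f k = l (hh xx yy c) := by rw [R.hk, fψ]
  have nL : n ∈ φ.range := ⟨_, R.hn.symm⟩
  have hL : h ∈ φ.range := ⟨_, R.hh'.symm⟩
  have zL : z ∈ ψ.range := ⟨_, R.hz.symm⟩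
  have kL : k ∈ ψ.range := ⟨_, R.hk.symm⟩
  have kL1 : cj k φ.range = φ.range := cj_range (s2_gen hω) fun i => by
    fin_cases i
    · exact ⟨_, (R.hx ▸ R.b3).symm⟩
    · change k * φ (hh xx yy ω) * k⁻¹ ∈ _
      rw [← R.hh', ← R.b2, mul_inv_cancel_right]; exact hL
    · change k * φ (ww xx yy 1) * k⁻¹ ∈ _
      rw [← R.hn, show k * n * k⁻¹ = (n * k * n⁻¹ * k⁻¹)⁻¹ * n by group, R.b4]
      exact mul_mem (inv_mem ⟨_, rfl⟩) nL
  have hL2 : cj h ψ.range = ψ.range := cj_range (s2_gen hc) fun i => by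
    fin_cases i
    · exact ⟨_, (R.hy ▸ R.b1).symm⟩
    · change h * ψ (hh xx yy c) * h⁻¹ ∈ _
      rw [← R.hk, R.b2, mul_inv_cancel_right]; exact kL
    · change h * ψ (ww xx yy 1) * h⁻¹ ∈ _
      rw [← R.hz, show h * z * h⁻¹ = (z * h * z⁻¹ * h⁻¹)⁻¹ * z by group, ← R.b0]
      exact mul_mem (inv_mem kL) zL
  set T := closure {h, k}
  have hT : h ∈ T := subset_closure (by simp)
  have kT : k ∈ T := subset_closure (by simp)
  have TL : ∀ t ∈ T, cj t φ.range = φ.range ∧ cj t ψ.range = ψ.range ∧ f t ∈ P.rgdO.T :=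
    fun t ht => by
      have := (closure_le (K := normalizer (φ.range : Set E) ⊓ normalizer (ψ.range : Set E) ⊓
        P.rgdO.T.comap f)).2 (Set.pair_subset
          ⟨⟨cj_eq_self_iff.1 (cj_of_mem hL), cj_eq_self_iff.1 hL2⟩, mem_comap.2 (fh ▸ D.hT ω.ne_zero)⟩
          ⟨⟨cj_eq_self_iff.1 kL1, cj_eq_self_iff.1 (cj_of_mem kL)⟩, mem_comap.2 (fk ▸ D.kT c.ne_zero)⟩) ht
      exact ⟨cj_eq_self_iff.2 this.1.1, cj_eq_self_iff.2 this.1.2, this.2⟩
  have TN : ∀ {L A : Subgroup E} {r}, (∀ g ∈ L, f g = 1 → g = 1) → A ≤ L → A.map f = P.rgdO.U r →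
      (∀ t ∈ T, cj t L = L) → ∀ t ∈ T, cj t A = A := fun h1 h2 h3 h4 t ht =>
    eq_of_inj h1 ((cj_mono t h2).trans (h4 t ht).le) h2 (by rw [map_cj, h3, cj_T (TL t ht).2.2])
  have TU := TN i1 (upS_le φ) mU fun t ht => (TL t ht).1
  have TV := TN i1 (loS_le φ) mV fun t ht => (TL t ht).1
  have TU' := TN i2 (upS_le ψ) mU' fun t ht => (TL t ht).2.1
  have TV' := TN i2 (loS_le ψ) mV' fun t ht => (TL t ht).2.1
  have hz : ∀ t, t ≠ 0 → φ (hh xx yy t) ∈ T := fun t ht => by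
    obtain ⟨m, hm⟩ := hh_mem_zpowers hω ht
    rw [← hm, map_zpow, ← R.hh']; exact zpow_mem hT m
  have kz : ∀ t, t ≠ 0 → ψ (hh xx yy t) ∈ T := fun t ht => by
    obtain ⟨m, hm⟩ := hh_mem_zpowers hc ht
    rw [← hm, map_zpow, ← R.hk]; exact zpow_mem kT m
  have nn : n * n ∈ T := by rw [R.hn, ← map_mul, ww_sq]; exact hz _ (by simp)
  have zz : z * z ∈ T := by rw [R.hz, ← map_mul, ww_sq]; exact kz _ (by simp)
  have k' : n * k * n⁻¹ = φ (hh xx yy (ι c)) * k := by rw [← R.b4]; group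
  have nT : cj n T = T := cj_pair (by
      have := congrArg φ (s2_wh (ω := ω))
      simp only [map_mul, map_inv] at this
      rw [show n * h * n⁻¹ = h⁻¹ by rw [R.hn, R.hh']; exact this]; exact inv_mem hT)
    (k' ▸ mul_mem (hz _ c0) kT) nn
  have zT : cj z T = T := cj_pair (by
      rw [show z * h * z⁻¹ = k * h by rw [R.b0]; group]; exact mul_mem kT hT) (by
      have := congrArg ψ (s2_wh (ω := c))
      simp only [map_mul, map_inv] at this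
      rw [show z * k * z⁻¹ = k⁻¹ by rw [R.hz, R.hk]; exact this]; exact inv_mem kT) zz
  have n1 : cj n (upS φ) = loS φ := R.hn ▸ cj_upS φ
  have z1 : cj z (upS ψ) = loS ψ := R.hz ▸ cj_upS ψ
  have n2 : cj n (loS φ) = upS φ := by rw [← n1, cj_cj, TU _ nn]
  have z2 : cj z (loS ψ) = upS ψ := by rw [← z1, cj_cj, TU' _ zz]
  have n5 : cj n (cj n (upS ψ)) = upS ψ := by rw [cj_cj, TU' _ nn]
  have z6 : cj z (cj z (loS φ)) = loS φ := by rw [cj_cj, TV _ zz]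
  have z5 : cj z (cj z (upS φ)) = upS φ := by rw [cj_cj, TU _ zz]
  have yU : y ∈ upS ψ := mem_upS.2 ⟨1, R.hy⟩
  have xU : x ∈ upS φ := mem_upS.2 ⟨1, R.hx⟩
  have k'T : n * k * n⁻¹ ∈ T := nT.le (conj_mem_cj n kT)
  have ky : ∀ t, n * ψ (xx (c ^ 2 * t)) * n⁻¹ = n * k * n⁻¹ * (n * ψ (xx t) * n⁻¹) * (n * k * n⁻¹)⁻¹ :=
    fun t => by rw [map_hx, ← R.hk]; group
  -- the two long root subgroups commute
  have C1 : Comm (cj n (upS ψ)) ψ.range := by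
    have e : k * (n * y * n⁻¹) * k⁻¹ = n * y * n⁻¹ := eq_of_map (ic n i2)
      (cj_mono n (upS_le ψ) ((cj_conj nT kT TU').le (conj_mem_cj k (conj_mem_cj n yU))))
      (cj_mono n (upS_le ψ) (conj_mem_cj n yU)) (by
        simp only [map_mul, map_inv, fk, fn, R.hy, fψ]
        rw [(D.comm _ _).eq, mul_inv_cancel_right])
    have e1 : n * y * n⁻¹ ∈ centralizer (ψ.range : Set E) := by
      rintro _ ⟨g, rfl⟩
      refine (closure_le (K := (centralizer {n * y * n⁻¹}).comap ψ)).2 ?_ ((s2_gen hc).ge (mem_top g))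
        _ rfl |>.symm
      rintro _ ⟨i, rfl⟩ _ rfl
      fin_cases i
      · exact R.hy ▸ R.a1.symm
      · exact R.hk ▸ (mul_inv_eq_iff_eq_mul.1 e).symm
      · exact R.hz ▸ R.a2.symm
    have := all_hx hc ψ (C := cj n⁻¹ (centralizer (ψ.range : Set E)))
      (mem_cj.2 (by simpa [← R.hy] using e1)) fun t ht => mem_cj.2 (by
        rw [inv_inv, ky]
        exact comm_conj (TL _ k'T).2.1 (by simpa using mem_cj.1 ht))
    exact comm_iff_le.2 (by simpa using cj_mono n this)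
  have C2 : Comm (cj n ψ.range) ψ.range := by
    have e : Comm (upS ψ) (cj n ψ.range) := n5 ▸ C1.cj n
    have e1 : n * z * n⁻¹ ∈ centralizer (ψ.range : Set E) := by
      have e2 : cj z (centralizer {n * z * n⁻¹}) = centralizer {n * z * n⁻¹} :=
        cj_of_mem (by rintro _ rfl; exact R.a3.symm)
      have e3 : upS ψ ≤ centralizer {n * z * n⁻¹} := by
        rintro a ha _ rfl; exact (e a ha _ (conj_mem_cj n zL)).symm
      intro g hg
      rw [range_eq_sup] at hg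
      exact (sup_le e3 (z1 ▸ (cj_mono z e3).trans e2.le) hg _ rfl).symm
    have e2 := comm_iff_le.1 C1
    rw [comm_iff_le]
    conv_lhs => rw [range_eq_sup, cj_sup, ← z1]
    refine sup_le e2 ?_
    rw [cj_cj, show n * z = n * z * n⁻¹ * n by group, cj_mul]
    exact cj_le_of_le e2 e1
  have C3 : ∀ {A A' : Subgroup E}, A ≤ ψ.range → A' ≤ ψ.range → Comm (cj n A) A' :=
    fun h1 h2 => C2.mono (cj_mono n h1) h2
  have n3 : cj n (cj z (upS φ)) = cj z (upS φ) := by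
    have e : ∀ t ∈ T, (z⁻¹ * n * z) * t * (z⁻¹ * n * z)⁻¹ ∈ T := fun t ht => by
      have := (cj_inv_eq_self zT).le (conj_mem_cj _ (nT.le (conj_mem_cj n (zT.le (conj_mem_cj z ht)))))
      simpa [mul_assoc] using this
    have := all_hx hω φ (C := cj (z⁻¹ * n * z)⁻¹ (upS φ)) (mem_cj.2 (by
        rw [← R.hx, inv_inv, show z⁻¹ * n * z * x * (z⁻¹ * n * z)⁻¹ =
          z⁻¹ * (n * (z * x * z⁻¹) * n⁻¹) * z by group, R.c1]
        simpa [mul_assoc] using xU)) fun t ht => mem_cj.2 (by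
        have := (TU _ (e h hT)).le (conj_mem_cj _ (mem_cj.1 ht))
        rw [map_hx, ← R.hh']
        simpa [mul_assoc] using this)
    have e' := cj_eq_self_iff.2 (@mem_normalizer_fintype _ _ (upS φ : Set E)
      ((Set.finite_range φ).subset (upS_le φ)) (z⁻¹ * n * z)
      fun a ha => by simpa using mem_cj.1 (this ha))
    conv_rhs => rw [← e']
    simp only [cj_cj]; congr 1; group
  have n4 : cj n (cj z (loS φ)) = cj z (loS φ) := by
    have e : cj n (cj z (loS φ)) = cj (z⁻¹ * n * z * n⁻¹) (cj z (upS φ)) := by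
      rw [← n2, cj_cj, cj_cj, cj_cj, show z⁻¹ * n * z * n⁻¹ * z * n = z⁻¹ * (n * z * n⁻¹ * z) * n by group,
        ← R.a3]
      congr 1; group
    rw [e, cj_mul, cj_inv_eq_self n3, cj_mul, z5, cj_mul, n1, ← z6, cj_inv_cj, z6]
  -- the torus element `τ` centralizes `U` and scales the long root groups
  have kx : ∀ s, k * φ (xx s) * k⁻¹ = φ (xx ((ι c)⁻¹ * s)) := fun s => eq_of_map i1
    (kL1.le (conj_mem_cj k ⟨_, rfl⟩)) ⟨_, rfl⟩ (by
      simp only [map_mul, map_inv, fk, fφ, D.jx]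
      rw [conj_xo (by decide) (by decide) (D.k c c.ne_zero).1 (D.k c c.ne_zero).2.2.2]; simp)
  have hy : ∀ s, h * ψ (xx s) * h⁻¹ ∈ upS ψ := fun s =>
    (TU' h hT).le (conj_mem_cj h (mem_upS.2 ⟨s, rfl⟩))
  obtain ⟨τ, hτ⟩ : ∃ τ, τ = k * (n * k * n⁻¹) := ⟨_, rfl⟩
  have τT : τ ∈ T := hτ ▸ mul_mem kT k'T
  have τx : ∀ s, τ * φ (xx s) * τ⁻¹ = φ (xx s) := fun s => by
    have := map_hx φ (Units.mk0 _ c0) ((ι c)⁻¹ * s)
    simp only [Units.val_mk0] at this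
    rw [hτ, k', show k * (φ (hh xx yy (ι c)) * k) * φ (xx s) * (k * (φ (hh xx yy (ι c)) * k))⁻¹ =
      k * (φ (hh xx yy (ι c)) * (k * φ (xx s) * k⁻¹) * (φ (hh xx yy (ι c)))⁻¹) * k⁻¹ by group, kx,
      ← this, kx]
    congr 2; field_simp
  have τy' : ∀ t, n * ψ (xx (c ^ 2 * t)) * n⁻¹ = τ * (n * ψ (xx t) * n⁻¹) * τ⁻¹ := fun t => by
    rw [hτ, show k * (n * k * n⁻¹) * (n * ψ (xx t) * n⁻¹) * (k * (n * k * n⁻¹))⁻¹ =
      k * (n * k * n⁻¹ * (n * ψ (xx t) * n⁻¹) * (n * k * n⁻¹)⁻¹) * k⁻¹ by group, ← ky,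
      ← C2 _ (conj_mem_cj n ⟨_, rfl⟩) k kL, mul_inv_cancel_right]
  have τy : ∀ t, ψ (xx (c ^ 2 * t)) = τ * ψ (xx t) * τ⁻¹ := fun t => by
    rw [hτ, show k * (n * k * n⁻¹) * ψ (xx t) * (k * (n * k * n⁻¹))⁻¹ =
      k * (n * k * n⁻¹ * ψ (xx t) * (n * k * n⁻¹)⁻¹) * k⁻¹ by group,
      C2 _ (conj_mem_cj n kL) _ ⟨_, rfl⟩, mul_inv_cancel_right, map_hx, ← R.hk]
  have C6 : Comm (upS φ) (cj n (upS ψ)) := by
    have e : cj n (upS ψ) ≤ centralizer {x} := by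
      have := all_hx hc ψ (C := cj n⁻¹ (centralizer {x}))
        (mem_cj.2 (by rintro _ rfl; simpa [← R.hy] using R.d1)) fun t ht => mem_cj.2 (by
          rintro _ rfl
          have e := mem_cj.1 ht _ rfl
          rw [inv_inv] at e ⊢
          rw [τy']
          conv_lhs => rw [R.hx, ← τx, ← R.hx]
          conv_rhs => rw [R.hx, ← τx, ← R.hx]
          simpa [mul_assoc] using congrArg (fun g => τ * g * τ⁻¹) e)
      simpa using cj_mono n this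
    exact comm_iff_le.2 (all_hx hω φ (fun a ha => (R.hx ▸ e ha _ rfl).symm) fun t ht => by
      rw [map_hx, ← R.hh']; exact comm_conj (cj_conj nT hT TU') ht)
  have z3 : cj z (cj n (upS ψ)) = cj n (upS ψ) := (C3 (upS_le ψ) le_rfl).symm.cj_eq zL
  have C7 : Comm (cj z (upS φ)) (cj n (upS ψ)) := z3 ▸ C6.cj z
  have C8 : Comm (upS ψ) (cj n (upS ψ) ⊔ cj z (upS φ)) :=
    (C3 (upS_le ψ) (upS_le ψ)).symm.sup_right (by simpa [n3, n5] using (C7.cj n).symm)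
  set D0 := cj n (upS ψ) ⊔ cj z (upS φ)
  have TD : ∀ t ∈ T, cj t D0 = D0 := fun t ht => by
    rw [cj_sup, cj_conj nT ht TU', cj_conj zT ht TU]
  have c7a : ∀ s, y * φ (xx s) * y⁻¹ * (φ (xx s))⁻¹ ∈ D0 → ∀ v ∈ upS ψ,
      v * φ (xx s) * v⁻¹ * (φ (xx s))⁻¹ ∈ D0 := fun s hs v hv => by
    obtain ⟨t, rfl⟩ := mem_upS.1 hv
    refine all_of_sq_stable hc (P := fun t => ψ (xx t) * φ (xx s) * (ψ (xx t))⁻¹ * (φ (xx s))⁻¹ ∈ D0)
      (by simp [xx_add.zero]) (fun a b h1 h2 => ?_) (fun a h1 => ?_) one_ne_zero (R.hy ▸ hs) t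
    · have := mul_mem h2 h1
      rw [← mul_assoc, ← mul_assoc, ← mul_assoc, ← C8 _ (mem_upS.2 ⟨a, rfl⟩) _ h2] at this
      rw [xx_add, map_mul]
      simpa [mul_assoc] using this
    · have := (TD τ τT).le (conj_mem_cj τ h1)
      rw [τy, ← τx]
      simpa [mul_assoc] using this
  have c7 : ∀ s, ∀ v ∈ upS ψ, v * φ (xx s) * v⁻¹ * (φ (xx s))⁻¹ ∈ D0 := fun s => by
    rcases eq_or_ne s 0 with rfl | s0
    · simp [xx_add.zero]
    obtain ⟨m, rfl⟩ := exists_pow hω s0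
    induction m using Nat.twoStepInduction with
    | zero => exact c7a _ (by
        rw [pow_zero, ← R.hx, R.e1]
        exact mul_mem (mem_sup_left (conj_mem_cj n (inv_mem yU))) (mem_sup_right (conj_mem_cj z xU)))
    | one => exact c7a _ (by
        rw [pow_one, R.e2]
        exact mul_mem (mem_sup_left (conj_mem_cj n (mem_upS.2 ⟨_, rfl⟩)))
          (mem_sup_right (conj_mem_cj z (mem_upS.2 ⟨_, rfl⟩))))
    | more m ih _ =>
      intro v hv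
      obtain ⟨v, hv', rfl⟩ := exists_of_mem_cj ((TU' h hT).ge hv)
      have := (TD h hT).le (conj_mem_cj h (ih (pow_ne_zero _ ω.ne_zero) v hv'))
      rw [pow_add, mul_comm (_ ^ m), map_hx, ← R.hh']
      simpa [mul_assoc] using this
  have iD : ∀ g ∈ D0, f g = 1 → g = 1 := fun g hg e => by
    obtain ⟨a, ha, b, hb, rfl⟩ := C7.symm.mem_sup hg
    obtain ⟨a, ha', rfl⟩ := exists_of_mem_cj ha
    obtain ⟨b, hb', rfl⟩ := exists_of_mem_cj hb
    obtain ⟨t, rfl⟩ := mem_upS.1 ha'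
    obtain ⟨s, rfl⟩ := mem_upS.1 hb'
    obtain rfl := D.disj t s (by simpa only [map_mul, map_inv, fn, fz, fφ, fψ] using e)
    simp only [xx_add.zero, map_one, mul_one, mul_inv_cancel] at e ⊢
    exact ic n i2 _ (cj_mono n (upS_le ψ) ha) e
  have c4a : ∀ s, ∃ p ∈ cj n (upS ψ), y * φ (xx s) * y⁻¹ = p * (z * φ (xx s) * z⁻¹) * φ (xx s) :=
    fun s => by
      obtain ⟨u, hu⟩ := D.hK (-(σ s * s * ι 1)) (by simp [P.cl.invol, mul_comm])
      refine ⟨_, conj_mem_cj n (mem_upS.2 ⟨u, rfl⟩), mul_inv_eq_iff_eq_mul.1 (eq_of_map iD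
        (c7 s y yU) (mul_mem (mem_sup_left (conj_mem_cj n (mem_upS.2 ⟨_, rfl⟩)))
          (mem_sup_right (conj_mem_cj z (mem_upS.2 ⟨_, rfl⟩)))) ?_)⟩
      simpa only [map_mul, map_inv, fn, fz, fφ, fψ, R.hy, map_one, one_mul] using D.cm s 1 u hu.symm
  have c4 : CmIn (upS φ) (cj z (upS φ)) (cj n (upS ψ)) := fun u hu v hv => by
    obtain ⟨v, hv', rfl⟩ := exists_of_mem_cj hv
    obtain ⟨s, rfl⟩ := mem_upS.1 hu
    obtain ⟨r, rfl⟩ := mem_upS.1 hv'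
    obtain ⟨p1, h1, e1⟩ := c4a s
    obtain ⟨p2, h2, e2⟩ := c4a r
    obtain ⟨p3, h3, e3⟩ := c4a (s + r)
    rw [xx_add, map_mul, show y * (φ (xx s) * φ (xx r)) * y⁻¹ = y * φ (xx s) * y⁻¹ * (y * φ (xx r) * y⁻¹)
      by group, e1, e2, show z * (φ (xx s) * φ (xx r)) * z⁻¹ = z * φ (xx s) * z⁻¹ * (z * φ (xx r) * z⁻¹)
      by group] at e3
    have e4 := C6 _ hu _ h2
    have e5 := C7 _ (conj_mem_cj z hu) _ (mul_mem (inv_mem h1) h3)
    generalize z * φ (xx s) * z⁻¹ = s' at *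
    generalize z * φ (xx r) * z⁻¹ = r' at *
    have : φ (xx s) * r' * (φ (xx s))⁻¹ * r'⁻¹ = p2⁻¹ * (p1⁻¹ * p3) := by
      calc _ = p2⁻¹ * s'⁻¹ * p1⁻¹ * (p1 * s' * φ (xx s) * (p2 * r' * φ (xx r))) *
            (φ (xx s) * φ (xx r))⁻¹ * r'⁻¹ := by
            rw [show p1 * s' * φ (xx s) * (p2 * r' * φ (xx r)) = p1 * s' * (φ (xx s) * p2) * r' * φ (xx r)
              by group, e4]; group
        _ = p2⁻¹ * s'⁻¹ * ((p1⁻¹ * p3) * s') := by rw [e3]; group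
        _ = _ := by rw [← e5]; group
    exact this ▸ mul_mem (inv_mem h2) (mul_mem (inv_mem h1) h3)
  rw [range_eq_sup φ, range_eq_sup ψ]
  exact inj_two_frame D.h0 ι D.hι D.η0 (show η + σ η = 0 by simp [D.hη]) D.tr0 (fn ▸ D.fn) (fz ▸ D.fz)
    mU (fun g hg => i1 g (upS_le φ hg)) mU' (fun g hg => i2 g (upS_le ψ hg)) n1 n2 n3 n4 n5
    (by rw [cj_cj, TV' _ nn]) z1 z2 z3 ((C3 (loS_le ψ) le_rfl).symm.cj_eq zL) z5 z6 c4
    (cmIn_of_comm C6) (CmIn.symm fun v hv u hu => by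
      obtain ⟨s, rfl⟩ := mem_upS.1 hu; exact c7 s v hv) (cmIn_of_comm (C3 (upS_le ψ) (loS_le ψ)))

end Cfsg.Agent.H12
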