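import Mathlib
import Cfsg.Agent.H12.PrU3
import Cfsg.Agent.H17.MulU3

/-!
A bounded presentation of `SU₄(q)`.
-/

set_option autoImplicit false
set_option linter.unusedSectionVars false

namespace Cfsg.Agent.H12

open Subgroup H7.Pr H19 H19.St H10 H11 H17 H17.CT H17.Frame
open FreeGroup (lift of lift_apply_of)
open scoped MatrixGroups

universe u

variable {F : Type u} [Field F] {V : Type u} [AddCommGroup V] [Module F V]
  {σ : F →+* F} {B : V →ₛₗ[σ] V →ₗ[F] F} {Q : V → F} [FiniteDimensional F V]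
  {P : Frame (ctC 2) ℤ 1 1 (trHom σ) B Q} {K : Type*} [Field K] {ι : K →+* F} {η : F}
  {j : SL(2, F) →* P.cl.Om} {l : SL(2, K) →* P.cl.Om}

theorem SUDat.top (D : SUDat P ι η j l) {S : Subgroup P.cl.Om} (h1 : j.range ≤ S)
    (h2 : l (ww xx yy 1) ∈ S) : S = ⊤ := by
  have key : ∀ {ρ : Equiv.Perm (ctC 2).ι} {g : P.cl.Om}, P.Mon ρ g.1 → g ∈ S → ∀ a b, idx a ≠ idx b →
      idx (ρ a) ≠ idx (ρ b) → (∀ t, P.xo a b t ∈ S) → ∀ t, P.xo (ρ a) (ρ b) t ∈ S :=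
    fun {ρ g} h hg a b e e' h' t => by
      obtain ⟨x, hx⟩ := h.2 a
      obtain ⟨y, hy⟩ := h.2 b
      have x0 : x ≠ 0 := by rintro rfl; exact (f_li P (swap_ne_self a).symm 1 0 (by simpa using hx)).1 |> one_ne_zero
      have y0 : y ≠ 0 := by rintro rfl; exact (f_li P (swap_ne_self b).symm 1 0 (by simpa using hy)).1 |> one_ne_zero
      have := mul_mem (mul_mem hg (h' (t / (σ x * y)))) (inv_mem hg)
      rwa [conj_xo e e' hx hy, mul_div_cancel₀ _ (by simp [x0, y0])] at this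
  have ez : ∀ a, ρz a = Equiv.swap a1 b1 a := by decide
  have hX := all_pairs (Pr := fun a b => ∀ t, P.xo a b t ∈ S)
    (fun a b e h => key D.fn (h1 ⟨_, rfl⟩) a b e (by clear h; revert a b; decide) h)
    (fun a b e h => by simp only [ez]; exact key D.fz h2 a b e (by clear h; revert a b; decide) h)
    fun t => h1 ⟨_, D.jx t⟩
  rw [eq_top_iff, ← P.rgdO_US_univ]
  refine RGD.US_le.2 fun r _ g hg => ?_
  rcases root_cases r with ⟨a, b, h, rfl⟩ | ⟨h, a, rfl⟩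
  · obtain ⟨t, rfl⟩ := (P.mem_rx h).1 hg
    exact hX a b h t
  · obtain ⟨t, rfl⟩ := D.mem_y.1 hg
    obtain ⟨b, hb⟩ := exists_ix₁ (C := ctC 2) le_rfl a
    obtain ⟨s, e⟩ := P.exists_cm hb (x := ι t * η) (by simp [D.hι, D.hη])
    rw [← e]
    exact mul_mem (mul_mem (mul_mem (hX _ _ ix _) (hX _ _ hb _)) (inv_mem (hX _ _ ix _)))
      (inv_mem (hX _ _ hb _))

theorem SUDat.pres [Fintype F] [Fintype K] (D : SUDat P ι η j l) {ω : Fˣ} {c : Kˣ}
    (hω : ∀ u : Fˣ, u ∈ zpowers ω) (hc : ∀ u : Kˣ, u ∈ zpowers c) (e : ι c = σ ω * ω) {r1 r2 : ℕ}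
    (h1 : Pres (s2 ω) r1) (h2 : Pres (s2 c) r2) : ∃ s : Fin 4 → P.cl.Om, Pres s (r1 + r2 + 11) := by
  have R := D.rel e
  let s : Fin 4 → P.cl.Om := ![j (xx 1), j (hh xx yy ω), j (ww xx yy 1), l (ww xx yy 1)]
  let W1 : Fin 3 → FreeGroup (Fin 4) := ![of 0, of 1, of 2]
  have hW1 : ∀ i, j (s2 ω i) = lift s (W1 i) := fun i => by fin_cases i <;> simp [s, W1, s2]
  have hs : closure (Set.range s) = ⊤ := D.top (by
    rintro _ ⟨g, rfl⟩
    exact (closure_le (K := (closure (Set.range s)).comap j)).2 (by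
      rintro _ ⟨i, rfl⟩
      fin_cases i
      exacts [subset_closure ⟨0, rfl⟩, subset_closure ⟨1, rfl⟩, subset_closure ⟨2, rfl⟩])
      (h1.1.ge (mem_top g))) (subset_closure ⟨3, rfl⟩)
  obtain ⟨Y, hY⟩ := exists_word hs (l (xx 1))
  let Z : FreeGroup (Fin 4) := of 3 * of 1 * (of 3)⁻¹ * (of 1)⁻¹
  have hZ : lift s Z = l (hh xx yy c) := by simpa [Z, s] using R.b0.symm
  let W2 : Fin 3 → FreeGroup (Fin 4) := ![Y, Z, of 3]
  have hW2 : ∀ i, l (s2 c i) = lift s (W2 i) := fun i => by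
    fin_cases i
    exacts [hY.symm, hZ.symm, by simp [s, W2, s2]]
  choose w1 hw1 using exists_word h1.1
  choose w2 hw2 using exists_word h2.1
  let A : SL(2, F) → FreeGroup (Fin 4) := fun g => lift W1 (w1 g)
  let A' : SL(2, K) → FreeGroup (Fin 4) := fun g => lift W2 (w2 g)
  have gA : ∀ g, lift s (A g) = j g := fun g => by simp only [A, lift_lift hW1, hw1]
  have gA' : ∀ g, lift s (A' g) = l g := fun g => by simp only [A', lift_lift hW2, hw2]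
  let a : Fin 11 → FreeGroup (Fin 4) := ![of 1 * Y * (of 1)⁻¹, of 1 * Z, Z * of 0 * Z⁻¹,
    of 2 * Z * (of 2)⁻¹ * Z⁻¹, of 2 * (of 3 * of 0 * (of 3)⁻¹) * (of 2)⁻¹,
    Y * (of 2 * Y * (of 2)⁻¹), of 3 * (of 2 * Y * (of 2)⁻¹), of 3 * (of 2 * of 3 * (of 2)⁻¹),
    of 0 * (of 2 * Y * (of 2)⁻¹), Y * of 0 * Y⁻¹ * (of 0)⁻¹, Y * A (xx ω) * Y⁻¹ * (A (xx ω))⁻¹]
  let b : Fin 11 → FreeGroup (Fin 4) := ![A' (xx (c : K)⁻¹), Z * of 1, A (xx (ι c)⁻¹),
    A (hh xx yy (ι c)), of 3 * (of 0)⁻¹ * (of 3)⁻¹,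
    of 2 * Y * (of 2)⁻¹ * Y, of 2 * Y * (of 2)⁻¹ * of 3, of 2 * of 3 * (of 2)⁻¹ * of 3,
    of 2 * Y * (of 2)⁻¹ * of 0, of 2 * Y⁻¹ * (of 2)⁻¹ * (of 3 * of 0 * (of 3)⁻¹),
    of 2 * A' (xx (-c)) * (of 2)⁻¹ * (of 3 * A (xx ω) * (of 3)⁻¹)]
  refine ⟨s, pres_of_inj ((((Rl.sub h1 W1 j hW1).and (Rl.sub h2 W2 l hW2)).and
    (Rl.all Finset.univ a b fun i _ => ?_)).mono (by simp) fun _ _ _ h => h) hs ?_⟩
  · fin_cases i <;> simp only [a, b, Fin.reduceFinMk, Matrix.cons_val, map_mul, map_inv, hY, hZ, gA,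
      gA', lift_apply_of]
    exacts [R.b1, R.b2, R.b3, R.b4, R.c1, R.a1, R.a2, R.a3, R.d1, R.e1, R.e2]
  rintro E _ x f hf hx ⟨⟨⟨φ, hφ⟩, ψ, hψ⟩, h⟩ g
  have eA : ∀ g, lift x (A g) = φ g := fun g => by simp only [A, lift_lift hφ, hw1]
  have eA' : ∀ g, lift x (A' g) = ψ g := fun g => by simp only [A', lift_lift hψ, hw2]
  have h' := fun i => h i (Finset.mem_univ i)
  simp only [Fin.forall_fin_succ, a, b, Matrix.cons_val_zero, Matrix.cons_val_succ, map_mul, map_inv,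
    eA, eA', lift_apply_of] at h'
  obtain ⟨b1, b2, b3, b4, c1, a1, a2, a3, d1, e1, e2, -⟩ := h'
  have p0 : x 0 = φ (xx 1) := by simpa [W1, s2] using (hφ 0).symm
  have p1 : x 1 = φ (hh xx yy ω) := by simpa [W1, s2] using (hφ 1).symm
  have p2 : x 2 = φ (ww xx yy 1) := by simpa [W1, s2] using (hφ 2).symm
  have p3 : x 3 = ψ (ww xx yy 1) := by simpa [W2, s2] using (hψ 2).symm
  refine core_SU4 D (fun g => by rw [← eA, map_lift hf, gA]) (fun g => by rw [← eA', map_lift hf, gA'])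
    hω hc ⟨p0, p1, p2, (hψ 0).symm, (hψ 1).symm, p3, show lift x Z = _ by simp [Z], b1, b2, b3, b4, c1, a1, a2, a3, d1,
      e1, e2⟩ g ((closure_le _).2 ?_ (hx.ge (mem_top g)))
  rintro _ ⟨i, rfl⟩
  fin_cases i
  exacts [mem_sup_left ⟨_, p0.symm⟩, mem_sup_left ⟨_, p1.symm⟩, mem_sup_left ⟨_, p2.symm⟩,
    mem_sup_right ⟨_, p3.symm⟩]

theorem pres_su4 [Fintype F] {q : ℕ} (hF : Fintype.card F = q ^ 2) :
    ∃ s : Fin 4 → SU 4 F q, Pres s (if q = 2 then 21 else 27) := by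
  classical
  obtain ⟨P, -⟩ := frame_su_even hF 2
  have hq := qConj_conjQ hF
  obtain ⟨η, η0, hη⟩ := exists_trace_zero hq.ne_id hq.invol
  let K := (conjQ hF).eqLocusField (RingHom.id F)
  have h0 : P.V0 = ⊥ := Submodule.finrank_eq_zero.1 (by simpa [ctC] using P.finrank_V0)
  obtain ⟨j, l, D⟩ := exists_suDat (P := P) (ι := K.subtype) (fun w hw => h0.le hw) (fun u => u.2)
    (fun c h => ⟨⟨c, h⟩, rfl⟩) η0 (eq_neg_of_add_eq_zero_right hη)
  obtain ⟨ω, hω⟩ := IsCyclic.exists_generator (α := Fˣ)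
  let c : Kˣ := Units.mk0 ⟨conjQ hF ω * ω, show conjQ hF _ = _ by simp [hq.invol, mul_comm]⟩
    fun e => by simpa using congrArg Subtype.val e
  have hc : ∀ u : Kˣ, u ∈ zpowers c := fun u => by
    obtain ⟨t, ht⟩ := exists_norm_eq hq.ne_id hq.invol (a := u.1.1) u.1.2
    have t0 : t ≠ 0 := by rintro rfl; exact u.ne_zero (Subtype.ext (by simpa using ht.symm))
    obtain ⟨m, rfl⟩ := exists_pow hω t0
    exact ⟨m, Units.ext (Subtype.ext (by simp [c, ← ht, mul_pow]))⟩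
  haveI := Fintype.ofFinite K
  have key : ∀ {r1 r2}, Pres (s2 ω) r1 → Pres (s2 c) r2 → ∃ s : Fin 4 → SU 4 F q, Pres s (r1 + r2 + 11) :=
    fun h1 h2 => let ⟨_, hs⟩ := D.pres hω hc rfl h1 h2; ⟨_, hs.equiv (suOm hF 4).symm⟩
  split_ifs with h
  · subst h
    have t : ringChar F = 2 := FiniteField.even_card_iff_char_two.2 (by rw [hF]; rfl)
    refine key (pres_sl2_even hω t) (pres_sl2_even hc ?_)
    rw [← t]; exact Algebra.ringChar_eq _ _
  · exact key (pres_sl2 hω) (pres_sl2 hc)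

end Cfsg.Agent.H12
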