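import Mathlib
import Cfsg.Agent.H12.PrU4
import Cfsg.Agent.H12.Ph10

/-!
Phan-type amalgam for `SU_n(q)` generated by `SU₄(q)` and the alternating group.
-/

set_option autoImplicit false
set_option linter.unusedSectionVars false

namespace Cfsg.Agent.H12

open Subgroup Equiv H7.Pr H19 H11 Ph

variable {F : Type*} [Field F] {σ : F →+* F} {q n : ℕ}

/-- permutation matrices -/
def pmU (hq : QConj σ q) (n : ℕ) : alternatingGroup (Fin n) →* SU n F q :=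
  (pmA F n).codRestrict _ fun g => mem_su_of_conj_transpose_mul hq (by
    change ((Matrix.permMatrixHom g.1 : Matrix _ _ F).map σ).transpose * Matrix.permMatrixHom g.1 = 1
    rw [show ((Matrix.permMatrixHom g.1 : Matrix _ _ F).map σ).transpose = Matrix.permMatrixHom g.1⁻¹ by
      ext i j; simp [PEquiv.toMatrix_apply, Equiv.eq_symm_apply, eq_comm, apply_ite σ], ← map_mul, inv_mul_cancel, map_one])

theorem ac_pmU (hq : QConj σ q) (g : alternatingGroup (Fin n)) (i : Fin n) :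
    ac (pmU hq n g) (ee i) = ee (g.1 i) := by
  ext k
  change ((Matrix.permMatrixHom g.1 : Matrix _ _ F).mulVec _) k = _
  simp [Matrix.permMatrix_mulVec, Pi.single_apply, Equiv.symm_apply_eq]

theorem cj_Blk (hq : QConj σ q) (g : alternatingGroup (Fin n)) (s : Set (Fin n)) :
    H19.cj (pmU hq n g) (Blk F q s) = Blk F q (g.1 '' s) := by
  ext x
  rw [mem_cj, mem_Blk, mem_Blk, g.1.surjective.forall (p := fun k => k ∉ g.1 '' s → _)]
  refine forall_congr' fun k => imp_congr (by simp) ?_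
  rw [ac_mul, ac_mul, ac_pmU]
  exact ⟨fun h => by rw [← ac_ac_inv (pmU hq n g) (ac x _), h, ac_pmU],
    fun h => by rw [h, ← ac_pmU hq, ac_inv_ac]⟩

theorem ac_emb' (hq : QConj σ q) {m : ℕ} {e : Fin m → Fin n} (he : Function.Injective e) (x : SU m F q)
    (v : Fin m → F) : ac (emb hq he x) ((Pm F e).mulVec v) = (Pm F e).mulVec (ac x v) := by
  simp only [ac_apply, emb_val, embM, Matrix.mulVec_mulVec, Matrix.add_mul, Matrix.mul_assoc, Pm_mul he]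
  simp [Matrix.mul_sub]

theorem emb_pmU (hq : QConj σ q) {m : ℕ} (e : Fin m ↪ Fin n) (a : alternatingGroup (Fin m)) :
    emb hq e.injective (pmU hq m a) = pmU hq n (jA e a) := su_ext fun k => by
  rw [ac_pmU, jA_val, Perm.viaEmbeddingHom_apply]
  by_cases h : k ∈ Set.range e
  · obtain ⟨k, rfl⟩ := h
    rw [Perm.viaEmbedding_apply, ← Pm_ee, ← Pm_ee, ← ac_pmU hq]; exact ac_emb' hq e.injective _ _
  · rw [Perm.viaEmbedding_apply_of_notMem _ _ _ h]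
    exact (range_emb hq e.injective).le ⟨_, rfl⟩ k h

theorem c3_conj' {a b : Fin n} (h : a ≠ b) (g : alternatingGroup (Fin n)) (c : Fin n) :
    g * c3 a b c * g⁻¹ = c3 (g.1 a) (g.1 b) (g.1 c) := by
  by_cases e : c = b
  · simp [e, c3_beta]
  · refine Subtype.ext ?_
    simp [c3_val h e, c3_val (g.1.injective.ne h) (g.1.injective.ne e), swap_apply_apply, mul_assoc]

theorem alt_consec {S : Subgroup (alternatingGroup (Fin (n + 2)))}
    (h : ∀ i j k : Fin (n + 2), j.1 = i + 1 → k.1 = i + 2 → c3 i j k ∈ S) : S = ⊤ := by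
  let s : Fin (n + 1) → Perm (Fin (n + 2)) := fun i => swap i.castSucc i.succ
  have h1 : ∀ i, s i * s 0 ∈ S.map (alternatingGroup _).subtype := fun i => by
    induction i using Fin.induction with
    | zero => rw [swap_mul_self]; exact one_mem _
    | succ i ih =>
      have := mul_mem (mem_map_of_mem (alternatingGroup _).subtype
        (h i.castSucc.castSucc i.succ.castSucc i.succ.succ rfl rfl)) ih
      rw [coe_subtype, c3_val (by simp [Fin.ext_iff]) (by simp [Fin.ext_iff]), swap_comm _ i.castSucc.castSucc]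
        at this
      simpa [s, mul_assoc] using this
  have h2 : ∀ g : Perm (Fin (n + 2)), g ∈ S.map (alternatingGroup _).subtype ∨
      g * s 0 ∈ S.map (alternatingGroup _).subtype := fun g => by
    induction g using Submonoid.induction_of_closure_eq_top_right
      (Perm.mclosure_swap_castSucc_succ (n + 1)) with
    | one => exact .inl (one_mem _)
    | mul_right g _ hs ih =>
      obtain ⟨i, rfl⟩ := hs
      rcases ih with ih | ih
      · exact .inr (mul_assoc g _ _ ▸ mul_mem ih (h1 i))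
      · exact .inl (by simpa [s, mul_assoc] using mul_mem ih (inv_mem (h1 i)))
  refine eq_top_iff.2 fun g _ => ?_
  rcases h2 g.1 with ⟨x, hx, e⟩ | ⟨x, hx, e⟩
  · exact Subtype.ext e ▸ hx
  · have := congrArg Perm.sign e
    simp [s, Perm.mem_alternatingGroup.1 x.2, Perm.mem_alternatingGroup.1 g.2, Fin.ext_iff] at this

variable {E : Type*} [Group E]

/-- the standard triple -/
def T0 (e : Fin 4 ↪ Fin n) : Set (Fin n) := {e 0, e 1, e 2}

theorem img_T0 (e : Fin 4 ↪ Fin n) (g : Fin n → Fin n) : g '' T0 e = {g (e 0), g (e 1), g (e 2)} := by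
  simp [T0, Set.image_insert_eq]

theorem ex_tri (e : Fin 4 ↪ Fin n) {a b c : Fin n} (ab : a ≠ b) (bc : b ≠ c) (ac : a ≠ c) :
    ∃ g : alternatingGroup (Fin n), g.1 '' T0 e = {a, b, c} := by
  obtain ⟨g, h | h⟩ := ex3 (a := e 0) (b := e 1) (c := e 2) (u := e 0) (v := e 1) (by simp) ab bc ac
    (by simp)
  · exact ⟨g, by rw [img_T0, h.1, h.2.1, h.2.2]⟩
  · rw [swap_apply_left, swap_apply_right, swap_apply_of_ne_of_ne (by simp) (by simp)] at h
    exact ⟨g, by rw [img_T0, h.1, h.2.1, h.2.2, Set.insert_comm]⟩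

/-- the data of the amalgam -/
structure PhD (hq : QConj σ q) (e : Fin 4 ↪ Fin n) (f : E →* SU n F q) (Φ : SU 4 F q →* E)
    (ψ : alternatingGroup (Fin n) →* E) : Prop where
  fΦ : ∀ g, f (Φ g) = emb hq e.injective g
  fψ : ∀ g, f (ψ g) = pmU hq n g
  h1 : ∀ a, Φ (pmU hq 4 a) = ψ (jA e a)
  h2 : ∀ g : alternatingGroup (Fin n), g.1 '' T0 e = T0 e →
    H19.cj (ψ g) (Φ.comp (k1 hq)).range = (Φ.comp (k1 hq)).range

/-- the lift of `SU₃` on a triple -/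
def Gm (hq : QConj σ q) (e : Fin 4 ↪ Fin n) (Φ : SU 4 F q →* E) (ψ : alternatingGroup (Fin n) →* E)
    (T : Set (Fin n)) : Subgroup E :=
  ⨆ (g : alternatingGroup (Fin n)) (_ : g.1 '' T0 e = T), H19.cj (ψ g) (Φ.comp (k1 hq)).range

/-- the lift of `SU₂` on a pair -/
def Jm (hq : QConj σ q) (e : Fin 4 ↪ Fin n) (f : E →* SU n F q) (Φ : SU 4 F q →* E)
    (ψ : alternatingGroup (Fin n) →* E) (a b : Fin n) : Subgroup E :=
  ⨆ (c : Fin n) (_ : a ≠ c ∧ b ≠ c), Gm hq e Φ ψ {a, b, c} ⊓ (Blk F q {a, b}).comap f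

theorem cj_Gm {hq : QConj σ q} {e : Fin 4 ↪ Fin n} {Φ : SU 4 F q →* E}
    {ψ : alternatingGroup (Fin n) →* E} (g : alternatingGroup (Fin n)) (T : Set (Fin n)) :
    H19.cj (ψ g) (Gm hq e Φ ψ T) ≤ Gm hq e Φ ψ (g.1 '' T) := by
  simp only [Gm, cj_iSup, cj_cj, ← map_mul]
  exact iSup₂_le fun g' h => le_iSup₂_of_le (g * g') (by rw [← h, Set.image_image]; rfl) le_rfl

namespace PhD

variable {hq : QConj σ q} {e : Fin 4 ↪ Fin n} {f : E →* SU n F q} {Φ : SU 4 F q →* E}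
  {ψ : alternatingGroup (Fin n) →* E} (D : PhD hq e f Φ ψ)
include D

theorem Gm_eq {g : alternatingGroup (Fin n)} {T : Set (Fin n)} (h : g.1 '' T0 e = T) :
    Gm hq e Φ ψ T = H19.cj (ψ g) (Φ.comp (k1 hq)).range :=
  le_antisymm (iSup₂_le fun g' h' => by
    conv_rhs => rw [← D.h2 (g⁻¹ * g') (by
      rw [show ⇑(g⁻¹ * g').1 = ⇑g.1⁻¹ ∘ g'.1 from rfl, Set.image_comp, h', ← h, Set.image_image]; simp),
      cj_cj, ← map_mul, mul_inv_cancel_left]) (le_iSup₂_of_le g h le_rfl)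

theorem map_emb {m : ℕ} {p : Fin m → Fin 4} (hp : Function.Injective p) (g : alternatingGroup (Fin n)) :
    (H19.cj (ψ g) (Φ.comp (emb hq hp)).range).map f = Blk F q (g.1 '' Set.range (e ∘ p)) := by
  rw [map_cj, D.fψ, ← cj_Blk hq, ← range_emb hq (e.injective.comp hp), MonoidHom.map_range]
  congr 2
  exact MonoidHom.ext fun x => (D.fΦ _).trans (emb_emb hq e.injective hp (e.injective.comp hp) (fun _ => rfl) x)

theorem map_Gm {a b c : Fin n} (ab : a ≠ b) (bc : b ≠ c) (ac : a ≠ c) :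
    (Gm hq e Φ ψ {a, b, c}).map f = Blk F q {a, b, c} := by
  obtain ⟨g, h⟩ := ex_tri e ab bc ac
  rw [D.Gm_eq h, k1, D.map_emb, ← h]
  congr 2
  ext; simp [T0, Fin.exists_fin_succ, eq_comm]; rfl

theorem inj_H (g : alternatingGroup (Fin n)) : ∀ x ∈ H19.cj (ψ g) Φ.range, f x = 1 → x = 1 :=
  fun x hx h => by
    obtain ⟨_, ⟨u, rfl⟩, rfl⟩ := exists_of_mem_cj hx
    have : u = 1 := emb_inj hq e.injective (by simpa [mul_inv_eq_one, D.fΦ] using h)
    simp [this]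

theorem Gm_le {g : alternatingGroup (Fin n)} {T : Set (Fin n)} (h : T ⊆ g.1 '' Set.range e) :
    Gm hq e Φ ψ T ≤ H19.cj (ψ g) Φ.range := iSup₂_le fun g' h' => by
  have k : ∀ i, g'.1 (e i) ∈ T → ∃ j, g.1 (e j) = g'.1 (e i) := fun i hi =>
    let ⟨_, ⟨j, e1⟩, e2⟩ := h hi; ⟨j, e1 ▸ e2⟩
  rw [img_T0] at h'
  obtain ⟨i, hi⟩ := k 0 (h' ▸ by simp)
  obtain ⟨j, hj⟩ := k 1 (h' ▸ by simp)
  obtain ⟨l, hl⟩ := k 2 (h' ▸ by simp)
  obtain ⟨a, ha⟩ := ex_tri (Function.Embedding.refl (Fin 4)) (a := i) (b := j) (c := l)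
    (by rintro rfl; simpa using hi.symm.trans hj) (by rintro rfl; simpa using hj.symm.trans hl)
    (by rintro rfl; simpa using hi.symm.trans hl)
  rw [← D.Gm_eq rfl, D.Gm_eq (g := g * jA e a), map_mul, cj_mul, ← D.h1]
  · exact cj_mono _ (cj_le_of_le (by rintro _ ⟨x, rfl⟩; exact ⟨_, rfl⟩) ⟨_, rfl⟩)
  · have := congrArg (Set.image (g.1 ∘ e)) ha
    rw [img_T0] at this
    simpa [img_T0, Set.image_insert_eq, jA_val, Perm.viaEmbeddingHom_apply,
      Perm.viaEmbedding_apply, hi, hj, hl] using this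

theorem four {a b c d : Fin n} (h : a ≠ b ∧ c ≠ d ∧ a ≠ c ∧ a ≠ d ∧ b ≠ c ∧ b ≠ d) :
    ∃ H : Subgroup E, (∀ x ∈ H, f x = 1 → x = 1) ∧ ∀ T ⊆ {a, b, c, d}, Gm hq e Φ ψ T ≤ H := by
  obtain ⟨g, hg⟩ := ex4 (a := e 0) (b := e 1) (c := e 2) (d := e 3) (u := e 0) (v := e 1) (by simp) h
    (by simp)
  rw [swap_apply_left, swap_apply_right, swap_apply_of_ne_of_ne (by simp) (by simp),
    swap_apply_of_ne_of_ne (by simp) (by simp)] at hg
  refine ⟨_, D.inj_H g, fun T hT => D.Gm_le (hT.trans ?_)⟩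
  rcases hg with ⟨rfl, rfl, rfl, rfl⟩ | ⟨rfl, rfl, rfl, rfl⟩ <;> simp [Set.insert_subset_iff]

theorem inj_Gm {T : Set (Fin n)} : ∀ x ∈ Gm hq e Φ ψ T, f x = 1 → x = 1 := by
  by_cases h : ∃ g : alternatingGroup (Fin n), g.1 '' T0 e = T
  · obtain ⟨g, rfl⟩ := h
    exact fun x hx => D.inj_H g x (D.Gm_le (Set.image_mono (by simp [T0, Set.insert_subset_iff])) hx)
  · have : Gm hq e Φ ψ T ≤ ⊥ := iSup₂_le fun g h' => (h ⟨g, h'⟩).elim
    exact fun x hx _ => this hx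

theorem c3_mem {a b c : Fin n} (ab : a ≠ b) (bc : b ≠ c) (ac : a ≠ c) :
    ψ (c3 a b c) ∈ Gm hq e Φ ψ {a, b, c} := by
  obtain ⟨g, h⟩ := ex_tri e ab bc ac
  have k : ∀ x ∈ ({a, b, c} : Set _), ∃ j, g.1 (e j) = x := fun x hx => by
    rw [← h, img_T0] at hx
    rcases hx with rfl | rfl | rfl <;> exact ⟨_, rfl⟩
  obtain ⟨i, rfl⟩ := k a (by simp)
  obtain ⟨j, rfl⟩ := k b (by simp)
  obtain ⟨l, rfl⟩ := k c (by simp)
  have ij : i ≠ j := by rintro rfl; exact ab rfl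
  refine mem_of_inj (D.Gm_le (h ▸ Set.image_mono (by simp [T0, Set.insert_subset_iff]))) (D.inj_H g) ?_ ?_
  · rw [← c3_conj' (e.injective.ne ij), map_mul, map_mul, map_inv, ← jA_c3 e ij, ← D.h1]
    exact conj_mem_cj _ ⟨_, rfl⟩
  · rw [D.map_Gm ab bc ac, D.fψ]
    intro k hk
    simp only [Set.mem_insert_iff, Set.mem_singleton_iff, not_or] at hk
    rw [ac_pmU, c3_val ab bc.symm, Perm.mul_apply, swap_apply_of_ne_of_ne hk.2.1 hk.1,
      swap_apply_of_ne_of_ne hk.2.1 hk.2.2]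

theorem Jm_le {a b c : Fin n} (ab : a ≠ b) (bc : b ≠ c) (ac : a ≠ c) :
    Jm hq e f Φ ψ a b ≤ Gm hq e Φ ψ {a, b, c} := iSup₂_le fun d hd x hx => by
  by_cases h : c = d
  · exact h ▸ hx.1
  obtain ⟨H, h1, h2⟩ := D.four ⟨ab, h, ac, hd.1, bc, hd.2⟩
  refine mem_of_inj (h2 _ (by simp [Set.insert_subset_iff])) h1
    (h2 _ (by simp [Set.insert_subset_iff]) hx.1) ?_
  rw [D.map_Gm ab bc ac]
  exact Blk_mono (by simp [Set.insert_subset_iff]) hx.2

omit D in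
theorem mem_Jm {a b c : Fin n} (bc : b ≠ c) (ac : a ≠ c) {x : E} (h : x ∈ Gm hq e Φ ψ {a, b, c})
    (h' : f x ∈ Blk F q {a, b}) : x ∈ Jm hq e f Φ ψ a b :=
  le_iSup₂_of_le (f := fun c (_ : a ≠ c ∧ b ≠ c) => Gm hq e Φ ψ {a, b, c} ⊓ (Blk F q {a, b}).comap f)
    c ⟨ac, bc⟩ le_rfl ⟨h, h'⟩

omit D in
theorem Jm_Blk {a b : Fin n} {x : E} (h : x ∈ Jm hq e f Φ ψ a b) : f x ∈ Blk F q {a, b} :=
  (iSup₂_le (a := (Blk F q {a, b}).comap f) fun _ _ => inf_le_right) h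

theorem le_map_Jm {a b c : Fin n} (ab : a ≠ b) (bc : b ≠ c) (ac : a ≠ c) :
    Blk F q {a, b} ≤ (Jm hq e f Φ ψ a b).map f := fun y hy => by
  obtain ⟨x, hx, rfl⟩ := (D.map_Gm ab bc ac).ge (Blk_mono (by simp [Set.insert_subset_iff]) hy)
  exact ⟨x, mem_Jm bc ac hx hy, rfl⟩

theorem comm_J {a b c d : Fin n} (h : a ≠ b ∧ c ≠ d ∧ a ≠ c ∧ a ≠ d ∧ b ≠ c ∧ b ≠ d) :
    Comm (Jm hq e f Φ ψ a b) (Jm hq e f Φ ψ c d) := fun x hx y hy => by
  obtain ⟨H, h1, h2⟩ := D.four h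
  obtain ⟨ab, cd, ac, ad, bc, bd⟩ := h
  have m1 := h2 _ (by simp [Set.insert_subset_iff]) (D.Jm_le ab bc ac hx)
  have m2 := h2 _ (by simp [Set.insert_subset_iff]) (D.Jm_le cd ad.symm ac.symm hy)
  refine eq_of_map h1 (mul_mem m1 m2) (mul_mem m2 m1) ?_
  rw [map_mul, map_mul]
  exact (Blk_commute hq (by simp [ac.symm, ad.symm, bc.symm, bd.symm]) (Jm_Blk hx) (Jm_Blk hy)).eq

theorem Gm_le_J (h3 : 3 ≤ q) {a b c : Fin n} (ab : a ≠ b) (bc : b ≠ c) (ac : a ≠ c) :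
    Gm hq e Φ ψ {a, b, c} ≤ Jm hq e f Φ ψ b c ⊔ Jm hq e f Φ ψ a b := fun x hx => by
  refine mem_of_inj (sup_le ((D.Jm_le bc ac.symm ab.symm).trans (le_of_eq (congrArg _ ?_)))
    (D.Jm_le ab bc ac)) D.inj_Gm hx ?_
  · ext; simp; tauto
  rw [Subgroup.map_sup]
  refine sup_le_sup ((Blk_mono ?_).trans (D.le_map_Jm bc ac.symm ab.symm)) (D.le_map_Jm ab bc ac)
    (Blk_sup hq h3 (s := {a, b, c}) (c := c) (by simp) (by simp) (by simp) ab ac bc
      ((D.map_Gm ab bc ac).le ⟨x, hx, rfl⟩))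
  intro; simp; tauto

theorem cj_Jm (g : alternatingGroup (Fin n)) (a b : Fin n) :
    H19.cj (ψ g) (Jm hq e f Φ ψ a b) ≤ Jm hq e f Φ ψ (g.1 a) (g.1 b) := by
  simp only [Jm, cj_iSup]
  refine iSup₂_le fun c hc x hx => ?_
  obtain ⟨x, hx', rfl⟩ := exists_of_mem_cj hx
  refine mem_Jm (g.1.injective.ne hc.2) (g.1.injective.ne hc.1) ?_ ?_
  · simpa [Set.image_insert_eq] using cj_Gm g _ (conj_mem_cj (ψ g) hx'.1)
  · simpa [Set.image_insert_eq, D.fψ, cj_Blk] using conj_mem_cj (pmU hq n g) (mem_comap.1 hx'.2)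

end PhD

/-- commutation of the pieces with disjoint supports -/
structure PhC (hq : QConj σ q) (e : Fin 4 ↪ Fin n) (f : E →* SU n F q) (Φ : SU 4 F q →* E)
    (ψ : alternatingGroup (Fin n) →* E) : Prop where
  ca : ∀ t : Fin 6 → Fin n, Function.Injective t →
    Comm (Gm hq e Φ ψ {t 0, t 1, t 2}) (Gm hq e Φ ψ {t 3, t 4, t 5})
  cb : ∀ t : Fin 5 → Fin n, Function.Injective t →
    Comm (Gm hq e Φ ψ {t 0, t 1, t 2}) (Jm hq e f Φ ψ (t 3) (t 4))

namespace PhD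

variable {hq : QConj σ q} {e : Fin 4 ↪ Fin n} {f : E →* SU n F q} {Φ : SU 4 F q →* E}
  {ψ : alternatingGroup (Fin n) →* E} (D : PhD hq e f Φ ψ)
include D

theorem phC_big (h3 : 3 ≤ q) : PhC hq e f Φ ψ := by
  have cb : ∀ a b c d x : Fin n, a ≠ b → b ≠ c → a ≠ c → d ≠ x → a ≠ d → a ≠ x → b ≠ d → b ≠ x →
      c ≠ d → c ≠ x → Comm (Gm hq e Φ ψ {a, b, c}) (Jm hq e f Φ ψ d x) :=
    fun a b c d x ab bc ac _ _ _ _ _ _ _ =>
      ((D.comm_J (by tauto)).sup_left (D.comm_J (by tauto))).mono (D.Gm_le_J h3 ab bc ac) le_rfl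
  refine ⟨fun t ht => Comm.mono (Comm.sup_right ?_ ?_) le_rfl
    (D.Gm_le_J h3 (ht.ne (by simp)) (ht.ne (by simp)) (ht.ne (by simp))), fun t ht => ?_⟩ <;>
  apply cb <;> exact ht.ne (by simp)

theorem comm_cj {m : ℕ} {t t' : Fin (m + 3) → Fin n} (ht : Function.Injective t)
    (ht' : Function.Injective t') : ∃ g : alternatingGroup (Fin n),
      g.1 '' {t 0, t 1, t 2} = {t' 0, t' 1, t' 2} ∧ ∀ i, 2 ≤ i.1 → g.1 (t i) = t' i := by
  obtain ⟨g, h | h⟩ := ex_even ht ht' (u := t 0) (v := t 1) (ht.ne (by simp))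
  · exact ⟨g, by simp [Set.image_insert_eq, h], fun i _ => h i⟩
  · have k : ∀ i : Fin (m + 3), 2 ≤ i.1 → g.1 (t i) = t' i := fun i hi => by
      rw [← h i, swap_apply_of_ne_of_ne (ht.ne (by rintro rfl; simp at hi))
        (ht.ne (by rintro rfl; simp at hi))]
    have h0 := h 0
    have h1 := h 1
    rw [swap_apply_left] at h0
    rw [swap_apply_right] at h1
    exact ⟨g, by simp [Set.image_insert_eq, h0, h1, k 2 le_rfl, Set.insert_comm], k⟩

theorem cb_of {t : Fin 5 → Fin n} (ht : Function.Injective t)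
    (h : Comm (Gm hq e Φ ψ {t 0, t 1, t 2}) (Jm hq e f Φ ψ (t 3) (t 4))) (t' : Fin 5 → Fin n)
    (ht' : Function.Injective t') :
    Comm (Gm hq e Φ ψ {t' 0, t' 1, t' 2}) (Jm hq e f Φ ψ (t' 3) (t' 4)) := by
  obtain ⟨g, h1, h2⟩ := D.comm_cj (m := 2) ht' ht
  refine (comm_cj_iff (g := ψ g)).1 (h.mono (h1 ▸ cj_Gm g _) ?_)
  rw [← h2 3 (by simp), ← h2 4 (by simp)]; exact D.cj_Jm g _ _

theorem phC_five (hn : n ≤ 5) {t : Fin 5 → Fin n} (ht : Function.Injective t)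
    (h : Comm (Gm hq e Φ ψ {t 0, t 1, t 2}) (Jm hq e f Φ ψ (t 3) (t 4))) : PhC hq e f Φ ψ :=
  ⟨fun t ht => by have := Fintype.card_le_of_injective t ht; simp at this; omega, D.cb_of ht h⟩

theorem phC_six {t : Fin 6 → Fin n} (ht : Function.Injective t)
    (h : Comm (Gm hq e Φ ψ {t 0, t 1, t 2}) (Gm hq e Φ ψ {t 3, t 4, t 5})) : PhC hq e f Φ ψ := by
  refine ⟨fun t' ht' => ?_, D.cb_of (t := t ∘ Fin.castSucc) (ht.comp (Fin.castSucc_injective _))
    (h.mono le_rfl (D.Jm_le (ht.ne (by simp)) (ht.ne (by simp)) (ht.ne (by simp))))⟩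
  obtain ⟨g, h1, h2⟩ := D.comm_cj (m := 3) ht' ht
  refine (comm_cj_iff (g := ψ g)).1 (h.mono (h1 ▸ cj_Gm g _) ?_)
  rw [← h2 3 (by simp), ← h2 4 (by simp), ← h2 5 (by simp)]
  simpa [Set.image_insert_eq] using cj_Gm g {t' 3, t' 4, t' 5}

end PhD

theorem iv3 {i : ℕ} (h : i + 2 < n) : Iv n i (i + 2) = {⟨i, by omega⟩, ⟨i + 1, by omega⟩, ⟨i + 2, h⟩} := by
  ext; simp [Iv, Fin.ext_iff]; omega

theorem iv2 {i : ℕ} (h : i + 1 < n) : Iv n i (i + 1) = {⟨i, by omega⟩, ⟨i + 1, h⟩} := by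
  ext; simp [Iv, Fin.ext_iff]; omega

theorem PhD.core {hq : QConj σ q} {e : Fin 4 ↪ Fin (n + 4)} {f : E →* SU (n + 4) F q}
    {Φ : SU 4 F q →* E} {ψ : alternatingGroup (Fin (n + 4)) →* E} (D : PhD hq e f Φ ψ) :
    (Φ.range ⊔ ψ.range).map f = ⊤ ∧
      (PhC hq e f Φ ψ → ∀ g ∈ Φ.range ⊔ ψ.range, f g = 1 → g = 1) := by
  let Γ : ℕ → Subgroup E := fun i => Gm hq e Φ ψ (Iv _ i (i + 2))
  have h1 : ∀ i, i + 1 < n + 3 → (Γ i).map f = Blk F q (Iv _ i (i + 2)) := fun i hi => by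
    simp only [Γ]; rw [iv3 (by omega)]; apply D.map_Gm <;> simp [Fin.ext_iff]
  have le : ∀ T, Gm hq e Φ ψ T ≤ Φ.range ⊔ ψ.range := fun T => iSup₂_le fun g _ =>
    cj_le_of_le (by rintro _ ⟨x, rfl⟩; exact mem_sup_left ⟨_, rfl⟩) (mem_sup_right ⟨_, rfl⟩)
  refine ⟨eq_top_iff.2 fun g _ => map_mono (Kv_le fun i _ _ => le _)
    ((map_Kv3 hq h1 (n + 1) 0 (by omega)).ge fun k hk => (hk ⟨by simp, by omega⟩).elim), fun C => ?_⟩
  have m1 : ∀ g, ψ g ∈ Kv Γ 0 (0 + n + 1) := fun g =>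
    (alt_consec (S := (Kv Γ 0 (0 + n + 1)).comap ψ) fun i j k h h' => by
      refine le_Kv Γ (i := i) (by simp) (by omega) ?_
      simp only [Γ]
      rw [iv3 (by omega), ← Fin.ext (a := j) (b := ⟨i + 1, by omega⟩) h,
        ← Fin.ext (a := k) (b := ⟨i + 2, by omega⟩) h']
      apply D.c3_mem <;> simp [Fin.ext_iff] <;> omega).ge (mem_top g)
  have m2 : ∀ a b c, a ≠ b → b ≠ c → a ≠ c → Gm hq e Φ ψ {a, b, c} ≤ Kv Γ 0 (0 + n + 1) :=
    fun a b c ab bc ac => by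
      obtain ⟨g, hg⟩ := ex_tri e ab bc ac
      obtain ⟨g', hg'⟩ := ex_tri e (a := ⟨0, by omega⟩) (b := ⟨0 + 1, by omega⟩) (c := ⟨0 + 2, by omega⟩)
        (by simp) (by simp) (by simp)
      rw [D.Gm_eq hg, ← inv_mul_cancel_right g g', map_mul, cj_mul, ← D.Gm_eq (hg'.trans (iv3 _).symm)]
      exact cj_le_of_le (le_Kv Γ le_rfl (by omega)) (m1 _)
  have m3 : Φ.range ≤ Kv Γ 0 (0 + n + 1) := fun x hx => by
    have k : ∀ T ⊆ Set.range e, Gm hq e Φ ψ T ≤ Φ.range := fun T hT => by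
      simpa using D.Gm_le (g := 1) (T := T) (by simpa using hT)
    refine sup_le (m2 (e 1) (e 2) (e 3) (by simp) (by simp) (by simp))
      (m2 (e 0) (e 1) (e 2) (by simp) (by simp) (by simp)) (mem_of_inj (sup_le
        (k _ (by simp [Set.insert_subset_iff])) (k _ (by simp [Set.insert_subset_iff])))
        (by simpa using D.inj_H 1) hx ?_)
    obtain ⟨x, rfl⟩ := hx
    rw [Subgroup.map_sup, D.map_Gm (by simp) (by simp) (by simp), D.map_Gm (by simp) (by simp) (by simp),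
      D.fΦ]
    refine sup_le_sup (Blk_mono ?_) (Blk_mono (by simp [Set.insert_subset_iff]))
      (Four.Blk_sup (J := Set.range e) (a := e 0) (b := e 1) (c := e 2) (z := e 3)
        (by constructor <;> simp) hq ((range_emb hq e.injective).le ⟨x, rfl⟩))
    rintro _ ⟨⟨i, rfl⟩, hi⟩
    fin_cases i <;> simp at hi ⊢
  refine fun g hg => inj_Kv3 hq h1 (fun i hi => ?_) (fun i j h h' x hx e y hy => ?_)
    (fun i h x hx y hy e => ?_) (fun i j h h' x hx y hy => ?_) n 0 (by omega) g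
    (sup_le m3 (by rintro _ ⟨x, rfl⟩; exact m1 x) hg)
  · obtain ⟨H, h1, h2⟩ := D.four (a := ⟨i, by omega⟩) (b := ⟨i + 1, by omega⟩) (c := ⟨i + 2, by omega⟩)
      (d := ⟨i + 3, by omega⟩) (by simp)
    refine fun g hg => h1 g (sup_le (h2 _ fun k => ?_) (h2 _ fun k => ?_) hg) <;>
      simp [Iv, Fin.ext_iff] <;> omega
  · simp only [Γ] at hx hy
    rw [iv3 (by omega)] at hx hy
    rw [iv2 (by omega)] at e
    refine (C.cb ![⟨j, by omega⟩, ⟨j + 1, by omega⟩, ⟨j + 2, by omega⟩, ⟨i, by omega⟩, ⟨i + 1, by omega⟩]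
      (fun a b => ?_) y hy x (PhD.mem_Jm (by simp) (by simp) hx e)).symm
    fin_cases a <;> fin_cases b <;> simp <;> omega
  · simp only [Γ] at hx hy
    rw [iv3 (by omega)] at hx hy
    rw [iv2 (by omega)] at e
    rw [Set.insert_comm, Set.pair_comm] at hy
    refine C.cb ![⟨i, by omega⟩, ⟨i + 1, by omega⟩, ⟨i + 2, by omega⟩, ⟨i + 3, by omega⟩, ⟨i + 4, by omega⟩]
      (fun a b => ?_) x hx y (PhD.mem_Jm (by simp) (by simp) hy e)
    fin_cases a <;> fin_cases b <;> simp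
  · simp only [Γ] at hx hy
    rw [iv3 (by omega)] at hx hy
    refine C.ca ![⟨i, by omega⟩, ⟨i + 1, by omega⟩, ⟨i + 2, by omega⟩, ⟨j, by omega⟩, ⟨j + 1, by omega⟩,
      ⟨j + 2, by omega⟩] (fun a b => ?_) x hx y hy
    fin_cases a <;> fin_cases b <;> simp <;> omega

end Cfsg.Agent.H12
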