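import Mathlib
import Cfsg.Agent.H12.PrU2

/-!
A bounded presentation of the Borel subgroup of `SU₃(q)`.
-/

set_option autoImplicit false
set_option linter.unusedSectionVars false

namespace Cfsg.Agent.H12

open Subgroup H7.Pr H19 H11 Polynomial
open FreeGroup (lift of lift_apply_of)

section Span

variable {K : Type*} [Field K] {l : K}

theorem top_of_pow (hl : ∀ c : K, ∃ P : ℤ[X], aeval l P = c) {W : AddSubgroup K}
    (h : ∀ i : ℕ, l ^ i ∈ W) (c : K) : c ∈ W := by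
  obtain ⟨P, rfl⟩ := hl c
  rw [aeval_eq_sum_range]
  exact W.sum_mem fun i _ => W.zsmul_mem (h i) _

theorem span_w1 (hl : ∀ c : K, ∃ P : ℤ[X], aeval l P = c) {W : AddSubgroup K}
    (r : ∀ a ∈ W, ∀ b ∈ W, (1 + l) * a = l * b → l * b ∈ W) (h0 : 1 ∈ W) (h1 : l ∈ W) (c : K) :
    c ∈ W := top_of_pow hl (fun i => by
  induction i using Nat.twoStepInduction with
  | zero => simpa using h0
  | one => simpa using h1
  | more i a b =>
    convert W.sub_mem (r _ b _ (W.add_mem a b) (by ring)) b using 1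
    ring) c

theorem span_w2 (hl : ∀ c : K, ∃ P : ℤ[X], aeval l P = c) {W : AddSubgroup K}
    (r : ∀ a ∈ W, ∀ b ∈ W, (1 + l) ^ 2 * a = l ^ 2 * b → l ^ 2 * b ∈ W)
    (h : ∀ i : Fin 4, l ^ i.1 ∈ W) (c : K) : c ∈ W := top_of_pow hl (fun i => by
  induction i using Nat.strong_induction_on with
  | _ i ih =>
    by_cases e : i < 4
    · exact h ⟨i, e⟩
    obtain ⟨i, rfl⟩ : ∃ j, i = j + 4 := ⟨i - 4, by omega⟩
    have a := ih i (by omega)
    have b := ih (i + 1) (by omega)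
    have c := ih (i + 2) (by omega)
    have d := ih (i + 3) (by omega)
    convert W.sub_mem (r _ c _ (W.add_mem (W.add_mem a c) (W.add_mem b b)) (by ring))
      (W.add_mem c (W.add_mem d d)) using 1
    ring) c

/-- the elements of an additive family commuting with a given element -/
def cmW {E : Type*} [Group E] (x : E) {z : K → E} (hz : IsAdd z) : AddSubgroup K where
  carrier := {a | Commute x (z a)}
  zero_mem' := by simp [hz.zero]
  add_mem' {a b} ha hb := by simpa [hz a b] using Commute.mul_right ha hb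
  neg_mem' {a} ha := by simpa [hz.neg] using ha

/-- the image of an additive family -/
def rgA {E M : Type*} [Group E] [AddGroup M] {z : M → E} (hz : IsAdd z) : Subgroup E where
  carrier := Set.range z
  one_mem' := ⟨0, hz.zero⟩
  mul_mem' := by rintro _ _ ⟨a, rfl⟩ ⟨b, rfl⟩; exact ⟨_, hz a b⟩
  inv_mem' := by rintro _ ⟨a, rfl⟩; exact ⟨_, hz.neg a⟩

theorem normal_of_gen {E ι : Type*} [Group E] {x : ι → E} (hx : closure (Set.range x) = ⊤)
    {A : Subgroup E} (hf : (A : Set E).Finite) (h : ∀ i, ∀ a ∈ A, x i * a * (x i)⁻¹ ∈ A) : A.Normal :=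
  normalizer_eq_top_iff.1 (eq_top_iff.2 (hx.ge.trans ((closure_le _).2 (by
    rintro _ ⟨i, rfl⟩; exact @mem_normalizer_fintype _ _ (A : Set E) hf _ (h i)))))

theorem exists_lam [Fintype K] (h2 : Fintype.card K ≠ 2) {c : Kˣ} (hc : ∀ u : Kˣ, u ∈ zpowers c) :
    ∃ l m : Kˣ, (m : K) = 1 + l ∧ (∀ a : K, ∃ P : ℤ[X], aeval (l : K) P = a) ∧ (c = l ∨ c = m) := by
  classical
  by_cases h : 1 + (c : K) = 0
  · have e : (c : K) = -1 := by linear_combination h
    have k : ∀ a : K, a = 0 ∨ a = 1 ∨ a = -1 := fun a => by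
      by_cases a0 : a = 0
      · exact .inl a0
      obtain ⟨n, rfl⟩ := exists_pow hc a0
      rw [e]; exact .inr (neg_one_pow_eq_or K n)
    have t : (1 : K) + 1 ≠ 0 := fun t => h2 (by
      rw [← Finset.card_pair (zero_ne_one (α := K)), ← Finset.card_univ]; congr 1
      ext a; rcases k a with h | h | h <;> simp [h]
      linear_combination -t)
    refine ⟨1, c, ?_, fun a => ?_, .inr rfl⟩
    · rcases k (1 + 1) with h | h | h
      · exact absurd h t
      · simp at h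
      · simp [h, e]
    · rcases k a with h | h | h
      exacts [⟨0, by simp [h]⟩, ⟨1, by simp [h]⟩, ⟨-1, by simp [h]⟩]
  · exact ⟨c, Units.mk0 _ h, rfl, gen_of_generator hc, .inl rfl⟩

end Span

variable {F : Type*} [Field F] {σ : F →+* F} {q : ℕ}

theorem dvd_of_fixed (hq : QConj σ q) {ζ : Fˣ} (hζ : ∀ u : Fˣ, u ∈ zpowers ζ) {j : ℕ}
    (h : σ (ζ ^ j) = ζ ^ j) : q + 1 ∣ j := by
  have h2 := hq.two_le
  have : ζ ^ (j * (q - 1)) = 1 := Units.ext (mul_right_cancel₀ (pow_ne_zero j ζ.ne_zero) (by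
    rw [Units.val_pow_eq_pow_val, ← pow_add, Units.val_one, one_mul, ← Nat.mul_succ,
      Nat.succ_eq_add_one, Nat.sub_add_cancel (by omega), pow_mul, ← hq.eq, h]))
  have := orderOf_dvd_of_pow_eq_one this
  rw [orderOf_eq_card_of_forall_mem_zpowers hζ, hq.card_units] at this
  exact Nat.dvd_of_mul_dvd_mul_right (by omega) this

/-- parameters of the root elements -/
def Vl (σ : F →+* F) (α β : F) : Prop := β + σ β + σ α * α = 0

theorem Vl.mul (hσ : ∀ a, σ (σ a) = a) {α β α' β' : F} (h : Vl σ α β) (h' : Vl σ α' β') :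
    Vl σ (α + α') (β + β' - σ α * α') := by
  simp only [Vl, map_add, map_sub, map_mul, hσ] at *; linear_combination h + h'

theorem Vl.inv (hσ : ∀ a, σ (σ a) = a) {α β : F} (h : Vl σ α β) : Vl σ (-α) (σ β) := by
  simp only [Vl, map_neg, hσ] at *; linear_combination h

theorem Vl.conj (hσ : ∀ a, σ (σ a) = a) {α β : F} (h : Vl σ α β) (l : Fˣ) :
    Vl σ (σ l ^ 2 / l * α) (σ l * l * β) := by
  have := l.ne_zero
  have := (map_ne_zero σ).2 l.ne_zero
  simp only [Vl, map_mul, map_div₀, map_pow, hσ] at *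
  field_simp
  linear_combination σ l * l * h

theorem vl_zero : Vl σ 0 0 := by simp [Vl]

variable {B : Type*} [Group B]

/-- the structure of the Borel subgroup -/
structure BD (σ : F →+* F) (u : F → F → B) (h : Fˣ →* B) : Prop where
  invol : ∀ a, σ (σ a) = a
  mul : ∀ {α β α' β'}, Vl σ α β → Vl σ α' β' → u α β * u α' β' = u (α + α') (β + β' - σ α * α')
  hu : ∀ (l : Fˣ) {α β}, Vl σ α β → h l * u α β * (h l)⁻¹ = u (σ l ^ 2 / l * α) (σ l * l * β)
  inj : ∀ {α β} (l : Fˣ), Vl σ α β → u α β * h l = 1 → α = 0 ∧ β = 0 ∧ l = 1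
  surj : ∀ g, ∃ α β l, Vl σ α β ∧ g = u α β * h l

/-- the first coordinate -/
def Ua (σ : F →+* F) (u : F → F → B) (g : B) (α : F) : Prop := ∃ β, Vl σ α β ∧ g = u α β

namespace BD

variable {u : F → F → B} {h : Fˣ →* B} (D : BD σ u h)
include D

theorem zero : u 0 0 = 1 := by simpa using D.mul vl_zero vl_zero

theorem inv {α β : F} (v : Vl σ α β) : (u α β)⁻¹ = u (-α) (σ β) := by
  rw [inv_eq_iff_mul_eq_one, D.mul v (v.inv D.invol), ← D.zero]
  congr 1
  · simp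
  · rw [Vl] at v; linear_combination v

theorem ua_one : Ua σ u 1 0 := ⟨0, vl_zero, D.zero.symm⟩

theorem ua_mul {g g' : B} {α α' : F} (a : Ua σ u g α) (b : Ua σ u g' α') : Ua σ u (g * g') (α + α') := by
  obtain ⟨β, v, rfl⟩ := a
  obtain ⟨β', v', rfl⟩ := b
  exact ⟨_, v.mul D.invol v', D.mul v v'⟩

theorem ua_inv {g : B} {α : F} (a : Ua σ u g α) : Ua σ u g⁻¹ (-α) := by
  obtain ⟨β, v, rfl⟩ := a
  exact ⟨_, v.inv D.invol, D.inv v⟩

theorem ua_conj {g : B} {α : F} (a : Ua σ u g α) (l : Fˣ) :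
    Ua σ u (h l * g * (h l)⁻¹) (σ l ^ 2 / l * α) := by
  obtain ⟨β, v, rfl⟩ := a
  exact ⟨_, v.conj D.invol l, D.hu l v⟩

theorem ua_zpow {g : B} {α : F} (a : Ua σ u g α) (n : ℤ) : Ua σ u (g ^ n) (n * α) := by
  induction n using Int.induction_on with
  | zero => simpa using D.ua_one
  | succ n ih => simpa [zpow_add_one, add_mul] using D.ua_mul ih a
  | pred n ih => rw [zpow_sub_one]; simpa [sub_eq_add_neg, add_mul] using D.ua_mul ih (D.ua_inv a)

theorem ua_pw {g : B} {α : F} (a : Ua σ u g α) (l : Fˣ) (hl : σ l = l) (P : ℤ[X]) :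
    Ua σ u (pw g (h l) P) (aeval (l : F) P * α) := by
  rw [pw, aeval_eq_sum_range, Finset.sum_mul]
  induction P.natDegree + 1 with
  | zero => simpa using D.ua_one
  | succ n ih =>
    rw [List.range_succ, List.map_append, List.prod_append, Finset.sum_range_succ]
    convert D.ua_mul ih (D.ua_zpow (D.ua_conj a (l ^ n)) (P.coeff n)) using 2
    · simp
    · simp [hl, sq, mul_assoc]

theorem ua_eq {K : Type*} [Field K] {ι : K →+* F} {η : F} (hK : ∀ c, c + σ c = 0 → ∃ a, c = ι a * η)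
    {g g' : B} {α α' : F} (a : Ua σ u g α) (b : Ua σ u g' α') (e : α = α') :
    ∃ c, g = g' * u 0 (ι c * η) := by
  obtain ⟨β, v, e'⟩ := D.ua_mul (D.ua_inv b) a
  rw [e, neg_add_cancel] at v e'
  obtain ⟨c, rfl⟩ := hK β (by simpa [Vl] using v)
  exact ⟨c, by rw [← e', mul_inv_cancel_left]⟩

end BD

open Classical in
/-- the conjugates of `x` under the split torus -/
noncomputable def Xc {K E : Type*} [Field K] [Group E] (ι : K →+* F) (t : Fˣ →* E) (x : E) (b : K) : E :=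
  if h : b = 0 then 1 else t (Units.map ι (Units.mk0 b h)) * x * (t (Units.map ι (Units.mk0 b h)))⁻¹

theorem Xc_unit {K E : Type*} [Field K] [Group E] (ι : K →+* F) (t : Fˣ →* E) (x : E) (b : Kˣ) :
    Xc ι t x b = t (Units.map ι b) * x * (t (Units.map ι b))⁻¹ := by simp [Xc]

theorem map_Xc {K E E' : Type*} [Field K] [Group E] [Group E'] (ι : K →+* F) (t : Fˣ →* E) (x : E)
    (f : E →* E') (b : K) : f (Xc ι t x b) = Xc ι (f.comp t) (f x) b := by
  unfold Xc; split_ifs <;> simp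

theorem BD.ua_Xc {u : F → F → B} {h : Fˣ →* B} (D : BD σ u h) {K : Type*} [Field K] {ι : K →+* F}
    (hι : ∀ a, σ (ι a) = ι a) {x : B} (hx : Ua σ u x 1) (b : K) : Ua σ u (Xc ι h x b) (ι b) := by
  unfold Xc; split_ifs with e
  · simpa [e] using D.ua_one
  · simpa [hι, sq, e] using D.ua_conj hx (Units.map ι (Units.mk0 b e))

/-- the relations of the Borel subgroup -/
structure BRel {K E : Type*} [Field K] [Group E] (ι : K →+* F) (ζ : Fˣ) (c l m : Kˣ) (M : ℤ[X])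
    (b1 b2 : K) (x : E) (t : Fˣ →* E) (z : K → E) : Prop where
  add : IsAdd z
  tz : ∀ a, z (c * a) = t ζ * z a * (t ζ)⁻¹
  cm : ∀ i : Fin 4, Commute x (z (l ^ i.1))
  a1 : Commute x (Xc ι t x l)
  r : ∃ a, Xc ι t x m = x * Xc ι t x l * z a
  a2 : ∃ a, x ^ ringChar K = 1 * z a
  a3 : ∃ a, pw x (t (Units.map ι l)) M = 1 * z a
  y1 : ∃ a, x * (t ζ * x * (t ζ)⁻¹) = t ζ * x * (t ζ)⁻¹ * x * z a
  y2 : ∃ a, x * (t ζ * Xc ι t x l * (t ζ)⁻¹) = t ζ * Xc ι t x l * (t ζ)⁻¹ * x * z a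
  h : ∃ a, t ζ * (t ζ * x * (t ζ)⁻¹) * (t ζ)⁻¹ = Xc ι t x b1 * (t ζ * Xc ι t x b2 * (t ζ)⁻¹) * z a

theorem BD.core [Finite F] {u : F → F → B} {h : Fˣ →* B} (D : BD σ u h) {K E : Type*} [Field K] [Finite K]
    [Group E] {ι : K →+* F} (hι : ∀ a, σ (ι a) = ι a) {η : F} (η0 : η ≠ 0) (hη : η + σ η = 0)
    {ζ : Fˣ} (hζ : ∀ u : Fˣ, u ∈ zpowers ζ) (hν : σ (σ ζ ^ 2 / ζ) ≠ σ ζ ^ 2 / ζ) {c l m : Kˣ}
    (hc : ∀ u : Kˣ, u ∈ zpowers c) (e : ι c = σ ζ * ζ) (hm : (m : K) = 1 + l)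
    (hl : ∀ a : K, ∃ P : ℤ[X], aeval (l : K) P = a) (hlm : c = l ∨ c = m) {M : ℤ[X]}
    (hM : ∀ P : ℤ[X], aeval (l : K) P = 0 → ∃ A B : ℤ[X], P = A * M + B * C (ringChar K : ℤ))
    {b1 b2 : K} {x : E} {t : Fˣ →* E} {z : K → E} (R : BRel ι ζ c l m M b1 b2 x t z) {f : E →* B}
    (fx : Ua σ u (f x) 1) (ft : f.comp t = h) (fz : ∀ a, f (z a) = u 0 (ι a * η))
    (gen : closure (Set.range ![x, t ζ, z 1]) = ⊤) (g : E) (hg : f g = 1) : g = 1 := by
  have tz : ∀ (k : Fˣ) (n : K), ι n = σ k * k → ∀ a, t k * z a * (t k)⁻¹ = z (n * a) := fun k n hn a => by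
    obtain ⟨i, rfl⟩ : ∃ i : ℕ, ζ ^ i = k := mem_powers_iff_mem_zpowers.2 (hζ k)
    obtain rfl : n = c ^ i := ι.injective (by simp [hn, e, mul_pow])
    clear hn
    induction i with
    | zero => simp
    | succ i ih => rw [pow_succ', pow_succ', mul_assoc (c : K), R.tz, ← ih, map_mul]; group
  have zX : ∀ (b : Kˣ) a, Commute x (z a) → Commute (Xc ι t x b) (z (b ^ 2 * a)) := fun b a h => by
    rw [Xc_unit, ← tz (Units.map ι b) _ (by simp [hι, sq])]; exact h.conj _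
  have xz : ∀ a, Commute x (z a) := span_w2 hl (W := cmW x R.add) (fun a ha b hb e => by
    obtain ⟨d, hd⟩ := R.r
    have h1 := zX m a ha
    rw [hd, hm, e] at h1
    simpa [cmW] using (h1.mul_left (R.add.comm d _).inv_left).mul_left (zX l b hb).inv_left) R.cm
  haveI : (rgA R.add).Normal := normal_of_gen gen (Set.finite_range z) fun i => by
    rintro _ ⟨a, rfl⟩
    fin_cases i
    · exact ⟨a, by simp [(xz a).eq]⟩
    · exact ⟨_, R.tz a⟩
    · exact ⟨a, by simp [(R.add.comm 1 a).eq]⟩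
  let π := QuotientGroup.mk' (rgA R.add)
  have πz : ∀ a, π (z a) = 1 := fun a => (QuotientGroup.eq_one_iff _).2 ⟨a, rfl⟩
  have md : ∀ {a b : E}, (∃ d, a = b * z d) → π a = π b := fun ⟨d, h⟩ => by rw [h, map_mul, πz, mul_one]
  obtain ⟨τ, πt⟩ : ∃ τ : Fˣ →* _, ∀ k, π (t k) = τ k := ⟨π.comp t, fun _ => rfl⟩
  have ct : ∀ a b, Commute (τ a) (τ b) := fun a b => (Commute.all a b).map τ
  have ck : ∀ a b w, τ a * (τ b * w * (τ b)⁻¹) * (τ a)⁻¹ = τ b * (τ a * w * (τ a)⁻¹) * (τ b)⁻¹ :=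
    fun a b w => by
      rw [show τ a * (τ b * w * (τ b)⁻¹) * (τ a)⁻¹ = τ a * τ b * w * (τ a * τ b)⁻¹ by group, (ct a b).eq]
      group
  have r' : τ (Units.map ι m) * π x * (τ (Units.map ι m))⁻¹ =
      π x * (τ (Units.map ι l) * π x * (τ (Units.map ι l))⁻¹) := by
    simpa [Xc_unit, πt] using md R.r
  obtain ⟨y, y1, y2, y3⟩ := exists_add hl hM (baumslag (ct _ _) (by
    simpa [Xc_unit, πt] using R.a1.map π) r') (by simpa using md R.a2) (by simpa [map_pw, πt] using md R.a3)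
  have yc : ∀ (b : Kˣ) a, y (b * a) = τ (Units.map ι b) * y a * (τ (Units.map ι b))⁻¹ := fun b a => by
    obtain ⟨i, rfl⟩ : ∃ i : ℕ, c ^ i = b := mem_powers_iff_mem_zpowers.2 (hc b)
    have : ∀ a, y (c * a) = τ (Units.map ι c) * y a * (τ (Units.map ι c))⁻¹ := by
      rcases hlm with rfl | rfl
      · exact y3
      · exact conj_of_one y1 hl y3 (ct _ _) (by rw [y2, r', hm, y1, y2, ← y2, ← y3, mul_one])
    induction i with
    | zero => simp
    | succ i ih => rw [pow_succ', Units.val_mul, mul_assoc (c : K), this, ih, map_mul, map_mul]; group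
  have yX : ∀ b, π (Xc ι t x b) = y b := fun b => by
    rcases eq_or_ne b 0 with rfl | b0
    · simp [Xc, y1.zero]
    · lift b to Kˣ using b0.isUnit
      simpa [Xc_unit, y2, πt] using (yc b 1).symm
  let y' : K → _ := fun a => τ ζ * y a * (τ ζ)⁻¹
  have y1' : IsAdd y' := fun a b => by simp [y', y1 a b, mul_assoc]
  have yc' : ∀ (b : Kˣ) a, y' (b * a) = τ (Units.map ι b) * y' a * (τ (Units.map ι b))⁻¹ := fun b a => by
    simp only [y', yc]; exact ck _ _ _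
  have cy : ∀ (b : Kˣ) a, Commute (y 1) (y' a) → Commute (y b) (y' (b * a)) := fun b a h => by
    rw [yc', ← mul_one (b : K), yc]; exact h.conj _
  have yy' : ∀ a, Commute (y 1) (y' a) := span_w1 hl (W := cmW (y 1) y1') (fun a ha b hb e => by
      have h1 := cy m a ha
      rw [hm, e, y1] at h1
      simpa [cmW] using h1.mul_left (cy l b hb).inv_left)
    (show _ = _ by simpa [y', y2, πt] using md R.y1) (show _ = _ by simpa [y', y2, yX, πt] using md R.y2)
  have yy : ∀ a b, Commute (y a) (y' b) := fun a b => by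
    rcases eq_or_ne a 0 with rfl | a0
    · simp [y1.zero]
    · lift a to Kˣ using a0.isUnit
      simpa using cy a (a⁻¹ * b) (yy' _)
  have ad : IsAdd fun p : K × K => y p.1 * y' p.2 := fun p p' => by
    simp only [Prod.fst_add, Prod.snd_add, y1 _ _, y1' _ _, mul_assoc]
    rw [← mul_assoc (y p'.1), (yy _ _).eq, mul_assoc]
  have cmm : ∀ p p' : K × K, _ := ad.comm
  have m1 : ∀ a, y a ∈ rgA ad := fun a => ⟨(a, 0), by simp [y1'.zero]⟩
  have m2 : ∀ a, y' a ∈ rgA ad := fun a => ⟨(0, a), by simp [y1.zero]⟩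
  haveI : (rgA ad).Normal := normal_of_gen (x := fun i => π (![x, t ζ, z 1] i)) (by
      rw [Set.range_comp' π, ← MonoidHom.map_closure, gen,
        map_top_of_surjective _ (QuotientGroup.mk'_surjective _)]) (Set.finite_range _) fun i => by
    fin_cases i
    · exact fun a ha => mul_mem (mul_mem (y2 ▸ m1 1) ha) (inv_mem (y2 ▸ m1 1))
    · rintro _ ⟨p, rfl⟩
      change π (t ζ) * _ * (π (t ζ))⁻¹ ∈ _
      rw [πt, show ∀ a b c : _ ⧸ rgA R.add, a * (b * c) * a⁻¹ = a * b * a⁻¹ * (a * c * a⁻¹) by intros; group]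
      refine mul_mem (m2 _) ?_
      rcases eq_or_ne p.2 0 with p0 | p0
      · simp [p0, y1'.zero]
      obtain ⟨b, hb⟩ := p0.isUnit
      have := md R.h
      simp only [map_mul, map_inv, yX, ← y2, πt] at this
      rw [← hb, ← mul_one (b : K), yc']
      convert mul_mem (m1 (b * b1)) (m2 (b * b2)) using 1
      rw [yc, yc', conj_mul, ← this]
      exact ck _ _ _
    · simp [πz]
  have : π g ∈ rgA ad ⊔ τ.range := (closure_le (K := (rgA ad ⊔ τ.range).comap π)).2 (by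
    rintro _ ⟨i, rfl⟩
    fin_cases i
    exacts [mem_sup_left (y2 ▸ m1 1), mem_sup_right ⟨ζ, (πt ζ).symm⟩, by simp [πz]]) (gen.ge (mem_top g))
  obtain ⟨_, ⟨p, rfl⟩, _, ⟨k, rfl⟩, e1⟩ := mem_sup_of_normal_left.1 this
  obtain ⟨_, ⟨a, rfl⟩, e2⟩ := (QuotientGroup.mk'_eq_mk' _).1 (show π (Xc ι t x p.1 *
    (t ζ * Xc ι t x p.2 * (t ζ)⁻¹) * t k) = π g by simpa [yX, πt] using e1)
  have ft' : ∀ k, f (t k) = h k := DFunLike.congr_fun ft
  have v : Vl σ 0 (ι a * η) := by simp [Vl, hι, ← mul_add, hη]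
  obtain ⟨β, v', e3⟩ := D.ua_mul (D.ua_mul (D.ua_Xc hι fx p.1) (D.ua_conj (D.ua_Xc hι fx p.2) ζ))
    (D.ua_conj ⟨_, v, rfl⟩ k)
  obtain ⟨e4, -, rfl⟩ := D.inj k v' (by
    rw [← e3, ← hg, ← e2]; simp [map_Xc, ft, ft', fz, mul_assoc])
  have p2 : p.2 = 0 := by_contra fun p2 => hν (mul_right_cancel₀ ((map_ne_zero ι).2 p2) (by
    have := congrArg σ e4
    simp only [map_add, map_mul, hι, map_zero, mul_zero] at this e4
    linear_combination this - e4))
  have p1 : p.1 = 0 := by simpa [p2] using e4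
  simp only [p1, p2, Xc, dif_pos, map_one, mul_one, mul_inv_cancel, one_mul] at e2
  rw [← e2, fz] at hg
  obtain rfl : a = 0 := by simpa [η0] using (D.inj 1 v (by simpa using hg)).2.1
  rw [← e2, R.add.zero]

theorem exists_coord (hσ : ∀ a, σ (σ a) = a) {K : Type*} [Field K] {ι : K →+* F}
    (hK : ∀ c, σ c = c → ∃ a, c = ι a) {ν : F} (hν : σ ν ≠ ν) (α : F) : ∃ a b, α = ι a + ν * ι b := by
  have := sub_ne_zero.2 hν
  have := sub_ne_zero.2 hν.symm
  obtain ⟨b, hb⟩ := hK ((σ α - α) / (σ ν - ν)) (by simp only [map_div₀, map_sub, hσ]; field_simp; ring)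
  obtain ⟨a, ha⟩ := hK (α - ν * ((σ α - α) / (σ ν - ν))) (by
    simp only [map_div₀, map_sub, map_mul, hσ]; field_simp; ring)
  exact ⟨a, b, by rw [← ha, ← hb]; ring⟩

theorem rl_mod {G α K : Type*} [Group G] {ι : Type} {s : ι → G} [Fintype α] (a b : α → FreeGroup ι)
    (Z : K → FreeGroup ι) (h : ∀ i, ∃ c, lift s (a i) = lift s (b i) * lift s (Z c)) :
    Rl s (Fintype.card α) fun _ _ x => ∀ i, ∃ c, lift x (a i) = lift x (b i) * lift x (Z c) := by
  choose c hc using h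
  exact (Rl.all Finset.univ a (fun i => b i * Z (c i)) fun i _ => by rw [map_mul, hc]).mono le_rfl
    fun _ _ _ h i => ⟨c i, by rw [h i (Finset.mem_univ _), map_mul]⟩

theorem lift_T {E : Type*} [Group E] {ζ : Fˣ} {n : Fˣ → ℕ} (hn : ∀ k, ζ ^ n k = k) {x : Fin 3 → E}
    {t : Fˣ →* E} (e : t ζ = x 1) (k : Fˣ) : lift x (of 1 ^ n k) = t k := by
  rw [map_pow, lift_apply_of, ← e, ← map_pow, hn]

open Classical in
theorem lift_X {K E : Type*} [Field K] [Group E] (ι : K →+* F) {ζ : Fˣ} {n : Fˣ → ℕ}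
    (hn : ∀ k, ζ ^ n k = k) {x : Fin 3 → E} {t : Fˣ →* E} (e : t ζ = x 1) (a : K) :
    lift x (if h : a = 0 then 1 else of 1 ^ n (Units.map ι (Units.mk0 a h)) * of 0 *
      (of 1 ^ n (Units.map ι (Units.mk0 a h)))⁻¹) = Xc ι t (x 0) a := by
  unfold Xc; split_ifs
  · simp
  · rw [map_mul, map_mul, map_inv, lift_T hn e, lift_apply_of]

open Classical in
theorem lift_Z {K E : Type*} [Field K] [Group E] {c : Kˣ} {n : Kˣ → ℕ} (hn : ∀ k, c ^ n k = k)
    {x : Fin 3 → E} {z : K → E} (h0 : IsAdd z) (h1 : z 1 = x 2)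
    (h2 : ∀ a, z (c * a) = x 1 * z a * (x 1)⁻¹) (a : K) :
    lift x (if h : a = 0 then 1 else of 1 ^ n (Units.mk0 a h) * of 2 * (of 1 ^ n (Units.mk0 a h))⁻¹) =
      z a := by
  have : ∀ i : ℕ, x 1 ^ i * x 2 * (x 1 ^ i)⁻¹ = z (c ^ i) := fun i => by
    induction i with
    | zero => simp [h1]
    | succ i ih => rw [pow_succ' (c : K), h2, ← ih]; group
  split_ifs with h
  · simp [h, h0.zero]
  · simp only [map_mul, map_inv, map_pow, lift_apply_of, this]
    exact congrArg z (by simpa using congrArg Units.val (hn (Units.mk0 a h)))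

theorem BD.pres' {u : F → F → B} {h : Fˣ →* B} (D : BD σ u h) (hq : QConj σ q) (h2 : q ≠ 2)
    {K : Type*} [Field K] [Fintype K] (hK2 : Fintype.card K ≠ 2) {ι : K →+* F} (hι : ∀ a, σ (ι a) = ι a)
    (hK : ∀ c, σ c = c → ∃ a, c = ι a) : ∃ s : Fin 3 → B, Pres s 16 := by
  classical
  haveI := hq.finite
  have q2 := hq.two_le
  obtain ⟨η, η0, hη⟩ := exists_trace_zero hq.ne_id hq.invol
  haveI : Fact (ringChar K).Prime := ⟨CharP.char_is_prime K _⟩
  have hK' : ∀ c, c + σ c = 0 → ∃ a, c = ι a * η := fun c h => by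
    obtain ⟨a, ha⟩ := hK (c / η) (by rw [map_div₀, eq_neg_of_add_eq_zero_right h,
      eq_neg_of_add_eq_zero_right hη, neg_div_neg_eq])
    exact ⟨a, by rw [← ha, div_mul_cancel₀ _ η0]⟩
  obtain ⟨ζ, hζ⟩ := IsCyclic.exists_generator (α := Fˣ)
  have z0 := ζ.ne_zero
  have z1 := (map_ne_zero σ).2 z0
  have hν : σ (σ ζ ^ 2 / ζ) ≠ σ ζ ^ 2 / ζ := fun e => by
    have := Nat.le_of_dvd (by omega) (dvd_of_fixed hq hζ (j := 3) (by
      simp only [map_div₀, map_pow, hq.invol] at e ⊢; field_simp at e; exact e.symm))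
    omega
  obtain ⟨c0, e⟩ := hK (σ ζ * ζ) (by simp [hq.invol, mul_comm])
  lift c0 to Kˣ using IsUnit.mk0 c0 (by rintro rfl; simp [z0] at e) with c
  have hc : ∀ u : Kˣ, u ∈ zpowers c := fun u => by
    obtain ⟨t, ht⟩ := exists_norm_eq hq.ne_id hq.invol (hι u)
    have t0 : t ≠ 0 := by rintro rfl; exact u.ne_zero (by simpa using ht.symm)
    obtain ⟨m, rfl⟩ := exists_pow hζ t0
    exact ⟨m, Units.ext (ι.injective (by simp [← e, ← ht, mul_pow]))⟩
  obtain ⟨l, m, hm, hl, hlm⟩ := exists_lam hK2 hc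
  obtain ⟨M, hM, hM'⟩ := exists_min (ringChar K) (l : K)
  obtain ⟨β0, hβ⟩ := exists_trace_eq hq.ne_id hq.invol (a := -1) (by simp)
  have v0 : Ua σ u (u 1 β0) 1 := ⟨β0, by simp [Vl, hβ], rfl⟩
  obtain ⟨b1, b2, hb⟩ := exists_coord hq.invol hK hν (σ ζ ^ 2 / ζ * (σ ζ ^ 2 / ζ * 1))
  have v : ∀ a, Vl σ 0 (ι a * η) := fun a => by simp [Vl, hι, ← mul_add, hη]
  let zz : K → B := fun a => u 0 (ι a * η)
  have zadd : IsAdd zz := fun a b => by simp [zz, D.mul (v a) (v b), add_mul]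
  have zt : ∀ a, zz (c * a) = h ζ * zz a * (h ζ)⁻¹ := fun a => by
    simp [zz, D.hu ζ (v a), ← e, mul_assoc]
  let s : Fin 3 → B := ![u 1 β0, h ζ, zz 1]
  choose n hn using fun k : Fˣ => mem_powers_iff_mem_zpowers.2 (hζ k)
  choose n' hn' using fun k : Kˣ => mem_powers_iff_mem_zpowers.2 (hc k)
  let Z : K → FreeGroup (Fin 3) := fun a =>
    if h : a = 0 then 1 else of 1 ^ n' (Units.mk0 a h) * of 2 * (of 1 ^ n' (Units.mk0 a h))⁻¹
  let X : K → FreeGroup (Fin 3) := fun a => if h : a = 0 then 1 else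
    of 1 ^ n (Units.map ι (Units.mk0 a h)) * of 0 * (of 1 ^ n (Units.map ι (Units.mk0 a h)))⁻¹
  have gT : ∀ k, lift s (of 1 ^ n k) = h k := lift_T hn rfl
  have gX : ∀ a, lift s (X a) = Xc ι h (u 1 β0) a := lift_X ι hn rfl
  have gZ : ∀ a, lift s (Z a) = zz a := lift_Z hn' zadd rfl zt
  have vX := D.ua_Xc hι v0
  have hs : closure (Set.range s) = ⊤ := eq_top_iff.2 fun g _ => by
    obtain ⟨α, β, k, hv, rfl⟩ := D.surj g
    obtain ⟨a, b, rfl⟩ := exists_coord hq.invol hK hν α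
    obtain ⟨d, hd⟩ := D.ua_eq hK' ⟨β, hv, rfl⟩ (D.ua_mul (vX a) (D.ua_conj (vX b) ζ)) rfl
    rw [hd, ← FreeGroup.range_lift_eq_closure]
    exact ⟨X a * (of 1 * X b * (of 1)⁻¹) * Z d * of 1 ^ n k, by
      simp only [map_mul, map_inv, gX, gZ, gT, lift_apply_of]; rfl⟩
  let a : Fin 6 → FreeGroup (Fin 3) := ![X m, of 0 ^ ringChar K, pw (of 0) (of 1 ^ n (Units.map ι l)) M,
    of 0 * (of 1 * of 0 * (of 1)⁻¹), of 0 * (of 1 * X l * (of 1)⁻¹),
    of 1 * (of 1 * of 0 * (of 1)⁻¹) * (of 1)⁻¹]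
  let b : Fin 6 → FreeGroup (Fin 3) := ![of 0 * X l, 1, 1, of 1 * of 0 * (of 1)⁻¹ * of 0,
    of 1 * X l * (of 1)⁻¹ * of 0, X b1 * (of 1 * X b2 * (of 1)⁻¹)]
  have cz : ∀ {g α}, Ua σ u g α → ∀ a, Commute g (zz a) := by
    rintro _ α ⟨β, hv, rfl⟩ a
    simp [Commute, SemiconjBy, zz, D.mul hv (v a), D.mul (v a) hv, add_comm]
  refine ⟨s, pres_of_inj (((((Rl.apart hc (of 2) (of 1) zadd (by simp [s]) (by simpa [s] using zt)).and
    (Rl.eq (of 1 ^ orderOf ζ) 1 (by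
      rw [map_pow, lift_apply_of, map_one]; exact (map_pow h ζ _).symm.trans (by simp)))).and (Rl.comm Finset.univ (fun _ => of 0)
      (fun i : Fin 4 => Z (l ^ i.1)) fun i _ => by rw [gZ, lift_apply_of]; exact cz v0 _)).and
    (Rl.comm1 (of 0) (X l) ?_)).and (rl_mod a b Z fun i => ?_) |>.mono
      (by split_ifs <;> simp) fun _ _ _ h => h) hs ?_⟩
  · obtain ⟨β, hv, e'⟩ := vX l
    obtain ⟨β', hv', e''⟩ := v0
    rw [gX, lift_apply_of, e']
    change Commute (u 1 β0) _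
    rw [e'', Commute, SemiconjBy, D.mul hv hv', D.mul hv' hv]
    simp [hι, add_comm]
  · simp only [gZ]
    fin_cases i <;> simp only [a, b, Fin.reduceFinMk, Matrix.cons_val, map_mul, map_inv, map_one, gX, gT,
      map_pw, lift_apply_of]
    · exact D.ua_eq hK' (vX _) (D.ua_mul v0 (vX _)) (by simp [hm])
    · rw [map_pow, lift_apply_of, ← zpow_natCast]
      exact D.ua_eq hK' (D.ua_zpow v0 _) D.ua_one (by
        rw [mul_one, Int.cast_natCast, ← map_natCast ι, ringChar.Nat.cast_ringChar, map_zero])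
    · exact D.ua_eq hK' (D.ua_pw v0 _ (hι _) M) D.ua_one (by
        rw [mul_one]; exact (aeval_algHom_apply ι.toIntAlgHom _ M).trans (by simp [hM]))
    · exact D.ua_eq hK' (D.ua_mul v0 (D.ua_conj v0 ζ)) (D.ua_mul (D.ua_conj v0 ζ) v0) (add_comm _ _)
    · exact D.ua_eq hK' (D.ua_mul v0 (D.ua_conj (vX _) ζ)) (D.ua_mul (D.ua_conj (vX _) ζ) v0)
        (add_comm _ _)
    · exact D.ua_eq hK' (D.ua_conj (D.ua_conj v0 ζ) ζ) (D.ua_mul (vX _) (D.ua_conj (vX _) ζ)) hb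
  rintro E _ x f hf hx ⟨⟨⟨⟨⟨z, r1, r2, r3⟩, r4⟩, r5⟩, r6⟩, r7⟩
  simp only [map_pow, lift_apply_of, map_one] at r2 r3 r4
  let t := monoidHomOfForallMemZpowers hζ (orderOf_dvd_of_pow_eq_one r4)
  have et : t ζ = x 1 := monoidHomOfForallMemZpowers_apply_gen _ _
  have eX : ∀ a, lift x (X a) = Xc ι t (x 0) a := lift_X ι hn et
  have eZ : ∀ a, lift x (Z a) = z a := lift_Z hn' r1 r2 r3
  have eT : ∀ k, lift x (of 1 ^ n k) = t k := lift_T hn et
  simp only [Fin.forall_fin_succ, a, b, Matrix.cons_val_zero, Matrix.cons_val_succ, map_mul, map_inv,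
    map_one, eX, eZ, eT, map_pw, lift_apply_of, ← et] at r6 r7
  obtain ⟨s1, s2, s3, s4, s5, s6, -⟩ := r7
  refine D.core hι η0 hη hζ hν hc e.symm hm hl hlm hM' (x := x 0) (t := t) (z := z)
    ⟨r1, et ▸ r3, fun i => ?_, r6, s1, by simpa using s2, s3, s4, s5, s6⟩ (hf 0 ▸ v0)
    (MonoidHom.ext fun k => by rw [MonoidHom.comp_apply, ← eT, map_lift hf, gT])
    (fun a => by rw [← eZ, map_lift hf, gZ]) ?_
  · simpa only [eZ, lift_apply_of] using r5 i (Finset.mem_univ i)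
  · rw [← hx, et, r2]; congr 2; ext i; fin_cases i <;> rfl

theorem BD.pres {u : F → F → B} {h : Fˣ →* B} (D : BD σ u h) (hq : QConj σ q) (h2 : q ≠ 2) :
    ∃ s : Fin 3 → B, Pres s 16 := by
  haveI := hq.finite
  haveI := Fintype.ofFinite (σ.eqLocusField (RingHom.id F))
  exact D.pres' hq h2 (ι := (σ.eqLocusField (RingHom.id F)).subtype) (by
    rw [← Nat.card_eq_fintype_card]; exact fun e => h2 (hq.card_fixed.symm.trans e)) (fun u => u.2)
    fun c h => ⟨⟨c, h⟩, rfl⟩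

end Cfsg.Agent.H12
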