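import Mathlib
import Cfsg.Agent.H12.PrV1
import Cfsg.Agent.H12.PrD
import Cfsg.Agent.H11.FinQuad

/-!
A bounded presentation of `SU₃(q)`: two triangle relations suffice.
-/

set_option autoImplicit false
set_option linter.unusedSectionVars false

namespace Cfsg.Agent.H12

open Subgroup H7.Pr H19 H11
open FreeGroup (lift of lift_apply_of)

variable {F : Type*} [Field F] {σ : F →+* F} {q : ℕ} {B G E : Type*} [Group B] [Group G] [Group E]

theorem exists_split (hq : QConj σ q) {a b α β : F} (v : Vl σ α β) (h1 : σ (a * b) ≠ a * b)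
    (h2 : σ (b * σ β) ≠ b * σ β) (h3 : σ (a * σ β) ≠ a * σ β) :
    ∃ r s α' : F, r ≠ 0 ∧ s ≠ 0 ∧ σ r = r ∧ σ s = s ∧ Vl σ α' (a * r) ∧
      a * r + b * s - σ α' * (α - α') = β := by
  haveI := hq.finite
  have i := hq.invol
  let K := σ.eqLocusField (RingHom.id F)
  let N : F → K := fun x => ⟨σ x * x, show σ _ = _ by simp [i, mul_comm]⟩
  let T : F → K := fun x => ⟨-(x + σ x), show σ _ = _ by simp [i, add_comm]⟩
  obtain ⟨⟨r, hr⟩, ⟨s, hs⟩, ⟨t, ht⟩, h0, e⟩ := ternary_isotropic (N a) (N b) (N β) (T (a * b))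
    (T (a * σ β)) (T (b * σ β))
  replace hr : σ r = r := hr
  replace hs : σ s = s := hs
  replace ht : σ t = t := ht
  replace e := congrArg Subtype.val e
  simp [N, T, i] at e h0
  have nz : ∀ x : F, σ x * x = 0 → x = 0 := fun x h => by simpa using h
  have two : ∀ x y r s : F, σ r = r → σ s = s → σ (x * y) ≠ x * y →
      σ (y * s - σ x * r) * (y * s - σ x * r) = 0 → r = 0 ∧ s = 0 := fun x y r s hr hs h e => by
    have k : y * s - σ x * r = 0 := nz _ e
    have k' := congrArg σ k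
    simp only [map_sub, map_mul, i, hr, hs, map_zero] at k' h
    exact ⟨mul_left_cancel₀ (sub_ne_zero.2 h) (by linear_combination y * k' - σ y * k),
      mul_left_cancel₀ (sub_ne_zero.2 h) (by linear_combination σ x * k' - x * k)⟩
  have t0 : t ≠ 0 := fun t0 => by
    have := two a b r s hr hs h1 (by
      simp only [map_sub, map_mul, i, hr, hs]; rw [t0] at e; linear_combination e)
    simp [Subtype.ext_iff, this, t0] at h0
  have r0 : r ≠ 0 := fun r0 => t0 (two (σ β) b t s ht hs (by rwa [mul_comm]) (by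
    simp only [map_sub, map_mul, i, ht, hs]; rw [r0] at e; linear_combination e)).1
  have s0 : s ≠ 0 := fun s0 => t0 (two (σ β) a t r ht hr (by rwa [mul_comm]) (by
    simp only [map_sub, map_mul, i, ht, hr]; rw [s0] at e; linear_combination e)).1
  obtain ⟨r, rfl⟩ : ∃ r', r = r' * t := ⟨r / t, by field_simp⟩
  obtain ⟨s, rfl⟩ : ∃ s', s = s' * t := ⟨s / t, by field_simp⟩
  rw [map_mul, ht, mul_left_inj' t0] at hr hs
  have e' : σ (b * s - β - σ a * r) * (b * s - β - σ a * r) = (a * r + σ a * r) * (β + σ β) :=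
    mul_left_cancel₀ (mul_ne_zero t0 t0) (by
      simp only [map_sub, map_mul, i, hr, hs]; linear_combination e)
  rw [Vl] at v
  suffices ∃ α', σ α' * α' = -(a * r + σ a * r) ∧ σ α' * α = b * s - β - σ a * r by
    obtain ⟨α', k1, k2⟩ := this
    exact ⟨r, s, α', left_ne_zero_of_mul r0, left_ne_zero_of_mul s0, hr, hs,
      by rw [Vl, map_mul, hr, k1]; ring, by linear_combination k1 - k2⟩
  by_cases a0 : α = 0
  · obtain ⟨α', k⟩ := exists_norm_eq hq.ne_id i (a := -(a * r + σ a * r)) (by simp [i, hr, add_comm])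
    rw [show β + σ β = 0 by simpa [a0] using v, mul_zero] at e'
    exact ⟨α', k, by rw [a0, mul_zero, nz _ e']⟩
  · have := (map_ne_zero σ).2 a0
    refine ⟨σ ((b * s - β - σ a * r) / α), ?_, by rw [i, div_mul_cancel₀ _ a0]⟩
    rw [i, map_div₀]
    field_simp
    linear_combination e' + (a * r + σ a * r) * v

/-- the structure of `SU₃` -/
structure GD (σ : F →+* F) (u : F → F → B) (h : Fˣ →* B) (i : B →* G) (w : G) : Prop
    extends BD σ u h where
  ii : Function.Injective i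
  ww : w * w = 1
  wh : ∀ l : Fˣ, w * i (h l) * w = i (h (Units.map σ l)⁻¹)
  tri : ∀ {α : F} {β : Fˣ}, Vl σ α β → w * i (u α β) * w =
    i (u (-α / β) (β : F)⁻¹ * h (Units.map σ β)⁻¹) * w * i (u (-α / σ β) (β : F)⁻¹)
  uniq : ∀ b b', i b * w * i b' = w → ∃ l, b' = h l
  ne : ∀ b, i b ≠ w
  gen : ∀ g, (∃ b, g = i b) ∨ ∃ b b', g = i b * w * i b'

/-- the good elements -/
def Gd (φ : B →* E) (W : E) (b : B) : Prop := ∃ b1 b2, W * φ b * W = φ b1 * W * φ b2

theorem GD.core {u : F → F → B} {h : Fˣ →* B} {i : B →* G} {w : G} (D : GD σ u h i w) (hq : QConj σ q)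
    {ζ : Fˣ} (hζ : ∀ u : Fˣ, u ∈ zpowers ζ) {f : E →* G} {φ : B →* E} {W : E} (fφ : ∀ b, f (φ b) = i b)
    (fW : f W = w) (r1 : W * W = 1) (r2 : W * φ (h ζ) * W = φ (h (Units.map σ ζ)⁻¹)) {α1 α2 : F}
    (v1 : Vl σ α1 (ζ ^ 1)) (v2 : Vl σ α2 (ζ ^ 2)) (g1 : Gd φ W (u α1 (ζ ^ 1)))
    (g2 : Gd φ W (u α2 (ζ ^ 2))) : ∀ g ∈ φ.range ⊔ zpowers W, f g = 1 → g = 1 := by
  haveI := hq.finite
  have iv := hq.invol
  have W1 : W⁻¹ = W := inv_eq_of_mul_eq_one_right r1
  have WW : ∀ x, W * (W * x) = x := fun x => by rw [← mul_assoc, r1, one_mul]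
  have Wh : ∀ l, W * φ (h l) * W = φ (h (Units.map σ l)⁻¹) := fun l => by
    obtain ⟨n, rfl⟩ : ∃ i : ℕ, ζ ^ i = l := mem_powers_iff_mem_zpowers.2 (hζ l)
    rw [map_pow (Units.map _), ← inv_pow, map_pow, map_pow, map_pow, map_pow, ← r2]
    simpa [W1] using (conj_pow (a := W) (b := φ (h ζ)) (i := n)).symm
  have Wh' : ∀ l x, W * (φ (h l) * x) = φ (h (Units.map σ l)⁻¹) * (W * x) := fun l x => by
    rw [← Wh]; simp [mul_assoc, WW]
  have ex : ∀ {b1 b2 c1 c2}, i b1 * w * i b2 = i c1 * w * i c2 → φ b1 * W * φ b2 = φ c1 * W * φ c2 :=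
    fun {b1 b2 c1 c2} e => by
      have e' : i (c1⁻¹ * b1) * w * i (b2 * c2⁻¹) = w := by
        rw [map_mul, map_mul, ← mul_assoc, mul_assoc _ (i b1), mul_assoc _ _ (i b2), e]; simp [mul_assoc]
      obtain ⟨l, hl⟩ := D.uniq _ _ e'
      have : c1⁻¹ * b1 = (h (Units.map σ l)⁻¹)⁻¹ := D.ii (by
        rw [map_inv, ← D.wh, ← hl, eq_inv_iff_mul_eq_one, ← mul_assoc, ← mul_assoc, e', D.ww])
      rw [inv_mul_eq_iff_eq_mul.1 this, mul_inv_eq_iff_eq_mul.1 hl]
      simp [mul_assoc, Wh']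
  have tri : ∀ {α : F} {β : Fˣ}, Vl σ α β → Gd φ W (u α β) → W * φ (u α β) * W =
      φ (u (-α / β) (β : F)⁻¹ * h (Units.map σ β)⁻¹) * W * φ (u (-α / σ β) (β : F)⁻¹) :=
    fun v ⟨b1, b2, e⟩ => e.trans (ex (by
      rw [← D.tri v]; simpa [fφ, fW] using (congrArg f e).symm))
  have gT : ∀ {b} (l l' : Fˣ), Gd φ W b → Gd φ W (h l * b * h l') := fun {b} l l' ⟨b1, b2, e⟩ =>
    ⟨h (Units.map σ l)⁻¹ * b1, b2 * h (Units.map σ l')⁻¹, by
      calc _ = W * φ (h l) * W * (W * φ b * W) * (W * φ (h l') * W) := by simp [mul_assoc, WW]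
        _ = _ := by rw [Wh, Wh, e]; simp [mul_assoc]⟩
  have gI : ∀ {b}, Gd φ W b → Gd φ W b⁻¹ := fun ⟨b1, b2, e⟩ =>
    ⟨b2⁻¹, b1⁻¹, by simpa [W1, mul_assoc] using congrArg (·⁻¹) e⟩
  have gR : ∀ {b b1 b2}, W * φ b * W = φ b1 * W * φ b2 → Gd φ W b2 := fun {b b1 b2} e =>
    ⟨b1⁻¹, b, by
      rw [map_inv, mul_assoc (φ b1)⁻¹, eq_inv_mul_iff_mul_eq, ← mul_assoc, ← mul_assoc, ← e]
      simp [mul_assoc, r1]⟩
  have gM : ∀ {b b' b1 b2 c1 c2}, W * φ b * W = φ b1 * W * φ b2 → W * φ b' * W = φ c1 * W * φ c2 →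
      Gd φ W (b2 * c1) → Gd φ W (b * b') := fun {b b' b1 b2 c1 c2} e e' ⟨d1, d2, k⟩ =>
    ⟨b1 * d1, d2 * c2, by
      calc _ = W * φ b * W * (W * φ b' * W) := by simp [mul_assoc, WW]
        _ = φ b1 * (W * φ (b2 * c1) * W) * φ c2 := by rw [e, e']; simp [mul_assoc]
        _ = _ := by rw [k]; simp [mul_assoc]⟩
  have gC : ∀ {α β} (l : Fˣ), Vl σ α β → Gd φ W (u α β) → Gd φ W (u (σ l ^ 2 / l * α) (σ l * l * β)) :=
    fun l v g => by rw [← D.hu l v, ← map_inv]; exact gT _ _ g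
  have vi : ∀ {α : F} {β : Fˣ}, Vl σ α β → Vl σ (-α / σ β) (β : F)⁻¹ ∧ Vl σ (-α / β) (β : F)⁻¹ :=
    fun {α β} v => by
      have := β.ne_zero
      have := (map_ne_zero σ).2 β.ne_zero
      simp only [Vl, map_div₀, map_neg, map_inv₀, iv] at v ⊢
      constructor <;> field_simp <;> linear_combination v
  have gS : ∀ {α : F} {β : Fˣ}, Vl σ α β → Gd φ W (u α β) → Gd φ W (u (σ β / β * α) β) :=
    fun {α β} v g => by
      have := β.ne_zero
      have := (map_ne_zero σ).2 β.ne_zero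
      have := gI (gR (tri v g))
      rw [D.inv (vi v).1] at this
      convert gC β ((vi v).1.inv iv) this using 2 <;> simp <;> field_simp
  have z0 := ζ.ne_zero
  have z1 := (map_ne_zero σ).2 z0
  have full : ∀ {α0 : F} {β : F}, Vl σ α0 β → Gd φ W (u α0 β) →
      (∀ α, Vl σ α β → Gd φ W (u α β) → Gd φ W (u ((σ ζ / ζ) ^ 2 * α) β)) →
      ∀ α, Vl σ α β → Gd φ W (u α β) := fun {α0 β} v g st α v' => by
    have vv : ∀ n : ℕ, Vl σ ((σ ζ / ζ) ^ n * α0) β := fun n => by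
      simp only [Vl, map_mul, map_pow, map_div₀, iv] at v ⊢
      rw [← v, mul_mul_mul_comm, ← mul_pow]; field_simp; simp
    have key : ∀ n : ℕ, Gd φ W (u ((σ ζ / ζ) ^ (n + 2) * α0) β) := fun n => by
      induction n using Nat.twoStepInduction with
      | zero => exact st _ v g
      | one =>
        convert gC (ζ / Units.map σ ζ) v g using 2 <;> simp [iv] <;> field_simp
        simp
      | more n a _ => convert st _ (vv _) a using 2; ring
    have e : σ α * α = σ α0 * α0 := by rw [Vl] at v v'; linear_combination v' - v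
    by_cases a0 : α0 = 0
    · obtain rfl : α = α0 := by simpa [a0] using e
      exact g
    obtain ⟨c, c0, hc⟩ := exists_div_conj hq.ne_id iv (t := α / α0) (by
      have := (map_ne_zero σ).2 a0
      rw [map_div₀]; field_simp; linear_combination e)
    obtain ⟨n, hn⟩ := exists_pow hζ (c := σ c / ζ ^ 2) (by simp [c0])
    convert key n using 2
    have c1 := (map_ne_zero σ).2 c0
    rw [div_pow, ← map_pow, pow_add, hn, div_mul_cancel₀ _ (pow_ne_zero 2 z0), iv]
    field_simp at hc ⊢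
    exact hc
  have fK : ∀ {β r : F}, r ≠ 0 → σ r = r → (∀ α, Vl σ α β → Gd φ W (u α β)) →
      ∀ α, Vl σ α (β * r) → Gd φ W (u α (β * r)) := fun {β r} r0 hr H α v => by
    obtain ⟨l, rfl⟩ := exists_norm_eq hq.ne_id iv hr
    lift l to Fˣ using IsUnit.mk0 l (right_ne_zero_of_mul r0)
    have := l.ne_zero
    have := (map_ne_zero σ).2 l.ne_zero
    have v' : Vl σ (l / σ l ^ 2 * α) β := by
      convert v.conj iv l⁻¹ using 1 <;> simp <;> field_simp
      simp
    convert gC l v' (H _ v') using 2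
    · field_simp
    · ring
  have f1 := full v1 g1 fun α v g => by
    have v' : Vl σ (σ ζ / ζ * α) ζ := by
      simp only [Vl, map_mul, map_div₀, iv, pow_one] at v ⊢
      rw [← v]; field_simp
    rw [pow_one] at v g ⊢
    convert gS v' (gS v g) using 2; ring
  have f2 := full v2 g2 fun α v g => by
    have := gS (β := ζ ^ 2) v g
    rwa [Units.val_pow_eq_pow_val, map_pow, ← div_pow] at this
  have fa : ∀ n : ℕ, ∀ α, Vl σ α (ζ ^ (n + 1)) → Gd φ W (u α (ζ ^ (n + 1))) := fun n => by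
    induction n using Nat.twoStepInduction with
    | zero => exact f1
    | one => exact f2
    | more n ih _ =>
      by_cases c : σ (ζ ^ (n + 1) * ζ ^ 1) = ζ ^ (n + 1) * ζ ^ 1
      · rw [show (ζ : F) ^ (n + 2 + 1) = ζ ^ 1 * (ζ ^ (n + 1) * ζ ^ 1) by ring]
        exact fK (by simp) c f1
      intro α v
      obtain ⟨r, s, α', r0, s0, hr, hs, v', e⟩ := exists_split hq v c (fun e => c (by
        refine mul_left_cancel₀ (mul_ne_zero z0 z1) ?_
        simp only [map_mul, map_pow, iv] at e ⊢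
        linear_combination -e)) fun e => by
        have := Nat.le_of_dvd (by omega) (dvd_of_fixed hq hζ (j := 2) (by
          refine mul_left_cancel₀ (pow_ne_zero (n + 1) (mul_ne_zero z0 z1)) ?_
          simp only [map_mul, map_pow, iv] at e ⊢
          linear_combination -e))
        have := hq.two_le
        omega
      have v'' : Vl σ (α - α') (ζ ^ 1 * s) := by
        simp only [Vl, map_mul, map_sub, hr, hs] at v v' ⊢
        have e' := congrArg σ e
        simp only [map_mul, map_sub, map_add, hr, hs, iv] at e'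
        linear_combination v - v' + e + e'
      lift r to Fˣ using r0.isUnit
      lift s to Fˣ using s0.isUnit
      have := gM (tri (β := ζ ^ (n + 1) * r) v' (fK r0 hr ih _ v'))
        (tri (β := ζ ^ 1 * s) v'' (fK s0 hs f1 _ v'')) (by
          have k1 := (vi (β := ζ ^ (n + 1) * r) v').1
          have k2 := (vi (β := ζ ^ 1 * s) v'').2
          have k3 := k1.mul iv k2
          rw [← mul_assoc, D.mul k1 k2]
          have e3 : ((ζ ^ (n + 1) * r : Fˣ) : F)⁻¹ + ((ζ ^ 1 * s : Fˣ) : F)⁻¹ -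
              σ (-α' / σ (ζ ^ (n + 1) * r : Fˣ)) * (-(α - α') / (ζ ^ 1 * s : Fˣ)) =
              ζ ^ 1 * ((r : F) * s)⁻¹ := by
            simp only [map_div₀, map_neg, iv, Units.val_mul, Units.val_pow_eq_pow_val]
            field_simp
            linear_combination e
          rw [e3] at k3 ⊢
          simpa only [map_one, one_mul] using gT 1 _ (fK (by simp) (by simp [hr, hs]) f1 _ k3))
      simp only [Units.val_mul, Units.val_pow_eq_pow_val] at this
      rwa [D.mul v' v'', e, add_sub_cancel] at this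
  have all : ∀ b, Gd φ W b ∨ ∃ l, b = h l := fun b => by
    obtain ⟨α, β, l, v, rfl⟩ := D.surj b
    by_cases b0 : β = 0
    · obtain rfl : α = 0 := by simpa [Vl, b0] using v
      exact .inr ⟨l, by rw [b0, D.zero, one_mul]⟩
    obtain ⟨n, hn⟩ := exists_pow hζ (c := β / ζ) (by simp [b0])
    rw [eq_div_iff z0, ← pow_succ] at hn
    subst hn
    exact .inl (by simpa using gT 1 l (fa n α v))
  have key : ∀ g ∈ φ.range ⊔ zpowers W, (∃ b, g = φ b) ∨ ∃ b b', g = φ b * W * φ b' := fun g hg => by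
    rw [← closure_eq φ.range, zpowers_eq_closure, ← Subgroup.closure_union] at hg
    have st : ∀ x ∈ (φ.range : Set E) ∪ {W}, ∀ y, ((∃ b, y = φ b) ∨ ∃ b b', y = φ b * W * φ b') →
        (∃ b, x * y = φ b) ∨ ∃ b b', x * y = φ b * W * φ b' := by
      rintro _ (⟨c, rfl⟩ | rfl) _ (⟨b, rfl⟩ | ⟨b, b', rfl⟩)
      · exact .inl ⟨_, (map_mul ..).symm⟩
      · exact .inr ⟨c * b, b', by simp [mul_assoc]⟩
      · exact .inr ⟨1, b, by simp⟩
      · rcases all b with ⟨b1, b2, e⟩ | ⟨l, rfl⟩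
        · exact .inr ⟨b1, b2 * b', by rw [← mul_assoc, ← mul_assoc, e]; simp [mul_assoc]⟩
        · exact .inl ⟨_, by rw [← mul_assoc, ← mul_assoc, Wh, map_mul]⟩
    induction hg using closure_induction_left with
    | one => exact .inl ⟨1, by simp⟩
    | mul_left x hx y _ ih => exact st x hx y ih
    | inv_mul_cancel x hx y _ ih =>
      exact st _ (hx.elim (fun h => .inl (inv_mem h)) fun h => .inr (by rw [h, W1]; rfl)) y ih
  intro g hg e
  rcases key g hg with ⟨b, rfl⟩ | ⟨b, b', rfl⟩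
  · rw [fφ, map_eq_one_iff _ D.ii] at e; rw [e, map_one]
  · simp only [map_mul, fφ, fW] at e
    exact (D.ne (b⁻¹ * b'⁻¹) (by
      rw [map_mul, map_inv, map_inv, inv_mul_eq_iff_eq_mul, inv_eq_iff_mul_eq_one,
        mul_eq_one_comm, e])).elim

theorem GD.pres {u : F → F → B} {h : Fˣ →* B} {i : B →* G} {w : G} (D : GD σ u h i w) (hq : QConj σ q)
    (h2 : q ≠ 2) : ∃ s : Fin 4 → G, Pres s 20 := by
  haveI := hq.finite
  obtain ⟨s0, hs⟩ := D.toBD.pres hq h2
  obtain ⟨ζ, hζ⟩ := IsCyclic.exists_generator (α := Fˣ)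
  have ex : ∀ β : F, ∃ α, Vl σ α β := fun β =>
    let ⟨α, h⟩ := exists_norm_eq hq.ne_id hq.invol (a := -(β + σ β)) (by simp [hq.invol, add_comm])
    ⟨α, by rw [Vl, h, add_neg_cancel]⟩
  obtain ⟨α1, v1⟩ := ex (ζ ^ 1)
  obtain ⟨α2, v2⟩ := ex (ζ ^ 2)
  let s : Fin 4 → G := Fin.cons w fun k => i (s0 k)
  let W : Fin 3 → FreeGroup (Fin 4) := fun k => of k.succ
  have hW : ∀ k, i (s0 k) = lift s (W k) := fun i => by simp [s, W]
  choose wd hwd using exists_word hs.1
  let A : B → FreeGroup (Fin 4) := fun g => lift W (wd g)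
  have gA : ∀ g, lift s (A g) = i g := fun g => by simp only [A, lift_lift hW, hwd]
  have s0' : lift s (of 0) = w := by simp [s]
  have rl : ∀ {b b1 b2}, w * i b * w = i b1 * w * i b2 → Rl s 1 fun _ _ x =>
      lift x (of 0 * A b * of 0) = lift x (A b1 * of 0 * A b2) := fun e =>
    Rl.eq _ _ (by simpa only [map_mul, gA, s0'] using e)
  refine ⟨s, pres_of_inj (((((Rl.sub hs W i hW).and (Rl.eq (of 0 * of 0) 1 ?_)).and
    (Rl.eq (of 0 * A (h ζ) * of 0) (A (h (Units.map σ ζ)⁻¹)) ?_)).and (rl (D.tri (β := ζ ^ 1) v1))).and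
    (rl (D.tri (β := ζ ^ 2) v2))) ?_ ?_⟩
  · simpa only [map_mul, map_one, s0'] using D.ww
  · simpa only [map_mul, gA, s0'] using D.wh ζ
  · rw [closure_cons hs.1 (x := s) fun _ => rfl, eq_top_iff]
    intro g _
    have m : w ∈ i.range ⊔ zpowers (s 0) := mem_sup_right (mem_zpowers _)
    rcases D.gen g with ⟨b, rfl⟩ | ⟨b, b', rfl⟩
    exacts [mem_sup_left ⟨_, rfl⟩, mul_mem (mul_mem (mem_sup_left ⟨_, rfl⟩) m) (mem_sup_left ⟨_, rfl⟩)]
  rintro E _ x f hf hx ⟨⟨⟨⟨⟨φ, hφ⟩, r1⟩, r2⟩, r3⟩, r4⟩ g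
  have eA : ∀ g, lift x (A g) = φ g := fun g => by simp only [A, lift_lift hφ, hwd]
  simp only [map_mul (lift x), map_one, eA, lift_apply_of] at r1 r2 r3 r4
  refine D.core hq hζ (fun b => by rw [← eA, map_lift hf, gA]) (hf 0) r1 r2 v1 v2 ⟨_, _, r3⟩
    ⟨_, _, r4⟩ g ?_
  rw [← closure_cons hs.1 fun i => by simpa [W] using hφ i, hx]; trivial

end Cfsg.Agent.H12
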