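import Mathlib
import Cfsg.Agent.L1.Se0

/-!
The abstract part of the normalizer of `E` in the `3`-local characterization of `S₈`.
-/

set_option autoImplicit false
set_option linter.unusedVariables false

namespace Cfsg.Agent.L1Se

open Subgroup Equiv

universe u

theorem b3a_cl {X : Type*} [Group X] {p : ℕ} {a b : X} (ha : a ^ p = 1) (hb : b ^ p = 1)
    (hc : Commute a b) : ∀ t ∈ closure {a, b}, Commute t a ∧ Commute t b ∧ t ^ p = 1 := by
  have k : ∀ t ∈ closure {a, b}, Commute t a ∧ Commute t b := fun t ht => by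
    induction ht using closure_induction with
    | mem x hx => rcases hx with rfl | rfl; exacts [⟨rfl, hc⟩, ⟨hc.symm, rfl⟩]
    | one => exact ⟨Commute.one_left _, Commute.one_left _⟩
    | mul x y _ _ h1 h2 => exact ⟨h1.1.mul_left h2.1, h1.2.mul_left h2.2⟩
    | inv x _ h => exact ⟨h.1.inv_left, h.2.inv_left⟩
  intro t ht
  refine ⟨(k t ht).1, (k t ht).2, ?_⟩
  induction ht using closure_induction_left with
  | one => exact one_pow _
  | mul_left x hx y hy h =>
    rcases hx with rfl | rfl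
    · rw [(k y hy).1.symm.mul_pow, h, ha, one_mul]
    · rw [(k y hy).2.symm.mul_pow, h, hb, one_mul]
  | inv_mul_cancel x hx y hy h =>
    rcases hx with rfl | rfl
    · rw [(k y hy).1.symm.inv_left.mul_pow, h, inv_pow, ha, inv_one, one_mul]
    · rw [(k y hy).2.symm.inv_left.mul_pow, h, inv_pow, hb, inv_one, one_mul]

theorem b3a_two {X : Type*} [Group X] [Finite X] {p : ℕ} [hp : Fact p.Prime] {a b : X}
    (ha : a ^ p = 1) (hb : b ^ p = 1) (hc : Commute a b) (a1 : a ≠ 1) (hi : b ∉ zpowers a) :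
    IsPGroup p (closure {a, b}) ∧ p ^ 2 ∣ Nat.card (closure {a, b}) := by
  have h1 : IsPGroup p (closure {a, b}) := fun t => ⟨1, Subtype.ext (by
    rw [pow_one]; exact (b3a_cl ha hb hc t t.2).2.2)⟩
  refine ⟨h1, ?_⟩
  obtain ⟨n, hn⟩ := IsPGroup.iff_card.1 h1
  have hle : zpowers a ≤ closure {a, b} := zpowers_le.2 (subset_closure (by simp))
  rw [hn]
  refine pow_dvd_pow _ (not_lt.1 fun h => hi ?_)
  rw [Subgroup.eq_of_le_of_card_ge hle (by
    rw [hn, Nat.card_zpowers, orderOf_eq_prime ha a1]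
    simpa using Nat.pow_le_pow_right hp.out.pos (show n ≤ 1 by omega))]
  exact subset_closure (by simp)

theorem b3a_core (t : T05.{u}) {X : Type u} [Group X] [Finite X] {a b τ σ : X} (a3 : a ^ 3 = 1)
    (hc : Commute a b) (a1 : a ≠ 1) (hi : b ∉ zpowers a) (tt : τ * τ = 1) (ss : σ * σ = 1)
    (ts : Commute τ σ) (ta : τ * a * τ⁻¹ = a⁻¹) (sa : σ * a * σ⁻¹ = b) (h27 : ¬ 27 ∣ Nat.card X)
    (hA : ∀ d ∈ closure {a, b}, d ≠ 1 → ∀ g, Commute g d → ∃ s ∈ closure {a, b},
      g = s ∨ g = s * τ ∨ g = s * σ ∨ g = s * τ * σ)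
    (hC : ∀ g, g * a * g⁻¹ ∈ closure {a, b} → ∃ s ∈ closure {a, b},
      g = s ∨ g = s * τ ∨ g = s * σ ∨ g = s * τ * σ) (g : X) : g * a * g⁻¹ ∈ closure {a, b} := by
  haveI : Fact (Nat.Prime 3) := ⟨Nat.prime_three⟩
  have b3 : b ^ 3 = 1 := by rw [← sa, conj_pow, a3]; group
  have si : σ⁻¹ = σ := inv_eq_of_mul_eq_one_right ss
  have ti : τ⁻¹ = τ := inv_eq_of_mul_eq_one_right tt
  have sb : σ * b * σ⁻¹ = a := by
    rw [← sa, si]
    calc _ = (σ * σ) * a * (σ * σ) := by group
      _ = a := by rw [ss]; group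
  have tb : τ * b * τ⁻¹ = b⁻¹ := by
    rw [← sa]
    calc _ = (τ * σ) * a * (τ * σ)⁻¹ := by group
      _ = σ * (τ * a * τ⁻¹) * σ⁻¹ := by rw [ts.eq]; group
      _ = _ := by rw [ta]; group
  have ma : a ∈ closure {a, b} := subset_closure (by simp)
  have mb : b ∈ closure {a, b} := subset_closure (by simp)
  have cl := b3a_cl a3 b3 hc
  obtain ⟨pg, d9⟩ := b3a_two a3 b3 hc a1 hi
  obtain ⟨T, hT⟩ := pg.exists_le_sylow
  have c9 : Nat.card (T : Subgroup X) = 9 := by
    obtain ⟨n, hn⟩ := IsPGroup.iff_card.1 T.isPGroup'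
    have e1 := d9.trans (card_dvd_of_le hT)
    have e2 : ¬ 3 ^ 3 ∣ Nat.card (T : Subgroup X) := fun e => h27 (e.trans (card_subgroup_dvd_card _))
    rw [hn, Nat.pow_dvd_pow_iff_le_right (by norm_num)] at e1 e2
    rw [hn, show n = 2 by omega]; rfl
  have eT : closure {a, b} = (T : Subgroup X) := Subgroup.eq_of_le_of_card_ge hT (by
    rw [c9]; exact Nat.le_of_dvd Nat.card_pos d9)
  have nrm : ∀ s : X, s * a * s⁻¹ ∈ closure {a, b} → s * b * s⁻¹ ∈ closure {a, b} →
      s ∈ normalizer ((closure {a, b} : Subgroup X) : Set X) := fun s h1 h2 => by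
    refine mem_normalizer_fintype fun n hn => ?_
    have : (closure {a, b}).map (MulAut.conj s).toMonoidHom ≤ closure {a, b} := by
      rw [MonoidHom.map_closure, closure_le]
      rintro _ ⟨x, rfl | rfl, rfl⟩
      exacts [h1, h2]
    exact this ⟨n, hn, rfl⟩
  have nτ := nrm τ (ta ▸ inv_mem ma) (tb ▸ inv_mem mb)
  have nσ := nrm σ (sa ▸ mb) (sb ▸ ma)
  have nf : ∀ g, (∃ s ∈ closure {a, b}, g = s ∨ g = s * τ ∨ g = s * σ ∨ g = s * τ * σ) →
      g ∈ normalizer ((closure {a, b} : Subgroup X) : Set X) := by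
    rintro g ⟨s, hs, rfl | rfl | rfl | rfl⟩
    exacts [le_normalizer hs, mul_mem (le_normalizer hs) nτ, mul_mem (le_normalizer hs) nσ,
      mul_mem (mul_mem (le_normalizer hs) nτ) nσ]
  have n1 : ¬ Commute τ a := fun e => by
    rw [e.eq, mul_inv_cancel_right] at ta
    refine a1 ?_
    rw [pow_succ, pow_two] at a3
    nth_rewrite 1 [ta] at a3
    simpa using a3
  have n2 : ¬ Commute σ a := fun e => by
    rw [e.eq, mul_inv_cancel_right] at sa
    exact hi (sa ▸ mem_zpowers a)
  have n3 : ¬ Commute (τ * σ) a := fun e => by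
    have : τ * b * τ⁻¹ = a := by
      rw [← sa]
      calc _ = (τ * σ) * a * (τ * σ)⁻¹ := by group
        _ = a := by rw [e.eq]; group
    rw [tb] at this
    exact hi (inv_mem_iff.1 (this ▸ mem_zpowers a))
  have cT : ∀ g, Commute g a → g ∈ normalizer ((closure {a, b} : Subgroup X) : Set X) →
      g ∈ closure {a, b} := fun g hg _ => by
    obtain ⟨s, hs, e⟩ := hA a ma a1 g hg
    have := (cl s hs).1.inv_left.mul_left hg
    rcases e with rfl | rfl | rfl | rfl
    · exact hs
    · exact (n1 (by simpa using this)).elim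
    · exact (n2 (by simpa using this)).elim
    · exact (n3 (by simpa [mul_assoc] using this)).elim
  have comm : ∀ s ∈ closure {a, b}, ∀ r ∈ closure {a, b}, r * s = s * r := fun s hs r hr => by
    have : closure {a, b} ≤ centralizer {s} := (closure_le _).2 (by
      rintro x (rfl | rfl)
      exacts [mem_centralizer_singleton_iff.2 (cl s hs).1.symm,
        mem_centralizer_singleton_iff.2 (cl s hs).2.1.symm])
    exact mem_centralizer_singleton_iff.1 (this hr)
  have hN := fun g (hg : g ∈ normalizer ((closure {a, b} : Subgroup X) : Set X)) =>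
    hC g ((mem_normalizer_iff.1 hg a).1 ma)
  have key := t X T c9 (eT ▸ fun s hs => (cl s hs).2.2) (eT ▸ le_antisymm (fun g hg =>
      cT g (hg a ma).symm (nf g (hA a ma a1 g (hg a ma).symm))) fun s hs r hr => comm s hs r hr)
    (by
      rw [← eT]
      set K := closure {τ, σ} with hK
      haveI : Fact (Nat.Prime 2) := ⟨Nat.prime_two⟩
      have t1 : τ ≠ 1 := fun e => n1 (e ▸ Commute.one_left a)
      have d4 := (b3a_two (p := 2) (by rw [pow_two, tt]) (by rw [pow_two, ss]) ts t1 (by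
        rintro ⟨n, hn⟩
        have hn' : τ ^ n = σ := hn
        rcases Int.even_or_odd' n with ⟨k, rfl | rfl⟩
        · rw [zpow_mul, zpow_two, tt, one_zpow] at hn'
          exact n2 (hn' ▸ Commute.one_left a)
        · rw [zpow_add, zpow_mul, zpow_two, tt, one_zpow, one_mul, zpow_one] at hn'
          exact n3 (by rw [← hn', tt]; exact Commute.one_left a))).2
      have e1 : 3 ^ 2 * 2 ^ 2 ∣ Nat.card (normalizer ((closure {a, b} : Subgroup X) : Set X)) :=
        Nat.Coprime.mul_dvd_of_dvd_of_dvd (by norm_num) (d9.trans (card_dvd_of_le le_normalizer))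
          (d4.trans (card_dvd_of_le ((closure_le _).2 (by
            rintro x (rfl | rfl)
            exacts [nτ, nσ]))))
      refine le_antisymm ?_ (Nat.le_of_dvd Nat.card_pos e1)
      let φ : (closure {a, b} : Subgroup X) × Fin 4 →
          normalizer ((closure {a, b} : Subgroup X) : Set X) := fun x =>
        ⟨x.1 * ![1, τ, σ, τ * σ] x.2, mul_mem (le_normalizer x.1.2) (by
          obtain ⟨_, i⟩ := x
          fin_cases i
          exacts [one_mem _, nτ, nσ, mul_mem nτ nσ])⟩
      have hs : Function.Surjective φ := fun g => by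
        obtain ⟨s, hs, e | e | e | e⟩ := hN g g.2
        · exact ⟨(⟨s, hs⟩, 0), Subtype.ext (by simp [φ, e])⟩
        · exact ⟨(⟨s, hs⟩, 1), Subtype.ext (by simp [φ, e])⟩
        · exact ⟨(⟨s, hs⟩, 2), Subtype.ext (by simp [φ, e])⟩
        · exact ⟨(⟨s, hs⟩, 3), Subtype.ext (by simp [φ, e, mul_assoc])⟩
      have := Nat.card_le_card_of_surjective φ hs
      rwa [Nat.card_prod, eT, c9, Nat.card_fin, ← eT] at this)
    (by
      rw [← eT]
      intro g hg
      obtain ⟨s, hs, e⟩ := hN g hg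
      have q : ∀ r, r * r = 1 → r ∈ normalizer ((closure {a, b} : Subgroup X) : Set X) →
          (s * r) ^ 2 ∈ closure {a, b} := fun r rr hr => by
        rw [show (s * r) ^ 2 = s * (r * s * r⁻¹) * (r * r) by rw [pow_two]; group, rr, mul_one]
        exact mul_mem hs ((mem_normalizer_iff.1 hr s).1 hs)
      rcases e with rfl | rfl | rfl | rfl
      · exact pow_mem hs 2
      · exact q τ tt nτ
      · exact q σ ss nσ
      · rw [mul_assoc]
        exact q _ (by rw [← pow_two, ts.mul_pow, pow_two, pow_two, tt, ss, one_mul]) (mul_mem nτ nσ))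
    (eT ▸ fun d hd d1 g hg => nf g (hA d hd d1 g (mem_centralizer_singleton_iff.1 hg)))
  rw [eT] at ma ⊢
  exact key.conj_mem a ma g

end Cfsg.Agent.L1Se
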