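import Mathlib
import Cfsg.Agent.H12.SeB3x
import Cfsg.Agent.H12.Ae0

/-!
The normalizer of `E` in the `3`-local characterization of `S₈`.
-/

set_option autoImplicit false
set_option linter.unusedVariables false
set_option linter.unusedSectionVars false

namespace Cfsg.Agent.L1Se

open Subgroup Equiv

universe u

def b3c : Perm (Fin 5) := swap 0 3 * swap 3 4
def b3v : Fin 4 → Perm (Fin 5) := ![1, swap 0 1 * swap 3 4, swap 0 3 * swap 1 4, swap 0 4 * swap 1 3]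

theorem b3f1 : ∀ i j, ∃ k, b3v i * b3v j = b3v k := by decide +kernel
theorem b3f2 : ∀ i, b3v i * b3v i = 1 ∧ Perm.sign (b3v i) = 1 ∧ (∃ k, b3c * b3v i * b3c⁻¹ = b3v k) ∧
    (∃ k, swap 3 4 * b3v i * (swap 3 4)⁻¹ = b3v k) ∧ b3c ≠ b3v i := by decide +kernel
theorem b3f3 : ∀ a : Perm (Fin 5), (∃ k, a * b3v 1 * a⁻¹ = b3v k) → Perm.sign a = 1 →
    ∃ k, ∃ i : Fin 3, a = b3v k * b3c ^ i.val := by decide +kernel
theorem b3f4 : ∀ i : Fin 3, b3c ^ i.val = 1 ∨ ∃ p : Perm (Fin 5), p * b3c ^ i.val * p⁻¹ = zF.2 ∧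
    Perm.sign p = 1 := by decide +kernel
theorem b3f5 : ∀ a : Perm (Fin 5), a * b3c = b3c * a → a * zF.2 = zF.2 * a → a = 1 := by
  decide +kernel
theorem b3f6 : ∀ p : Perm (Fin 3), ∃ (i : Fin 3) (j : Fin 2),
    ((p, 1) : W) = zE ^ i.val * eE ^ j.val := by decide +kernel
theorem b3f7 : b3c ^ 3 = 1 ∧ Perm.sign b3c = 1 ∧ swap 3 4 * b3c * (swap 3 4)⁻¹ = b3c⁻¹ ∧
    Perm.sign zF.2 = 1 ∧ zE ^ 3 = 1 ∧ zF ^ 3 = 1 ∧ zE * zF = zF * zE ∧ zE ≠ 1 ∧ tE ≠ 1 ∧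
    tE * tE = 1 ∧ tE * zE = zE * tE ∧ tE * zF = zF * tE ∧ zE * (1, b3c) = (1, b3c) * zE ∧
    zF * (1, b3c) ≠ (1, b3c) * zF ∧ zE ≠ zF ∧ b3v 1 * b3v 2 = b3v 3 ∧ b3c ≠ 1 := by
  refine ⟨?_, ?_, ?_, ?_, ?_, ?_, ?_, ?_, ?_, ?_, ?_, ?_, ?_, ?_, ?_, ?_, ?_⟩ <;> decide +kernel

variable {G : Type u} [Group G] [Finite G] {ε : W →* G} {σ : G}

theorem b3m (a b : Perm (Fin 5)) : ε (1, a * b) = ε (1, a) * ε (1, b) := by
  rw [← map_mul, Prod.mk_mul_mk, mul_one]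

theorem b3k1 (a : Perm (Fin 5)) : kk ε σ a 1 = ε (1, a) := by
  rw [kk, Prod.mk_one_one, map_one, mul_one, mul_inv_cancel, mul_one]

theorem b3k2 (a : Perm (Fin 5)) : kk ε σ 1 a = σ * ε (1, a) * σ⁻¹ := by
  rw [kk, Prod.mk_one_one, map_one, one_mul]

theorem b3mul (hk : KK ε σ) (a : Perm (Fin 5)) {b c : Perm (Fin 5)} (d : Perm (Fin 5))
    (hb : Perm.sign b = 1) (hc : Perm.sign c = 1) :
    kk ε σ a b * kk ε σ c d = kk ε σ (a * c) (b * d) := by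
  simp only [kk, b3m]
  calc _ = ε (1, a) * (σ * ε (1, b) * σ⁻¹ * ε (1, c)) * (σ * ε (1, d) * σ⁻¹) := by group
    _ = _ := by rw [← (hk.cm c b hc hb).eq]; group

theorem b3conj (hk : KK ε σ) {p q a b : Perm (Fin 5)} (hp : Perm.sign p = 1) (hq : Perm.sign q = 1)
    (ha : Perm.sign a = 1) (hb : Perm.sign b = 1) :
    kk ε σ p q * kk ε σ a b * (kk ε σ p q)⁻¹ = kk ε σ (p * a * p⁻¹) (q * b * q⁻¹) := by
  rw [mul_inv_eq_iff_eq_mul, b3mul hk _ _ hq ha, b3mul hk _ _ (by simp [hq, hb]) hp,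
    inv_mul_cancel_right, inv_mul_cancel_right]

theorem b3σ (h : SA ε σ eB) (hk : KK ε σ) {a b : Perm (Fin 5)} (ha : Perm.sign a = 1)
    (hb : Perm.sign b = 1) : σ * kk ε σ a b * σ⁻¹ = kk ε σ b a := by
  rw [kk, kk, (hk.cm a b ha hb).eq]
  calc _ = (σ * σ) * ε (1, b) * (σ * σ)⁻¹ * (σ * ε (1, a) * σ⁻¹) := by group
    _ = _ := by rw [h.ss]; group

theorem b3τ (h : SA ε σ eB) (a b : Perm (Fin 5)) : ε tE * kk ε σ a b * (ε tE)⁻¹ =
    kk ε σ (swap 3 4 * a * (swap 3 4)⁻¹) (swap 3 4 * b * (swap 3 4)⁻¹) := by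
  have e : ε (1, (swap 3 4)⁻¹) = (ε tE)⁻¹ := by rw [← map_inv]; rfl
  have e2 : σ * ε tE = ε tE * σ := mul_inv_eq_iff_eq_mul.1 h.st
  simp only [kk, b3m, e, show ε (1, swap 3 4) = ε tE from rfl]
  calc _ = ε tE * ε (1, a) * (ε tE)⁻¹ * ((ε tE * σ) * ε (1, b) * (ε tE * σ)⁻¹) := by group
    _ = _ := by rw [← e2]; group

theorem b3inj (h : SA ε σ eB) (hk : KK ε σ) {a b c d : Perm (Fin 5)} (ha : Perm.sign a = 1)
    (hb : Perm.sign b = 1) (hc : Perm.sign c = 1) (hd : Perm.sign d = 1)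
    (e : kk ε σ a b = kk ε σ c d) : a = c ∧ b = d := by
  have k : ∀ x, Perm.sign x = 1 → c⁻¹ * a * x = x * (c⁻¹ * a) := fun x hx => by
    have e1 := b3conj hk ha hb hx (map_one _)
    rw [e, b3conj hk hc hd hx (map_one _), mul_one, mul_one, mul_inv_cancel, mul_inv_cancel, b3k1,
      b3k1] at e1
    have e2 : c * x * c⁻¹ = a * x * a⁻¹ := congrArg Prod.snd (h.inj e1)
    calc _ = c⁻¹ * (a * x * a⁻¹) * a := by group
      _ = _ := by rw [← e2]; group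
  have e1 : c = a := inv_mul_eq_one.1 (b3f5 _ (k _ b3f7.2.1) (k _ b3f7.2.2.2.1))
  subst e1
  refine ⟨rfl, congrArg Prod.snd (h.inj (?_ : ε (1, b) = ε (1, d)))⟩
  simpa [kk] using e

theorem b3E (h : SA ε σ eB) (hk : KK ε σ) {g : G} :
    g ∈ EE ε σ ↔ ∃ i j, g = kk ε σ (b3v i) (b3v j) := by
  have se : ε eE = σ * ε eB * σ⁻¹ := by
    rw [← h.se]
    calc _ = (σ * σ) * ε eE * (σ * σ)⁻¹ := by rw [h.ss]; group
      _ = _ := by group
  refine ⟨fun hg => ?_, ?_⟩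
  · induction hg using closure_induction with
    | mem x hx =>
      rcases hx with rfl | rfl | rfl | rfl
      exacts [⟨1, 0, (b3k1 _).symm⟩, ⟨2, 0, (b3k1 _).symm⟩, ⟨0, 1, se.trans (b3k2 _).symm⟩,
        ⟨0, 2, (b3k2 _).symm⟩]
    | one => exact ⟨0, 0, ((b3k1 _).trans (map_one ε)).symm⟩
    | mul x y _ _ h1 h2 =>
      obtain ⟨i, j, rfl⟩ := h1
      obtain ⟨k, l, rfl⟩ := h2
      obtain ⟨m, hm⟩ := b3f1 i k
      obtain ⟨n, hn⟩ := b3f1 j l
      exact ⟨m, n, by rw [b3mul hk _ _ (b3f2 _).2.1 (b3f2 _).2.1, hm, hn]⟩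
    | inv x _ h1 =>
      obtain ⟨i, j, rfl⟩ := h1
      refine ⟨i, j, inv_eq_of_mul_eq_one_right ?_⟩
      rw [b3mul hk _ _ (b3f2 _).2.1 (b3f2 _).2.1, (b3f2 _).1, (b3f2 _).1, b3k1]
      exact map_one ε
  · rintro ⟨i, j, rfl⟩
    have m1 : ε (1, b3v 1) ∈ EE ε σ := subset_closure (Or.inl rfl)
    have m2 : ε (1, b3v 2) ∈ EE ε σ := subset_closure (Or.inr (Or.inl rfl))
    have m3 : σ * ε (1, b3v 1) * σ⁻¹ ∈ EE ε σ := subset_closure (Or.inr (Or.inr (Or.inl se.symm)))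
    have m4 : σ * ε (1, b3v 2) * σ⁻¹ ∈ EE ε σ := subset_closure (Or.inr (Or.inr (Or.inr rfl)))
    have e3 : ε (1, b3v 3) = ε (1, b3v 1) * ε (1, b3v 2) := by
      rw [← b3m, b3f7.2.2.2.2.2.2.2.2.2.2.2.2.2.2.2.1]
    have e0 : ε (1, b3v 0) = 1 := map_one ε
    refine mul_mem ?_ ?_
    · fin_cases i
      exacts [e0 ▸ one_mem _, m1, m2, e3 ▸ mul_mem m1 m2]
    · fin_cases j
      · show σ * ε (1, b3v 0) * σ⁻¹ ∈ _
        rw [e0, mul_one, mul_inv_cancel]; exact one_mem _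
      · exact m3
      · exact m4
      · show σ * ε (1, b3v 3) * σ⁻¹ ∈ _
        rw [e3, ← conj_mul]; exact mul_mem m3 m4

/-- `K₁ K₂ ⟨τ, σ⟩` -/
def b3H (ε : W →* G) (σ : G) : Subgroup G :=
  closure {g | (∃ a, Perm.sign a = 1 ∧ g = ε (1, a)) ∨ g = ε tE ∨ g = σ}

theorem b3NF (h : SA ε σ eB) (hk : KK ε σ) {g : G} (hg : g ∈ b3H ε σ) :
    ∃ a b, Perm.sign a = 1 ∧ Perm.sign b = 1 ∧ (g = kk ε σ a b ∨ g = kk ε σ a b * ε tE ∨
      g = kk ε σ a b * σ ∨ g = kk ε σ a b * ε tE * σ) := by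
  have tt : ε tE * ε tE = 1 := by rw [← map_mul, b3f7.2.2.2.2.2.2.2.2.2.1, map_one]
  have e2 : σ * ε tE = ε tE * σ := mul_inv_eq_iff_eq_mul.1 h.st
  have step : ∀ x, ((∃ a, Perm.sign a = 1 ∧ x = ε (1, a)) ∨ x = ε tE ∨ x = σ) → ∀ g,
      (∃ a b, Perm.sign a = 1 ∧ Perm.sign b = 1 ∧ (g = kk ε σ a b ∨ g = kk ε σ a b * ε tE ∨
      g = kk ε σ a b * σ ∨ g = kk ε σ a b * ε tE * σ)) →
      ∃ a b, Perm.sign a = 1 ∧ Perm.sign b = 1 ∧ (x * g = kk ε σ a b ∨ x * g = kk ε σ a b * ε tE ∨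
      x * g = kk ε σ a b * σ ∨ x * g = kk ε σ a b * ε tE * σ) := by
    rintro x hx g ⟨a, b, ha, hb, e⟩
    rcases hx with ⟨p, hp, rfl⟩ | rfl | hx
    · have := b3mul hk p b (map_one _) ha
      rw [b3k1, one_mul] at this
      refine ⟨p * a, b, by simp [hp, ha], hb, ?_⟩
      rcases e with rfl | rfl | rfl | rfl <;> simp only [← mul_assoc, this] <;> simp
    · have := mul_inv_eq_iff_eq_mul.1 (b3τ h a b)
      refine ⟨swap 3 4 * a * (swap 3 4)⁻¹, swap 3 4 * b * (swap 3 4)⁻¹, by simp [ha], by simp [hb],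
        ?_⟩
      rcases e with rfl | rfl | rfl | rfl <;> simp only [← mul_assoc (ε tE), this]
      · simp
      · left; rw [mul_assoc, tt, mul_one]
      · simp
      · right; right; left; rw [mul_assoc (kk _ _ _ _) (ε tE), tt, mul_one]
    · have := mul_inv_eq_iff_eq_mul.1 (b3σ h hk ha hb)
      refine ⟨b, a, hb, ha, ?_⟩
      rw [hx]
      rcases e with rfl | rfl | rfl | rfl <;> simp only [← mul_assoc σ, this]
      · simp
      · right; right; right; rw [mul_assoc, e2, mul_assoc]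
      · left; rw [mul_assoc, h.ss, mul_one]
      · right; left; rw [mul_assoc _ σ, e2, mul_assoc, mul_assoc, h.ss, mul_one]
  induction hg using closure_induction_left with
  | one => exact ⟨1, 1, map_one _, map_one _, Or.inl ((b3k1 _).trans (map_one ε)).symm⟩
  | mul_left x hx y hy ih => exact step x hx y ih
  | inv_mul_cancel x hx y hy ih =>
    refine step _ ?_ y ih
    rcases hx with ⟨p, hp, rfl⟩ | rfl | hx
    · exact Or.inl ⟨p⁻¹, by simp [hp], by rw [← map_inv]; rfl⟩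
    · exact Or.inr (Or.inl (inv_eq_of_mul_eq_one_right tt))
    · exact Or.inr (Or.inr (by rw [hx]; exact inv_eq_of_mul_eq_one_right h.ss))

theorem b3Hσ : σ ∈ b3H ε σ := subset_closure (Or.inr (Or.inr rfl))
theorem b3Hτ : ε tE ∈ b3H ε σ := subset_closure (Or.inr (Or.inl rfl))
theorem b3Hk {a b : Perm (Fin 5)} (ha : Perm.sign a = 1) (hb : Perm.sign b = 1) :
    kk ε σ a b ∈ b3H ε σ :=
  mul_mem (subset_closure (Or.inl ⟨a, ha, rfl⟩))
    (mul_mem (mul_mem b3Hσ (subset_closure (Or.inl ⟨b, hb, rfl⟩))) (inv_mem b3Hσ))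

theorem b3z (h : SA ε σ eB) : ε zE = kk ε σ 1 zF.2 := by
  rw [b3k2, show ε (1, zF.2) = ε zF from rfl, ← h.sz]
  calc _ = (σ * σ) * ε zE * (σ * σ)⁻¹ := by rw [h.ss]; group
    _ = _ := by group

theorem b3cen (h : SA ε σ eB) (hk : KK ε σ) {g : G}
    (hg : Commute g (ε zE) ∨ Commute g (ε zE * ε zF)) : g ∈ b3H ε σ := by
  haveI : Fact (Nat.Prime 2) := ⟨Nat.prime_two⟩
  haveI : Fact (Nat.Prime 3) := ⟨Nat.prime_three⟩
  obtain ⟨f1, f2, f3, f4, f5, f6, f7, f8, f9, f10, f11, f12, f13, f14, f15, -⟩ := b3f7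
  have mz : ε zE ∈ b3H ε σ := b3z h ▸ b3Hk (map_one _) f4
  have mz' : ε zF ∈ b3H ε σ := subset_closure (Or.inl ⟨_, f4, rfl⟩)
  rcases hg with hg | hg
  · obtain ⟨⟨p, q⟩, rfl⟩ := (h.rng g).2 (mem_normalizer_fintype (by
      rintro _ ⟨n, rfl⟩
      exact ⟨n, by simp only [(hg.zpow_right n).eq, mul_inv_cancel_right]⟩))
    obtain ⟨i, j, e⟩ := b3f6 p
    rw [show ((p, q) : W) = (p, 1) * (1, q) by simp, e, map_mul, map_mul, map_pow, map_pow]
    refine mul_mem (mul_mem (pow_mem mz _) (pow_mem ?_ _)) ?_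
    · rw [show ε eE = σ⁻¹ * ε eB * σ by rw [← h.se]; group]
      exact mul_mem (mul_mem (inv_mem b3Hσ) (subset_closure (Or.inl ⟨_, (b3f2 1).2.1, rfl⟩))) b3Hσ
    · rcases Int.units_eq_one_or (Perm.sign q) with e | e
      · exact subset_closure (Or.inl ⟨q, e, rfl⟩)
      · rw [show q = q * swap 3 4 * swap 3 4 by simp [mul_assoc], b3m]
        exact mul_mem (subset_closure (Or.inl ⟨_, by simp [e], rfl⟩)) b3Hτ
  · have cz : Commute (ε zE) (ε zF) := (show Commute zE zF from f7).map ε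
    have sz' : σ * ε zF * σ⁻¹ = ε zE := by rw [b3z h, b3k2]; rfl
    have d9 := (b3a_two (p := 3) (a := ε zE) (b := ε zF) (by rw [← map_pow, f5, map_one])
      (by rw [← map_pow, f6, map_one]) cz (fun e => f8 (h.inj (e.trans (map_one ε).symm))) (by
        rintro ⟨n, e⟩
        have e' : zE ^ n = zF := h.inj ((map_zpow ε _ _).trans e)
        exact f14 (e' ▸ ((show Commute zE (1, b3c) from f13).zpow_left n).eq))).2
    have d4 := (b3a_two (p := 2) (a := ε tE) (b := σ) (by rw [pow_two, ← map_mul, f10, map_one])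
      (by rw [pow_two, h.ss]) (mul_inv_eq_iff_eq_mul.1 h.st).symm
      (fun e => f9 (h.inj (e.trans (map_one ε).symm))) (by
        rintro ⟨n, e⟩
        have e1 : Commute σ (ε zE) := e ▸ ((show Commute tE zE from f11).map ε).zpow_left n
        have e2 := h.sz
        rw [e1.eq, mul_inv_cancel_right] at e2
        exact f15 (h.inj e2))).2
    have e1 : 3 ^ 2 * 2 ^ 2 ∣ Nat.card (centralizer ({ε zE * ε zF} : Set G) ⊓ b3H ε σ : Subgroup G) :=
      Nat.Coprime.mul_dvd_of_dvd_of_dvd (by norm_num)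
        (d9.trans (card_dvd_of_le ((closure_le _).2 (by
          rintro x (rfl | rfl)
          exacts [⟨mem_centralizer_singleton_iff.2 ((Commute.refl _).mul_right cz), mz⟩,
            ⟨mem_centralizer_singleton_iff.2 (cz.symm.mul_right (Commute.refl _)), mz'⟩]))))
        (d4.trans (card_dvd_of_le ((closure_le _).2 (by
          rintro x (rfl | hx)
          · exact ⟨mem_centralizer_singleton_iff.2 (((show Commute tE zE from f11).map ε).mul_right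
              ((show Commute tE zF from f12).map ε)), b3Hτ⟩
          · rw [show x = σ from hx]
            refine ⟨mem_centralizer_singleton_iff.2 ?_, b3Hσ⟩
            rw [← mul_inv_eq_iff_eq_mul, ← conj_mul, h.sz, sz', cz.eq]))))
    have e2 := Subgroup.eq_of_le_of_card_ge (inf_le_left : centralizer ({ε zE * ε zF} : Set G) ⊓
      b3H ε σ ≤ _) (by rw [h.cy]; exact Nat.le_of_dvd Nat.card_pos e1)
    exact (show g ∈ centralizer ({ε zE * ε zF} : Set G) ⊓ b3H ε σ from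
      e2.symm ▸ mem_centralizer_singleton_iff.2 hg).2

end Cfsg.Agent.L1Se
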