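import Mathlib
import Cfsg.Agent.H12.SeB3y

/-!
The normalizer of `E` in the `3`-local characterization of `S₈`.
-/

set_option autoImplicit false
set_option linter.unusedVariables false
set_option linter.unusedSectionVars false

namespace Cfsg.Agent.L1Se

open Subgroup Equiv

universe u

variable {G : Type u} [Group G] [Finite G] {ε : W →* G} {σ : G}

theorem b3lift {E : Subgroup G} (hE : ∀ v ∈ E, v * v = 1) {a d : G}
    (hd : d ∈ normalizer (E : Set G)) (a3 : a ^ 3 = 1) (d3 : d ^ 3 = 1) (h : d⁻¹ * a ∈ E) :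
    ∃ k ∈ E, k * d * k⁻¹ = a := by
  obtain ⟨v, rfl⟩ : ∃ v, a = d * v := ⟨d⁻¹ * a, by group⟩
  rw [inv_mul_cancel_left] at h
  have h1 := (mem_normalizer_iff''.1 hd v).1 h
  refine ⟨_, h1, ?_⟩
  rw [inv_eq_of_mul_eq_one_right (hE _ h1), ← mul_left_inj v, mul_assoc d v v, hE v h, mul_one]
  calc _ = (d ^ 3)⁻¹ * d * (d * v) ^ 3 := by simp only [pow_succ]; group
    _ = d := by rw [a3, d3]; group

theorem b3cls (h : SA ε σ eB) (hk : KK ε σ) (i j : ℕ) : kk ε σ (b3c ^ i) (b3c ^ j) = 1 ∨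
    ∃ κ ∈ b3H ε σ, κ * kk ε σ (b3c ^ i) (b3c ^ j) * κ⁻¹ = ε zE ∨
      κ * kk ε σ (b3c ^ i) (b3c ^ j) * κ⁻¹ = ε zE * ε zF := by
  have k : ∀ i : ℕ, Perm.sign (b3c ^ i) = 1 ∧ (b3c ^ i = 1 ∨ ∃ p : Perm (Fin 5),
      p * b3c ^ i * p⁻¹ = zF.2 ∧ Perm.sign p = 1) := fun i => ⟨by simp [b3f7.2.1], by
    rw [pow_eq_pow_mod i b3f7.1]
    exact b3f4 ⟨i % 3, Nat.mod_lt _ (by norm_num)⟩⟩
  have o : Perm.sign (1 : Perm (Fin 5)) = 1 := map_one _
  obtain ⟨si, ei | ⟨p, ep, sp⟩⟩ := k i <;> obtain ⟨sj, ej | ⟨q, eq, sq⟩⟩ := k j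
  · left; rw [ei, ej, b3k1]; exact map_one ε
  · refine Or.inr ⟨_, b3Hk o sq, Or.inl ?_⟩
    rw [b3conj hk o sq si sj, ei, eq, b3z h]; simp
  · refine Or.inr ⟨_, mul_mem b3Hσ (b3Hk sp o), Or.inl ?_⟩
    rw [show σ * kk ε σ p 1 * kk ε σ (b3c ^ i) (b3c ^ j) * (σ * kk ε σ p 1)⁻¹ =
      σ * (kk ε σ p 1 * kk ε σ (b3c ^ i) (b3c ^ j) * (kk ε σ p 1)⁻¹) * σ⁻¹ by group,
      b3conj hk sp o si sj, ej, ep, mul_one, mul_inv_cancel, b3σ h hk b3f7.2.2.2.1 o, b3z h]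
  · refine Or.inr ⟨_, b3Hk sp sq, Or.inr ?_⟩
    rw [b3conj hk sp sq si sj, ep, eq, b3z h, show ε zF = kk ε σ zF.2 1 from (b3k1 _).symm,
      b3mul hk _ _ b3f7.2.2.2.1 b3f7.2.2.2.1, one_mul, mul_one]

theorem pB3a (t : T05.{u}) (h : SA ε σ eB) (hk : KK ε σ) : NE ε σ := by
  obtain ⟨f1, f2, f3, f4, -, -, -, -, -, f10, -, -, -, -, -, -, f17⟩ := b3f7
  have o : Perm.sign (1 : Perm (Fin 5)) = 1 := map_one _
  have sv := fun i => (b3f2 i).2.1
  have sc : ∀ i : ℕ, Perm.sign (b3c ^ i) = 1 := fun i => by simp [f2]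
  have tt : ε tE * ε tE = 1 := by rw [← map_mul, f10, map_one]
  have hE : ∀ v ∈ EE ε σ, v * v = 1 := fun v hv => by
    obtain ⟨i, j, rfl⟩ := (b3E h hk).1 hv
    rw [b3mul hk _ _ (sv _) (sv _), (b3f2 _).1, (b3f2 _).1, b3k1]
    exact map_one ε
  have EH : ∀ v ∈ EE ε σ, v ∈ b3H ε σ := fun v hv => by
    obtain ⟨i, j, rfl⟩ := (b3E h hk).1 hv
    exact b3Hk (sv _) (sv _)
  have nrm : ∀ g, (∀ i j, ∃ k l, g * kk ε σ (b3v i) (b3v j) * g⁻¹ = kk ε σ (b3v k) (b3v l)) →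
      g ∈ normalizer (EE ε σ : Set G) := fun g hg => mem_normalizer_fintype fun n hn => by
    obtain ⟨i, j, rfl⟩ := (b3E h hk).1 hn
    exact (b3E h hk).2 (hg i j)
  have n1 := nrm (kk ε σ b3c 1) fun i j => by
    obtain ⟨k, e⟩ := (b3f2 i).2.2.1
    exact ⟨k, j, by rw [b3conj hk f2 o (sv _) (sv _), e]; simp⟩
  have n2 := nrm (kk ε σ 1 b3c) fun i j => by
    obtain ⟨k, e⟩ := (b3f2 j).2.2.1
    exact ⟨i, k, by rw [b3conj hk o f2 (sv _) (sv _), e]; simp⟩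
  have nτ := nrm (ε tE) fun i j => by
    obtain ⟨k, e⟩ := (b3f2 i).2.2.2.1
    obtain ⟨l, e'⟩ := (b3f2 j).2.2.2.1
    exact ⟨k, l, by rw [b3τ h, e, e']⟩
  have nσ := nrm σ fun i j => ⟨j, i, b3σ h hk (sv _) (sv _)⟩
  set N := normalizer (EE ε σ : Set G) with hN
  let π := QuotientGroup.mk' ((EE ε σ).subgroupOf N)
  have πe : ∀ a b : N, π a = π b ↔ (a : G)⁻¹ * b ∈ EE ε σ := fun a b => QuotientGroup.eq
  let x1 : N := ⟨_, n1⟩
  let x2 : N := ⟨_, n2⟩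
  let τ' : N := ⟨_, nτ⟩
  let σ' : N := ⟨_, nσ⟩
  have p1 : ∀ i : ℕ, kk ε σ b3c 1 ^ i = kk ε σ (b3c ^ i) 1 := fun i => by
    rw [b3k1, b3k1, ← map_pow, Prod.pow_mk, one_pow]
  have p2 : ∀ i : ℕ, kk ε σ 1 b3c ^ i = kk ε σ 1 (b3c ^ i) := fun i => by
    rw [b3k2, b3k2, conj_pow, ← map_pow, Prod.pow_mk, one_pow]
  have d3 : ∀ i j : ℕ, kk ε σ (b3c ^ i) (b3c ^ j) ^ 3 = 1 := fun i j => by
    rw [pow_succ, pow_two, b3mul hk _ _ (sc _) (sc _), b3mul hk _ _ (by simp [f2]) (sc _),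
      ← pow_two, ← pow_two, ← pow_succ, ← pow_succ, ← pow_mul, ← pow_mul, mul_comm i, mul_comm j,
      pow_mul, pow_mul, f1, one_pow, one_pow, b3k1]
    exact map_one ε
  have hD : ∀ s ∈ closure {π x1, π x2}, ∃ d : N, π d = s ∧
      ∃ i j : ℕ, (d : G) = kk ε σ (b3c ^ i) (b3c ^ j) := fun s hs => by
    have mu : ∀ x y : N, (∃ i j : ℕ, (x : G) = kk ε σ (b3c ^ i) (b3c ^ j)) →
        (∃ i j : ℕ, (y : G) = kk ε σ (b3c ^ i) (b3c ^ j)) →
        ∃ i j : ℕ, ((x * y : N) : G) = kk ε σ (b3c ^ i) (b3c ^ j) := by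
      rintro x y ⟨i, j, e⟩ ⟨k, l, e'⟩
      exact ⟨i + k, j + l, by rw [coe_mul, e, e', b3mul hk _ _ (sc _) (sc _), pow_add, pow_add]⟩
    induction hs using closure_induction with
    | mem x hx =>
      rcases hx with rfl | rfl
      exacts [⟨x1, rfl, 1, 0, by simp [x1]⟩, ⟨x2, rfl, 0, 1, by simp [x2]⟩]
    | one => exact ⟨1, map_one _, 0, 0, by
        rw [pow_zero, b3k1]; exact (map_one ε).symm⟩
    | mul x y _ _ h1 h2 =>
      obtain ⟨a, rfl, ha⟩ := h1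
      obtain ⟨b, rfl, hb⟩ := h2
      exact ⟨a * b, map_mul _ _ _, mu _ _ ha hb⟩
    | inv x _ h1 =>
      obtain ⟨a, rfl, i, j, ha⟩ := h1
      have : a * (a * a) = 1 := Subtype.ext (by
        rw [coe_mul, coe_mul, ← pow_three, ha, d3, coe_one])
      exact ⟨a⁻¹, map_inv _ _, by
        rw [inv_eq_of_mul_eq_one_right this]; exact mu _ _ ⟨i, j, ha⟩ ⟨i, j, ha⟩⟩
  have m1 : π x1 ∈ closure {π x1, π x2} := subset_closure (by simp)
  have m2 : π x2 ∈ closure {π x1, π x2} := subset_closure (by simp)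
  have toNF : ∀ g : N, (g : G) ∈ b3H ε σ → ∃ s ∈ closure {π x1, π x2},
      π g = s ∨ π g = s * π τ' ∨ π g = s * π σ' ∨ π g = s * π τ' * π σ' := fun g hg => by
    obtain ⟨a, b, ha, hb, e⟩ := b3NF h hk hg
    have mk : kk ε σ a b ∈ N := by
      have := g.2
      rcases e with e | e | e | e <;> rw [e] at this
      · exact this
      · exact (N.mul_mem_cancel_right nτ).1 this
      · exact (N.mul_mem_cancel_right nσ).1 this
      · exact (N.mul_mem_cancel_right nτ).1 ((N.mul_mem_cancel_right nσ).1 this)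
    obtain ⟨i, j, e1⟩ := (b3E h hk).1 ((mem_normalizer_iff.1 mk _).1 ((b3E h hk).2 ⟨1, 1, rfl⟩))
    rw [b3conj hk ha hb (sv _) (sv _)] at e1
    obtain ⟨e2, e3⟩ := b3inj h hk (by simp [ha, sv]) (by simp [hb, sv]) (sv _) (sv _) e1
    obtain ⟨k, m, rfl⟩ := b3f3 a ⟨_, e2⟩ ha
    obtain ⟨l, n, rfl⟩ := b3f3 b ⟨_, e3⟩ hb
    have e4 : π ⟨_, mk⟩ = π x1 ^ m.val * π x2 ^ n.val := by
      rw [← map_pow, ← map_pow, ← map_mul, ← inv_inj, ← map_inv, ← map_inv, eq_comm, πe]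
      simp only [x1, x2, coe_inv, coe_mul, SubgroupClass.coe_pow, inv_inv, p1, p2]
      rw [b3mul hk _ _ o o, one_mul, mul_one, ← b3mul hk _ _ (sv _) (sc _), mul_inv_rev,
        mul_inv_cancel_left]
      exact inv_mem ((b3E h hk).2 ⟨_, _, rfl⟩)
    refine ⟨_, mul_mem (pow_mem m1 m.val) (pow_mem m2 n.val), ?_⟩
    simp only [← e4, ← map_mul]
    rcases e with e | e | e | e
    exacts [Or.inl (congrArg π (Subtype.ext e)), Or.inr (Or.inl (congrArg π (Subtype.ext e))),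
      Or.inr (Or.inr (Or.inl (congrArg π (Subtype.ext e)))),
      Or.inr (Or.inr (Or.inr (congrArg π (Subtype.ext e))))]
  have x3 : kk ε σ b3c 1 ^ 3 = 1 := by rw [p1, f1, b3k1]; exact map_one ε
  have hC : ∀ g : N, π g * π x1 * (π g)⁻¹ ∈ closure {π x1, π x2} → (g : G) ∈ b3H ε σ :=
    fun g hg => by
    obtain ⟨d, e, i, j, hd⟩ := hD _ hg
    rw [← map_inv, ← map_mul, ← map_mul, πe] at e
    obtain ⟨k, hk', e1⟩ := b3lift hE d.2 (by
      simp only [x1, coe_mul, coe_inv]; rw [conj_pow, x3]; group) (hd ▸ d3 i j) e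
    simp only [x1, coe_mul, coe_inv] at e1
    obtain ⟨p, ep, sp⟩ := (b3f4 1).resolve_left (by simpa using f17)
    have e2 : σ * kk ε σ p 1 * kk ε σ b3c 1 * (σ * kk ε σ p 1)⁻¹ = ε zE := by
      rw [show σ * kk ε σ p 1 * kk ε σ b3c 1 * (σ * kk ε σ p 1)⁻¹ =
        σ * (kk ε σ p 1 * kk ε σ b3c 1 * (kk ε σ p 1)⁻¹) * σ⁻¹ by group, b3conj hk sp o f2 o,
        show p * b3c * p⁻¹ = zF.2 by simpa using ep, mul_one, mul_inv_cancel, b3σ h hk f4 o, b3z h]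
    have mκ := mul_mem b3Hσ (b3Hk (ε := ε) (σ := σ) sp o)
    generalize σ * kk ε σ p 1 = κ' at e2 mκ
    rcases b3cls h hk i j with e3 | ⟨κ, hκ, e3⟩
    · rw [hd, e3, mul_one, mul_inv_cancel, eq_comm, conj_eq_one_iff, b3k1] at e1
      exact (f17 (congrArg Prod.snd (h.inj (e1.trans (map_one ε).symm)))).elim
    have e4 : κ * k⁻¹ * g * κ'⁻¹ * ε zE * (κ * k⁻¹ * g * κ'⁻¹)⁻¹ =
        κ * kk ε σ (b3c ^ i) (b3c ^ j) * κ⁻¹ := by
      rw [← e2, ← hd]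
      calc _ = κ * k⁻¹ * (g * kk ε σ b3c 1 * (g : G)⁻¹) * k * κ⁻¹ := by group
        _ = _ := by rw [← e1]; group
    rcases e3 with e3 | e3
    · have := b3cen h hk (Or.inl (mul_inv_eq_iff_eq_mul.1 (e4.trans e3)))
      rwa [_root_.mul_mem_cancel_right (inv_mem mκ),
        _root_.mul_mem_cancel_left (mul_mem hκ (inv_mem (EH k hk')))] at this
    · have := H12.Ae.card_cen_conj (κ * k⁻¹ * g * κ'⁻¹) (ε zE)
      rw [e4, e3, h.cy, h.cz] at this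
      omega
  intro g hg
  refine b3NF h hk (hC ⟨g, hg⟩ (b3a_core t (τ := π τ') (σ := π σ') ?_ ?_ ?_ ?_ ?_ ?_ ?_ ?_ ?_ ?_ ?_
    (fun g hg => ?_) _))
  · rw [← map_pow, show x1 ^ 3 = 1 from Subtype.ext x3, map_one]
  · refine Commute.map (Subtype.ext ?_) π
    simp only [x1, x2, coe_mul]
    rw [b3mul hk _ _ o o, b3mul hk _ _ f2 f2]; simp
  · intro e
    rw [← map_one π, eq_comm, πe, coe_one, inv_one, one_mul] at e
    obtain ⟨i, j, e⟩ := (b3E h hk).1 e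
    exact (b3f2 i).2.2.2.2 (b3inj h hk f2 o (sv _) (sv _) e).1
  · intro e
    obtain ⟨n, e⟩ := (mem_powers_iff_mem_zpowers.2 e)
    have e' : π (x1 ^ n) = π x2 := (map_pow π _ _).trans e
    rw [πe] at e'
    obtain ⟨i, j, e1⟩ := (b3E h hk).1 e'
    simp only [x1, x2, SubgroupClass.coe_pow, p1, inv_mul_eq_iff_eq_mul] at e1
    rw [b3mul hk _ _ o (sv _), one_mul] at e1
    exact (b3f2 j).2.2.2.2 (b3inj h hk o f2 (by simp [f2, sv]) (sv _) e1).2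
  · rw [← map_mul, show τ' * τ' = 1 from Subtype.ext tt, map_one]
  · rw [← map_mul, show σ' * σ' = 1 from Subtype.ext h.ss, map_one]
  · exact Commute.map (Subtype.ext (mul_inv_eq_iff_eq_mul.1 h.st).symm) π
  · rw [← map_inv, ← map_inv, ← map_mul, ← map_mul]
    refine congrArg π (Subtype.ext ?_)
    simp only [x1, τ', coe_mul, coe_inv]
    rw [b3τ h, f3, mul_one, mul_inv_cancel, b3k1, b3k1, ← map_inv]; rfl
  · rw [← map_inv, ← map_mul, ← map_mul]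
    exact congrArg π (Subtype.ext (b3σ h hk f2 o))
  · intro e
    haveI : Fact (Nat.Prime 3) := ⟨Nat.prime_three⟩
    obtain ⟨P, hP⟩ := h.syl
    have c9 := (P : Subgroup G).card_mul_index
    have c3 : ¬ 3 ∣ (P : Subgroup G).index := P.not_dvd_index
    have := (e.trans (card_quotient_dvd_card _)).trans (card_subgroup_dvd_card N)
    rw [hP] at c9
    omega
  · intro s hs s1 g hg
    obtain ⟨g, rfl⟩ := QuotientGroup.mk'_surjective _ g
    obtain ⟨d, rfl, i, j, hd⟩ := hD s hs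
    refine toNF g ?_
    have e : π d = π (g * d * g⁻¹) := by
      rw [map_mul, map_mul, map_inv, show π g * π d = π d * π g from hg, mul_inv_cancel_right]
    rw [πe] at e
    obtain ⟨k, hk', e1⟩ := b3lift hE d.2 (by
      rw [coe_mul, coe_mul, coe_inv, conj_pow, hd, d3]; group) (hd ▸ d3 i j) e
    rw [coe_mul, coe_mul, coe_inv] at e1
    rcases b3cls h hk i j with e3 | ⟨κ, hκ, e3⟩
    · exact (s1 (by rw [show d = 1 from Subtype.ext (hd.trans e3), map_one])).elim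
    have e4 : Commute (κ * (k⁻¹ * g) * κ⁻¹) (κ * kk ε σ (b3c ^ i) (b3c ^ j) * κ⁻¹) := by
      refine Commute.map (x := k⁻¹ * g) (y := kk ε σ (b3c ^ i) (b3c ^ j)) ?_ (MulAut.conj κ)
      rw [← hd]
      calc k⁻¹ * g * d = k⁻¹ * (g * d * (g : G)⁻¹) * g := by group
        _ = _ := by rw [← e1]; group
    have := b3cen h hk (e3.imp (fun e => e ▸ e4) fun e => e ▸ e4)
    rwa [_root_.mul_mem_cancel_right (inv_mem hκ), _root_.mul_mem_cancel_left hκ,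
      _root_.mul_mem_cancel_left (inv_mem (EH k hk'))] at this
  · obtain ⟨g, rfl⟩ := QuotientGroup.mk'_surjective _ g
    exact toNF g (hC g hg)

end Cfsg.Agent.L1Se
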