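import Mathlib
import Cfsg.Agent.H7.BR6

/-!
Imprimitive simple groups of degree `3 p` with Sylow normalizer of order `2 p`.
-/

set_option autoImplicit false
set_option linter.unusedVariables false

namespace Cfsg.Agent.H12

open Cfsg Subgroup MulAction
open scoped MatrixGroups

theorem tpF_faithful {G : Type*} [Group G] [IsSimpleGroup G] {M : Subgroup G} (hM : M ≠ ⊤) :
    FaithfulSMul G (G ⧸ M) := by
  have h1 : M.normalCore = ⊥ := (M.normalCore_normal.eq_bot_or_eq_top).resolve_right fun e =>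
    hM (top_le_iff.1 (e ▸ M.normalCore_le))
  rw [normalCore_eq_ker] at h1
  have h2 := (MonoidHom.ker_eq_bot_iff _).1 h1
  exact ⟨fun {a b} h => h2 (by ext x; simpa using h x)⟩

theorem tpF {G : Type*} [Group G] [Finite G] [IsSimpleGroup G] (hG : ¬ IsMulCommutative G) {p : ℕ} (hp : p.Prime) (hp3 : 3 < p) {Ω : Type*} [Finite Ω] [MulAction G Ω] [IsPretransitive G Ω] (hΩ : Nat.card Ω = 3 * p) (P : Sylow p G) (hN : Nat.card (normalizer ((P : Subgroup G) : Set G)) = 2 * p) (h : ¬ IsPreprimitive G Ω) : ∃ (F : Type) (_ : Field F) (_ : Fintype F) (m : ℕ), Fintype.card F = 2 ^ m ∧ p = 2 ^ m + 1 ∧ Nonempty (G ≃* PSL(2, F)) := by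
  classical
  haveI : Fact p.Prime := ⟨hp⟩
  haveI : Nontrivial Ω := Finite.one_lt_card_iff_nontrivial.1 (by omega)
  obtain ⟨a⟩ : Nonempty Ω := inferInstance
  have hi : (stabilizer G a).index = 3 * p := by rw [index_stabilizer_of_transitive, hΩ]
  rw [← isCoatom_stabilizer_iff_preprimitive G a] at h
  have hne : stabilizer G a ≠ ⊤ := fun e => by rw [e, index_top] at hi; omega
  obtain ⟨M, hlt, hM⟩ : ∃ M, stabilizer G a < M ∧ M ≠ ⊤ := by
    by_contra hc
    push Not at hc
    exact h ⟨hne, hc⟩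
  haveI := tpF_faithful hM
  have hd : p ∣ Nat.card G := (dvd_mul_left p 2).trans (hN ▸ card_subgroup_dvd_card _)
  have hdv : M.index ∣ 3 * p := hi ▸ index_dvd_of_le hlt.le
  have h1 : M.index ≠ 1 := fun e => hM (index_eq_one.1 e)
  have h2 : M.index ≠ 3 * p := fun e => by
    have := index_strictAnti hlt
    omega
  have h3 : M.index = p := by
    by_cases hpd : p ∣ M.index
    · obtain ⟨k, hk⟩ := hpd
      rw [hk, mul_comm 3 p] at hdv
      have hk3 := Nat.dvd_of_mul_dvd_mul_left hp.pos hdv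
      rcases (Nat.dvd_prime Nat.prime_three).1 hk3 with rfl | rfl
      · omega
      · omega
    · exfalso
      have hk3 : M.index ∣ 3 :=
        (((Nat.Prime.coprime_iff_not_dvd hp).2 hpd).symm).dvd_of_dvd_mul_right hdv
      have h3 : M.index = 3 := ((Nat.dvd_prime Nat.prime_three).1 hk3).resolve_left h1
      have h4 := card_dvd_of_injective (toPermHom G (G ⧸ M)) toPerm_injective
      rw [Nat.card_perm, show Nat.card (G ⧸ M) = 3 from h3] at h4
      have := (hp.dvd_factorial).1 (hd.trans h4)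
      omega
  have hP : ¬ (P : Subgroup G).Normal := fun hn => by
    rw [normalizer_eq_top_iff.2 hn, card_top] at hN
    have h4 := (stabilizer G a).index_dvd_card
    rw [hi, hN] at h4
    have := Nat.le_of_dvd (by omega) h4
    omega
  obtain ⟨m, F, _, _, hm, hF, ⟨e⟩⟩ := H7.prime_deg_e2 (Ω := G ⧸ M) (by omega) h3 P hN hP
  obtain ⟨f⟩ := H7.psl_sl_of_even (K := F) (by
    rw [Nat.card_eq_fintype_card, hF]
    refine Nat.even_pow.2 ⟨even_two, ?_⟩
    rintro rfl
    omega)
  exact ⟨F, inferInstance, inferInstance, m, hF, hm, ⟨e.trans f.symm⟩⟩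

end Cfsg.Agent.H12
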