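import Mathlib

/-!
A subgroup of index `3 p` in a simple group of order `p (p - 1) (p - 2)` with elementary
involution centralizers of order `p - 1` is not maximal.
-/

set_option autoImplicit false
set_option linter.unusedVariables false

namespace Cfsg.Agent.H12

open Subgroup MulAction

theorem tpM_mem {G : Type*} [Group G] (g i w : G) :
    w ∈ centralizer ({g * i * g⁻¹} : Set G) ↔ g⁻¹ * w * g ∈ centralizer ({i} : Set G) := by
  simp only [mem_centralizer_singleton_iff]
  constructor
  · intro h
    calc g⁻¹ * w * g * i = g⁻¹ * (w * (g * i * g⁻¹)) * g := by group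
      _ = g⁻¹ * ((g * i * g⁻¹) * w) * g := by rw [h]
      _ = i * (g⁻¹ * w * g) := by group
  · intro h
    calc w * (g * i * g⁻¹) = g * (g⁻¹ * w * g * i) * g⁻¹ := by group
      _ = g * (i * (g⁻¹ * w * g)) * g⁻¹ := by rw [h]
      _ = _ := by group

theorem tpM {G : Type*} [Group G] [Finite G] [IsSimpleGroup G] {p : ℕ} (hp : p.Prime) (hp3 : 3 < p) (hconj : ∀ i j : G, orderOf i = 2 → orderOf j = 2 → IsConj i j) {u : G} (hu : orderOf u = 2) (hc : Nat.card (centralizer ({u} : Set G)) = p - 1) (hw : ∀ w ∈ centralizer ({u} : Set G), w * w = 1) (hcard : Nat.card G = p * (p - 1) * (p - 2)) (H : Subgroup G) (hH : H.index = 3 * p) : ¬ IsCoatom H := by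
  classical
  intro hco
  haveI : Fact (Nat.Prime 2) := ⟨Nat.prime_two⟩
  obtain ⟨q, rfl⟩ : ∃ q, p = q + 2 := ⟨p - 2, by omega⟩
  simp only [show q + 2 - 1 = q + 1 from rfl, Nat.add_sub_cancel] at hc hcard
  have hall : ∀ i : G, orderOf i = 2 → Nat.card (centralizer ({i} : Set G)) = q + 1 ∧
      ∀ w ∈ centralizer ({i} : Set G), w * w = 1 := by
    intro i hi
    obtain ⟨g, rfl⟩ := isConj_iff.1 (hconj u i hu hi)
    refine ⟨?_, fun w hw' => ?_⟩
    · rw [← hc]
      refine Nat.card_congr ⟨fun w => ⟨g⁻¹ * w * g, (tpM_mem g u w).1 w.2⟩,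
        fun w => ⟨g * w * g⁻¹, (tpM_mem g u _).2 (by simp [mul_assoc])⟩,
        fun w => by ext; simp [mul_assoc], fun w => by ext; simp [mul_assoc]⟩
    · have := hw _ ((tpM_mem g u w).1 hw')
      calc w * w = g * ((g⁻¹ * w * g) * (g⁻¹ * w * g)) * g⁻¹ := by group
        _ = 1 := by rw [this]; group
  have hTI : ∀ i j : G, orderOf i = 2 → j ∈ centralizer ({i} : Set G) → j ≠ 1 →
      orderOf j = 2 ∧ centralizer ({i} : Set G) = centralizer ({j} : Set G) := by
    intro i j hi hj hj1
    have hj2 : orderOf j = 2 := orderOf_eq_prime (by rw [pow_two]; exact (hall i hi).2 j hj) hj1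
    refine ⟨hj2, Subgroup.eq_of_le_of_card_ge (fun w hw' => ?_)
      (by rw [(hall i hi).1, (hall j hj2).1])⟩
    rw [mem_centralizer_singleton_iff]
    have h1 := (hall i hi).2 _ (mul_mem hw' hj)
    have h2 := (hall i hi).2 _ hw'
    have h3 := (hall i hi).2 _ hj
    rw [eq_inv_of_mul_eq_one_left h1, mul_inv_rev, inv_eq_of_mul_eq_one_right h3,
      inv_eq_of_mul_eq_one_right h2]
  have hHc : Nat.card H * 3 = (q + 1) * q := by
    have h1 := H.card_mul_index
    rw [hH, hcard] at h1
    have h2 : (q + 2) * (Nat.card H * 3) = (q + 2) * ((q + 1) * q) := by linarith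
    exact Nat.eq_of_mul_eq_mul_left (by omega) h2
  obtain ⟨a, ha⟩ : ∃ a, q + 1 = 2 ^ a := by
    have h1 : IsPGroup 2 (centralizer ({u} : Set G)) := fun w =>
      ⟨1, by ext; simpa [pow_two] using hw w w.2⟩
    obtain ⟨a, ha⟩ := IsPGroup.iff_card.1 h1
    exact ⟨a, hc ▸ ha⟩
  have hself : ∀ i : G, i ∈ centralizer ({i} : Set G) := fun i =>
    mem_centralizer_singleton_iff.2 rfl
  have hne : ∀ i : G, orderOf i = 2 → i ≠ 1 := fun i hi e => by simp [e] at hi
  have hle : ∀ i ∈ H, orderOf i = 2 → centralizer ({i} : Set G) ≤ H := by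
    intro i hiH hi
    have h1 : IsPGroup 2 (zpowers (⟨i, hiH⟩ : H)) := by
      refine IsPGroup.of_card (n := 1) ?_
      rw [Nat.card_zpowers, ← Subgroup.orderOf_coe]; simpa using hi
    obtain ⟨T, hT⟩ := h1.exists_le_sylow
    have hiT : (⟨i, hiH⟩ : H) ∈ T := hT (mem_zpowers _)
    haveI : Nontrivial T := ⟨⟨⟨_, hiT⟩, 1, fun e => hne i hi (by
      have := congrArg (fun t : T => ((t : H) : G)) e
      simpa using this)⟩⟩
    haveI := T.isPGroup'.center_nontrivial
    obtain ⟨z, hz⟩ := exists_ne (1 : center T)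
    have hz1 : (((z : T) : H) : G) ≠ 1 := fun e => hz (by ext; simpa using e)
    have hzc : ∀ t : T, ((t : H) : G) ∈ centralizer ({(((z : T) : H) : G)} : Set G) := fun t => by
      rw [mem_centralizer_singleton_iff]
      have := congrArg (fun t : T => ((t : H) : G)) (mem_center_iff.1 z.2 t)
      simpa using this
    have hzi : (((z : T) : H) : G) ∈ centralizer ({i} : Set G) := by
      have := hzc ⟨_, hiT⟩
      rw [mem_centralizer_singleton_iff] at this ⊢
      exact this.symm
    have hTle : (T : Subgroup H).map H.subtype ≤ centralizer ({i} : Set G) := by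
      rintro _ ⟨t, ht, rfl⟩
      rw [(hTI i _ hi hzi hz1).2]
      exact hzc ⟨t, ht⟩
    have hdvd : 2 ^ a ∣ Nat.card T := by
      have h2 := (T : Subgroup H).card_mul_index
      have h3 : ¬ 2 ∣ (T : Subgroup H).index := T.not_dvd_index
      have h4 : Nat.Coprime (2 ^ a) ((T : Subgroup H).index * 3) := by
        refine Nat.Coprime.pow_left _ (Nat.coprime_mul_iff_right.2 ⟨?_, by norm_num⟩)
        exact (Nat.Prime.coprime_iff_not_dvd Nat.prime_two).2 h3
      refine h4.dvd_of_dvd_mul_right ?_
      rw [← mul_assoc, h2, hHc, ha]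
      exact dvd_mul_right _ _
    have heq : (T : Subgroup H).map H.subtype = centralizer ({i} : Set G) := by
      refine Subgroup.eq_of_le_of_card_ge hTle ?_
      rw [(hall i hi).1, Subgroup.card_map_of_injective H.subtype_injective, ha]
      exact Nat.le_of_dvd Nat.card_pos hdvd
    rw [← heq]
    exact map_subtype_le _
  obtain ⟨i, hi⟩ := exists_prime_orderOf_dvd_card' (G := H) 2 (by
    have h1 : 2 ∣ Nat.card H * 3 := by
      rw [hHc, mul_comm]; exact (Nat.even_mul_succ_self q).two_dvd
    exact (Nat.Coprime.dvd_mul_right (by norm_num)).1 h1)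
  rw [← Subgroup.orderOf_coe] at hi
  by_cases hcase : ∀ j ∈ H, orderOf j = 2 →
      centralizer ({j} : Set G) = centralizer ({(i : G)} : Set G)
  · have hN : ∀ g : G, centralizer ({g * i * g⁻¹} : Set G) = centralizer ({(i : G)} : Set G) →
        g ∈ normalizer ((centralizer ({(i : G)} : Set G) : Subgroup G) : Set G) := by
      intro g hg
      rw [mem_normalizer_iff]
      intro w
      constructor
      · intro h
        rw [← hg]
        exact (tpM_mem g i _).2 (by simpa [mul_assoc] using h)
      · intro h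
        rw [← hg] at h
        simpa [mul_assoc] using (tpM_mem g i _).1 h
    have hHN : H ≤ normalizer ((centralizer ({(i : G)} : Set G) : Subgroup G) : Set G) := by
      intro g hg
      refine hN g (hcase _ (mul_mem (mul_mem hg i.2) (inv_mem hg)) ?_)
      rw [← hi]
      exact (MulAut.conj g).orderOf_eq (i : G)
    have hNe : normalizer ((centralizer ({(i : G)} : Set G) : Subgroup G) : Set G) = H := by
      by_contra hne'
      have htop := hco.2 _ (lt_of_le_of_ne hHN (Ne.symm hne'))
      have hnorm := normalizer_eq_top_iff.1 htop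
      rcases hnorm.eq_bot_or_eq_top with h0 | h0
      · have := hself i
        rw [h0, mem_bot] at this
        exact hne _ hi this
      · have h1 := (hall _ hi).1
        rw [h0, card_top, hcard] at h1
        have : q + 1 < (q + 2) * (q + 1) * q := by nlinarith
        omega
    have hex : ∀ s : {s : centralizer ({(i : G)} : Set G) // s ≠ 1}, ∃ g ∈ H,
        g * i * g⁻¹ = s.1.1 := by
      intro s
      have h1 := hTI i s.1.1 hi s.1.2 (fun e => s.2 (by ext; simpa using e))
      obtain ⟨g, hg⟩ := isConj_iff.1 (hconj _ _ hi h1.1)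
      exact ⟨g, hNe ▸ hN g (by rw [hg]; exact h1.2.symm), hg⟩
    choose g hgH hg using hex
    let f : {s : centralizer ({(i : G)} : Set G) // s ≠ 1} × centralizer ({(i : G)} : Set G) → H :=
      fun x => ⟨g x.1 * x.2, mul_mem (hgH _) (hle _ i.2 hi x.2.2)⟩
    have hf : Function.Injective f := by
      rintro ⟨s, w⟩ ⟨t, v⟩ e
      have e1 : g s * w = g t * v := congrArg Subtype.val e
      have key : ∀ (s : {s : centralizer ({(i : G)} : Set G) // s ≠ 1})
          (w : centralizer ({(i : G)} : Set G)), (g s * w) * i * (g s * w)⁻¹ = s.1.1 := by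
        intro s w
        rw [← hg s, mul_assoc (g s), mem_centralizer_singleton_iff.1 w.2]
        group
      have e2 : s = t := by
        ext
        rw [← key s w, e1, key]
      subst e2
      rw [mul_right_inj] at e1
      rw [Subtype.ext e1]
    have h1 := Nat.card_le_card_of_injective f hf
    haveI := Fintype.ofFinite (centralizer ({(i : G)} : Set G))
    have h2 : Nat.card {s : centralizer ({(i : G)} : Set G) // s ≠ 1} = q := by
      rw [Nat.card_eq_fintype_card, Fintype.card_subtype_compl, ← Nat.card_eq_fintype_card,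
        (hall _ hi).1]
      simp
    rw [Nat.card_prod, h2, (hall _ hi).1] at h1
    nlinarith
  · push Not at hcase
    obtain ⟨j, hjH, hj, hji⟩ := hcase
    let f : centralizer ({j} : Set G) × centralizer ({(i : G)} : Set G) → H :=
      fun x => ⟨x.1 * x.2, mul_mem (hle _ hjH hj x.1.2) (hle _ i.2 hi x.2.2)⟩
    have hf : Function.Injective f := by
      rintro ⟨s, w⟩ ⟨t, v⟩ e
      have e1 : (s : G) * w = t * v := congrArg Subtype.val e
      have e2 : (t : G)⁻¹ * s = v * (w : G)⁻¹ := by
        calc (t : G)⁻¹ * s = (t : G)⁻¹ * (s * w) * (w : G)⁻¹ := by group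
          _ = _ := by rw [e1]; group
      have e3 : (t : G)⁻¹ * s = 1 := by
        by_contra hk
        have k1 := hTI j _ hj (mul_mem (inv_mem t.2) s.2) hk
        have k2 := hTI i _ hi (e2 ▸ mul_mem v.2 (inv_mem w.2)) hk
        exact hji (k1.2.trans k2.2.symm)
      have e4 : s = t := Subtype.ext (inv_mul_eq_one.1 e3).symm
      subst e4
      rw [mul_right_inj] at e1
      rw [Subtype.ext e1]
    have h1 := Nat.card_le_card_of_injective f hf
    rw [Nat.card_prod, (hall _ hj).1, (hall _ hi).1] at h1
    nlinarith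

end Cfsg.Agent.H12
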