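import Mathlib
import Cfsg.Agent.H12.St1
import Cfsg.Agent.H12.RGD5

/-!
Normal subgroups of the Borel subgroup inside `U`, and weakly closed unipotent subgroups.
-/

set_option autoImplicit false
set_option linter.unusedSectionVars false

namespace Cfsg.Agent.H12

namespace RS

variable {Φ I : Type*} [DecidableEq I] [Fintype I] [Finite Φ] {R : RS Φ I ℤ}

variable (R) in
/-- a set of positive roots containing every root higher than one of its members -/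
def UpC (A : Set Φ) : Prop := (∀ r ∈ A, R.Pos r) ∧ ∀ r ∈ A, ∀ t, R.ht r < R.ht t → t ∈ A

theorem upC_pos : R.UpC {r | R.Pos r} :=
  ⟨fun _ h => h, fun _ hr _ h => R.pos_iff_ht.2 ((R.ht_pos hr).trans h)⟩

theorem UpC.above {A : Set Φ} (h : R.UpC A) (r : Φ) :
    R.UpC {t | t ∈ A ∧ t ≠ r ∧ R.ht r ≤ R.ht t} :=
  ⟨fun t ht => h.1 t ht.1, fun s hs t ht => ⟨h.2 s hs.1 t ht,
    fun e => absurd (e ▸ ht) (not_lt.2 hs.2.2), hs.2.2.trans ht.le⟩⟩

theorem UpC.itv_subset {A : Set Φ} (h : R.UpC A) {r s : Φ} (hr : R.Pos r) (hs : s ∈ A) :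
    R.itv r s ⊆ A := fun t ht => h.2 s hs t (by
  have := R.ht_of_mem_itv hr (h.1 s hs) ht
  have := R.ht_pos hr
  omega)

theorem UpC.closed {A : Set Φ} (h : R.UpC A) : R.Closed A :=
  fun r hr _ hs => h.itv_subset (h.1 r hr) hs

theorem nodup_terms (C : CD R) {r s : Φ} (h1 : s ≠ r) (h2 : s ≠ R.neg r) :
    ((C.terms r s).map Prod.fst).Nodup := by
  refine List.Nodup.map_on (fun c hc d hd e => ?_) (C.nodup r s).of_map
  refine List.inj_on_of_nodup_map (C.nodup r s) hc hd ?_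
  have e1 := (C.vec r s c hc).1
  rw [e, (C.vec r s d hd).1] at e1
  have e2 : ((d.2.2.2 : ℤ) - c.2.2.2) • R.α s = ((c.2.2.1 : ℤ) - d.2.2.1) • R.α r := by
    rw [sub_smul, sub_smul, sub_eq_sub_iff_add_eq_add, add_comm, e1]
  by_cases h : (d.2.2.2 : ℤ) - c.2.2.2 = 0
  · rw [h, zero_smul, eq_comm, smul_eq_zero] at e2
    have := e2.resolve_right (R.α_ne_zero r)
    exact Prod.ext (by omega) (by omega)
  · exact absurd (R.eq_or_eq_neg_of_smul h e2) (by tauto)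

end RS

namespace RGD

variable {Φ I : Type*} [DecidableEq I] [Fintype I] [Finite Φ] {R : RS Φ I ℤ}
  {G : Type*} [Group G] {X : RGD R G} {Y : Subgroup G}

theorem conj_mem_upC {A : Set Φ} (h : R.UpC A) {g y : G} (hg : g ∈ X.Up) (hy : y ∈ X.US A) :
    g * y * g⁻¹ ∈ X.US A := by
  have : X.Up ≤ Subgroup.normalizer (X.US A : Set G) := US_le.2 fun r hr =>
    U_le_normalizer (fun e => R.pos_neg_iff.1 (h.1 _ e) hr) fun s hs _ => h.itv_subset hr hs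
  exact (Subgroup.mem_normalizer_iff.1 (this hg) y).1 hy

theorem exists_of_mem_upC {A : Set Φ} (h : R.UpC A) {s : Φ} (hs : s ∈ A)
    (hmin : ∀ t ∈ A, R.ht s ≤ R.ht t) {y : G} (hy : y ∈ X.US A) :
    ∃ b ∈ X.U s, ∃ z ∈ X.US {t | t ∈ A ∧ t ≠ s ∧ R.ht s ≤ R.ht t}, y = b * z := by
  have e : A = insert s {t | t ∈ A ∧ t ≠ s ∧ R.ht s ≤ R.ht t} := by
    ext t
    by_cases ht : t = s
    · simp [ht, hs]
    · simpa [ht] using hmin t
  rw [e, US_insert] at hy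
  refine (mem_sup_of_le_normalizer' fun g hg => mem_normalizer_of_conj (fun x hx => ?_)
    fun x hx => ?_).1 hy
  · exact conj_mem_upC (h.above s) (U_le_Up (h.1 s hs) hg) hx
  · simpa using conj_mem_upC (h.above s) (inv_mem (U_le_Up (h.1 s hs) hg)) hx

variable (X Y) in
/-- lowest components of elements of `Y` lie in `Y` -/
def Low (A : Set Φ) : Prop := ∀ r ∈ A, ∀ a ∈ X.U r,
  ∀ y ∈ X.US {t | t ∈ A ∧ t ≠ r ∧ R.ht r ≤ R.ht t}, a * y ∈ Y → a ∈ Y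

theorem Low.mem_of_prod {A : Set Φ} (h : X.Low Y A) (hA : R.UpC A)
    (hU : ∀ g ∈ X.Up, ∀ y ∈ Y, g * y * g⁻¹ ∈ Y) {ι : Type*} (ρ : ι → Φ) (f : ι → G) (n : ℕ) :
    ∀ L : List ι, L.length = n → (L.map ρ).Nodup → (∀ i ∈ L, ρ i ∈ A ∧ f i ∈ X.U (ρ i)) →
      (L.map f).prod ∈ Y → ∀ i ∈ L, f i ∈ Y := by
  induction n with
  | zero => intro L hL _ _ _ i hi; simp [List.length_eq_zero_iff.1 hL] at hi
  | succ n ih =>
    intro L hL h1 h2 h3
    obtain ⟨j, hj, hmin⟩ := Set.exists_min_image {i | i ∈ L} (fun i => R.ht (ρ i))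
      (List.finite_toSet L) (List.exists_mem_of_length_pos (by omega))
    obtain ⟨L1, L2, rfl⟩ := List.append_of_mem hj
    have h4 : ∀ i ∈ L1 ++ L2, i ∈ L1 ++ j :: L2 := fun i hi => by
      simp only [List.mem_append, List.mem_cons] at hi ⊢; tauto
    rw [List.map_append, List.map_cons, List.nodup_middle, List.nodup_cons, ← List.map_append] at h1
    have h5 : ∀ M : List ι, (∀ i ∈ M, i ∈ L1 ++ L2) →
        (M.map f).prod ∈ X.US {t | t ∈ A ∧ t ≠ ρ j ∧ R.ht (ρ j) ≤ R.ht t} := fun M hM =>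
      list_prod_mem fun x hx => by
        obtain ⟨i, hi, rfl⟩ := List.mem_map.1 hx
        refine U_le_US ?_ (h2 i (h4 i (hM i hi))).2
        exact ⟨(h2 i (h4 i (hM i hi))).1,
          fun e => h1.1 (e ▸ List.mem_map_of_mem (hM i hi)), hmin i (h4 i (hM i hi))⟩
    have a1 := h5 L1 fun i hi => List.mem_append_left _ hi
    have a2 := h5 L2 fun i hi => List.mem_append_right _ hi
    have a3 := U_le_Up (hA.1 _ (h2 j hj).1) (h2 j hj).2
    rw [List.map_append, List.map_cons, List.prod_append, List.prod_cons] at h3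
    have a4 : f j ∈ Y := h _ (h2 j hj).1 _ (h2 j hj).2 _
      (mul_mem (conj_mem_upC (hA.above _) (inv_mem a3) a1) a2) (by
        convert h3 using 1; group)
    have a5 := hU _ (US_mono (fun t ht => hA.1 t ht.1) a1) _ a4
    have a6 := ih (L1 ++ L2) (by simp at hL ⊢; omega) h1.2 (fun i hi => h2 i (h4 i hi)) (by
      rw [List.map_append, List.prod_append]
      convert mul_mem (inv_mem a5) h3 using 1; group)
    intro i hi
    simp only [List.mem_append, List.mem_cons] at hi a6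
    rcases hi with hi | rfl | hi
    exacts [a6 i (Or.inl hi), a4, a6 i (Or.inr hi)]

end RGD

namespace StSys

variable {Φ I : Type*} [DecidableEq I] {R : RS Φ I ℤ} {C : CD R} {K : Type*} [Field K]
  {G : Type*} [Group G] {S : StSys C K G} [Fintype I] [Finite Φ] [Finite K] {Y : Subgroup G}

theorem NC.U_le_of_x_mem (hS : S.NC) (hT : ∀ g ∈ S.H, ∀ y ∈ Y, g * y * g⁻¹ ∈ Y) {r : Φ} {t : K}
    (ht : t ≠ 0) (h : S.x r t ∈ Y) : S.U r ≤ Y := by
  have h1 : ∀ c : K, S.x r (c ^ 2 * t) ∈ Y := fun c => by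
    by_cases hc : c = 0
    · simp [hc]
    · have := hT _ (S.h_mem_H r hc) _ h
      rwa [hS.h_conj_x r r hc, R.cor_self, zpow_ofNat] at this
  refine S.U_le.2 fun u => ?_
  by_cases h2 : (2 : K) = 0
  · have : CharP K 2 := CharTwo.of_one_ne_zero_of_two_eq_zero one_ne_zero h2
    have : Fintype K := Fintype.ofFinite K
    obtain ⟨c, hc⟩ := FiniteField.isSquare_of_char_two (ringChar.eq K 2) (u / t)
    convert h1 c using 2
    rw [sq, ← hc, div_mul_cancel₀ _ ht]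
  · have := mul_mem (mul_mem (h1 (u / t / 2 + 1)) (inv_mem (h1 (u / t / 2)))) (inv_mem (h1 1))
    rw [← S.x_neg, ← S.x_neg, ← S.add, ← S.add] at this
    convert this using 2
    field_simp
    ring

variable (hS : S.NC) (hM : S.NM)

theorem U_le_of_terms {A : Set Φ} (h : (rgd hS hM).Low Y A) (hA : R.UpC A)
    (hB : ∀ g ∈ (rgd hS hM).B, ∀ y ∈ Y, g * y * g⁻¹ ∈ Y) {r q : Φ} (hr : R.Pos r) (hq : R.Pos q)
    (hqr : q ≠ r) (hrA : ∀ t, R.ht r < R.ht t → t ∈ A) {t : K} (ht : t ≠ 0)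
    (hy : (S.x q 1)⁻¹ * (S.x r t)⁻¹ * S.x q 1 * S.x r t ∈ Y) {c : Φ × ℤ × ℕ × ℕ}
    (hc : c ∈ C.terms r q) (hc' : (c.2.1 : K) ≠ 0) : S.U c.1 ≤ Y := by
  have h2 : q ≠ R.neg r := fun e => R.pos_neg_iff.1 (e ▸ hq) hr
  have h3 := h.mem_of_prod hA (fun g hg => hB g (RGD.Up_le_B hg)) Prod.fst
    (fun c => S.x c.1 ((c.2.1 : K) * (-t) ^ c.2.2.1 * 1 ^ c.2.2.2)) _ (C.terms r q) rfl
    (RS.nodup_terms C hqr h2) (fun d hd => ⟨hrA _ (by
      have := R.ht_of_mem_itv hr hq (C.mem_itv hd)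
      have := R.ht_pos hq
      omega), S.x_mem_U _ _⟩) (by
      convert hy using 1
      rw [mul_assoc, mul_assoc, S.comm r q hqr h2]
      group) c hc
  exact hS.U_le_of_x_mem (fun g hg => hB g (RGD.T_le_B hg)) (by simp [hc', ht]) h3

variable (C K) in
/-- the torus separates `s` from `r`, or a commutator does -/
def _root_.Cfsg.Agent.H12.CD.Sep (r s : Φ) : Prop :=
  (∃ γ, ∃ c : K, c ≠ 0 ∧ R.cor γ (R.α r) = 0 ∧ c ^ R.cor γ (R.α s) ≠ 1) ∨
    ∃ q, R.Pos q ∧ q ≠ r ∧ (∃ c ∈ C.terms r q, c.1 = s ∧ (c.2.1 : K) ≠ 0) ∧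
      ∀ t, R.Pos t → R.ht s ≤ R.ht t → t ≠ q → C.terms q t = []

theorem low_of_sep (hB : ∀ g ∈ (rgd hS hM).B, ∀ y ∈ Y, g * y * g⁻¹ ∈ Y)
    (hsep : ∀ r s, R.Pos r → R.Pos s → s ≠ r → R.ht r ≤ R.ht s → C.Sep K r s) (n : ℕ) :
    ∀ A : Set Φ, A.ncard = n → R.UpC A → (rgd hS hM).Low Y A := by
  induction n using Nat.strong_induction_on with
  | _ n ih =>
  intro A hn hA r hr a ha
  have hA1 := hA.above r
  have hlt : ∀ {A : Set Φ} {r : Φ}, r ∈ A →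
      {t | t ∈ A ∧ t ≠ r ∧ R.ht r ≤ R.ht t}.ncard < A.ncard := fun {A r} hr =>
    Set.ncard_lt_ncard ⟨fun t ht => ht.1, fun h => (h hr).2.1 rfl⟩
  have h1 := ih _ (hn ▸ hlt hr) _ rfl hA1
  set A1 := {t | t ∈ A ∧ t ≠ r ∧ R.ht r ≤ R.ht t}
  obtain ⟨t, rfl⟩ := S.mem_U.1 ha
  by_cases ht : t = 0
  · intro _ _ _; simp [ht]
  have hT : ∀ g ∈ S.H, ∀ y ∈ Y, g * y * g⁻¹ ∈ Y := fun g hg => hB g (RGD.T_le_B hg)
  suffices key : ∀ (m : ℕ) (A2 : Set Φ), A2.ncard = m → R.UpC A2 → A2 ⊆ A1 →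
      ∀ y ∈ (rgd hS hM).US A2, S.x r t * y ∈ Y → S.x r t ∈ Y from key _ A1 rfl hA1 subset_rfl
  intro m
  induction m using Nat.strong_induction_on with
  | _ m ih' =>
  intro A2 hm hA2 h21 y hy hy'
  rcases A2.eq_empty_or_nonempty with rfl | hne
  · rw [RGD.US_empty, Subgroup.mem_bot] at hy
    simpa [hy] using hy'
  obtain ⟨s, hs, hmin⟩ := Set.exists_min_image A2 R.ht A2.toFinite hne
  obtain ⟨b, hb, z, hz, e⟩ := RGD.exists_of_mem_upC hA2 hs hmin hy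
  have hA3 := hA2.above s
  have hbU := RGD.U_le_Up (hA2.1 s hs) hb
  suffices hbY : b ∈ Y from ih' _ (hm ▸ hlt hs) _ rfl hA3 (fun t ht => h21 ht.1) _
    (RGD.conj_mem_upC hA3 hbU hz) (by
      convert mul_mem hy' (inv_mem hbY) using 1
      rw [e]; group)
  obtain ⟨u, rfl⟩ := S.mem_U.1 hb
  by_cases hu : u = 0
  · simp [hu]
  suffices hsY : S.U s ≤ Y from hsY hb
  rcases hsep r s (hA.1 r hr) (hA2.1 s hs) (h21 hs).2.1 (h21 hs).2.2 with
    ⟨γ, c, hc, c1, c2⟩ | ⟨q, hq, hqr, ⟨c, hc, rfl, hc'⟩, hqt⟩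
  · have a1 := hS.h_conj_x γ r hc t
    rw [c1, zpow_zero, one_mul] at a1
    have a2 := hS.h_conj_x γ s hc u
    set h := S.h γ c
    have a3 : h ∈ S.H := S.h_mem_H γ hc
    have a4 := mul_mem (inv_mem hy') (hT _ a3 _ hy')
    have a5 : (S.x r t * y)⁻¹ * (h * (S.x r t * y) * h⁻¹) =
        z⁻¹ * S.x s ((c ^ R.cor γ (R.α s) - 1) * u) * (h * z * h⁻¹) := by
      rw [sub_mul, one_mul, sub_eq_neg_add, S.add, S.x_neg, ← a2, e, ← mul_assoc h,
        mul_inv_eq_iff_eq_mul.1 a1]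
      group
    set d := S.x s ((c ^ R.cor γ (R.α s) - 1) * u)
    have a6 : d ∈ (rgd hS hM).U s := S.x_mem_U _ _
    refine hS.U_le_of_x_mem hT (mul_ne_zero (sub_ne_zero.2 c2) hu) (h1 s (h21 hs) d a6 _
      (RGD.US_mono ?_ (mul_mem (RGD.conj_mem_upC hA3
        (inv_mem (RGD.U_le_Up (hA2.1 s hs) a6)) (inv_mem hz)) (RGD.T_conj_US a3 hz))) ?_)
    · exact fun t ht => ⟨h21 ht.1, ht.2⟩
    rw [a5] at a4
    convert a4 using 1
    group
  · refine U_le_of_terms hS hM h1 hA1 hB (hA.1 r hr) hq hqr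
      (fun t ht => ⟨hA.2 r hr t ht, fun e => (e ▸ ht).false, ht.le⟩) ht ?_ hc hc'
    have a1 : (rgd hS hM).US A2 ≤ Subgroup.centralizer {S.x q 1} := RGD.US_le.2 fun v hv =>
      S.U_le.2 fun w => Subgroup.mem_centralizer_singleton_iff.2 (by
        by_cases hvq : v = q
        · rw [hvq, S.x_mul_comm]
        · exact (S.commute_of_terms hvq (fun e => R.pos_neg_iff.1 (e ▸ hA2.1 v hv) hq)
            (hqt v (hA2.1 v hv) (hmin v hv) hvq) 1 w).symm)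
    have a2 := Subgroup.mem_centralizer_singleton_iff.1 (a1 hy)
    have a3 := hB _ (inv_mem (RGD.U_le_B (hA.1 r hr) ha)) _ hy'
    have a4 := mul_mem (hB _ (inv_mem (RGD.U_le_B hq (S.x_mem_U q 1))) _ (inv_mem a3)) a3
    convert a4 using 1
    simp only [mul_inv_rev, inv_inv, mul_assoc, inv_mul_cancel_left]
    rw [← mul_assoc (S.x q 1) y, ← a2]
    group

theorem eq_US_of_low (h : (rgd hS hM).Low Y {r | R.Pos r})
    (hB : ∀ g ∈ (rgd hS hM).B, ∀ y ∈ Y, g * y * g⁻¹ ∈ Y) (hY : Y ≤ (rgd hS hM).Up) :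
    Y = (rgd hS hM).US {r | R.Pos r ∧ S.U r ≤ Y} := by
  refine le_antisymm (fun y hy => ?_) (RGD.US_le.2 fun r hr => hr.2)
  set L := (Set.toFinite {r | R.Pos r}).toFinset.toList
  have hL : {r | r ∈ L} = {r | R.Pos r} := by ext r; simp [L]
  have hL' : ∀ r ∈ L, R.Pos r := fun r hr => by simpa [L] using hr
  obtain ⟨f, hf, e⟩ := (rgd_ab hS hM).exists_prod (L := L) (Finset.nodup_toList _)
    (hL ▸ R.closed_pos) hL' (g := y) (hL ▸ hY hy)
  have h1 := h.mem_of_prod RS.upC_pos (fun g hg => hB g (RGD.Up_le_B hg)) id f _ L rfl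
    (by simpa using Finset.nodup_toList _) (fun r hr => ⟨hL' r hr, hf r⟩) (e ▸ hy)
  rw [e]
  refine list_prod_mem fun x hx => ?_
  obtain ⟨r, hr, rfl⟩ := List.mem_map.1 hx
  obtain ⟨t, ht⟩ := S.mem_U.1 (hf r)
  by_cases h0 : t = 0
  · simp [← ht, h0]
  · refine RGD.U_le_US (X := rgd hS hM) ?_ (hf r)
    exact ⟨hL' r hr, hS.U_le_of_x_mem (fun g hg => hB g (RGD.T_le_B hg)) h0 (ht ▸ h1 r hr)⟩

theorem exists_eq_UJ
    (hsep : ∀ r s, R.Pos r → R.Pos s → s ≠ r → R.ht r ≤ R.ht s → C.Sep K r s)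
    (hstr : ∀ i r, R.Pos r → R.co i (R.α r) < 0 → ∃ q, R.Pos q ∧ q ≠ R.simple i ∧
      ∃ c ∈ C.terms (R.simple i) q, c.1 = R.sref i r ∧ (c.2.1 : K) ≠ 0)
    (hY : Y ≤ (rgd hS hM).Up)
    (hwc : ∀ g ∈ (rgd hS hM).grp, Y.map (MulAut.conj g).toMonoidHom ≤ (rgd hS hM).Up →
      Y.map (MulAut.conj g).toMonoidHom = Y) : ∃ J, Y = (rgd hS hM).UJ J := by
  have hB : ∀ g ∈ (rgd hS hM).B, ∀ y ∈ Y, g * y * g⁻¹ ∈ Y := fun g hg y hy => by
    rw [← hwc g (RGD.B_le_grp hg)]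
    · exact ⟨y, hy, rfl⟩
    · rintro _ ⟨y, hy, rfl⟩
      exact (Subgroup.mem_normalizer_iff.1 (RGD.B_le_normalizer_Up hg) y).1 (hY hy)
  have h1 := low_of_sep hS hM hB hsep _ _ rfl RS.upC_pos
  have h2 := eq_US_of_low hS hM h1 hB hY
  set J := {j | ¬ S.U (R.simple j) ≤ Y}
  have h3 : ∀ j ∈ J, ∀ r, S.U r ≤ Y → S.U (R.sref j r) ≤ Y := by
    intro j hj r hr
    have a1 : Y.map (MulAut.conj ((rgd hS hM).m j)).toMonoidHom = Y := by
      refine hwc _ (RGD.m_mem_grp j) ?_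
      rintro _ ⟨y, hy, rfl⟩
      rw [h2] at hy
      exact (RGD.rep_m j).conj_US (fun r hr => R.pos_sref hr.1 fun e => hj (e ▸ hr.2)) hy
    rw [← a1, ← R.s_smul]
    exact ((RGD.rep_m (X := rgd hS hM) j).map_U r).ge.trans (Subgroup.map_mono hr)
  refine ⟨J, h2.trans (congrArg _ (Set.ext fun r => and_congr_right fun hr => ⟨?_, ?_⟩))⟩
  · intro h hJ
    refine R.pos_inductionJ (p := fun r => ¬ S.U r ≤ Y) (fun i hi => hi)
      (fun i hi r _ _ _ h h' => h ?_) hr hJ h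
    simpa using h3 i hi _ h'
  · refine R.pos_induction (p := fun r => ¬ R.InJ J r → S.U r ≤ Y)
      (fun i hi => not_not.1 fun h => hi (R.inJ_simple_of_mem h)) (fun i r hr hi h h' => ?_) hr
    by_cases hJ : i ∈ J
    · exact h3 i hJ r (h fun e => h' ((R.inJ_smul_iff (R.s_mem_WJ hJ)).2 e))
    obtain ⟨q, hq, hq', c, hc, e, hc'⟩ := hstr i r hr hi
    rw [← e]
    have a1 := not_not.1 hJ (S.x_mem_U _ 1)
    refine U_le_of_terms hS hM h1 RS.upC_pos hB (R.pos_simple i) hq hq'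
      (fun t ht => RS.upC_pos.2 _ (R.pos_simple i) t ht) one_ne_zero ?_ hc hc'
    simpa using mul_mem (hB _ (inv_mem (RGD.U_le_B hq (S.x_mem_U q 1))) _ (inv_mem a1)) a1

end StSys

end Cfsg.Agent.H12
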