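import Mathlib
import Cfsg.Agent.H12.Wc1
import Cfsg.Agent.H12.Lift3
import Cfsg.Agent.H12.Inv2
import Cfsg.Agent.H12.Stein
import Cfsg.Agent.H12.Tb

/-!
Weakly closed unipotent subgroups of the tabulated Chevalley groups.
-/

set_option autoImplicit false
set_option linter.unusedSectionVars false
set_option maxRecDepth 100000

namespace Cfsg.Agent.H12

open Cfsg.Lie

variable {D : ChevalleyDatum} [Good D] {K : Type*} [Field K]

theorem cdOf_string (i : Fin D.rank) (r : Fin D.nroots) (hr : (rsOf D).Pos r)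
    (hi : (rsOf D).co i ((rsOf D).α r) < 0) : ∃ q, (rsOf D).Pos q ∧ q ≠ (rsOf D).simple i ∧
      ∃ c ∈ (cdOf D).terms ((rsOf D).simple i) q, c.1 = (rsOf D).sref i r ∧ (c.2.1 : K) ≠ 0 := by
  set R := rsOf D
  have r1 : r ≠ R.simple i := fun e => by
    rw [e, R.α_simple, R.co_simple] at hi; omega
  have r2 : r ≠ R.neg (R.simple i) := fun e => R.not_pos_neg_simple i (e ▸ hr)
  set u := R.sref i r with hu
  have u0 : R.Pos u := R.pos_sref hr r1
  have u1 : u ≠ R.simple i := fun e => r2 (by rw [R.sref_eq_iff.1 (hu.symm.trans e), R.sref_simple])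
  have u2 : u ≠ R.neg (R.simple i) := fun e => R.not_pos_neg_simple i (e ▸ u0)
  have ha := simple_lt i.2
  have hn := neg_lt ha
  have vn : av D (D.neg (D.simple i)) = - Pi.single i 1 := by rw [av_neg ha, av_simple]
  have cpl : ∀ (k : ℕ) (v : ℕ), v < D.nroots →
      av D v = av D u + ((k : ℤ) + 1) • av D (D.neg (D.simple i)) →
      k < (D.chainEntry (D.neg (D.simple i)) u).length := fun k v hv h =>
    (chOK hn).complete k u.2 hv (fun e => u2 (Fin.ext e))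
      (fun e => u1 (Fin.ext (e.trans (neg_neg' ha)))) h
  obtain ⟨k, hk⟩ : ∃ k : ℕ, R.co i (R.α r) = -((k : ℤ) + 1) :=
    ⟨(-R.co i (R.α r) - 1).toNat, by omega⟩
  have v1 : R.α u = R.α r + ((k : ℤ) + 1) • (Pi.single i 1 : Fin D.rank → ℤ) := by
    rw [hu, R.α_sref, hk, neg_smul, sub_neg_eq_add]
  have l1 := cpl k r r.2 (by
    rw [vn]
    change R.α r = R.α u + _
    rw [v1]; simp)
  obtain ⟨p, hp⟩ : ∃ p, (D.chainEntry (D.neg (D.simple i)) u).length = p + 1 :=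
    ⟨_, (Nat.succ_pred_eq_of_pos (by omega)).symm⟩
  obtain ⟨q, hq⟩ := (chainRoot_isSome_iff (D := D) (r := D.neg (D.simple i)) (s := u) (k := p)).2
    (by omega)
  obtain ⟨q1, q2⟩ := chainRoot_spec hn u.2 hq
  obtain ⟨j, hj, hj'⟩ : ∃ j, j ≠ i ∧ R.α u j ≠ 0 := by
    by_contra hc
    push Not at hc
    exact (R.reduced u i hc).elim u1 u2
  have q3 : R.α ⟨q, q1⟩ j = R.α u j := by
    change av D q j = av D u j
    rw [q2, vn]; simp [hj]
  have q4 : R.Pos ⟨q, q1⟩ := R.pos_of_coord (i := j) (q3 ▸ (u0 j).lt_of_ne hj'.symm)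
  have q5 : (⟨q, q1⟩ : Fin D.nroots) ≠ R.simple i := fun e => by
    rw [e, R.α_simple] at q3
    simp [hj, hj'.symm] at q3
  have q6 : (⟨q, q1⟩ : Fin D.nroots) ≠ R.neg (R.simple i) := fun e =>
    R.not_pos_neg_simple i (e ▸ q4)
  have h1 := chainRoot_eq_some (k := p) ha q1 u.2 (fun e => q5 (Fin.ext e))
    (fun e => q6 (Fin.ext e)) (by rw [q2, vn, av_simple]; simp)
  have h2 := chainM_natAbs ha q1 h1
  have h3 : (D.chainEntry (D.neg (D.simple i)) q).length = 0 := by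
    by_contra hc
    obtain ⟨v, hv⟩ := (chainRoot_isSome_iff (k := 0)).2 (Nat.pos_of_ne_zero hc)
    obtain ⟨b1, b2⟩ := chainRoot_spec hn q1 hv
    have := cpl (p + 1) v b1 (by rw [b2, q2]; push_cast; module)
    omega
  have h4 : p + 1 = 1 ∨ p + 1 = 2 ∨ p + 1 = 3 := by
    have a1 := (RS.abs_cor_le (R := R) (R.simple i) ⟨q, q1⟩).1
    have a2 := (RS.abs_cor_le (R := R) (R.simple i) u).2
    have a3 : R.α ⟨q, q1⟩ = R.α u + ((p : ℤ) + 1) • - R.α (R.simple i) := by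
      rw [R.α_simple, ← vn]; exact q2
    rw [a3, map_add, map_smul, map_neg, R.cor_self, smul_eq_mul] at a1
    omega
  rw [h3, zero_add, Nat.choose_self] at h2
  refine ⟨_, q4, q5, _, List.mem_map_of_mem (mem_commTerms_of_chainRoot h4 h1),
    Fin.ext (finR_val _ u.2), ?_⟩
  rcases Int.natAbs_eq_iff.1 h2 with h | h <;> simp [h]

/-- a root orthogonal to `r` pairing with `s` to at most `m` in absolute value -/
noncomputable def Tab.sepAt (X : Tab) (m r s : ℕ) : Bool :=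
  anyLt X.n fun γ => decide (X.pairing γ r = 0) && decide (X.pairing γ s ≠ 0) &&
    decide ((X.pairing γ s).natAbs ≤ m)

noncomputable def Tab.sepChk (X : Tab) (m : ℕ) : Bool :=
  allLt X.l fun j => allLt X.n fun s => decide (s = X.simple j) || decide (s = X.neg (X.simple j)) ||
    X.sepAt m (X.simple j) s

noncomputable def Tab.sepChk' (X : Tab) (m : ℕ) : Bool :=
  allLt X.n fun r => allLt X.n fun s => decide (X.ht r ≤ 0) || decide (X.ht s < X.ht r) ||
    decide (s = r) || X.sepAt m r s || anyLt X.n fun q => decide (0 < X.ht q) && decide (q ≠ r) &&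
      ((X.commTerms r q).any fun c => decide (c.1 = s) && decide (c.2.1.natAbs = 1)) &&
      allLt X.n fun t => decide (X.ht t < X.ht s) || decide (t = q) || (X.commTerms q t).isEmpty

theorem zpow_ne_one_of {c : K} {m : ℕ} (h : ∀ n : ℕ, 0 < n → n ≤ m → c ^ n ≠ 1) {z : ℤ}
    (h1 : z ≠ 0) (h2 : z.natAbs ≤ m) : c ^ z ≠ 1 := by
  have := h z.natAbs (Int.natAbs_pos.2 h1) h2
  rcases Int.natAbs_eq z with e | e <;> rw [e]
  · rwa [zpow_natCast]
  · rwa [zpow_neg, zpow_natCast, Ne, inv_eq_one]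

theorem sep_of_sepChk {X : Tab} (hX : tb D = X) {m : ℕ} (h : X.sepChk m = true) {c : K} (hc : c ≠ 0)
    (hm : ∀ n : ℕ, 0 < n → n ≤ m → c ^ n ≠ 1) {r s : Fin D.nroots} (h1 : s ≠ r)
    (h2 : s ≠ (rsOf D).neg r) : (cdOf D).Sep K r s := by
  subst hX
  obtain ⟨w, j, rfl⟩ := (rsOf D).exists_smul_simple r
  obtain ⟨s, rfl⟩ : ∃ s', s = w • s' := ⟨w⁻¹ • s, (smul_inv_smul w s).symm⟩
  simp only [Tab.sepChk, Tab.sepAt, allLt_iff, anyLt_iff, Bool.or_eq_true, Bool.and_eq_true,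
    decide_eq_true_eq, tb_pairing] at h
  rcases h j j.2 s s.2 with (e | e) | ⟨γ, hγ, ⟨e1, e2⟩, e3⟩
  · exact absurd (congrArg _ (Fin.ext e)) h1
  · exact absurd (by rw [← RS.smul_neg]; exact congrArg _ (Fin.ext e)) h2
  · refine Or.inl ⟨w • ⟨γ, hγ⟩, c, hc, ?_, ?_⟩
    · rw [RS.cor_smul_smul, cor_α]; exact e1
    · rw [RS.cor_smul_smul, cor_α]; exact zpow_ne_one_of hm e2 e3

theorem sep_of_sepChk' {X : Tab} (hX : tb D = X) {m : ℕ} (h : X.sepChk' m = true) {c : K}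
    (hc : c ≠ 0) (hm : ∀ n : ℕ, 0 < n → n ≤ m → c ^ n ≠ 1) {r s : Fin D.nroots}
    (hr : (rsOf D).Pos r) (h1 : s ≠ r)
    (h2 : (rsOf D).ht r ≤ (rsOf D).ht s) : (cdOf D).Sep K r s := by
  subst hX
  simp only [Tab.sepChk', Tab.sepAt, allLt_iff, anyLt_iff, Bool.or_eq_true, Bool.and_eq_true,
    decide_eq_true_eq, tb_pairing, List.any_eq_true, List.isEmpty_iff] at h
  rw [RS.pos_iff_ht, ht_eq] at hr
  rw [ht_eq, ht_eq] at h2
  rcases h r r.2 s s.2 with (((e | e) | e) | ⟨γ, hγ, ⟨e1, e2⟩, e3⟩) |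
    ⟨q, hq, ⟨⟨e1, e2⟩, d, hd, e3, e4⟩, e5⟩
  · omega
  · omega
  · exact absurd (Fin.ext e) h1
  · refine Or.inl ⟨⟨γ, hγ⟩, c, hc, ?_, ?_⟩
    · rw [cor_α]; exact e1
    · rw [cor_α]; exact zpow_ne_one_of hm e2 e3
  · refine Or.inr ⟨⟨q, hq⟩, by rwa [RS.pos_iff_ht, ht_eq], fun e => e2 (congrArg Fin.val e),
      ⟨_, List.mem_map_of_mem hd, Fin.ext ((finR_val _ (e3 ▸ s.2)).trans e3), ?_⟩,
      fun t _ t1 t2 => ?_⟩
    · rcases Int.natAbs_eq_iff.1 e4 with h | h <;> simp [h]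
    · rw [ht_eq, ht_eq] at t1
      rcases e5 t t.2 with (e | e) | e
      · omega
      · exact absurd (Fin.ext e) t2
      · exact List.map_eq_nil_iff.2 e

theorem sepChk_G2 : fastG2.tab.sepChk' 2 = true := by decide +kernel
theorem sepChk_B2 : fastB2.tab.sepChk 2 = true := by decide +kernel
theorem sepChk_D4 : fastD4.tab.sepChk 2 = true := by decide +kernel
theorem sepChk_F4 : fastF4.tab.sepChk 2 = true := by decide +kernel
theorem sepChk_E6 : fastE6.tab.sepChk 1 = true := by decide +kernel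
theorem sepChk_E7 : fastE7.tab.sepChk 1 = true := by decide +kernel
theorem sepChk_E8 : fastE8.tab.sepChk 1 = true := by decide +kernel

theorem exists_pow_ne_one [Fintype K] {m : ℕ} (h : m + 1 < Fintype.card K) :
    ∃ c : K, c ≠ 0 ∧ ∀ n : ℕ, 0 < n → n ≤ m → c ^ n ≠ 1 := by
  classical
  obtain ⟨g, hg⟩ := IsCyclic.exists_ofOrder_eq_natCard (α := Kˣ)
  refine ⟨g, g.ne_zero, fun n h1 h2 e => ?_⟩
  have h3 : g ^ n = 1 := Units.ext (by simpa using e)
  have := Nat.le_of_dvd h1 (orderOf_dvd_of_pow_eq_one h3)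
  rw [hg, Nat.card_eq_fintype_card, Fintype.card_units] at this
  omega

theorem chev_weakly_closed [Finite K]
    (hsep : ∀ r s, (rsOf D).Pos r → (rsOf D).Pos s → s ≠ r → (rsOf D).ht r ≤ (rsOf D).ht s →
      (cdOf D).Sep K r s) (X : Subgroup (GL D.Idx K)) (hXU : X ≤ D.posUnipotent K)
    (hwc : ∀ g ∈ D.group K, X.map (MulAut.conj g).toMonoidHom ≤ D.posUnipotent K →
      X.map (MulAut.conj g).toMonoidHom = X) :
    ∃ J : Set ℕ, (∀ j ∈ J, j < D.rank) ∧ X = D.unipotentRadical K J := by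
  rw [posUnipotent_eq] at hXU hwc
  rw [group_eq] at hwc
  obtain ⟨J, hJ⟩ := StSys.exists_eq_UJ chevNC chevNM hsep cdOf_string hXU hwc
  refine ⟨Fin.val '' J, ?_, ?_⟩
  · rintro _ ⟨j, -, rfl⟩; exact j.2
  · rw [unipotentRadical_eq, Set.preimage_image_eq _ Fin.val_injective]; exact hJ

end Cfsg.Agent.H12
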